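import Cfsg.Agent.Lib.H81.ClassCount
import Cfsg.Agent.Lib.H81.PrincPSolv
import Cfsg.Agent.Lib.H19.Second
import Cfsg.Agent.Lib.H18.CharQuot
import Cfsg.Agent.Lib.H81.CentralVal

/-!
# Involutions and functions on sections of a 2-subgroup
-/

set_option autoImplicit false
set_option linter.unusedSectionVars false
set_option linter.unusedVariables false
set_option linter.style.haveILetI false
open Cfsg H20.Loc H20.GA H20.Blk H20.DefGrp H20.Orth H20.Defect
open scoped ComplexConjugate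

namespace H81.InvSection

universe u
variable {G : Type u} [Group G] [Finite G] {M : Ideal AlgInt}

/-- the Cauchy-Schwarz type lemma -/
theorem exists_const {ι : Type*} (S : Finset ι) (r x d : ι → ℝ) (hd : ∀ i ∈ S, 0 < d i)
    (h1 : ∑ i ∈ S, r i * d i = 0) (h2 : ∑ i ∈ S, r i * x i = 0)
    (h3 : ∑ i ∈ S, r i * (x i ^ 2 / d i) = 0)
    (hpos : ∀ i ∈ S, ∀ j ∈ S, 0 < r i → 0 < r j → i = j) :
    ∃ c : ℝ, ∀ i ∈ S, r i ≠ 0 → x i = c * d i := by
  classical
  -- the constant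
  obtain ⟨c, hc⟩ : ∃ c : ℝ, ∀ i ∈ S, 0 < r i → x i = c * d i := by
    by_cases h : ∃ i ∈ S, 0 < r i
    · obtain ⟨i, hi, hri⟩ := h
      refine ⟨x i / d i, fun j hj hrj => ?_⟩
      rw [hpos j hj i hi hrj hri]
      have := hd i hi
      field_simp
    · push Not at h
      exact ⟨0, fun i hi hri => absurd (h i hi) (not_le.2 hri)⟩
  have h4 : ∑ i ∈ S, r i * d i * (x i / d i - c) ^ 2 = 0 := by
    have h5 : ∑ i ∈ S, r i * d i * (x i / d i - c) ^ 2 =
        ∑ i ∈ S, r i * (x i ^ 2 / d i) - 2 * c * ∑ i ∈ S, r i * x i +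
          c ^ 2 * ∑ i ∈ S, r i * d i := by
      rw [Finset.mul_sum, Finset.mul_sum, ← Finset.sum_sub_distrib, ← Finset.sum_add_distrib]
      refine Finset.sum_congr rfl fun i hi => ?_
      have := hd i hi
      field_simp
      ring
    rw [h5, h1, h2, h3]; ring
  have h6 : ∀ i ∈ S, r i * d i * (x i / d i - c) ^ 2 ≤ 0 := by
    intro i hi
    have hdi := hd i hi
    rcases lt_or_ge 0 (r i) with h | h
    · have : x i / d i - c = 0 := by
        rw [hc i hi h]; field_simp; ring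
      rw [this]; norm_num
    · have h7 : r i * d i ≤ 0 := mul_nonpos_of_nonpos_of_nonneg h hdi.le
      exact mul_nonpos_of_nonpos_of_nonneg h7 (sq_nonneg _)
  have h8 := (Finset.sum_eq_zero_iff_of_nonpos h6).1 h4
  refine ⟨c, fun i hi hri => ?_⟩
  have hdi := hd i hi
  have h9 := h8 i hi
  have h10 : (x i / d i - c) ^ 2 = 0 := by
    rcases mul_eq_zero.1 h9 with h | h
    · exact absurd h (mul_ne_zero hri hdi.ne')
    · exact h
  have h11 : x i / d i - c = 0 := by simpa using h10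
  field_simp at h11
  linarith

theorem invol_inv {t : G} (ht : orderOf t = 2) : t⁻¹ = t := by
  have h : t * t = 1 := by rw [← pow_two, ← ht, pow_orderOf_eq_one]
  exact inv_eq_of_mul_eq_one_right h

/-- no element of the section of `y` is a product of two conjugates of `t`. -/
theorem no_pairs (hM : IsPModular 2 M) {t : G} (ht : orderOf t = 2) {y : G}
    (hy : ∀ g : G, (g * t * g⁻¹) * y * (g * t * g⁻¹)⁻¹ ≠ y⁻¹) {u z : G} (huz : IsPPart 2 u z)
    (hyz : IsConj y z) (a b : G) (ha : IsConj t a) (hb : IsConj t b) (hab : a * b = u) : False := by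
  obtain ⟨g, hg⟩ := isConj_iff.1 hyz
  obtain ⟨x, hx⟩ := isConj_iff.1 ha
  obtain ⟨w, hw⟩ := isConj_iff.1 hb
  have ha2 : a⁻¹ = a := by
    rw [← hx, mul_inv_rev, mul_inv_rev, invol_inv ht, inv_inv, mul_assoc]
  have hb2 : b⁻¹ = b := by
    rw [← hw, mul_inv_rev, mul_inv_rev, invol_inv ht, inv_inv, mul_assoc]
  have h1 : a * u * a⁻¹ = u⁻¹ := by
    rw [← hab, mul_inv_rev, ha2, hb2]
    have : a * a = 1 := by
      conv_lhs => rw [← ha2]
      rw [ha2]
      nth_rewrite 1 [← ha2]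
      rw [inv_mul_cancel]
    rw [← mul_assoc, this, one_mul]
  have h2 := H19.Second.isPPart_conj (h := a) huz
  rw [h1] at h2
  have h3 : IsPPart 2 u⁻¹ z⁻¹ := by
    obtain ⟨s, hs, hc, ⟨k, hk⟩, hreg⟩ := huz
    refine ⟨s⁻¹, ?_, hc.inv_inv, ⟨k, by rw [orderOf_inv, hk]⟩, by rwa [orderOf_inv]⟩
    rw [← hs, mul_inv_rev, hc.inv_inv.eq]
  have h4 := H19.Second.isPPart_unique (pm_prime hM) h2 h3
  -- conjugate back
  apply hy (g⁻¹ * x)
  have h5 : g⁻¹ * x * t * (g⁻¹ * x)⁻¹ = g⁻¹ * a * g := by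
    rw [← hx]; group
  rw [h5]
  have h6 : z = g * y * g⁻¹ := hg.symm
  have h7 : a * (g * y * g⁻¹) * a⁻¹ = (g * y * g⁻¹)⁻¹ := by rw [← h6]; exact h4
  calc g⁻¹ * a * g * y * (g⁻¹ * a * g)⁻¹ = g⁻¹ * (a * (g * y * g⁻¹) * a⁻¹) * g := by group
    _ = g⁻¹ * (g * y * g⁻¹)⁻¹ * g := by rw [h7]
    _ = y⁻¹ := by group

theorem irr_real {t : G} (ht : orderOf t = 2) (χ : IrrCharacter G) :
    conj ((χ : G → ℂ) t) = (χ : G → ℂ) t := by
  rw [← H18.CharBasic.char_inv (H18.CharBasic.isCharacter_of_isIrr χ.2), invol_inv ht]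

/-- The column of `χ(t)^2/χ(1)` over a block is orthogonal to the sections not inverted by
conjugates of `t`. -/
theorem sum_sq_div (hM : IsPModular 2 M) [Fintype (IrrCharacter G)] {B : Set (IrrCharacter G)}
    [DecidablePred (· ∈ B)]
    (hB : IsPBlock M B) {t : G} (ht : orderOf t = 2) {y : G} (hy2 : ∃ k : ℕ, orderOf y = 2 ^ k)
    (hy : ∀ g : G, (g * t * g⁻¹) * y * (g * t * g⁻¹)⁻¹ ≠ y⁻¹) :
    ∑ χ : IrrCharacter G, (if χ ∈ B then (χ : G → ℂ) y *
      ((χ : G → ℂ) t ^ 2 / (χ : G → ℂ) 1) else 0) = 0 := by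
  classical
  letI := Fintype.ofFinite G
  let ϑ : G → ℂ := fun g => ∑ χ : IrrCharacter G, ((χ : G → ℂ) t ^ 2 / (χ : G → ℂ) 1) * (χ : G → ℂ) g
  have hϑc : IsClassFunction G ϑ := by
    intro g h
    refine Finset.sum_congr rfl fun χ _ => ?_
    rw [H18.CharBasic.isClassFunction_of_isIrr χ.2 g h]
  have hG : (Nat.card G : ℂ) ≠ 0 := by exact_mod_cast (Nat.card_pos (α := G)).ne'
  have hI : ((Subgroup.centralizer ({t} : Set G)).index : ℂ) ≠ 0 := by
    exact_mod_cast Subgroup.index_ne_zero_of_finite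
  -- ϑ is a multiple of the number of pairs
  have hϑ : ∀ u : G, (∀ a b : G, IsConj t a → IsConj t b → a * b = u → False) → ϑ u = 0 := by
    intro u hu
    have h1 := H81.ClassCount.zc_cls_mul_eq t t u
    have h2 : Nat.card {p : G × G // IsConj t p.1 ∧ IsConj t p.2 ∧ p.1 * p.2 = u} = 0 := by
      rw [Nat.card_eq_zero]
      left
      exact ⟨fun q => hu q.1.1 q.1.2 q.2.1 q.2.2.1 q.2.2.2⟩
    rw [h2, Nat.cast_zero] at h1
    have h3 : ∑ χ : IrrCharacter G, centralChar (χ : G → ℂ) t * centralChar (χ : G → ℂ) t *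
        (χ : G → ℂ) 1 * conj ((χ : G → ℂ) u) = 0 := by
      rcases mul_eq_zero.1 h1.symm with h | h
      · exact absurd h (inv_ne_zero hG)
      · exact h
    have h4 : ∀ χ : IrrCharacter G, centralChar (χ : G → ℂ) t =
        ((Subgroup.centralizer ({t} : Set G)).index : ℂ) * (χ : G → ℂ) t / (χ : G → ℂ) 1 := by
      intro χ
      rfl
    have h5 : ∑ χ : IrrCharacter G, centralChar (χ : G → ℂ) t * centralChar (χ : G → ℂ) t *
        (χ : G → ℂ) 1 * conj ((χ : G → ℂ) u) =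
        ((Subgroup.centralizer ({t} : Set G)).index : ℂ) ^ 2 * conj (ϑ u) := by
      show _ = _ * conj (∑ χ : IrrCharacter G, _)
      rw [map_sum, Finset.mul_sum]
      refine Finset.sum_congr rfl fun χ _ => ?_
      have h6 := H18.CharBasic.irr_one_ne_zero χ.2
      rw [h4, map_mul, map_div₀, map_pow, irr_real ht,
        H18.CharInd.conj_char_one (H18.CharBasic.isCharacter_of_isIrr χ.2)]
      field_simp
    rw [h5] at h3
    rcases mul_eq_zero.1 h3 with h | h
    · exact absurd h (pow_ne_zero _ hI)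
    · have := congrArg (starRingEnd ℂ) h
      simpa using this
  have hyy : IsPPart 2 y y := ⟨1, mul_one y, Commute.one_right y, hy2, by simp⟩
  have h1 := H19.Second.section_blockPart hM ϑ hϑc y
    (fun u z huz hyz => hϑ u (fun a b ha hb hab => no_pairs hM ht hy huz hyz a b ha hb hab))
    B hB y y hyy (IsConj.refl y)
  rw [blockPart] at h1
  rw [H20.Orth.finsum_mem_eq_sum] at h1
  refine Eq.trans ?_ h1
  refine Finset.sum_congr rfl fun χ _ => ?_
  have h2 : classInner ϑ (χ : G → ℂ) = (χ : G → ℂ) t ^ 2 / (χ : G → ℂ) 1 := by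
    have h3 : ϑ = ∑ χ : IrrCharacter G, ((χ : G → ℂ) t ^ 2 / (χ : G → ℂ) 1) • (χ : G → ℂ) := by
      funext g
      rw [Finset.sum_apply]
      rfl
    rw [h3, H18.CharOrtho.inner_sum_left, Finset.sum_eq_single χ]
    · rw [H18.CharOrtho.inner_smul_left, H18.CharOrtho.inner_irr_self χ.2, mul_one]
    · intro ψ _ hψ
      rw [H18.CharOrtho.inner_smul_left,
        H18.CharOrtho.inner_irr_ne ψ.2 χ.2 (fun h => hψ (Subtype.ext h)), mul_zero]
    · intro h; exact absurd (Finset.mem_univ _) h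
  have h4 : @classInner G _ (Fintype.ofFinite G) ϑ (χ : G → ℂ) =
      (χ : G → ℂ) t ^ 2 / (χ : G → ℂ) 1 := by rw [← h2]
  rw [h4, mul_comm]

variable (P : Subgroup G)

/-- the coefficient of the statement -/
noncomputable def coef (θ : P → ℂ) (χ : G → ℂ) : ℂ :=
  (Nat.card P : ℂ)⁻¹ * ∑ᶠ y : P, χ (y : G) * θ y⁻¹

theorem coef_eq_int {θ : P → ℂ} (hθ : IsGeneralizedCharacter P θ) (χ : IrrCharacter G) :
    ∃ n : ℤ, coef P θ (χ : G → ℂ) = n := by
  letI := Fintype.ofFinite P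
  obtain ⟨n, hn⟩ := H18.CharOrtho.inner_gen_intCast
    (H18.CharOrtho.isGen_restrict P (H18.CharOrtho.isGen_of_isIrr χ.2)) hθ
  refine ⟨n, ?_⟩
  rw [← hn, coef, finsum_eq_sum_of_fintype, classInner]
  congr 1
  refine Finset.sum_congr rfl fun y _ => ?_
  rw [H18.CharOrtho.gen_inv hθ]

/-- vanishing of weighted sums of the coefficients. -/
theorem sum_coef_eq_zero [Fintype (IrrCharacter G)] {B : Set (IrrCharacter G)}
    [DecidablePred (· ∈ B)] {U : Set G} {θ : P → ℂ} (hθU : ∀ y : P, (y : G) ∉ U → θ y = 0)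
    (w : IrrCharacter G → ℂ)
    (hw : ∀ y : P, (y : G)⁻¹ ∈ U →
      ∑ χ : IrrCharacter G, (if χ ∈ B then (χ : G → ℂ) (y : G) * w χ else 0) = 0) :
    ∑ χ : IrrCharacter G, (if χ ∈ B then coef P θ (χ : G → ℂ) * w χ else 0) = 0 := by
  letI := Fintype.ofFinite P
  have h1 : ∀ χ : IrrCharacter G, (if χ ∈ B then coef P θ (χ : G → ℂ) * w χ else 0) =
      ∑ y : P, (Nat.card P : ℂ)⁻¹ * θ y⁻¹ * (if χ ∈ B then (χ : G → ℂ) (y : G) * w χ else 0) := by
    intro χ
    split_ifs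
    · rw [coef, finsum_eq_sum_of_fintype, Finset.mul_sum, Finset.sum_mul]
      refine Finset.sum_congr rfl fun y _ => ?_
      ring
    · simp
  simp only [h1]
  rw [Finset.sum_comm]
  refine Finset.sum_eq_zero fun y _ => ?_
  rw [← Finset.mul_sum]
  by_cases hy : (y : G)⁻¹ ∈ U
  · rw [hw y hy, mul_zero]
  · rw [hθU y⁻¹ (by simpa using hy)]; ring

theorem main (hM : IsPModular 2 M) (hP : IsPGroup 2 P)
    (U : Set G) (hUP : U ⊆ (P : Set G)) (t : G) (ht : orderOf t = 2)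
    (hinv : ∀ u ∈ U, ∀ g : G, (g * t * g⁻¹) * u * (g * t * g⁻¹)⁻¹ ≠ u⁻¹) (θ : P → ℂ)
    (hθ : IsGeneralizedCharacter P θ) (hθU : ∀ y : P, (y : G) ∉ U → θ y = 0) :
    (∑ᶠ χ ∈ principalBlock M G, coef P θ (χ : G → ℂ) * (χ : G → ℂ) t ^ 2 / (χ : G → ℂ) 1 = 0) ∧
    (∑ᶠ χ ∈ principalBlock M G, coef P θ (χ : G → ℂ) * (χ : G → ℂ) 1 = 0) ∧
    (∑ᶠ χ ∈ principalBlock M G, coef P θ (χ : G → ℂ) * (χ : G → ℂ) t = 0) ∧
    ((Nat.card P : ℂ)⁻¹ * ∑ᶠ y : P, θ y ≠ 0 →
      (2 ≤ Nat.card {χ : IrrCharacter G // χ ∈ principalBlock M G ∧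
          0 < (coef P θ (χ : G → ℂ)).re} ∧
        2 ≤ Nat.card {χ : IrrCharacter G // χ ∈ principalBlock M G ∧
          (coef P θ (χ : G → ℂ)).re < 0}) ∨
      ∃ K : Subgroup G, K.Normal ∧ K ≠ ⊤ ∧ pPrimeCore 2 G ≤ K ∧ t ∈ K) := by
  classical
  letI := Fintype.ofFinite P
  letI := Fintype.ofFinite (IrrCharacter G)
  haveI := pm_isPrime hM
  have hone : IsIrrCharacter G (fun _ : G => (1 : ℂ)) := H18.CharBasic.isIrrCharacter_one
  have hB : IsPBlock M (principalBlock M G) := isPBlock_blockOf ⟨_, hone⟩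
  have hchar : ∀ χ : IrrCharacter G, IsCharacter G (χ : G → ℂ) := fun χ =>
    H18.CharBasic.isCharacter_of_isIrr χ.2
  -- elements of the support
  have hy2 : ∀ y : P, ∃ k : ℕ, orderOf (y : G) = 2 ^ k := by
    intro y
    obtain ⟨k, hk⟩ := IsPGroup.iff_orderOf.1 hP y
    exact ⟨k, by rw [Subgroup.orderOf_coe, hk]⟩
  have hyinv : ∀ y : P, (y : G)⁻¹ ∈ U → ∀ g : G,
      (g * t * g⁻¹) * (y : G) * (g * t * g⁻¹)⁻¹ ≠ (y : G)⁻¹ := by
    intro y hy g hc
    apply hinv _ hy g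
    have h1 : ((g * t * g⁻¹) * (y : G) * (g * t * g⁻¹)⁻¹)⁻¹ =
        (g * t * g⁻¹) * (y : G)⁻¹ * (g * t * g⁻¹)⁻¹ := by
      simp only [mul_inv_rev, inv_inv, mul_assoc]
    rw [← h1, hc]
  have hyy : ∀ y : P, IsPPart 2 (y : G) (y : G) := fun y =>
    ⟨1, mul_one _, Commute.one_right _, hy2 y, by simp⟩
  have htt : IsPPart 2 t t := ⟨1, mul_one t, Commute.one_right t, ⟨1, by rw [ht, pow_one]⟩, by simp⟩
  have h11 : IsPPart 2 (1 : G) 1 := ⟨1, mul_one 1, Commute.one_right 1, ⟨0, by simp⟩, by simp⟩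
  have hny1 : ∀ y : P, (y : G)⁻¹ ∈ U → ¬ IsConj (y : G) 1 := by
    intro y hy hc
    rw [isConj_one_left] at hc
    apply hinv _ hy 1
    rw [hc]; simp
  have hnyt : ∀ y : P, (y : G)⁻¹ ∈ U → ¬ IsConj (y : G) t := by
    intro y hy hc
    obtain ⟨g, hg⟩ := isConj_iff.1 hc.symm
    apply hyinv y hy g
    rw [hg]
    have : (y : G)⁻¹ = y := by
      rw [← hg, mul_inv_rev, mul_inv_rev, invol_inv ht, inv_inv, mul_assoc]
    rw [mul_inv_cancel_right, this]
  -- the three sums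
  have s1 : ∑ χ : IrrCharacter G, (if χ ∈ principalBlock M G then
      coef P θ (χ : G → ℂ) * ((χ : G → ℂ) t ^ 2 / (χ : G → ℂ) 1) else 0) = 0 :=
    sum_coef_eq_zero P hθU _ (fun y hy => sum_sq_div hM hB ht (hy2 y) (hyinv y hy))
  have s2 : ∑ χ : IrrCharacter G, (if χ ∈ principalBlock M G then
      coef P θ (χ : G → ℂ) * (χ : G → ℂ) 1 else 0) = 0 := by
    refine sum_coef_eq_zero P hθU _ (fun y hy => ?_)
    have h1 := H19.Second.block_orth hM (y : G) 1 (y : G) 1 (hyy y) h11 (hny1 y hy) _ hB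
    rw [H20.Orth.finsum_mem_eq_sum] at h1
    simpa using h1
  have s3 : ∑ χ : IrrCharacter G, (if χ ∈ principalBlock M G then
      coef P θ (χ : G → ℂ) * (χ : G → ℂ) t else 0) = 0 := by
    refine sum_coef_eq_zero P hθU _ (fun y hy => ?_)
    have h1 := H19.Second.block_orth hM (y : G) t (y : G) t (hyy y) htt (hnyt y hy) _ hB
    rw [H20.Orth.finsum_mem_eq_sum] at h1
    rw [invol_inv ht] at h1
    exact h1
  refine ⟨?_, ?_, ?_, ?_⟩
  · rw [H20.Orth.finsum_mem_eq_sum]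
    refine Eq.trans ?_ s1
    refine Finset.sum_congr rfl fun χ _ => ?_
    rw [mul_div_assoc]
  · rw [H20.Orth.finsum_mem_eq_sum]
    exact s2
  · rw [H20.Orth.finsum_mem_eq_sum]
    exact s3
  · intro hne
    by_cases hcount : 2 ≤ Nat.card {χ : IrrCharacter G // χ ∈ principalBlock M G ∧
          0 < (coef P θ (χ : G → ℂ)).re} ∧
        2 ≤ Nat.card {χ : IrrCharacter G // χ ∈ principalBlock M G ∧
          (coef P θ (χ : G → ℂ)).re < 0}
    · exact Or.inl hcount
    right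
    choose n hn using fun χ : IrrCharacter G => coef_eq_int P hθ χ
    set S : Finset (IrrCharacter G) := Finset.univ.filter (fun χ => χ ∈ principalBlock M G) with hS
    set r : IrrCharacter G → ℝ := fun χ => (n χ : ℝ) with hr
    set d : IrrCharacter G → ℝ := fun χ => ((χ : G → ℂ) 1).re with hd
    set x : IrrCharacter G → ℝ := fun χ => ((χ : G → ℂ) t).re with hx
    have hdC : ∀ χ : IrrCharacter G, (χ : G → ℂ) 1 = ((d χ : ℝ) : ℂ) := fun χ =>
      (Complex.conj_eq_iff_re.1 (H18.CharInd.conj_char_one (hchar χ))).symm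
    have hxC : ∀ χ : IrrCharacter G, (χ : G → ℂ) t = ((x χ : ℝ) : ℂ) := fun χ =>
      (Complex.conj_eq_iff_re.1 (irr_real ht χ)).symm
    have hdpos : ∀ χ : IrrCharacter G, 0 < d χ := by
      intro χ
      obtain ⟨m, hm, hm'⟩ := H18.CharBasic.exists_degree_pos χ.2
      show 0 < ((χ : G → ℂ) 1).re
      rw [hm']
      simpa using hm
    have e1 : ∑ χ ∈ S, r χ * d χ = 0 := by
      have h1 : ((∑ χ ∈ S, r χ * d χ : ℝ) : ℂ) = 0 := by
        rw [← Finset.sum_filter] at s2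
        refine Eq.trans ?_ s2
        push_cast
        refine Finset.sum_congr rfl fun χ _ => ?_
        rw [hn, hdC χ]
        simp [hr]
      exact_mod_cast h1
    have e2 : ∑ χ ∈ S, r χ * x χ = 0 := by
      have h1 : ((∑ χ ∈ S, r χ * x χ : ℝ) : ℂ) = 0 := by
        rw [← Finset.sum_filter] at s3
        refine Eq.trans ?_ s3
        push_cast
        refine Finset.sum_congr rfl fun χ _ => ?_
        rw [hn, hxC χ]
        simp [hr]
      exact_mod_cast h1
    have e3 : ∑ χ ∈ S, r χ * (x χ ^ 2 / d χ) = 0 := by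
      have h1 : ((∑ χ ∈ S, r χ * (x χ ^ 2 / d χ) : ℝ) : ℂ) = 0 := by
        rw [← Finset.sum_filter] at s1
        refine Eq.trans ?_ s1
        push_cast
        refine Finset.sum_congr rfl fun χ _ => ?_
        rw [hn, hxC χ, hdC χ]
        simp [hr]
      exact_mod_cast h1
    have hre : ∀ χ : IrrCharacter G, (coef P θ (χ : G → ℂ)).re = r χ := by
      intro χ; rw [hn χ]; simp [hr]
    -- the constant
    have huniq : ∀ (Q : IrrCharacter G → Prop),
        ¬ 2 ≤ Nat.card {χ : IrrCharacter G // χ ∈ principalBlock M G ∧ Q χ} →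
        ∀ i ∈ S, ∀ j ∈ S, Q i → Q j → i = j := by
      intro Q hQ i hi j hj hi' hj'
      by_contra hij
      apply hQ
      have h1 : Nontrivial {χ : IrrCharacter G // χ ∈ principalBlock M G ∧ Q χ} :=
        ⟨⟨⟨i, (Finset.mem_filter.1 hi).2, hi'⟩, ⟨j, (Finset.mem_filter.1 hj).2, hj'⟩,
          fun h => hij (congrArg Subtype.val h)⟩⟩
      exact Finite.one_lt_card_iff_nontrivial.2 h1
    obtain ⟨c, hc⟩ : ∃ c : ℝ, ∀ i ∈ S, r i ≠ 0 → x i = c * d i := by
      rw [not_and_or] at hcount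
      rcases hcount with hcount | hcount
      · refine exists_const S r x d (fun i _ => hdpos i) e1 e2 e3 ?_
        intro i hi j hj hi' hj'
        exact huniq _ hcount i hi j hj (by rwa [hre]) (by rwa [hre])
      · obtain ⟨c, hc⟩ := exists_const S (fun i => - r i) x d (fun i _ => hdpos i)
          (by simp only [neg_mul, Finset.sum_neg_distrib, e1, neg_zero])
          (by simp only [neg_mul, Finset.sum_neg_distrib, e2, neg_zero])
          (by simp only [neg_mul, Finset.sum_neg_distrib, e3, neg_zero])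
          (by
            intro i hi j hj hi' hj'
            exact huniq _ hcount i hi j hj (by rw [hre]; linarith) (by rw [hre]; linarith))
        exact ⟨c, fun i hi hri => hc i hi (neg_ne_zero.2 hri)⟩
    -- the principal character
    set χ1 : IrrCharacter G := ⟨fun _ => 1, hone⟩ with hχ1
    have hχ1S : χ1 ∈ S := by
      rw [hS, Finset.mem_filter]
      exact ⟨Finset.mem_univ _, mem_blockOf_self χ1⟩
    have hr1 : r χ1 ≠ 0 := by
      intro h0
      apply hne
      have h1 := hn χ1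
      have h2 : n χ1 = 0 := by
        have h3 : (n χ1 : ℝ) = 0 := h0
        exact_mod_cast h3
      rw [h2, Int.cast_zero, coef] at h1
      rw [← h1, finsum_eq_sum_of_fintype, finsum_eq_sum_of_fintype]
      congr 1
      refine Fintype.sum_equiv (Equiv.inv P) _ _ fun y => ?_
      simp [hχ1]
    have hd1 : d χ1 = 1 := by simp [hd, hχ1]
    have hx1 : x χ1 = 1 := by simp [hx, hχ1]
    have hc1 : c = 1 := by
      have := hc χ1 hχ1S hr1
      rw [hd1, hx1] at this
      linarith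
    -- another character
    obtain ⟨ψ, hψS, hψ1, hψr⟩ : ∃ ψ ∈ S, ψ ≠ χ1 ∧ r ψ ≠ 0 := by
      by_contra! hcon
      have h1 : ∑ χ ∈ S, r χ * d χ = r χ1 * d χ1 := by
        apply Finset.sum_eq_single_of_mem _ hχ1S
        intro χ hχ hne'
        rw [hcon χ hχ hne', zero_mul]
      rw [e1, hd1, mul_one] at h1
      exact hr1 h1.symm
    have hψt : (ψ : G → ℂ) t = (ψ : G → ℂ) 1 := by
      rw [hxC, hdC, hc ψ hψS hψr, hc1, one_mul]
    refine ⟨H18.CharQuot.kerSub (ψ : G → ℂ) (hchar ψ), inferInstance, ?_, ?_, hψt⟩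
    · intro htop
      apply hψ1
      have h1 : ∀ g, (ψ : G → ℂ) g = (ψ : G → ℂ) 1 := by
        intro g
        have : g ∈ H18.CharQuot.kerSub (ψ : G → ℂ) (hchar ψ) := by rw [htop]; exact Subgroup.mem_top g
        exact this
      have h2 : (ψ : G → ℂ) 1 = 1 :=
        H81.CentralVal.one_of_commutator_le ψ.2 (fun g _ => h1 g)
      apply Subtype.ext
      funext g
      rw [h1 g, h2]
    · intro g hg
      haveI : Fact (Nat.Prime 2) := ⟨Nat.prime_two⟩
      exact H81.PrincPSolv.trivial_on_core hM (Finset.mem_filter.1 hψS).2 g hg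

end H81.InvSection
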