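import Cfsg.Agent.Lib.H81.SectPrin
import Cfsg.Agent.Lib.H81.InvSection

/-!
# Inner products of the coefficient vectors of generalized characters of a `p`-subgroup
-/

set_option autoImplicit false
set_option linter.unusedSectionVars false
set_option linter.unusedVariables false
set_option linter.style.haveILetI false
open Cfsg H20.Loc H20.GA H20.Blk H20.DefGrp H20.Orth H20.Defect H20.Ind H20.Height H81.Contrib
open scoped ComplexConjugate

namespace H81.CoefSum

open H18.CharBasic H18.CharOrtho H18.CharInd H81.Section H81.InvSection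

universe u
variable {G : Type u} [Group G] [Finite G] {M : Ideal AlgInt} {p : ℕ}

theorem finsum_mem_ite {ι A : Type*} [Fintype ι] [AddCommMonoid A] (S : Set ι)
    [DecidablePred (· ∈ S)] (f : ι → A) : ∑ᶠ i ∈ S, f i = ∑ i, if i ∈ S then f i else 0 := by
  rw [finsum_eq_sum_of_fintype]
  exact Finset.sum_congr rfl fun χ _ => finsum_eq_if

/-- counting conjugations into `P` by elements of `N`. -/
theorem sum_conj_eq {P N : Subgroup G} [Fintype P] [Fintype N]
    (hNN : N ≤ Subgroup.normalizer (P : Set G)) {u : G} (hu : u ∈ P)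
    (hfus : ∀ g : G, g * u * g⁻¹ ∈ (P : Set G) → ∃ n ∈ N, n * u * n⁻¹ = g * u * g⁻¹)
    (F : G → ℂ) [∀ v : P, Decidable (IsConj u (v : G))] :
    ∑ x : N, F ((x : G) * u * (x : G)⁻¹) =
      (Nat.card ↥(N ⊓ Subgroup.centralizer ({u} : Set G)) : ℂ) *
        ∑ v : P, if IsConj u (v : G) then F (v : G) else 0 := by
  classical
  have hmem : ∀ x : N, (x : G) * u * (x : G)⁻¹ ∈ P := fun x =>
    (Subgroup.mem_normalizer_iff.1 (hNN x.2) u).1 hu
  let f : N → P := fun x => ⟨(x : G) * u * (x : G)⁻¹, hmem x⟩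
  have h1 : ∑ x : N, F ((x : G) * u * (x : G)⁻¹) =
      ∑ v : P, ∑ x ∈ Finset.univ.filter (fun x : N => f x = v), F ((x : G) * u * (x : G)⁻¹) :=
    (Finset.sum_fiberwise Finset.univ f _).symm
  rw [h1, Finset.mul_sum]
  refine Finset.sum_congr rfl fun v _ => ?_
  have h2 : ∑ x ∈ Finset.univ.filter (fun x : N => f x = v), F ((x : G) * u * (x : G)⁻¹) =
      ∑ x ∈ Finset.univ.filter (fun x : N => f x = v), F (v : G) := by
    refine Finset.sum_congr rfl fun x hx => ?_
    have h3 : f x = v := (Finset.mem_filter.1 hx).2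
    rw [← h3]
  rw [h2, Finset.sum_const, nsmul_eq_mul]
  split_ifs with hc
  · congr 1
    obtain ⟨g, hg⟩ := isConj_iff.1 hc
    obtain ⟨n, hn, hn2⟩ := hfus g (by rw [hg]; exact v.2)
    rw [hg] at hn2
    norm_cast
    rw [← Fintype.card_subtype, ← Nat.card_eq_fintype_card]
    refine Nat.card_congr ?_
    refine
      { toFun := fun x => ⟨n⁻¹ * (x.1 : G), ?_, ?_⟩
        invFun := fun c => ⟨⟨n * (c : G), N.mul_mem hn c.2.1⟩, ?_⟩
        left_inv := ?_
        right_inv := ?_ }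
    · exact N.mul_mem (N.inv_mem hn) x.1.2
    · have h3 : (x.1 : G) * u * (x.1 : G)⁻¹ = v := congrArg Subtype.val x.2
      show n⁻¹ * (x.1 : G) ∈ Subgroup.centralizer ({u} : Set G)
      rw [Subgroup.mem_centralizer_singleton_iff]
      rw [← hn2] at h3
      have h4 : (x.1 : G) * u = n * u * n⁻¹ * (x.1 : G) := by rw [← h3]; group
      rw [mul_assoc, h4]; group
    · apply Subtype.ext
      show n * (c : G) * u * (n * (c : G))⁻¹ = v
      have h3 := Subgroup.mem_centralizer_singleton_iff.1 c.2.2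
      rw [← hn2, mul_inv_rev, mul_assoc n, h3]; group
    · intro x
      apply Subtype.ext
      apply Subtype.ext
      show n * (n⁻¹ * (x.1 : G)) = x.1
      group
    · intro c
      apply Subtype.ext
      show n⁻¹ * (n * (c : G)) = c
      group
  · have h3 : (Finset.univ.filter (fun x : N => f x = v)) = ∅ := by
      rw [Finset.filter_eq_empty_iff]
      intro x _ hx
      apply hc
      rw [isConj_iff]
      exact ⟨(x : G), congrArg Subtype.val hx⟩
    rw [h3]; simp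

theorem coef_eq (P : Subgroup G) [Fintype P] {θ : P → ℂ} (χ : IrrCharacter G) :
    (Nat.card P : ℂ)⁻¹ * ∑ᶠ y : P, (χ : G → ℂ) (y : G) * θ y⁻¹ =
      (Nat.card P : ℂ)⁻¹ * ∑ u : P, θ u * conj ((χ : G → ℂ) (u : G)) := by
  rw [finsum_eq_sum_of_fintype]
  congr 1
  refine Fintype.sum_equiv (Equiv.inv P) _ _ fun y => ?_
  rw [Equiv.inv_apply, ← char_inv (irr_char χ), InvMemClass.coe_inv, inv_inv, mul_comm]

theorem main (hM : IsPModular p M) (P : Subgroup G) (hP : IsPGroup p P) (N : Subgroup G)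
    (hNN : N ≤ Subgroup.normalizer (P : Set G)) (U : Set G)
    (hUP : U ⊆ (P : Set G))
    (hfus : ∀ u ∈ U, ∀ g : G, g * u * g⁻¹ ∈ (P : Set G) → ∃ n ∈ N, n * u * n⁻¹ = g * u * g⁻¹)
    (w : ℚ) (hw : ∀ y ∈ U,
      ((∑ᶠ ψ ∈ principalBlock M ↥(Subgroup.centralizer ({y} : Set G)),
        charDegree (ψ : ↥(Subgroup.centralizer ({y} : Set G)) → ℂ) ^ 2) : ℚ) =
        w * Nat.card ↥(N ⊓ Subgroup.centralizer ({y} : Set G)))
    (θ η : ↥P → ℂ) (hθU : ∀ y : ↥P, (y : G) ∉ U → θ y = 0) :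
    ∑ᶠ χ ∈ principalBlock M G,
      ((Nat.card ↥P : ℂ)⁻¹ * ∑ᶠ y : ↥P, (χ : G → ℂ) (y : G) * θ y⁻¹) *
      (starRingEnd ℂ) ((Nat.card ↥P : ℂ)⁻¹ * ∑ᶠ y : ↥P, (χ : G → ℂ) (y : G) * η y⁻¹) =
      ((w : ℂ) / ((Nat.card ↥P : ℂ) ^ 2)) * ∑ᶠ y : ↥P, θ y *
        (starRingEnd ℂ) (∑ᶠ x : ↥N, extendByZero P η ((x : G) * (y : G) * (x : G)⁻¹)) := by
  classical
  letI := Fintype.ofFinite G
  letI := Fintype.ofFinite P
  letI := Fintype.ofFinite N
  letI := Fintype.ofFinite (IrrCharacter G)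
  haveI := pm_isPrime hM
  haveI : Fact p.Prime := ⟨pm_prime hM⟩
  have hone : IsPBlock M (principalBlock M G) :=
    isPBlock_blockOf ⟨_, H18.CharBasic.isIrrCharacter_one⟩
  have hyp : ∀ y : P, ∃ k : ℕ, orderOf (y : G) = p ^ k := by
    intro y
    obtain ⟨k, hk⟩ := IsPGroup.iff_orderOf.1 hP y
    exact ⟨k, by rw [Subgroup.orderOf_coe, hk]⟩
  have hyy : ∀ y : P, IsPPart p (y : G) (y : G) := fun y =>
    ⟨1, mul_one _, Commute.one_right _, hyp y, by
      rw [orderOf_one]; exact (pm_prime hM).one_lt.ne' ∘ Nat.dvd_one.1⟩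
  have hP0 : (Nat.card P : ℂ) ≠ 0 := by exact_mod_cast (Nat.card_pos (α := P)).ne'
  rw [finsum_mem_ite, finsum_eq_sum_of_fintype]
  -- the column sums
  let T : P → P → ℂ := fun u v => ∑ χ : IrrCharacter G, if χ ∈ principalBlock M G then
    conj ((χ : G → ℂ) (u : G)) * (χ : G → ℂ) (v : G) else 0
  have hT0 : ∀ u v : P, ¬ IsConj (u : G) (v : G) → T u v = 0 := by
    intro u v huv
    have h1 := H19.Second.block_orth hM (v : G) (u : G) (v : G) (u : G) (hyy v) (hyy u)
      (fun h => huv h.symm) _ hone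
    rw [finsum_mem_ite] at h1
    refine Eq.trans ?_ h1
    refine Finset.sum_congr rfl fun χ _ => ?_
    rw [char_inv (irr_char χ), mul_comm]
  have hT1 : ∀ u v : P, (u : G) ∈ U → IsConj (u : G) (v : G) →
      T u v = (w : ℂ) * (Nat.card ↥(N ⊓ Subgroup.centralizer ({(u : G)} : Set G)) : ℂ) := by
    intro u v hu huv
    letI := Fintype.ofFinite (C (u : G))
    letI := Fintype.ofFinite (IrrCharacter (C (u : G)))
    have h1 := H81.SectPrin.sum_principal hM (hyp u) (c := (1 : C (u : G))) (c' := 1)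
      (by rw [orderOf_one]; exact (pm_prime hM).one_lt.ne' ∘ Nat.dvd_one.1)
      (by rw [orderOf_one]; exact (pm_prime hM).one_lt.ne' ∘ Nat.dvd_one.1)
    have h2 : T u v = ∑ χ : IrrCharacter G, (if χ ∈ principalBlock M G then
      conj ((χ : G → ℂ) ((u : G) * ((1 : C (u : G)) : G))) *
        (χ : G → ℂ) ((u : G) * ((1 : C (u : G)) : G)) else 0) := by
      refine Finset.sum_congr rfl fun χ _ => ?_
      rw [OneMemClass.coe_one, mul_one, classFunction_isConj (irr_class χ) huv]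
    rw [h2, h1]
    have h3 := hw (u : G) hu
    rw [finsum_mem_ite] at h3
    have h4 : ((w * Nat.card ↥(N ⊓ Subgroup.centralizer ({(u : G)} : Set G)) : ℚ) : ℂ) =
        (w : ℂ) * (Nat.card ↥(N ⊓ Subgroup.centralizer ({(u : G)} : Set G)) : ℂ) := by push_cast; rfl
    rw [← h4, ← h3]
    push_cast
    refine Finset.sum_congr rfl fun ψ _ => ?_
    split_ifs
    · have h5 : (((charDegree (ψ : C (u : G) → ℂ) : ℚ) ^ 2 : ℚ) : ℂ) =
          (charDegree (ψ : C (u : G) → ℂ) : ℂ) ^ 2 := by push_cast; rfl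
      rw [h5, H20.Defect.charDegree_irr, H18.CharInd.conj_char_one (irr_char ψ), sq]
    · simp
  -- left side
  have hL : ∀ χ : IrrCharacter G, (if χ ∈ principalBlock M G then
      ((Nat.card ↥P : ℂ)⁻¹ * ∑ᶠ y : ↥P, (χ : G → ℂ) (y : G) * θ y⁻¹) *
      (starRingEnd ℂ) ((Nat.card ↥P : ℂ)⁻¹ * ∑ᶠ y : ↥P, (χ : G → ℂ) (y : G) * η y⁻¹) else 0) =
      ∑ u : P, ∑ v : P, ((Nat.card P : ℂ)⁻¹ ^ 2 * (θ u * conj (η v))) *
        (if χ ∈ principalBlock M G then conj ((χ : G → ℂ) (u : G)) * (χ : G → ℂ) (v : G) else 0) := by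
    intro χ
    split_ifs
    · rw [coef_eq, coef_eq, map_mul, map_inv₀, Complex.conj_natCast, map_sum]
      have : ∀ (a b c : ℂ), a * b * (a * c) = a ^ 2 * (b * c) := by intro a b c; ring
      rw [this, Finset.sum_mul_sum, Finset.mul_sum]
      refine Finset.sum_congr rfl fun u _ => ?_
      rw [Finset.mul_sum]
      refine Finset.sum_congr rfl fun v _ => ?_
      rw [map_mul, Complex.conj_conj]
      ring
    · simp
  simp only [hL]
  rw [Finset.sum_comm]
  rw [Finset.mul_sum]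
  refine Finset.sum_congr rfl fun u _ => ?_
  rw [Finset.sum_comm]
  have h5 : ∀ v : P, ∑ χ : IrrCharacter G, ((Nat.card P : ℂ)⁻¹ ^ 2 * (θ u * conj (η v))) *
        (if χ ∈ principalBlock M G then conj ((χ : G → ℂ) (u : G)) * (χ : G → ℂ) (v : G) else 0) =
      ((Nat.card P : ℂ)⁻¹ ^ 2 * (θ u * conj (η v))) * T u v := by
    intro v
    rw [← Finset.mul_sum]
  simp only [h5]
  by_cases hu : (u : G) ∈ U
  · have h6 : ∀ v : P, ((Nat.card P : ℂ)⁻¹ ^ 2 * (θ u * conj (η v))) * T u v =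
        ((Nat.card P : ℂ)⁻¹ ^ 2 * θ u *
          ((w : ℂ) * (Nat.card ↥(N ⊓ Subgroup.centralizer ({(u : G)} : Set G)) : ℂ))) *
          (if IsConj (u : G) (v : G) then conj (extendByZero P η (v : G)) else 0) := by
      intro v
      split_ifs with hc
      · rw [hT1 u v hu hc, ext_coe]; ring
      · rw [hT0 u v hc]; ring
    simp only [h6]
    rw [← Finset.mul_sum]
    have h7 := sum_conj_eq hNN u.2 (hfus u hu) (fun g => conj (extendByZero P η g))
    rw [finsum_eq_sum_of_fintype, map_sum, h7]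
    rw [div_eq_mul_inv, inv_pow]
    ring
  · rw [hθU u hu]
    simp

end H81.CoefSum
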