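import Cfsg.Agent.Lib.H81.PrincPSolv
import Cfsg.Agent.Lib.H81.CoefSum
import Cfsg.Agent.Lib.H4.CharCount
import Cfsg.Agent.Lib.H5.BurnsideZero
import Cfsg.Agent.Lib.H78.Galois

/-!
# The sum of `|χ(x)|²` over the principal block
-/

set_option autoImplicit false
set_option linter.unusedSectionVars false
set_option linter.unusedVariables false
set_option linter.style.haveILetI false
open Cfsg H20.Loc H20.Blk H20.NormQ H20.Defect H20.Height
open scoped ComplexConjugate

namespace H81.LamB0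

universe u
variable {G : Type u} [Group G] [Finite G] {p : ℕ} {M : Ideal AlgInt}

/-- inflation is a bijection between the principal blocks of `G/O_{p'}(G)` and of `G` -/
theorem bijOn [Fact p.Prime] (hM : IsPModular p M) :
    Set.BijOn (infl (pPrimeCore p G)) (principalBlock M (G ⧸ pPrimeCore p G))
      (principalBlock M G) := by
  haveI := pm_isPrime hM
  have hn : ¬ p ∣ Nat.card (pPrimeCore p G) := by
    have h1 := H1.Cores.coprime_card_pPrimeCore (G := G) p
    exact (Nat.Prime.coprime_iff_not_dvd (Fact.out : p.Prime)).1 h1.symm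
  have h1 : ∀ ψ : IrrCharacter (G ⧸ pPrimeCore p G), ψ ∈ principalBlock M (G ⧸ pPrimeCore p G) ↔
      infl (pPrimeCore p G) ψ ∈ principalBlock M G := by
    intro ψ
    constructor
    · intro h
      exact sameBlock_infl (pPrimeCore p G) hM
        (χ := H81.DegreeCount.oneIrr (G ⧸ pPrimeCore p G)) (ψ := ψ) h
    · intro h
      exact sameBlock_of_infl (pPrimeCore p G) hM hn
        (χ := H81.DegreeCount.oneIrr (G ⧸ pPrimeCore p G)) (ψ := ψ) h
  refine ⟨fun ψ hψ => (h1 ψ).1 hψ, (infl_injective _).injOn, fun χ hχ => ?_⟩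
  obtain ⟨ψ, rfl⟩ := exists_infl (pPrimeCore p G) (H81.PrincPSolv.trivial_on_core hM hχ)
  exact ⟨ψ, (h1 ψ).2 hχ, rfl⟩

theorem sum_eq [Fact p.Prime] (hM : IsPModular p M) (x : G) :
    ∑ᶠ χ ∈ principalBlock M G, Complex.normSq ((χ : G → ℂ) x) =
      ∑ᶠ ψ ∈ principalBlock M (G ⧸ pPrimeCore p G),
        Complex.normSq ((ψ : G ⧸ pPrimeCore p G → ℂ) (QuotientGroup.mk x)) := by
  symm
  exact finsum_mem_eq_of_bijOn (infl (pPrimeCore p G)) (bijOn hM) (fun ψ _ => rfl)

theorem sum_deg_eq [Fact p.Prime] (hM : IsPModular p M) :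
    ∑ᶠ χ ∈ principalBlock M G, charDegree (χ : G → ℂ) ^ 2 =
      ∑ᶠ ψ ∈ principalBlock M (G ⧸ pPrimeCore p G),
        charDegree (ψ : G ⧸ pPrimeCore p G → ℂ) ^ 2 := by
  symm
  exact finsum_mem_eq_of_bijOn (infl (pPrimeCore p G)) (bijOn hM) (fun ψ _ => rfl)

variable [Fintype (IrrCharacter G)]

theorem cast_sum (S : Set (IrrCharacter G)) [DecidablePred (· ∈ S)] (x : G) :
    ((∑ᶠ χ ∈ S, Complex.normSq ((χ : G → ℂ) x) : ℝ) : ℂ) =
      ∑ χ : IrrCharacter G, if χ ∈ S then (χ : G → ℂ) x * conj ((χ : G → ℂ) x) else 0 := by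
  rw [H81.CoefSum.finsum_mem_ite, Complex.ofReal_sum]
  refine Finset.sum_congr rfl fun χ _ => ?_
  split_ifs
  · rw [Complex.mul_conj]
  · rw [Complex.ofReal_zero]

theorem le_card (S : Set (IrrCharacter G)) (x : G) :
    ∑ᶠ χ ∈ S, Complex.normSq ((χ : G → ℂ) x) ≤
      (Nat.card (Subgroup.centralizer ({x} : Set G)) : ℝ) := by
  classical
  have h1 := cast_sum (Set.univ : Set (IrrCharacter G)) x
  have h2 := H4.CharCount.column_orthogonality (G := G) x x
  rw [if_pos (IsConj.refl x)] at h2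
  simp only [Set.mem_univ, if_true] at h1
  rw [h2] at h1
  have h3 : ∑ᶠ χ ∈ (Set.univ : Set (IrrCharacter G)), Complex.normSq ((χ : G → ℂ) x) =
      (Nat.card (Subgroup.centralizer ({x} : Set G)) : ℝ) := by exact_mod_cast h1
  rw [← h3, H81.CoefSum.finsum_mem_ite, H81.CoefSum.finsum_mem_ite]
  refine Finset.sum_le_sum fun χ _ => ?_
  rw [if_pos (Set.mem_univ χ)]
  split_ifs
  · exact le_rfl
  · exact Complex.normSq_nonneg _

theorem isInt (x : G) [DecidablePred (· ∈ principalBlock M G)] :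
    ∃ n : ℤ, (n : ℂ) = ∑ χ : IrrCharacter G,
      if χ ∈ principalBlock M G then (χ : G → ℂ) x * conj ((χ : G → ℂ) x) else 0 := by
  apply H5.BurnsideZero.int_of_fixed
  · refine IsIntegral.sum _ fun χ _ => ?_
    split_ifs
    · exact (irr_int χ x).mul (H18.CharBasic.char_isIntegral
        (H18.CharBasic.isCharacter_conj (H18.CharBasic.isCharacter_of_isIrr χ.2)) x)
    · exact isIntegral_zero
  · intro σ
    obtain ⟨k, hk, hσ⟩ := H5.BurnsideZero.exists_pow σ (Nat.card_pos (α := G)).ne'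
    rw [map_sum]
    let e : IrrCharacter G ≃ IrrCharacter G :=
      Equiv.ofBijective (H78.Galois.powIrr hk) (Finite.injective_iff_bijective.1
        (H78.Galois.powIrr_injective hk))
    have he : ∀ χ, e χ = H78.Galois.powIrr hk χ := fun χ => rfl
    -- `e` preserves the principal block
    have h1 : ∀ χ : IrrCharacter G, e χ ∈ principalBlock M G ↔ χ ∈ principalBlock M G := by
      have hsub : (e '' principalBlock M G) ⊆ principalBlock M G := by
        rintro _ ⟨χ, hχ, rfl⟩
        exact H78.Galois.powIrr_mem_principalBlock hk hχ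
      have heq : e '' principalBlock M G = principalBlock M G :=
        Set.eq_of_subset_of_ncard_le hsub (Set.ncard_image_of_injective _ e.injective).ge
          (Set.toFinite _)
      intro χ
      constructor
      · intro h
        rw [← heq] at h
        obtain ⟨ψ, hψ, hψ2⟩ := h
        rwa [← e.injective hψ2]
      · intro h
        exact hsub ⟨χ, h, rfl⟩
    rw [← Equiv.sum_comp e (fun χ => if χ ∈ principalBlock M G then
      (χ : G → ℂ) x * conj ((χ : G → ℂ) x) else 0)]
    refine Finset.sum_congr rfl fun χ _ => ?_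
    by_cases hχ : χ ∈ principalBlock M G
    · rw [if_pos hχ, if_pos ((h1 χ).2 hχ), map_mul]
      have h2 := H78.Galois.char_map_eq_pow dvd_rfl (σ := σ.toRingHom) hσ
        (H18.CharBasic.isCharacter_of_isIrr χ.2) x
      have h3 := H78.Galois.char_map_eq_pow dvd_rfl (σ := σ.toRingHom) hσ
        (H18.CharBasic.isCharacter_conj (H18.CharBasic.isCharacter_of_isIrr χ.2)) x
      have h4 : σ ((χ : G → ℂ) x) = (χ : G → ℂ) (x ^ k) := h2
      have h5 : σ (conj ((χ : G → ℂ) x)) = conj ((χ : G → ℂ) (x ^ k)) := h3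
      rw [h4, h5, he, H78.Galois.powIrr_apply]
    · rw [if_neg hχ, if_neg (fun h => hχ ((h1 χ).1 h)), map_zero]

theorem exists_pos [M.IsPrime] (x : G) :
    ∃ n : ℕ, 0 < n ∧ ∑ᶠ χ ∈ principalBlock M G, Complex.normSq ((χ : G → ℂ) x) = n := by
  classical
  obtain ⟨n, hn⟩ := isInt (M := M) x
  rw [← cast_sum] at hn
  have h1 : ∑ᶠ χ ∈ principalBlock M G, Complex.normSq ((χ : G → ℂ) x) = (n : ℝ) := by
    exact_mod_cast hn.symm
  have h2 : (1 : ℝ) ≤ ∑ᶠ χ ∈ principalBlock M G, Complex.normSq ((χ : G → ℂ) x) := by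
    rw [H81.CoefSum.finsum_mem_ite]
    have h3 : (1 : ℝ) = if H81.DegreeCount.oneIrr G ∈ principalBlock M G then
        Complex.normSq ((H81.DegreeCount.oneIrr G : G → ℂ) x) else 0 := by
      have h4 : H81.DegreeCount.oneIrr G ∈ principalBlock M G :=
        sameBlock_refl (fun _ : G => (1 : ℂ))
      rw [if_pos h4]
      change (1 : ℝ) = Complex.normSq 1
      simp
    rw [h3]
    refine Finset.single_le_sum (f := fun χ : IrrCharacter G => if χ ∈ principalBlock M G then
        Complex.normSq ((χ : G → ℂ) x) else 0) (fun χ _ => ?_) (Finset.mem_univ _)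
    by_cases h4 : χ ∈ principalBlock M G
    · rw [if_pos h4]; exact Complex.normSq_nonneg _
    · rw [if_neg h4]
  rw [h1] at h2
  have h3 : (1 : ℤ) ≤ n := by exact_mod_cast h2
  refine ⟨n.toNat, by omega, ?_⟩
  rw [h1]
  have : ((n.toNat : ℤ) : ℝ) = (n : ℝ) := by
    rw [Int.toNat_of_nonneg (by omega)]
  exact_mod_cast this.symm

theorem deg_sum_eq_card_iff (S : Set (IrrCharacter G)) :
    ∑ᶠ χ ∈ S, charDegree (χ : G → ℂ) ^ 2 = Nat.card G ↔ S = Set.univ := by
  classical
  have h1 : ∑ χ : IrrCharacter G, charDegree (χ : G → ℂ) ^ 2 = Nat.card G := by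
    have h2 := H4.CharCount.sum_sq_degrees (G := G)
    have h3 : ((∑ χ : IrrCharacter G, charDegree (χ : G → ℂ) ^ 2 : ℕ) : ℂ) = Nat.card G := by
      rw [← h2]
      push_cast
      exact Finset.sum_congr rfl fun χ _ => by rw [charDegree_irr]
    exact_mod_cast h3
  rw [H81.CoefSum.finsum_mem_ite, ← h1]
  constructor
  · intro h
    by_contra hne
    obtain ⟨χ, hχ⟩ : ∃ χ, χ ∉ S := by
      by_contra! hc
      exact hne (Set.eq_univ_of_forall hc)
    have h2 : ∑ χ : IrrCharacter G, (if χ ∈ S then charDegree (χ : G → ℂ) ^ 2 else 0) <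
        ∑ χ : IrrCharacter G, charDegree (χ : G → ℂ) ^ 2 := by
      apply Finset.sum_lt_sum
      · intro ψ _
        split_ifs
        · exact le_rfl
        · exact Nat.zero_le _
      · refine ⟨χ, Finset.mem_univ _, ?_⟩
        rw [if_neg hχ]
        have := charDegree_ne_zero χ
        positivity
    omega
  · rintro rfl
    simp

end H81.LamB0
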