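import Cfsg.Agent.Lib.H81.PElem
import Cfsg.Agent.Lib.H20.Defect

/-!
# Blocks with a given defect group from `p`-separated classes
-/

set_option autoImplicit false
set_option linter.unusedSectionVars false
set_option linter.unusedVariables false
set_option linter.style.haveILetI false
open Cfsg H20.Loc H20.GA H20.Blk H20.DefGrp H20.Orth H20.Defect H20.Height H81.PElem
open scoped ComplexConjugate

namespace H81.BlockDet

universe u
variable {G : Type u} [Group G] [Finite G] {M : Ideal AlgInt} {p : ℕ}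

theorem ind_mem [M.IsPrime] (g : G) : MemLocalRing M (ind p g) := by
  by_cases h : PEl p g
  · rw [ind_of h]; exact locR_one
  · rw [ind_not h]; exact locR_zero

theorem zp_mem [M.IsPrime] : (zp p : ZG G) ∈ zr M G := by
  intro g
  rw [zc_zp]
  exact ind_mem g

theorem exists_zp (hM : IsPModular p M) [M.IsPrime] {h : G} {w : ZG G} (hw : w ∈ zr M G)
    (hh : ¬ MemLocalIdeal M (zc (zp p * w) h)) {Q : Subgroup G} (hQ : IsPGroup p Q)
    (hQh : Q ≤ Subgroup.centralizer ({h} : Set G)) :
    ∃ y : G, Q ≤ Subgroup.centralizer ({y} : Set G) ∧ ¬ MemLocalIdeal M (zc w y) := by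
  classical
  letI : Fintype (ConjClasses G) := Fintype.ofFinite _
  have h1 : (zp p * w : ZG G) = ∑ C : ConjClasses G, zc (zp p : ZG G) C.out • (cls C.out * w) := by
    conv_lhs => rw [eq_sum_cls (zp p : ZG G)]
    rw [Finset.sum_mul]
    refine Finset.sum_congr rfl fun C _ => ?_
    rw [smul_mul_assoc]
  rw [h1, zc_sum] at hh
  obtain ⟨C, hC⟩ : ∃ C : ConjClasses G,
      ¬ MemLocalIdeal M (zc (zc (zp p : ZG G) C.out • (cls C.out * w)) h) := by
    by_contra! hc
    exact hh (locI_sum fun C _ => hc C)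
  rw [zc_smul] at hC
  have h2 : ¬ MemLocalIdeal M (zc (cls C.out * w) h) := fun hc => hC (by
    refine locI_mul_left ?_ hc
    exact zp_mem C.out)
  obtain ⟨x, hx1, hx2, hx3⟩ := exists_centralized hM hw h2 hQ hQh
  refine ⟨x⁻¹ * h, ?_, hx3⟩
  intro q hq
  have h3 := Subgroup.mem_centralizer_singleton_iff.1 (hx2 hq)
  have h4 := Subgroup.mem_centralizer_singleton_iff.1 (hQh hq)
  rw [Subgroup.mem_centralizer_singleton_iff]
  have h5 : q * x⁻¹ = x⁻¹ * q := by
    rw [eq_inv_mul_iff_mul_eq, ← mul_assoc, ← h3, mul_assoc, mul_inv_cancel, mul_one]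
  rw [← mul_assoc, h5, mul_assoc, h4, ← mul_assoc]

/-- the counting identity -/
theorem zc_zp_cls [DecidableEq G] {x y : G}
    (hsep : ∀ g h : G, IsConj x g → IsConj y h → ∀ k : ℕ, 0 < k → orderOf (g * h⁻¹) ≠ p ^ k)
    [Decidable (IsConj y x)] :
    zc (zp p * cls y) x = if IsConj y x then 1 else 0 := by
  classical
  letI := Fintype.ofFinite G
  rw [zc_mul]
  have h1 : ∀ a : G, zc (zp p : ZG G) a * zc (cls y) (a⁻¹ * x) =
      if a = 1 then (if IsConj y x then 1 else 0) else 0 := by
    intro a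
    rw [zc_zp]
    by_cases ha : a = 1
    · subst ha
      rw [if_pos rfl, ind_of ⟨0, by simp⟩, one_mul, inv_one, one_mul, zc_cls]
    · rw [if_neg ha]
      by_cases h2 : PEl p a
      · rw [zc_cls_not, mul_zero]
        intro hc
        obtain ⟨k, hk⟩ := h2
        rcases Nat.eq_zero_or_pos k with h0 | h0
        · rw [h0, pow_zero, orderOf_eq_one_iff] at hk
          exact ha hk
        · refine hsep x (a⁻¹ * x) (IsConj.refl x) hc k h0 ?_
          rw [← hk]
          congr 1
          group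
      · rw [ind_not h2, zero_mul]
  simp_rw [h1]
  rw [Finset.sum_ite_eq' Finset.univ (1 : G), if_pos (Finset.mem_univ _)]

variable [Fintype (IrrCharacter G)]

theorem zc_zp_mul (w : ZG G) (x : G) :
    zc (zp p * w) x = ∑ χ : IrrCharacter G, (sχ p χ * conj ((χ : G → ℂ) x)) * omega χ w := by
  rw [H81.ClassCount.zc_eq_sum, Finset.mul_sum]
  refine Finset.sum_congr rfl fun χ _ => ?_
  rw [map_mul, sχ]
  ring

theorem term_mem (hM : IsPModular p M) (χ : IrrCharacter G) (x : G) :
    MemLocalRing M (sχ p χ * conj ((χ : G → ℂ) x)) := by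
  haveI := pm_isPrime hM
  refine locR_mul (sχ_mem hM χ) ?_
  rw [← H18.CharBasic.char_inv (irr_char χ)]
  exact isIntegral_mem (irr_int χ _)

/-- `T_B(x)` -/
noncomputable def T (M : Ideal AlgInt) (p : ℕ) (B : Set (IrrCharacter G)) (x : G) : ℂ :=
  zc (zp p * eB B) x

theorem T_eq (B : Set (IrrCharacter G)) [DecidablePred (· ∈ B)] (x : G) :
    T M p B x = ∑ χ : IrrCharacter G, if χ ∈ B then sχ p χ * conj ((χ : G → ℂ) x) else 0 := by
  rw [T, zc_zp_mul]
  refine Finset.sum_congr rfl fun χ _ => ?_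
  by_cases h : χ ∈ B
  · rw [omega_eB_mem h, mul_one, if_pos h]
  · rw [omega_eB_notMem h, mul_zero, if_neg h]

/-- key identity after reduction -/
theorem red_identity (hM : IsPModular p M) [M.IsMaximal] {r : ℕ} (x : Fin r → G)
    (hx : ∀ i j : Fin r, IsConj (x i) (x j) → i = j)
    (hsep : ∀ i j : Fin r, ∀ g h : G, IsConj (x i) g → IsConj (x j) h →
      ∀ k : ℕ, 0 < k → orderOf (g * h⁻¹) ≠ p ^ k)
    [Fintype {B : Set (IrrCharacter G) // IsPBlock M B}]
    (ξ : {B : Set (IrrCharacter G) // IsPBlock M B} → IrrCharacter G) (hξ : ∀ B, ξ B ∈ B.1)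
    (i j : Fin r) :
    (if i = j then (1 : ResF M) else 0) =
      ∑ B : {B : Set (IrrCharacter G) // IsPBlock M B},
        redFun M (T M p B.1 (x i)) * redFun M (centralChar (ξ B : G → ℂ) (x j)) := by
  classical
  haveI := pm_isPrime hM
  have h0 : ((if i = j then (1 : ℂ) else 0)) = ∑ χ : IrrCharacter G,
      (sχ p χ * conj ((χ : G → ℂ) (x i))) * centralChar (χ : G → ℂ) (x j) := by
    have h1 := zc_zp_cls (hsep i j)
    rw [zc_zp_mul] at h1
    simp only [omega_cls] at h1
    rw [h1]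
    by_cases hij : i = j
    · rw [if_pos hij, if_pos]
      rw [hij]
    · rw [if_neg hij, if_neg]
      intro hc
      exact hij (hx j i hc).symm
  have h2 : redFun M (if i = j then (1 : ℂ) else 0) = if i = j then (1 : ResF M) else 0 := by
    split_ifs
    · exact redFun_one
    · exact redFun_zero
  rw [← h2, h0, redFun_sum fun χ _ => locR_mul (term_mem hM χ _) (centralChar_memR χ _)]
  let f : IrrCharacter G → {B : Set (IrrCharacter G) // IsPBlock M B} :=
    fun χ => ⟨blockOf M (χ : G → ℂ), isPBlock_blockOf χ⟩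
  rw [← Finset.sum_fiberwise Finset.univ f]
  refine Finset.sum_congr rfl fun B _ => ?_
  have hf : ∀ χ : IrrCharacter G, f χ = B ↔ χ ∈ B.1 := by
    intro χ
    constructor
    · intro h
      rw [← h]
      exact mem_blockOf_self χ
    · intro h
      apply Subtype.ext
      exact (isPBlock_eq B.2 h).symm
  rw [T_eq, redFun_sum, Finset.sum_mul, Finset.sum_filter]
  · refine Finset.sum_congr rfl fun χ _ => ?_
    by_cases h : χ ∈ B.1
    · rw [if_pos h, if_pos ((hf χ).2 h), redFun_mul (term_mem hM χ _) (centralChar_memR χ _)]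
      congr 1
      rw [redFun_eq_iff (centralChar_memR _ _) (centralChar_memR _ _)]
      exact isPBlock_sameBlock B.2 h (hξ B) _
    · rw [if_neg h, if_neg (fun hc => h ((hf χ).1 hc)), redFun_zero, zero_mul]
  · intro χ _
    split_ifs
    · exact term_mem hM χ _
    · exact locR_zero

/-- `T_B(x) ≠ 0` and `Λ_B(y) ≠ 0` force `D` to be a defect group. -/
theorem isDefectGroup_of_ne (hM : IsPModular p M) {B : Set (IrrCharacter G)} (hB : IsPBlock M B)
    {D : Subgroup G} {x y : G} (hx : ∃ S : Sylow p (Subgroup.centralizer ({x} : Set G)), sylC x S = D)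
    (hy : ∃ S : Sylow p (Subgroup.centralizer ({y} : Set G)), sylC y S = D)
    (h1 : ¬ MemLocalIdeal M (T M p B x))
    (h2 : ∃ χ ∈ B, ¬ MemLocalIdeal M (centralChar (χ : G → ℂ) y)) : IsDefectGroup p M B D := by
  haveI : Fact p.Prime := ⟨pm_prime hM⟩
  haveI := pm_isPrime hM
  obtain ⟨S, rfl⟩ := hx
  obtain ⟨S', hS'⟩ := hy
  -- a defect class
  obtain ⟨g, hg⟩ := exists_isDefectClass hB
  obtain ⟨P⟩ : Nonempty (Sylow p (Subgroup.centralizer ({g} : Set G))) := inferInstance
  have hdef : IsDefectGroup p M B (sylC g P) := ⟨g, hg, P, rfl⟩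
  obtain ⟨χ, hχ⟩ := isPBlock_nonempty hB
  -- D ≤ conj of sylC g P
  obtain ⟨z, hz1, hz2⟩ := exists_zp hM (eB_mem hB) h1 (isPGroup_sylC x S) (sylC_le x S)
  rw [zc_eB] at hz2
  obtain ⟨w, hw1, hw2⟩ := sylow_le_of_blockCoeff hM hB ⟨χ, hχ, hg.2.2 χ hχ⟩ hz2
    (isPGroup_sylC x S) hz1
  obtain ⟨c, hc⟩ := exists_conj_le hw1 P (isPGroup_sylC x S) hw2
  -- sylC g P ≤ conj of D
  obtain ⟨v, hv1, hv2⟩ := sylow_le_of_blockCoeff hM hB h2 hg.2.1 (isPGroup_sylC g P) (sylC_le g P)
  obtain ⟨d, hd⟩ := exists_conj_le hv1 S' (isPGroup_sylC g P) hv2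
  rw [hS'] at hd
  rw [eq_of_conj_le hc hd]
  exact isDefectGroup_map_conj hdef c

/-- spanning families in `K^r` contain `r` members with nonzero determinant -/
theorem exists_det_ne {K : Type*} [Field K] {r : ℕ} {ι : Type*} [Finite ι] (v : ι → Fin r → K)
    (hspan : Submodule.span K (Set.range v) = ⊤) :
    ∃ a : Fin r → ι, Function.Injective a ∧ (Matrix.of fun i j => v (a i) j).det ≠ 0 := by
  classical
  obtain ⟨κ, a, ha, hs, hli⟩ := exists_linearIndependent' K v
  haveI : Finite κ := Finite.of_injective a ha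
  letI := Fintype.ofFinite κ
  have h1 := finrank_span_eq_card hli
  rw [hs, hspan, finrank_top, Module.finrank_fin_fun] at h1
  let e : Fin r ≃ κ := Fintype.equivOfCardEq (by simpa using h1)
  refine ⟨a ∘ e, ha.comp e.injective, ?_⟩
  have h2 : LinearIndependent K (Matrix.of fun i j => v ((a ∘ e) i) j).row := by
    have := hli.comp e e.injective
    exact this
  rw [Matrix.linearIndependent_rows_iff_isUnit, Matrix.isUnit_iff_isUnit_det] at h2
  exact h2.ne_zero

theorem span_eq_top {K : Type*} [Field K] {r : ℕ} {β : Type*} [Fintype β] (v T : β → Fin r → K)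
    (P : β → Prop) (h : ∀ i j : Fin r, (if i = j then (1 : K) else 0) = ∑ b, T b i * v b j)
    (hP : ∀ b i j, T b i ≠ 0 → v b j ≠ 0 → P b) :
    Submodule.span K (Set.range (fun b : {b // P b} => v b.1)) = ⊤ := by
  classical
  rw [eq_top_iff, ← (Pi.basisFun K (Fin r)).span_eq]
  rw [Submodule.span_le]
  rintro _ ⟨i, rfl⟩
  have h1 : (Pi.basisFun K (Fin r)) i = ∑ b, T b i • v b := by
    funext j
    rw [Finset.sum_apply]
    simp only [Pi.smul_apply, smul_eq_mul]
    rw [← h i j]
    simp [Pi.basisFun_apply, Pi.single_apply, eq_comm]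
  rw [h1]
  refine Submodule.sum_mem _ fun b _ => ?_
  by_cases h2 : T b i = 0
  · rw [h2, zero_smul]; exact Submodule.zero_mem _
  by_cases h3 : v b = 0
  · rw [h3, smul_zero]; exact Submodule.zero_mem _
  obtain ⟨j, hj⟩ : ∃ j, v b j ≠ 0 := by
    by_contra! hc
    exact h3 (funext hc)
  exact Submodule.smul_mem _ _ (Submodule.subset_span ⟨⟨b, hP b i j h2 hj⟩, rfl⟩)

/-- existence of the blocks -/
theorem exists_blocks (hM : IsPModular p M) [M.IsMaximal] {r : ℕ} (x : Fin r → G) (D : Subgroup G)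
    (hx : ∀ i j : Fin r, IsConj (x i) (x j) → i = j)
    (hD : ∀ i : Fin r, ∃ S : Sylow p (Subgroup.centralizer ({x i} : Set G)), sylC (x i) S = D)
    (hsep : ∀ i j : Fin r, ∀ g h : G, IsConj (x i) g → IsConj (x j) h →
      ∀ k : ℕ, 0 < k → orderOf (g * h⁻¹) ≠ p ^ k)
    (ξ : {B : Set (IrrCharacter G) // IsPBlock M B} → IrrCharacter G) (hξ : ∀ B, ξ B ∈ B.1) :
    ∃ a : Fin r → {B : Set (IrrCharacter G) // IsPBlock M B}, Function.Injective a ∧
      (∀ i, IsDefectGroup p M (a i).1 D) ∧
      (Matrix.of fun i j => redFun M (centralChar (ξ (a i) : G → ℂ) (x j))).det ≠ 0 := by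
  classical
  haveI := pm_isPrime hM
  letI : Fintype {B : Set (IrrCharacter G) // IsPBlock M B} := Fintype.ofFinite _
  letI : Field (ResF M) := Ideal.Quotient.field M
  have hspan := span_eq_top
    (fun (B : {B : Set (IrrCharacter G) // IsPBlock M B}) (j : Fin r) =>
      redFun M (centralChar (ξ B : G → ℂ) (x j)))
    (fun B i => redFun M (T M p B.1 (x i))) (fun B => IsDefectGroup p M B.1 D)
    (fun i j => red_identity hM x hx hsep ξ hξ i j) (by
      intro B i j h2 hj
      have hT : MemLocalRing M (T M p B.1 (x i)) := by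
        rw [T_eq]
        refine locR_sum fun χ _ => ?_
        split_ifs
        · exact term_mem hM χ _
        · exact locR_zero
      have h2' : ¬ MemLocalIdeal M (T M p B.1 (x i)) := fun hc =>
        h2 ((redFun_eq_zero_iff hT).2 hc)
      have hj' : ¬ MemLocalIdeal M (centralChar (ξ B : G → ℂ) (x j)) := fun hc =>
        hj ((redFun_eq_zero_iff (centralChar_memR _ _)).2 hc)
      exact isDefectGroup_of_ne hM B.2 (hD i) (hD j) h2' ⟨ξ B, hξ B, hj'⟩)
  obtain ⟨a, ha, hdet⟩ := exists_det_ne _ hspan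
  exact ⟨fun i => (a i).1, fun i j hij => ha (Subtype.ext hij), fun i => (a i).2, hdet⟩

/-- `χ(x) = (χ(1)/|K|) ω_χ(K)`. -/
theorem char_eq_mul (χ : IrrCharacter G) (x : G) :
    (χ : G → ℂ) x = (charDegree (χ : G → ℂ) : ℂ) *
      (((Subgroup.centralizer ({x} : Set G)).index : ℂ)⁻¹ * centralChar (χ : G → ℂ) x) := by
  have h1 := H18.CharBasic.irr_one_ne_zero χ.2
  have h2 : ((Subgroup.centralizer ({x} : Set G)).index : ℂ) ≠ 0 := by
    exact_mod_cast Subgroup.index_ne_zero_of_finite
  rw [charDegree_irr, centralChar]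
  field_simp

/-- a natural number is `p^f * m` -/
theorem natCast_fact (n : ℕ) : (n : ℂ) = (p : ℂ) ^ (n.factorization p) *
    ((n / p ^ n.factorization p : ℕ) : ℂ) := by
  have := (Nat.mul_div_cancel' (Nat.ordProj_dvd n p)).symm
  exact_mod_cast this

theorem det_not_mem (hM : IsPModular p M) [M.IsMaximal] {r : ℕ} (x : Fin r → G) (D : Subgroup G)
    (hD : ∀ i : Fin r, ∃ S : Sylow p (Subgroup.centralizer ({x i} : Set G)), sylC (x i) S = D)
    (B : Fin r → Set (IrrCharacter G)) (hB : ∀ i, IsPBlock M (B i))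
    (hBD : ∀ i, IsDefectGroup p M (B i) D) (ξ : Fin r → IrrCharacter G) (hξ : ∀ i, ξ i ∈ B i)
    (hdet : (Matrix.of fun i j => redFun M (centralChar (ξ i : G → ℂ) (x j))).det ≠ 0)
    (χ : Fin r → IrrCharacter G)
    (hχ : ∀ i, χ i ∈ B i ∧ blockHeight p (B i) (χ i : G → ℂ) = 0) :
    ¬ MemLocalIdeal M (Matrix.det (Matrix.of fun i j : Fin r => (χ i : G → ℂ) (x j))) := by
  classical
  haveI := pm_isPrime hM
  haveI : Fact p.Prime := ⟨pm_prime hM⟩
  have hp : (p : ℂ) ≠ 0 := by exact_mod_cast (pm_prime hM).ne_zero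
  set W : Matrix (Fin r) (Fin r) ℂ := Matrix.of fun i j => centralChar (χ i : G → ℂ) (x j) with hW
  -- determinant of the reduced matrix
  let Wl : Matrix (Fin r) (Fin r) (locRing M) :=
    Matrix.of fun i j => ⟨centralChar (χ i : G → ℂ) (x j), centralChar_memR _ _⟩
  have h1 : ((Wl.det : locRing M) : ℂ) = W.det := by
    have := RingHom.map_det (locRing M).subtype Wl
    exact this
  have h2 : redFun M W.det ≠ 0 := by
    rw [← h1]
    have h3 := RingHom.map_det (redHom M) Wl
    have h4 : redHom M Wl.det = redFun M ((Wl.det : locRing M) : ℂ) := rfl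
    rw [← h4, h3]
    convert hdet using 2
    ext i j
    simp only [RingHom.mapMatrix_apply, Matrix.map_apply, Matrix.of_apply, Wl]
    change redFun M (centralChar (χ i : G → ℂ) (x j)) = _
    rw [redFun_eq_iff (centralChar_memR _ _) (centralChar_memR _ _)]
    exact isPBlock_sameBlock (hB i) (hχ i).1 (hξ i) _
  have hWl : MemLocalRing M W.det := by rw [← h1]; exact (Wl.det).2
  have h2' : ¬ MemLocalIdeal M W.det := by
    rwa [Ne, redFun_eq_zero_iff hWl] at h2
  -- the p-parts
  rcases Nat.eq_zero_or_pos r with hr | hr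
  · subst hr
    rw [Matrix.det_isEmpty]
    exact not_locI_one
  set e := (charDegree (χ ⟨0, hr⟩ : G → ℂ)).factorization p with he
  have hcard : ∀ i, Nat.card D = p ^ blockDefect p (B i) := fun i => card_defectGroup hM (hB i) (hBD i)
  have hbd : ∀ i j, blockDefect p (B i) = blockDefect p (B j) := by
    intro i j
    have := (hcard i).symm.trans (hcard j)
    exact Nat.pow_right_injective (pm_prime hM).two_le this
  have hdeg : ∀ i, (charDegree (χ i : G → ℂ)).factorization p = e := by
    intro i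
    have h3 := (height_zero_iff hM (hB i) (hχ i).1).1 (hχ i).2
    have h4 := (height_zero_iff hM (hB ⟨0, hr⟩) (hχ ⟨0, hr⟩).1).1 (hχ ⟨0, hr⟩).2
    have h5 := hbd i ⟨0, hr⟩
    omega
  have hidx : ∀ j, (Subgroup.centralizer ({x j} : Set G)).index.factorization p = e := by
    intro j
    obtain ⟨S, hS⟩ := hD j
    have h3 := (height_zero_iff hM (hB j) (hχ j).1).1 (hχ j).2
    have h4 := factorization_index (p := p) (x j)
    have h5 := card_sylC_eq (p := p) (x j) S
    rw [hS, hcard j] at h5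
    have h6 := Nat.pow_right_injective (pm_prime hM).two_le h5
    have h7 := hdeg j
    omega
  let m : Fin r → ℂ := fun i =>
    ((charDegree (χ i : G → ℂ) / p ^ (charDegree (χ i : G → ℂ)).factorization p : ℕ) : ℂ)
  let k : Fin r → ℂ := fun j => (((Subgroup.centralizer ({x j} : Set G)).index /
    p ^ (Subgroup.centralizer ({x j} : Set G)).index.factorization p : ℕ) : ℂ)
  have hm : ∀ i, MemLocalRing M (m i) ∧ ¬ MemLocalIdeal M (m i) := by
    intro i
    refine ⟨locR_natCast _, ?_⟩
    rw [locI_natCast_iff hM]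
    exact Nat.not_dvd_ordCompl (pm_prime hM) (charDegree_ne_zero (χ i))
  have hk : ∀ i, MemLocalRing M (k i) ∧ ¬ MemLocalIdeal M (k i) := by
    intro i
    refine ⟨locR_natCast _, ?_⟩
    rw [locI_natCast_iff hM]
    exact Nat.not_dvd_ordCompl (pm_prime hM) Subgroup.index_ne_zero_of_finite
  have hentry : (Matrix.of fun i j : Fin r => (χ i : G → ℂ) (x j)) =
      Matrix.of fun i j => m i * (Matrix.of fun i j => (k j)⁻¹ * W i j) i j := by
    ext i j
    simp only [Matrix.of_apply, hW]
    rw [char_eq_mul, natCast_fact (p := p) (charDegree (χ i : G → ℂ)),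
      natCast_fact (p := p) (Subgroup.centralizer ({x j} : Set G)).index, hdeg i, hidx j]
    simp only [m, k, hdeg i, hidx j]
    have : (p : ℂ) ^ e ≠ 0 := pow_ne_zero _ hp
    field_simp
  rw [hentry, Matrix.det_mul_column, Matrix.det_mul_row]
  refine not_locI_mul (locR_prod fun i _ => (hm i).1)
    (locR_mul (locR_prod fun i _ => locR_inv (hk i).1 (hk i).2) hWl)
    (not_locI_prod (fun i _ => (hm i).1) fun i _ => (hm i).2) ?_
  exact not_locI_mul (locR_prod fun i _ => locR_inv (hk i).1 (hk i).2) hWl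
    (not_locI_prod (fun i _ => locR_inv (hk i).1 (hk i).2)
      fun i _ => not_locI_inv (hk i).1 (hk i).2) h2'

end H81.BlockDet
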