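import Mathlib
import Cfsg.Agent.Lib.H4.Commutator
import Cfsg.Agent.Lib.H18.CharInd
import Cfsg.Agent.Lib.H18.CharQuot

/-!
# Averages of irreducible characters over products of classes (H81.CharAvg)
-/

set_option autoImplicit false
set_option linter.unusedSectionVars false
set_option linter.unusedVariables false
open Cfsg
open scoped ComplexConjugate

namespace H81.CharAvg

universe u
variable {G : Type u} [Group G]

/-- `∑ₐ χ(a x a⁻¹ y) = |G| χ(x) χ(y) / χ(1)` -/
theorem sum_conj_mul [Fintype G] {χ : G → ℂ} (hχ : IsIrrCharacter G χ) (x y : G) :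
    ∑ a : G, χ (a * x * a⁻¹ * y) = (Nat.card G : ℂ) * χ x * χ y / χ 1 := by
  obtain ⟨n, ρ, hρ, rfl⟩ := hχ
  have h1 := H4.Commutator.sum_conj_op ρ hρ x
  have h2 : ∑ a : G, ρ.character (a * x * a⁻¹ * y) =
      LinearMap.trace ℂ _ ((∑ a : G, ρ (a * x * a⁻¹)) ∘ₗ ρ y) := by
    have h3 : (∑ a : G, ρ (a * x * a⁻¹)) ∘ₗ ρ y = ∑ a : G, ρ (a * x * a⁻¹ * y) := by
      apply LinearMap.ext
      intro v
      simp only [LinearMap.comp_apply, LinearMap.sum_apply, map_mul, Module.End.mul_apply]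
    rw [h3, map_sum]
    rfl
  rw [h2, h1, LinearMap.smul_comp, LinearMap.id_comp, map_smul, smul_eq_mul]
  rw [Representation.char_one]
  change _ * ρ.character y = _
  ring

/-- `∑ₐ∑_b χ(xᵃ yᵇ) = |G|² χ(x) χ(y) / χ(1)` -/
theorem sum_sum_conj [Fintype G] {χ : G → ℂ} (hχ : IsIrrCharacter G χ) (x y : G) :
    ∑ a : G, ∑ b : G, χ (a * x * a⁻¹ * (b * y * b⁻¹)) =
      (Nat.card G : ℂ) ^ 2 * (χ x * χ y / χ 1) := by
  rw [Finset.sum_comm]
  have hcl := H18.CharBasic.isClassFunction_of_isIrr hχ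
  have h1 : ∀ b : G, ∑ a : G, χ (a * x * a⁻¹ * (b * y * b⁻¹)) =
      (Nat.card G : ℂ) * χ x * χ y / χ 1 := by
    intro b
    rw [sum_conj_mul hχ x (b * y * b⁻¹), hcl]
  simp only [h1]
  rw [Finset.sum_const, Finset.card_univ, nsmul_eq_mul, ← Nat.card_eq_fintype_card]
  ring

/-- if `χ` is constant on the product of two classes then the value is determined. -/
theorem eq_of_const [Finite G] {χ : G → ℂ} (hχ : IsIrrCharacter G χ) (x y : G) (c : ℂ)
    (h : ∀ a b : G, χ (a * x * a⁻¹ * (b * y * b⁻¹)) = c) : χ 1 * c = χ x * χ y := by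
  have := Fintype.ofFinite G
  have h1 := sum_sum_conj hχ x y
  simp only [h] at h1
  rw [Finset.sum_const, Finset.sum_const, Finset.card_univ, nsmul_eq_mul, nsmul_eq_mul,
    ← Nat.card_eq_fintype_card] at h1
  have h2 : (Nat.card G : ℂ) ≠ 0 := by exact_mod_cast Nat.card_pos.ne'
  have h3 := H18.CharBasic.irr_one_ne_zero hχ
  have h4 : c = χ x * χ y / χ 1 := by
    have h5 : (Nat.card G : ℂ) ^ 2 * c = (Nat.card G : ℂ) ^ 2 * (χ x * χ y / χ 1) := by
      rw [← h1]; ring
    exact mul_left_cancel₀ (pow_ne_zero 2 h2) h5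
  rw [h4]; field_simp

/-- The characterization of products of classes being a single class. -/
theorem isConj_prod_iff [Finite G] (x y : G) :
    (∀ z : G, IsConj (x * y) z ↔ ∃ a b : G, z = a * x * a⁻¹ * (b * y * b⁻¹)) ↔
      ∀ a b : G, IsConj (x * y) (a * x * a⁻¹ * (b * y * b⁻¹)) := by
  constructor
  · intro h a b
    exact (h _).2 ⟨a, b, rfl⟩
  · intro h z
    constructor
    · intro hz
      obtain ⟨c, hc⟩ := isConj_iff.1 hz
      exact ⟨c, c, by rw [← hc]; group⟩
    · rintro ⟨a, b, rfl⟩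
      exact h a b

end H81.CharAvg
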