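import Cfsg.Agent.Lib.H81.U5616a
import Cfsg.Prelude.Def_DegreeGraph

/-!
# Primes dividing the degrees of the simple groups of order 2520 and 5616 (towards S3668)
-/

set_option autoImplicit false
set_option linter.unusedSectionVars false
set_option linter.unusedVariables false
set_option linter.style.haveILetI false

namespace H81.Deg60

open Cfsg H18.CharBasic H18.CharOrtho H18.CharInd H21.PLat H21.BK H21.BT H21.NE

universe u

/-- no exceptional vector fills the group -/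
def small (N p B : ℕ) (x : ℕ × ℕ × List ℕ) : Bool :=
  (N / p == x.1 * x.2.1) &&
  !(1 + sqv (cands N p x.1 x.2.1 1 B) x.2.2 + (p - 1) / x.2.1 *
    ((1 + tv p (cands N p x.1 x.2.1 1 B) x.2.2).natAbs * (1 + tv p (cands N p x.1 x.2.1 1 B) x.2.2).natAbs) == N)

theorem mem_of_chk {G : Type u} [Group G] [Fintype G] [Fintype (IrrCharacter G)] [IsSimpleGroup G]
    (hG : ¬ IsMulCommutative G) {N : ℕ} (hN : Nat.card G = N) (p : ℕ) [hp : Fact p.Prime] (hp3 : 2 < p) (B : ℕ)
    (hB : N ≤ B * B) (qs : List (ℕ × ℕ)) (hqp : ∀ x ∈ qs, x.1.Prime)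
    (exc : List (ℕ × ℕ × List ℕ)) (hchk : chk2 N p B qs exc = true) (hs : exc.all (small N p B) = true) :
    p ∈ degreePrimes G := by
  classical
  obtain ⟨x0, a, Y, ε, e, n, c, h, hmem⟩ := main2 hG hN p B qs hqp exc hchk
  rw [List.all_eq_true] at hs
  have h0 := hs _ hmem
  simp only [small, Bool.and_eq_true, beq_iff_eq, Bool.not_eq_true', beq_eq_false_iff_ne] at h0
  obtain ⟨h1, h2⟩ := h0
  have hc : c = 1 := by
    have h3 := h.hcard
    rw [hN] at h3
    have h4 : N / p = c * e * (1 + n * p) := by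
      rw [h3, mul_assoc, mul_assoc, Nat.mul_div_cancel_left _ hp.out.pos, mul_assoc]
    rw [h4, mul_assoc, mul_comm (1 + n * p) e] at h1
    have h5 : 0 < e * (1 + n * p) := Nat.mul_pos h.e_pos (by omega)
    exact Nat.eq_of_mul_eq_mul_right h5 (by rw [one_mul]; exact h1)
  subst hc
  by_contra hcon
  have hnd : ∀ χ : IrrCharacter G, ¬ p ∣ charDegree (χ : G → ℂ) := by
    intro χ hd
    exact hcon ⟨hp.out, _, ⟨χ, rfl⟩, hd⟩
  have huniv : (Finset.univ : Finset (IrrCharacter G)) = insert (triv G) (SS a ∪ Y) := by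
    symm
    apply Finset.eq_univ_of_forall
    intro χ
    rw [Finset.mem_insert, Finset.mem_union]
    by_cases hχ : χ = triv G
    · exact Or.inl hχ
    · rcases mem_of_c_one h rfl (hnd χ) with h3 | h3
      · exact Or.inr (Or.inl (mem_SS.2 ⟨h3, hχ⟩))
      · exact Or.inr (Or.inr h3)
  have hd1 : Disjoint (SS a) Y := by
    rw [Finset.disjoint_left]
    intro χ h2 h3
    exact (mem_SS.1 h2).1 (h.hYa χ h3)
  have hd2 : triv G ∉ SS a ∪ Y := by
    rw [Finset.mem_union]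
    rintro (h2 | h2)
    · exact (mem_SS.1 h2).2 rfl
    · exact h.triv_notin h2 rfl
  have hsq : 1 + ∑ χ ∈ SS a, charDegree (χ : G → ℂ) ^ 2 + ∑ χ ∈ Y, charDegree (χ : G → ℂ) ^ 2 = N := by
    rw [← hN, ← H82.Deg.sum_degree_sq_nat (G := G), huniv, Finset.sum_insert hd2, Finset.sum_union hd1,
      triv_degree, one_pow, add_assoc]
  apply h2
  obtain ⟨θ, hθ⟩ := h.exists_Y
  set L := cands N p (1 + n * p) e 1 B with hL
  obtain ⟨g1, g2, g3⟩ := degree_eq h hp3 hG (B := B) (by rw [hN]; exact hB) hθ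
  rw [hN, ← hL] at g1 g2 g3
  have htv : 1 + tv p L (L.map (cnt (SS a))) = ε * (charDegree (θ : G → ℂ) : ℤ) := by
    rw [tv_map, g2]
  have h6 : (ε * (charDegree (θ : G → ℂ) : ℤ)).natAbs = charDegree (θ : G → ℂ) := by
    rcases h.hε with h7 | h7
    · rw [h7, one_mul, Int.natAbs_natCast]
    · rw [h7, neg_one_mul, Int.natAbs_neg, Int.natAbs_natCast]
  obtain ⟨s, hs1, hs2, hs3⟩ := h.exists_s
  have h9 : (p - 1) / e = s := by
    rw [hs2, Nat.add_sub_cancel, Nat.mul_div_cancel_left _ h.e_pos]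
  have h10 : ∑ χ ∈ Y, charDegree (χ : G → ℂ) ^ 2 = s * (charDegree (θ : G → ℂ) * charDegree (θ : G → ℂ)) := by
    rw [Finset.sum_congr rfl (fun χ hχ => by rw [degree_Y h hχ hθ]), Finset.sum_const, hs3,
      smul_eq_mul, pow_two]
  rw [htv, h6, h9, sqv_map, ← g3, ← h10]
  exact hsq

theorem deg2520 {S : Type u} [Group S] [Finite S] [IsSimpleGroup S] (h : Nat.card S = 2520) :
    5 ∈ Cfsg.degreePrimes S ∧ 7 ∈ Cfsg.degreePrimes S := by
  letI := Fintype.ofFinite S
  letI : Fintype (IrrCharacter S) := Fintype.ofFinite _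
  have f5 : Fact (Nat.Prime 5) := ⟨by norm_num⟩
  have f7 : Fact (Nat.Prime 7) := ⟨by norm_num⟩
  have hG := not_comm_of_card h (by norm_num)
  constructor
  · refine mem_of_chk hG h 5 (by norm_num) 51 (by norm_num) [(2,8),(3,9),(7,7)] (by
      intro x hx
      simp only [List.mem_cons, List.not_mem_nil, or_false] at hx
      rcases hx with rfl | rfl | rfl <;> norm_num)
      [(126, 4, [0, 0, 0, 2, 0, 0, 1]), (126, 4, [0, 0, 0, 2, 1, 0, 0]),
      (126, 4, [0, 0, 1, 0, 0, 1, 1]),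
      (126, 4, [0, 0, 1, 1, 0, 0, 1]),
      (126, 4, [0, 0, 1, 2, 0, 0, 0]),
      (126, 4, [0, 0, 2, 0, 1, 0, 0]),
      (126, 4, [0, 1, 0, 1, 1, 0, 0]),
      (126, 4, [0, 1, 0, 2, 0, 0, 0]),
      (126, 4, [0, 2, 1, 0, 0, 0, 0]),
      (126, 4, [1, 0, 0, 0, 0, 1, 1]),
      (126, 4, [1, 0, 0, 1, 1, 0, 0]),
      (126, 4, [1, 0, 1, 0, 0, 0, 1]),
      (126, 4, [1, 0, 1, 0, 0, 1, 0]),
      (126, 4, [1, 0, 1, 0, 1, 0, 0]),
      (126, 4, [1, 0, 2, 0, 0, 0, 0]),
      (126, 4, [1, 1, 1, 0, 0, 0, 0]),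
      (126, 4, [1, 2, 0, 0, 0, 0, 0]),
      (126, 4, [2, 0, 0, 0, 1, 0, 0]),
      (126, 4, [2, 0, 0, 1, 0, 0, 0])] (by decide +kernel) (by decide +kernel)
  · refine mem_of_chk hG h 7 (by norm_num) 51 (by norm_num) [(2,8),(3,9),(5,5)] (by
      intro x hx
      simp only [List.mem_cons, List.not_mem_nil, or_false] at hx
      rcases hx with rfl | rfl | rfl <;> norm_num)
      [(120, 3, [0, 0, 1, 1, 0]), (120, 3, [0, 1, 1, 0, 0]), (120, 3, [1, 0, 1, 0, 0]),
        (120, 3, [1, 1, 0, 0, 0])] (by decide +kernel) (by decide +kernel)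

theorem deg5616 {S : Type u} [Group S] [Finite S] [IsSimpleGroup S] (h : Nat.card S = 5616) :
    3 ∈ Cfsg.degreePrimes S ∧ 13 ∈ Cfsg.degreePrimes S := by
  letI := Fintype.ofFinite S
  letI : Fintype (IrrCharacter S) := Fintype.ofFinite _
  have f13 : Fact (Nat.Prime 13) := ⟨by norm_num⟩
  have hG := not_comm_of_card h (by norm_num)
  constructor
  · obtain ⟨y, α, β, Y, hd⟩ := H81.U5616.exists_dat h
    exact ⟨by norm_num, _, ⟨α, hd.dα⟩, by norm_num⟩
  · refine mem_of_chk hG h 13 (by norm_num) 75 (by norm_num) [(2,16),(3,27)] (by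
      intro x hx
      simp only [List.mem_cons, List.not_mem_nil, or_false] at hx
      rcases hx with rfl | rfl <;> norm_num)
      [(144, 3, [1, 1])] (by decide +kernel) (by decide +kernel)

end H81.Deg60
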