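import Mathlib
import Cfsg.Prelude.Def_Blocks
import Cfsg.Agent.Lib.H4.Eigen
import Cfsg.Agent.Lib.H31.Clifford
import Cfsg.Agent.Lib.H81.DegNormal

/-!
# Extending invariant linear characters with determinants (H81.DetExt)
-/

set_option autoImplicit false
set_option linter.unusedSectionVars false
set_option linter.unusedVariables false
open Cfsg H18.CharQuot H31.Clifford
open scoped ComplexConjugate

namespace H81.DetExt

universe u

/-- If `ψ` restricts to `ψ(1) λ` on the `p`-subgroup `N` with `λ` linear and `p ∤ ψ(1)` then `λ`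
extends to a linear character. -/
theorem exists_linear_extension {T : Type u} [Group T] [Finite T] (N : Subgroup T) {p k : ℕ}
    [hp : Fact p.Prime] (hN : Nat.card N = p ^ k) {ψ : T → ℂ} (hψ : IsIrrCharacter T ψ) {d : ℕ}
    (hd : ψ 1 = d) (hpd : ¬ p ∣ d) (f : N →* ℂˣ) (hres : ∀ n : N, ψ n = d * (f n : ℂ)) :
    ∃ F : T →* ℂˣ, ∀ n : N, F n = f n := by
  obtain ⟨m, ρ, hρ, rfl⟩ := hψ
  have hfr : (Module.finrank ℂ (Fin m → ℂ) : ℂ) = d := by rw [← hd, Representation.char_one]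
  have hfr' : Module.finrank ℂ (Fin m → ℂ) = d := by exact_mod_cast hfr
  have hd0 : d ≠ 0 := by rintro rfl; exact hpd (dvd_zero p)
  have hsc : ∀ n : N, ρ n = (f n : ℂ) • (LinearMap.id : (Fin m → ℂ) →ₗ[ℂ] (Fin m → ℂ)) := by
    intro n
    have h1 : ‖ρ.character n‖ = (Module.finrank ℂ (Fin m → ℂ) : ℝ) := by
      rw [hres, norm_mul, H18.CharBasic.hom_norm_one f n, mul_one, hfr', Complex.norm_natCast]
    rw [H4.Eigen.norm_char_eq_iff] at h1
    obtain ⟨ω, hω⟩ := h1
    have h2 : ρ.character n = ω * d := by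
      change LinearMap.trace ℂ _ (ρ n) = _
      rw [hω, map_smul, LinearMap.trace_id, smul_eq_mul, hfr]
    have h3 : ω = (f n : ℂ) := by
      have h4 : (d : ℂ) ≠ 0 := by exact_mod_cast hd0
      apply mul_right_cancel₀ h4
      rw [← h2, hres, mul_comm]
    rw [hω, h3]
  -- exponent
  have hcop : Nat.Coprime d (p ^ k) :=
    (Nat.Coprime.pow_left k ((Nat.Prime.coprime_iff_not_dvd hp.out).2 hpd)).symm
  obtain ⟨e, he⟩ : ∃ e : ℕ, d * e ≡ 1 [MOD p ^ k] := by
    rcases Nat.eq_zero_or_pos k with h | h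
    · exact ⟨0, by rw [h, pow_zero]; exact Nat.modEq_one⟩
    · have h1 : 1 < p ^ k := Nat.one_lt_pow h.ne' hp.out.one_lt
      obtain ⟨e, he⟩ := Nat.exists_mul_mod_eq_one_of_coprime hcop h1
      exact ⟨e, by rw [Nat.ModEq, he.2, Nat.mod_eq_of_lt h1]⟩
  let g : T →* ℂ := LinearMap.det.comp ρ
  refine ⟨g.toHomUnits ^ e, fun n => ?_⟩
  apply Units.ext
  have h5 : g n = (f n : ℂ) ^ d := by
    change LinearMap.det (ρ n) = _
    rw [hsc, LinearMap.det_smul, LinearMap.det_id, mul_one, hfr']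
  have h6 : (f n) ^ (p ^ k) = 1 := by
    rw [← map_pow, ← hN, pow_card_eq_one', map_one]
  have h7 : (f n) ^ (d * e) = f n := by
    have h8 := pow_eq_pow_iff_modEq.2 (he.of_dvd (orderOf_dvd_of_pow_eq_one h6))
    rw [h8, pow_one]
  have h9 : ((g.toHomUnits ^ e) (n : T) : ℂ) = (g n) ^ e := by
    rw [MonoidHom.pow_apply]; simp
  rw [h9, h5, ← pow_mul, ← Units.val_pow_eq_pow_val, h7]

end H81.DetExt
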