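import Mathlib
import Cfsg.Prelude.Def_Blocks
import Cfsg.Agent.Lib.H81.DetExt
import Cfsg.Agent.Lib.H37.PSolv

/-!
# Derived length of the Sylow subgroup and characters of degree divisible by p (H81.DerivedBound)
-/

set_option autoImplicit false
set_option linter.unusedSectionVars false
set_option linter.unusedVariables false
open Cfsg H18.CharQuot H31.Clifford H81.DegNormal
open scoped ComplexConjugate

namespace H81.DerivedBound

universe u

section derived

theorem derived_mono {A : Type*} [Group A] {k l : ℕ} (hkl : k ≤ l)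
    (h : derivedSeries A k = ⊥) : derivedSeries A l = ⊥ := by
  have h1 := derivedSeries_antitone A hkl
  rw [h, le_bot_iff] at h1
  exact h1

theorem derived_of_injective {A B : Type*} [Group A] [Group B] (f : A →* B)
    (hf : Function.Injective f) {k : ℕ} (h : derivedSeries B k = ⊥) : derivedSeries A k = ⊥ := by
  have h1 := map_derivedSeries_le_derivedSeries f k
  rw [h, le_bot_iff] at h1
  exact (Subgroup.map_eq_bot_iff_of_injective _ hf).1 h1

theorem derived_succ {A B : Type*} [Group A] [Group B] (f : A →* B)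
    (hf : ∀ a ∈ f.ker, ∀ b ∈ f.ker, a * b = b * a) {k : ℕ} (h : derivedSeries B k = ⊥) :
    derivedSeries A (k + 1) = ⊥ := by
  have h1 := map_derivedSeries_le_derivedSeries f k
  rw [h, le_bot_iff, Subgroup.map_eq_bot_iff] at h1
  rw [derivedSeries_succ, Subgroup.commutator_eq_bot_iff_le_centralizer]
  intro a ha
  rw [Subgroup.mem_centralizer_iff]
  intro b hb
  exact hf b (h1 hb) a (h1 ha)

theorem derived_one {A : Type*} [Group A] (h : ∀ a b : A, a * b = b * a) :
    derivedSeries A 1 = ⊥ := by
  rw [derivedSeries_succ, Subgroup.commutator_eq_bot_iff_le_centralizer]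
  intro a ha
  rw [Subgroup.mem_centralizer_iff]
  intro b hb
  exact h b a

end derived

variable {G : Type u} [Group G] [Finite G]

/-- number of irreducible characters of degree divisible by `p` -/
noncomputable def cnt (p : ℕ) (G : Type u) [Group G] : ℕ :=
  Nat.card {χ : IrrCharacter G // p ∣ charDegree (χ : G → ℂ)}

/-- inflation on irreducible characters -/
def infl (N : Subgroup G) [N.Normal] (χ : IrrCharacter (G ⧸ N)) : IrrCharacter G :=
  ⟨fun g => (χ : G ⧸ N → ℂ) (g : G ⧸ N), isIrrCharacter_inflate N χ.2⟩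

theorem infl_apply (N : Subgroup G) [N.Normal] (χ : IrrCharacter (G ⧸ N)) (g : G) :
    (infl N χ : G → ℂ) g = (χ : G ⧸ N → ℂ) (g : G ⧸ N) := rfl

theorem infl_injective (N : Subgroup G) [N.Normal] : Function.Injective (infl N) := by
  intro χ ψ h
  apply Subtype.ext
  funext q
  obtain ⟨g, rfl⟩ := QuotientGroup.mk_surjective q
  exact congrFun (congrArg Subtype.val h) g

theorem charDegree_infl (N : Subgroup G) [N.Normal] (χ : IrrCharacter (G ⧸ N)) :
    charDegree (infl N χ : G → ℂ) = charDegree (χ : G ⧸ N → ℂ) := rfl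

theorem cnt_quotient_le (p : ℕ) (N : Subgroup G) [N.Normal] : cnt p (G ⧸ N) ≤ cnt p G := by
  refine Nat.card_le_card_of_injective
    (fun χ => ⟨infl N χ.1, by rw [charDegree_infl]; exact χ.2⟩) ?_
  intro χ ψ h
  exact Subtype.ext (infl_injective N (congrArg Subtype.val h))

theorem cnt_quotient_lt (p : ℕ) (N : Subgroup G) [N.Normal] (χ : IrrCharacter G)
    (hχ : p ∣ charDegree (χ : G → ℂ)) (hN : ∃ n ∈ N, (χ : G → ℂ) n ≠ (χ : G → ℂ) 1) :
    cnt p (G ⧸ N) < cnt p G := by
  have := Fintype.ofFinite {χ : IrrCharacter G // p ∣ charDegree (χ : G → ℂ)}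
  have := Fintype.ofFinite {χ : IrrCharacter (G ⧸ N) // p ∣ charDegree (χ : G ⧸ N → ℂ)}
  unfold cnt
  rw [Nat.card_eq_fintype_card, Nat.card_eq_fintype_card]
  refine Fintype.card_lt_of_injective_of_notMem
    (fun χ : {χ : IrrCharacter (G ⧸ N) // p ∣ charDegree (χ : G ⧸ N → ℂ)} =>
      (⟨infl N χ.1, by rw [charDegree_infl]; exact χ.2⟩ :
      {χ : IrrCharacter G // p ∣ charDegree (χ : G → ℂ)})) ?_ (b := ⟨χ, hχ⟩) ?_
  · intro χ ψ h
    exact Subtype.ext (infl_injective N (congrArg Subtype.val h))
  · rintro ⟨ψ, hψ⟩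
    obtain ⟨n, hn, hne⟩ := hN
    apply hne
    have h1 : infl N ψ.1 = χ := congrArg Subtype.val hψ
    rw [← h1, infl_apply, infl_apply, (QuotientGroup.eq_one_iff n).2 hn]
    rfl

/-- If all irreducible characters not containing the nontrivial normal abelian `p`-subgroup `N` in
the kernel have degree prime to `p` then the Sylow `p`-subgroups are metabelian. -/
theorem metabelian_of {p : ℕ} [hp : Fact p.Prime] (hsolv : IsPSolvable p G) (N : Subgroup G)
    [N.Normal] (hNp : IsPGroup p N) (hNc : ∀ a b : N, a * b = b * a) (hN1 : N ≠ ⊥)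
    (hall : ∀ χ : IrrCharacter G, (∃ n ∈ N, (χ : G → ℂ) n ≠ (χ : G → ℂ) 1) →
      ¬ p ∣ charDegree (χ : G → ℂ)) (P : Sylow p G) : derivedSeries P 2 = ⊥ := by
  have := Fintype.ofFinite G
  have := Fintype.ofFinite N
  obtain ⟨n0, hn0⟩ := Subgroup.ne_bot_iff_exists_ne_one.1 hN1
  obtain ⟨θ, hθ, hθ0⟩ : ∃ θ : N → ℂ, IsIrrCharacter N θ ∧ θ n0 ≠ θ 1 := by
    by_contra hcon
    push Not at hcon
    exact hn0 (eq_one_of_forall_irr fun χ hχ => hcon χ hχ)
  have hθ1 : θ 1 = 1 := degree_one_of_comm hNc hθ
  obtain ⟨f, hf⟩ := exists_hom_of_degree_one (H18.CharBasic.isCharacter_of_isIrr hθ) hθ1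
  set T := inertia N θ with hTdef
  have := Fintype.ofFinite T
  have hNT : N ≤ T := le_inertia N (H18.CharBasic.isClassFunction_of_isIrr hθ)
  have hT : ∀ g : G, g ∈ T ↔ conjFunN N g θ = θ := fun g => Iff.rfl
  set N' := N.subgroupOf T with hN'
  have := Fintype.ofFinite N'
  -- degrees over θ
  have hdeg : ∀ ψ : T → ℂ, IsIrrCharacter T ψ → classInner (resH hNT ψ) θ ≠ 0 →
      ¬ p ∣ T.index * charDegree ψ := by
    intro ψ hψ h1
    obtain ⟨h2, h3⟩ := corr_irr N T hNT hθ hT hψ h1
    have h4 := hall ⟨_, h2⟩ (by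
      by_contra hcon
      push Not at hcon
      apply h1
      rw [← h3]
      have h5 : (fun h : N => indFun T ψ h) = (indFun T ψ 1) • (fun _ : N => (1 : ℂ)) := by
        funext h
        have h6 : indFun T ψ (h : G) = indFun T ψ 1 := hcon h h.2
        simp [h6]
      rw [h5, H18.CharOrtho.inner_smul_left,
        H18.CharOrtho.inner_irr_ne H18.CharBasic.isIrrCharacter_one hθ, mul_zero]
      intro h7
      apply hθ0
      rw [← h7])
    have h5 : charDegree (indFun T ψ) = T.index * charDegree ψ := by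
      apply H81.DegreeCount.charDegree_natCast
      have h6 : ψ 1 = (charDegree ψ : ℂ) := H81.DegreeCount.irr_one_eq ⟨ψ, hψ⟩
      rw [H18.CharInd.indFun_one, h6]
      push_cast; rfl
    rw [← h5]
    exact h4
  -- a character over θ
  obtain ⟨ψ, hψ, hψθ⟩ : ∃ ψ : T → ℂ, IsIrrCharacter T ψ ∧ classInner (resH hNT ψ) θ ≠ 0 := by
    obtain ⟨ψ, hψ, h1⟩ := exists_over N' (irr_thT N T hNT hθ)
    exact ⟨ψ, hψ, by rw [← inner_thT N T hNT]; exact h1⟩
  have hψdeg := hdeg ψ hψ hψθ
  have hidx : ¬ p ∣ T.index := fun h => hψdeg (dvd_mul_of_dvd_left h _)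
  have hψp : ¬ p ∣ charDegree ψ := fun h => hψdeg (dvd_mul_of_dvd_right h _)
  have hψ1 : ψ 1 = (charDegree ψ : ℂ) := H81.DegreeCount.irr_one_eq ⟨ψ, hψ⟩
  have hres := restrict_T N T hNT hθ hT hψ hψθ
  have hdT := degree_T N T hNT hθ hT hψ hψθ
  rw [hθ1, mul_one] at hdT
  rw [← hdT, hψ1] at hres
  obtain ⟨k, hk⟩ := IsPGroup.iff_card.1 hNp
  have hN'card : Nat.card N' = p ^ k := by
    rw [← hk]; exact Nat.card_congr (Subgroup.subgroupOfEquivOfLe hNT).toEquiv
  obtain ⟨F, hF⟩ := H81.DetExt.exists_linear_extension N' hN'card hψ hψ1 hψp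
    (f.comp (Subgroup.subgroupOfEquivOfLe hNT).toMonoidHom) (by
      intro n
      have h1 := congrFun hres ⟨((n : T) : G), Subgroup.mem_subgroupOf.1 n.2⟩
      rw [resH_apply, Pi.smul_apply, smul_eq_mul, hf] at h1
      exact h1)
  -- T/N' has all degrees prime to p
  have hN'n : N'.Normal := inferInstance
  have hno : NoDeg p (T ⧸ N') := by
    intro β hβ
    have h1 : IsIrrCharacter T ((fun x => (F x : ℂ)) * (infl N' β : T → ℂ)) :=
      isIrrCharacter_hom_mul F (infl N' β).2
    have h2 : charDegree ((fun x => (F x : ℂ)) * (infl N' β : T → ℂ)) =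
        charDegree (β : T ⧸ N' → ℂ) := by
      apply H81.DegreeCount.charDegree_natCast
      rw [Pi.mul_apply, map_one, H81.DegreeCount.irr_one_eq (infl N' β), charDegree_infl]
      simp
    refine hdeg _ h1 ?_ (by rw [h2]; exact dvd_mul_of_dvd_right hβ _)
    have h3 : resH hNT ((fun x => (F x : ℂ)) * (infl N' β : T → ℂ)) =
        ((charDegree (β : T ⧸ N' → ℂ) : ℕ) : ℂ) • θ := by
      funext n
      rw [resH_apply, Pi.mul_apply, Pi.smul_apply, smul_eq_mul, infl_apply]
      have h4 : (⟨(n : G), hNT n.2⟩ : T) ∈ N' := Subgroup.mem_subgroupOf.2 n.2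
      rw [(QuotientGroup.eq_one_iff _).2 h4, H81.DegreeCount.irr_one_eq β, mul_comm]
      congr 1
      have h5 := hF ⟨⟨(n : G), hNT n.2⟩, h4⟩
      rw [hf]
      have h6 : F (⟨(n : G), hNT n.2⟩ : T) = f n := h5
      rw [h6]
    rw [h3, H18.CharOrtho.inner_smul_left, H18.CharOrtho.inner_irr_self hθ, mul_one]
    exact_mod_cast (H81.DegreeCount.charDegree_pos β).ne'
  -- Sylow subgroup of T
  obtain ⟨Q⟩ : Nonempty (Sylow p T) := inferInstance
  let Q' : Sylow p (T ⧸ N') := Q.mapSurjective (QuotientGroup.mk'_surjective N')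
  have hQ' := (ito_iff (H37.PSolv.quotient (H37.PSolv.subgroup hsolv T) N') Q').2 hno
  have hQd : derivedSeries Q 2 = ⊥ := by
    let φ : Q →* Q' := (QuotientGroup.mk' N').subgroupMap (Q : Subgroup T)
    have hφ : ∀ x : Q, ((φ x : Q') : T ⧸ N') = ((x : T) : T ⧸ N') := fun x => rfl
    have hker : ∀ x ∈ φ.ker, ((x : T) : G) ∈ N := by
      intro x hx
      rw [MonoidHom.mem_ker] at hx
      have h1 : ((x : T) : T ⧸ N') = 1 := by rw [← hφ, hx]; rfl
      exact Subgroup.mem_subgroupOf.1 ((QuotientGroup.eq_one_iff _).1 h1)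
    refine derived_succ φ ?_ (derived_one (A := Q') ?_)
    · intro a ha b hb
      apply Subtype.ext
      apply Subtype.ext
      have h7 := congrArg (fun z : N => (z : G)) (hNc ⟨_, hker a ha⟩ ⟨_, hker b hb⟩)
      exact h7
    · intro a b
      exact hQ'.2.is_comm.comm a b
  -- transfer to G
  have hR : IsPGroup p ((Q : Subgroup T).map T.subtype) := Q.isPGroup'.map _
  have hRidx : ¬ p ∣ ((Q : Subgroup T).map T.subtype).index := by
    rw [Subgroup.index_map_subtype]
    intro h
    rcases hp.out.dvd_mul.1 h with h | h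
    · exact Q.not_dvd_index h
    · exact hidx h
  let R : Sylow p G := hR.toSylow hRidx
  let e1 : P ≃* R := Sylow.equiv P R
  let e2 : (Q : Subgroup T) ≃* ((Q : Subgroup T).map T.subtype) :=
    (Q : Subgroup T).equivMapOfInjective T.subtype T.subtype_injective
  let e : P →* Q := e2.symm.toMonoidHom.comp e1.toMonoidHom
  exact derived_of_injective e (e2.symm.injective.comp e1.injective) hQd

/-- **The bound on the derived length.** -/
theorem derived_bound {p : ℕ} [hp : Fact p.Prime] (n : ℕ) :
    ∀ (G : Type u) [Group G] [Finite G], Nat.card G = n → IsPSolvable p G →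
      ∀ P : Sylow p G, derivedSeries P (cnt p G + 1) = ⊥ := by
  induction n using Nat.strong_induction_on with
  | _ n ih =>
    intro G _ _ hn hsolv P
    have hcardlt : ∀ L : Subgroup G, L.Normal → L ≠ ⊥ → L.index < n := by
      intro L _ hL
      rw [← hn, ← L.index_mul_card]
      have h1 : 0 < L.index := Nat.pos_of_ne_zero Subgroup.index_ne_zero_of_finite
      have h2 : 1 < Nat.card L := by
        rw [Finite.one_lt_card_iff_nontrivial]
        exact (Subgroup.nontrivial_iff_ne_bot L).2 hL
      nlinarith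
    -- quotient step
    have hstep : ∀ (L : Subgroup G) [L.Normal], L ≠ ⊥ → ∀ (hc : ∀ a ∈ L, ∀ b ∈ L,
        a ∈ (P : Subgroup G) → b ∈ (P : Subgroup G) → a * b = b * a),
        derivedSeries P (cnt p (G ⧸ L) + 2) = ⊥ := by
      intro L _ hL hc
      have h1 := ih (Nat.card (G ⧸ L)) (hcardlt L inferInstance hL) (G ⧸ L) rfl
        (H37.PSolv.quotient hsolv L) (P.mapSurjective (QuotientGroup.mk'_surjective L))
      let φ : P →* (P.mapSurjective (QuotientGroup.mk'_surjective L)) :=
        (QuotientGroup.mk' L).subgroupMap (P : Subgroup G)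
      have hker : ∀ x ∈ φ.ker, (x : G) ∈ L := by
        intro x hx
        rw [MonoidHom.mem_ker] at hx
        have h1 : ((x : G) : G ⧸ L) = 1 := congrArg Subtype.val hx
        exact (QuotientGroup.eq_one_iff _).1 h1
      refine derived_succ φ ?_ h1
      intro a ha b hb
      exact Subtype.ext (hc a (hker a ha) b (hker b hb) a.2 b.2)
    have hstep' : ∀ (L : Subgroup G) [L.Normal], L ≠ ⊥ → L ⊓ (P : Subgroup G) = ⊥ →
        derivedSeries P (cnt p (G ⧸ L) + 1) = ⊥ := by
      intro L _ hL hc
      have h1 := ih (Nat.card (G ⧸ L)) (hcardlt L inferInstance hL) (G ⧸ L) rfl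
        (H37.PSolv.quotient hsolv L) (P.mapSurjective (QuotientGroup.mk'_surjective L))
      let φ : P →* (P.mapSurjective (QuotientGroup.mk'_surjective L)) :=
        (QuotientGroup.mk' L).subgroupMap (P : Subgroup G)
      refine derived_of_injective φ ?_ h1
      rw [injective_iff_map_eq_one]
      intro x hx
      have h1 : ((x : G) : G ⧸ L) = 1 := congrArg Subtype.val hx
      have h2 : (x : G) ∈ L ⊓ (P : Subgroup G) := ⟨(QuotientGroup.eq_one_iff _).1 h1, x.2⟩
      rw [hc, Subgroup.mem_bot] at h2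
      exact Subtype.ext h2
    by_cases hcnt : cnt p G = 0
    · -- all degrees prime to p
      have hno : NoDeg p G := by
        intro χ hχ
        unfold cnt at hcnt
        rw [Nat.card_eq_zero] at hcnt
        rcases hcnt with h | h
        · exact h.false ⟨χ, hχ⟩
        · exact h.not_finite inferInstance
      have h1 := (ito_iff hsolv P).2 hno
      rw [hcnt]
      exact derived_one fun a b => h1.2.is_comm.comm a b
    by_cases hpp : pPrimeCore p G = ⊥
    swap
    · have h1 := hstep' (pPrimeCore p G) hpp (by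
        have h2 := H1.Cores.coprime_card_pPrimeCore (G := G) p
        obtain ⟨k, hk⟩ := IsPGroup.iff_card.1 P.isPGroup'
        apply Disjoint.eq_bot
        apply Subgroup.disjoint_of_coprime_natCard
        rw [hk]
        exact Nat.Coprime.pow_right k h2)
      exact derived_mono (Nat.add_le_add_right (cnt_quotient_le p _) 1) h1
    · have hnt : Nontrivial G := by
        by_contra hcon
        rw [not_nontrivial_iff_subsingleton] at hcon
        apply hcnt
        unfold cnt
        rw [Nat.card_eq_zero]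
        left
        refine ⟨fun χ => ?_⟩
        have h1 := χ.2.trans (H81.DegreeCount.charDegree_dvd χ.1)
        rw [Nat.card_of_subsingleton (1 : G)] at h1
        exact hp.out.one_lt.ne' (Nat.eq_one_of_dvd_one h1)
      have hcore : pCore p G ≠ ⊥ := (H37.PSolv.core_ne_bot hsolv).resolve_right (fun h => h hpp)
      have hpc := H1.Cores.isPGroup_pCore (G := G) p
      set N := (Subgroup.center (pCore p G)).map (pCore p G).subtype with hN
      have hNn : N.Normal := inferInstance
      have hNle : N ≤ pCore p G := Subgroup.map_subtype_le _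
      have hNp : IsPGroup p N := hpc.to_le hNle
      have hNc : ∀ a b : N, a * b = b * a := by
        rintro ⟨a, ha⟩ ⟨b, hb⟩
        apply Subtype.ext
        change a * b = b * a
        obtain ⟨a', ha', rfl⟩ := Subgroup.mem_map.1 ha
        obtain ⟨b', hb', rfl⟩ := Subgroup.mem_map.1 hb
        exact congrArg Subtype.val (Subgroup.mem_center_iff.1 hb' a')
      have hN1 : N ≠ ⊥ := by
        have h1 : Nontrivial (pCore p G) := (Subgroup.nontrivial_iff_ne_bot _).2 hcore
        have h2 : Nontrivial (Subgroup.center (pCore p G)) := hpc.center_nontrivial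
        rw [hN, Ne, Subgroup.map_eq_bot_iff_of_injective _ (Subgroup.subtype_injective _)]
        exact (Subgroup.nontrivial_iff_ne_bot _).1 h2
      by_cases hex : ∃ χ : IrrCharacter G, p ∣ charDegree (χ : G → ℂ) ∧
          ∃ n ∈ N, (χ : G → ℂ) n ≠ (χ : G → ℂ) 1
      · obtain ⟨χ, hχ, hχN⟩ := hex
        have h1 := cnt_quotient_lt p N χ hχ hχN
        have h2 := hstep N hN1 (fun a ha b hb _ _ => congrArg Subtype.val (hNc ⟨a, ha⟩ ⟨b, hb⟩))
        exact derived_mono (by omega) h2
      · push Not at hex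
        have h1 := metabelian_of hsolv N hNp hNc hN1 (fun χ ⟨n, hn, hne⟩ hd =>
          hne (hex χ hd n hn)) P
        exact derived_mono (by omega) h1

end H81.DerivedBound
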