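import Cfsg.Agent.Lib.H21.PBlock
import Cfsg.Agent.Lib.H78.Cong
import Cfsg.Agent.Lib.H4.CenterIndex
import Cfsg.Agent.Lib.H81.EigenCount
import Cfsg.Agent.Lib.H59.SymAlt
import Cfsg.Agent.Lib.H82.Deg

/-!
# Groups with `χ(1) - χ(u) = 4` or `χ(u) = 0`: basic facts
-/

set_option autoImplicit false
set_option linter.unusedSectionVars false
set_option linter.style.haveILetI false

namespace H81.Four

open Cfsg H18.CharBasic H18.CharOrtho H18.CharQuot
open scoped ComplexConjugate

universe u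
variable {G : Type u} [Group G]

/-- The hypothesis. -/
def HU (G : Type u) [Group G] (w : G) : Prop :=
  ∀ χ : G → ℂ, IsIrrCharacter G χ → χ ≠ (fun _ => (1 : ℂ)) → (χ 1 - χ w = 4 ∨ χ w = 0)

variable [Finite G]

theorem exists_eigen_perfect (hperf : commutator G = ⊤) {χ : G → ℂ} (h : IsCharacter G χ) {n : ℕ}
    (hn : χ 1 = n) (g : G) : ∃ μ : Fin n → ℂ, (∀ i, μ i ^ orderOf g = 1) ∧
      (∀ k : ℕ, χ (g ^ k) = ∑ i, μ i ^ k) ∧ ∏ i, μ i = 1 := by
  obtain ⟨m, ρ, rfl⟩ := h
  have hm : m = n := by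
    have := Representation.char_one ρ
    rw [Module.finrank_fin_fun] at this
    rw [this] at hn
    exact_mod_cast hn
  subst hm
  obtain ⟨b, μ, h1, h2, h3⟩ := H4.Eigen.exists_eigen_of_finite ρ g
  have hdet := H81.EigenCount.det_eq_one_of_perfect ρ hperf g
  rw [H81.EigenCount.det_eq_prod (ρ g) b μ h1] at hdet
  let e : Fin m ≃ Fin (Module.finrank ℂ (Fin m → ℂ)) := finCongr (Module.finrank_fin_fun ℂ).symm
  refine ⟨fun i => μ (e i), fun i => h2 _, fun k => ?_, ?_⟩
  · rw [h3 k]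
    exact (Equiv.sum_comp e (fun i => μ i ^ k)).symm
  · rw [← hdet]
    exact Equiv.prod_comp e μ

/-- in degree three the alternating square is the dual -/
theorem sq_sub (hperf : commutator G = ⊤) {χ : G → ℂ} (h : IsCharacter G χ) (hn : χ 1 = 3) (g : G) :
    χ (g * g) = χ g ^ 2 - 2 * conj (χ g) := by
  obtain ⟨μ, h1, h2, h3⟩ := exists_eigen_perfect hperf h (n := 3) (by simpa using hn) g
  have e1 : χ g = μ 0 + μ 1 + μ 2 := by
    have := h2 1
    simpa [Fin.sum_univ_three] using this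
  have e2 : χ (g * g) = μ 0 ^ 2 + μ 1 ^ 2 + μ 2 ^ 2 := by
    have := h2 2
    rw [pow_two] at this
    rw [this, Fin.sum_univ_three]
  rw [Fin.prod_univ_three] at h3
  have hinv : ∀ i, conj (μ i) = (μ i)⁻¹ := fun i =>
    (H4.Eigen.inv_eq_conj_of_pow_eq_one (orderOf_pos g).ne' (h1 i)).symm
  have hne : ∀ i, μ i ≠ 0 := by
    intro i h0
    have := h1 i
    rw [h0, zero_pow (orderOf_pos g).ne'] at this
    exact zero_ne_one this
  have i0 : (μ 0)⁻¹ = μ 1 * μ 2 := by
    apply inv_eq_of_mul_eq_one_right; rw [← h3]; ring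
  have i1 : (μ 1)⁻¹ = μ 0 * μ 2 := by
    apply inv_eq_of_mul_eq_one_right; rw [← h3]; ring
  have i2 : (μ 2)⁻¹ = μ 0 * μ 1 := by
    apply inv_eq_of_mul_eq_one_right; rw [← h3]; ring
  rw [e2, e1, map_add, map_add, hinv, hinv, hinv, i0, i1, i2]
  ring

/-- in degree three, a real value is at least `-1` -/
theorem ge_neg_one (hperf : commutator G = ⊤) {χ : G → ℂ} (h : IsCharacter G χ) (hn : χ 1 = 3) (g : G)
    (hreal : conj (χ g) = χ g) : -1 ≤ (χ g).re ∧ (χ g).re ≤ 3 := by
  obtain ⟨μ, h1, h2, h3⟩ := exists_eigen_perfect hperf h (n := 3) (by simpa using hn) g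
  have e1 : χ g = μ 0 + μ 1 + μ 2 := by
    have := h2 1
    simpa [Fin.sum_univ_three] using this
  rw [Fin.prod_univ_three] at h3
  have hinv : ∀ i, conj (μ i) = (μ i)⁻¹ := fun i =>
    (H4.Eigen.inv_eq_conj_of_pow_eq_one (orderOf_pos g).ne' (h1 i)).symm
  have i0 : (μ 0)⁻¹ = μ 1 * μ 2 := by
    apply inv_eq_of_mul_eq_one_right; rw [← h3]; ring
  have i1 : (μ 1)⁻¹ = μ 0 * μ 2 := by
    apply inv_eq_of_mul_eq_one_right; rw [← h3]; ring
  have i2 : (μ 2)⁻¹ = μ 0 * μ 1 := by
    apply inv_eq_of_mul_eq_one_right; rw [← h3]; ring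
  have hnorm : ∀ i, ‖μ i‖ = 1 := fun i => H4.Eigen.norm_of_pow_eq_one (orderOf_pos g).ne' (h1 i)
  have hre : ∀ i, -1 ≤ (μ i).re ∧ (μ i).re ≤ 1 := by
    intro i
    have := Complex.abs_re_le_norm (μ i)
    rw [hnorm i] at this
    exact abs_le.1 this
  have e3 : μ 0 + μ 1 + μ 2 = μ 1 * μ 2 + μ 0 * μ 2 + μ 0 * μ 1 := by
    rw [e1, map_add, map_add, hinv, hinv, hinv, i0, i1, i2] at hreal
    exact hreal.symm
  have hprod : (1 - μ 0) * ((1 - μ 1) * (1 - μ 2)) = 0 := by
    linear_combination (-1 : ℂ) * e3 - h3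
  have hb := hre 0
  have hb1 := hre 1
  have hb2 := hre 2
  rw [e1, Complex.add_re, Complex.add_re]
  rcases mul_eq_zero.1 hprod with h4 | h4
  · have : μ 0 = 1 := by linear_combination (-1 : ℂ) * h4
    rw [this, Complex.one_re]
    constructor <;> linarith
  · rcases mul_eq_zero.1 h4 with h5 | h5
    · have : μ 1 = 1 := by linear_combination (-1 : ℂ) * h5
      rw [this, Complex.one_re]
      constructor <;> linarith
    · have : μ 2 = 1 := by linear_combination (-1 : ℂ) * h5
      rw [this, Complex.one_re]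
      constructor <;> linarith

/-- `χ(1) - χ(w)` is divisible by 4 for an involution of a perfect group -/
theorem sub_eq_four_mul (hperf : commutator G = ⊤) {χ : G → ℂ} (h : IsCharacter G χ) {w : G}
    (hw : w * w = 1) : ∃ k : ℕ, χ 1 - χ w = 4 * k := by
  classical
  obtain ⟨n, hn⟩ := exists_degree h
  obtain ⟨μ, h1, h2, h3⟩ := exists_eigen_perfect hperf h hn w
  have hsq : ∀ i, μ i = 1 ∨ μ i = -1 := by
    intro i
    have h4 : orderOf w ∣ 2 := orderOf_dvd_of_pow_eq_one (by rw [pow_two, hw])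
    obtain ⟨c, hc⟩ := h4
    have h5 : μ i ^ 2 = 1 := by rw [hc, pow_mul, h1, one_pow]
    have h6 : (μ i - 1) * (μ i + 1) = 0 := by linear_combination h5
    rcases mul_eq_zero.1 h6 with h7 | h7
    · left; linear_combination h7
    · right; linear_combination h7
  have e1 : χ w = ∑ i, μ i := by
    have := h2 1
    simpa using this
  have hterm : ∀ i, μ i = (-1 : ℂ) ^ (if μ i = -1 then 1 else 0) := by
    intro i
    rcases hsq i with h6 | h6
    · rw [if_neg (by rw [h6]; norm_num), pow_zero, h6]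
    · rw [if_pos h6, pow_one, h6]
  have hcard : ∏ i, μ i = (-1 : ℂ) ^ (Finset.univ.filter (fun i => μ i = -1)).card := by
    rw [Finset.card_filter, ← Finset.prod_pow_eq_pow_sum]
    exact Finset.prod_congr rfl fun i _ => hterm i
  rw [h3] at hcard
  have heven : Even (Finset.univ.filter (fun i => μ i = -1)).card := by
    by_contra hodd
    rw [Nat.not_even_iff_odd] at hodd
    rw [hodd.neg_one_pow] at hcard
    norm_num at hcard
  obtain ⟨k, hk⟩ := heven
  refine ⟨k, ?_⟩
  have hsum : χ 1 - χ w = ∑ i, (1 - μ i) := by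
    rw [Finset.sum_sub_distrib, Finset.sum_const, Finset.card_univ, Fintype.card_fin, nsmul_eq_mul, mul_one, hn, e1]
  have hs2 : ∀ i, (1 - μ i) = (if μ i = -1 then (2 : ℂ) else 0) := by
    intro i
    rcases hsq i with h6 | h6
    · rw [if_neg (by rw [h6]; norm_num), h6, sub_self]
    · rw [if_pos h6, h6]; norm_num
  rw [hsum, Finset.sum_congr rfl fun i _ => hs2 i, ← Finset.sum_filter, Finset.sum_const, hk,
    nsmul_eq_mul]
  push_cast
  ring

/-- no nonprincipal linear characters -/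
theorem HU.linear {w : G} (hH : HU G w) {χ : G → ℂ} (h : IsIrrCharacter G χ) (h1 : χ 1 = 1) :
    χ = fun _ => (1 : ℂ) := by
  by_contra hne
  obtain ⟨f, hf⟩ := exists_hom_of_degree_one (isCharacter_of_isIrr h) h1
  have hnorm : ‖χ w‖ = 1 := by rw [hf]; exact hom_norm_one f w
  rcases hH χ h hne with h2 | h2
  · have : χ w = -3 := by rw [h1] at h2; linear_combination (-1 : ℂ) * h2
    rw [this] at hnorm
    norm_num at hnorm
  · rw [h2] at hnorm
    norm_num at hnorm

theorem HU.perfect {w : G} (hH : HU G w) : commutator G = ⊤ := by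
  by_contra hne
  have : ∃ g : G, g ∉ commutator G := by
    by_contra hcon
    push Not at hcon
    exact hne ((Subgroup.eq_top_iff' _).2 hcon)
  obtain ⟨g, hg⟩ := this
  obtain ⟨f, hf⟩ := exists_hom_ne_one hg
  have h1 := hH.linear (isIrrCharacter_of_hom f) (by simp)
  apply hf
  have h2 := congrFun h1 g
  exact Units.ext (by simpa using h2)

theorem HU.quot {w : G} (hH : HU G w) (N : Subgroup G) [N.Normal] : HU (G ⧸ N) (w : G ⧸ N) := by
  intro ψ hψ hne
  have h1 := isIrrCharacter_inflate N hψ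
  have h2 := hH _ h1 (by
    intro h3
    apply hne
    funext x
    obtain ⟨g, rfl⟩ := QuotientGroup.mk_surjective x
    exact congrFun h3 g)
  simpa using h2

/-- nontrivial groups have nonprincipal irreducible characters -/
theorem exists_nonprincipal [Nontrivial G] : ∃ χ : G → ℂ, IsIrrCharacter G χ ∧ χ ≠ fun _ => (1 : ℂ) := by
  by_contra hcon
  push Not at hcon
  obtain ⟨g, hg⟩ := exists_ne (1 : G)
  apply hg
  apply eq_one_of_forall_irr
  intro χ hχ
  rw [hcon χ hχ]

theorem HU.not_mem {w : G} (hH : HU G w) (N : Subgroup G) [N.Normal] (hN : N ≠ ⊤) : w ∉ N := by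
  intro hw
  haveI : Nontrivial (G ⧸ N) := by
    rw [← not_subsingleton_iff_nontrivial]
    intro h
    exact hN (QuotientGroup.subsingleton_iff.1 h)
  obtain ⟨ψ, hψ, hne⟩ := exists_nonprincipal (G := G ⧸ N)
  have h1 := (hH.quot N) ψ hψ hne
  have h2 : (w : G ⧸ N) = 1 := (QuotientGroup.eq_one_iff w).2 hw
  rw [h2, sub_self] at h1
  rcases h1 with h1 | h1
  · norm_num at h1
  · exact irr_one_ne_zero hψ h1

end H81.Four
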