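import Cfsg.Agent.Lib.H81.Four1
import Cfsg.Agent.Lib.H18.CharInd

/-!
# The class of groups with an involution `w`, `χ(1) - χ(w) = 4` or `χ(w) = 0`
-/

set_option autoImplicit false
set_option linter.unusedSectionVars false
set_option linter.style.haveILetI false

namespace H81.Four

open Cfsg H18.CharBasic H18.CharOrtho H18.CharQuot H18.CharInd
open scoped ComplexConjugate

universe u
variable {G : Type u} [Group G] [Fintype G]

theorem HU.deg_two {w : G} (hH : HU G w) {χ : G → ℂ} (h : IsIrrCharacter G χ) (h2 : χ 1 = 2) :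
    χ w = 0 := by
  have hc := isCharacter_of_isIrr h
  have hne : χ ≠ fun _ => (1 : ℂ) := by
    intro h3; rw [h3] at h2; norm_num at h2
  rcases hH χ h hne with h4 | h4
  swap
  · exact h4
  exfalso
  have hw : χ w = -2 := by rw [h2] at h4; linear_combination (-1 : ℂ) * h4
  have hZ : (QuotientGroup.mk' (kerSub χ hc) w) ∈ Subgroup.center (G ⧸ kerSub χ hc) := by
    rw [Subgroup.mem_center_iff]
    intro y
    obtain ⟨y, rfl⟩ := QuotientGroup.mk'_surjective (kerSub χ hc) y
    rw [← map_mul, ← map_mul]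
    apply (QuotientGroup.eq).2
    rw [mem_kerSub]
    obtain ⟨n, ρ, hρ, hρχ⟩ := h
    have hnorm : ‖ρ.character w‖ = (Module.finrank ℂ (Fin n → ℂ) : ℝ) := by
      have h5 := Representation.char_one ρ
      rw [hρχ, h2] at h5
      have h6 : (Module.finrank ℂ (Fin n → ℂ)) = 2 := by exact_mod_cast h5.symm
      rw [hρχ, hw, h6]
      simp
    obtain ⟨ω, hω⟩ := (H4.Eigen.norm_char_eq_iff ρ w).1 hnorm
    rw [← hρχ]
    apply (rep_eq_one_iff ρ _).2
    have h7 : ρ (y * w) = ρ (w * y) := by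
      rw [map_mul, map_mul, hω]
      ext v
      simp
    rw [map_mul, ← h7, ← map_mul, inv_mul_cancel, map_one]
  refine (hH.quot (kerSub χ hc)).not_mem _ ?_ hZ
  intro htop
  have hcomm : ∀ a b : G ⧸ kerSub χ hc, a * b = b * a := by
    intro a b
    have : b ∈ Subgroup.center (G ⧸ kerSub χ hc) := by rw [htop]; exact Subgroup.mem_top _
    exact Subgroup.mem_center_iff.1 this a
  have h8 := degree_one_of_comm hcomm (isIrrCharacter_deflate (kerSub χ hc) h (fun n hn => hn))
  have h9 := deflate_mk (kerSub χ hc) hc (fun n hn => hn) 1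
  rw [QuotientGroup.mk_one, h8, h2] at h9
  norm_num at h9

/-- the class -/
structure CC (w : G) : Prop where
  hu : HU G w
  ne : w ≠ 1
  sq : w * w = 1

variable {w : G}

theorem CC.D_pos (hC : CC w) {χ : G → ℂ} (h : IsIrrCharacter G χ) (hne : χ ≠ fun _ => (1 : ℂ)) :
    ∃ k : ℕ, 0 < k ∧ χ 1 - χ w = 4 * k ∧ (k = 1 ∨ χ w = 0) := by
  obtain ⟨k, hk⟩ := sub_eq_four_mul hC.hu.perfect (isCharacter_of_isIrr h) hC.sq
  refine ⟨k, ?_, hk, ?_⟩
  · rcases Nat.eq_zero_or_pos k with h0 | h0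
    · exfalso
      rw [h0, Nat.cast_zero, mul_zero] at hk
      rcases hC.hu χ h hne with h1 | h1
      · rw [h1] at hk; norm_num at hk
      · rw [h1, sub_zero] at hk
        exact irr_one_ne_zero h hk
    · exact h0
  · rcases hC.hu χ h hne with h1 | h1
    · left
      rw [h1] at hk
      have : (k : ℂ) = 1 := by linear_combination (-1 / 4 : ℂ) * hk
      exact_mod_cast this
    · right; exact h1

theorem CC.eq_zero (hC : CC w) {θ : G → ℂ} (h : IsCharacter G θ)
    (h1 : classInner θ (fun _ => (1 : ℂ)) = 0) (hD : θ 1 = θ w) : θ = 0 := by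
  by_contra h0
  obtain ⟨ψ, hψ, hne⟩ := exists_constituent h h0
  have hψ1 : ψ ≠ fun _ => (1 : ℂ) := by
    rintro rfl
    exact hne h1
  obtain ⟨k, hk, hk2, -⟩ := hC.D_pos hψ hψ1
  obtain ⟨k', hk'⟩ := sub_eq_four_mul hC.hu.perfect (isCharacter_sub_constituent h hψ hne) hC.sq
  simp only [Pi.sub_apply] at hk'
  have : ((k + k' : ℕ) : ℂ) = 0 := by
    push_cast
    linear_combination (-1 / 4 : ℂ) * hk' - (1 / 4 : ℂ) * hk2 + (1 / 4 : ℂ) * hD
  have h2 : k + k' = 0 := by exact_mod_cast this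
  omega

theorem CC.irr_of_four (hC : CC w) {θ : G → ℂ} (h : IsCharacter G θ)
    (h1 : classInner θ (fun _ => (1 : ℂ)) = 0) (hD : θ 1 - θ w = 4) : IsIrrCharacter G θ := by
  have h0 : θ ≠ 0 := by
    rintro rfl
    simp at hD
  obtain ⟨ψ, hψ, hne⟩ := exists_constituent h h0
  have hψ1 : ψ ≠ fun _ => (1 : ℂ) := by
    rintro rfl
    exact hne h1
  obtain ⟨k, hk, hk2, -⟩ := hC.D_pos hψ hψ1
  have hsub := isCharacter_sub_constituent h hψ hne
  obtain ⟨k', hk'⟩ := sub_eq_four_mul hC.hu.perfect hsub hC.sq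
  simp only [Pi.sub_apply] at hk'
  have : ((k + k' : ℕ) : ℂ) = (1 : ℕ) := by
    push_cast
    linear_combination (-1 / 4 : ℂ) * hk' - (1 / 4 : ℂ) * hk2 + (1 / 4 : ℂ) * hD
  have h2 : k + k' = 1 := by exact_mod_cast this
  have h3 : k' = 0 := by omega
  have h4 : θ - ψ = 0 := by
    apply hC.eq_zero hsub
    · rw [H18.CharOrtho.inner_sub_left, h1, inner_irr_ne hψ isIrrCharacter_one hψ1, sub_zero]
    · rw [h3, Nat.cast_zero, mul_zero] at hk'
      simp only [Pi.sub_apply]
      linear_combination hk'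
  rw [sub_eq_zero] at h4
  rw [h4]
  exact hψ

/-- degrees are at least three -/
theorem CC.three_le (hC : CC w) {χ : G → ℂ} (h : IsIrrCharacter G χ) (hne : χ ≠ fun _ => (1 : ℂ)) :
    ∃ n : ℕ, χ 1 = n ∧ 3 ≤ n := by
  obtain ⟨n, hn, hn2⟩ := exists_degree_pos h
  refine ⟨n, hn2, ?_⟩
  by_contra hlt
  have : n = 1 ∨ n = 2 := by omega
  rcases this with rfl | rfl
  · exact hne (hC.hu.linear h (by simpa using hn2))
  · have h1 := hC.hu.deg_two h (by simpa using hn2)
    obtain ⟨k, hk, hk2, -⟩ := hC.D_pos h hne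
    rw [h1, hn2] at hk2
    have : ((2 : ℕ) : ℂ) = ((4 * k : ℕ) : ℂ) := by push_cast; rw [← hk2]; push_cast; ring
    have h3 : 2 = 4 * k := by exact_mod_cast this
    omega

theorem CC.split_nine (hC : CC w) {θ : G → ℂ} (h : IsCharacter G θ)
    (h1 : classInner θ (fun _ => (1 : ℂ)) = 0) (h9 : θ 1 = 9) (hw : θ w = 1) :
    ∃ (α β : G → ℂ) (a b : ℕ), IsIrrCharacter G α ∧ IsIrrCharacter G β ∧ θ = α + β ∧
      α 1 = a ∧ β 1 = b ∧ 3 ≤ a ∧ a ≤ 4 ∧ 5 ≤ b ∧ b ≤ 6 ∧ α 1 - α w = 4 ∧ β 1 - β w = 4 := by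
  have h0 : θ ≠ 0 := by
    rintro rfl
    simp at h9
  obtain ⟨ψ, hψ, hne⟩ := exists_constituent h h0
  have hψ1 : ψ ≠ fun _ => (1 : ℂ) := by
    rintro rfl
    exact hne h1
  obtain ⟨k, hk, hk2, hk3⟩ := hC.D_pos hψ hψ1
  have hsub := isCharacter_sub_constituent h hψ hne
  obtain ⟨k', hk'⟩ := sub_eq_four_mul hC.hu.perfect hsub hC.sq
  simp only [Pi.sub_apply] at hk'
  have hsub1 : classInner (θ - ψ) (fun _ => (1 : ℂ)) = 0 := by
    rw [H18.CharOrtho.inner_sub_left, h1, inner_irr_ne hψ isIrrCharacter_one hψ1, sub_zero]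
  have : ((k + k' : ℕ) : ℂ) = (2 : ℕ) := by
    push_cast
    linear_combination (-1 / 4 : ℂ) * hk' - (1 / 4 : ℂ) * hk2 + (1 / 4 : ℂ) * h9 - (1 / 4 : ℂ) * hw
  have h2 : k + k' = 2 := by exact_mod_cast this
  rcases Nat.lt_or_ge k 2 with h3 | h3
  · have hk1 : k = 1 := by omega
    have hk'1 : k' = 1 := by omega
    subst hk1 hk'1
    have hirr : IsIrrCharacter G (θ - ψ) := by
      apply hC.irr_of_four hsub hsub1
      simp only [Pi.sub_apply]
      linear_combination hk'
    have hsubne : (θ - ψ) ≠ fun _ => (1 : ℂ) := by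
      intro h4
      rw [h4] at hsub1
      rw [inner_irr_self isIrrCharacter_one] at hsub1
      exact one_ne_zero hsub1
    obtain ⟨a, ha, ha3⟩ := hC.three_le hψ hψ1
    obtain ⟨b, hb, hb3⟩ := hC.three_le hirr hsubne
    have hab : a + b = 9 := by
      have : ((a + b : ℕ) : ℂ) = (9 : ℕ) := by
        push_cast
        rw [← ha, ← hb, Pi.sub_apply, h9]; ring
      exact_mod_cast this
    rcases Nat.lt_or_ge a 5 with h5 | h5
    · refine ⟨ψ, θ - ψ, a, b, hψ, hirr, by abel, ha, hb, ha3, by omega, by omega, by omega, ?_, ?_⟩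
      · rw [hk2]; norm_num
      · simp only [Pi.sub_apply]
        linear_combination hk'
    · refine ⟨θ - ψ, ψ, b, a, hirr, hψ, by abel, hb, ha, hb3, by omega, by omega, by omega, ?_, ?_⟩
      · simp only [Pi.sub_apply]
        linear_combination hk'
      · rw [hk2]; norm_num
  · exfalso
    have hk0 : k' = 0 := by omega
    have hkk : k = 2 := by omega
    have h4 : θ - ψ = 0 := by
      apply hC.eq_zero hsub hsub1
      rw [hk0, Nat.cast_zero, mul_zero] at hk'
      simp only [Pi.sub_apply]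
      linear_combination hk'
    rw [sub_eq_zero] at h4
    rw [← h4, hkk, h9, hw] at hk2
    norm_num at hk2
    rcases hk3 with h6 | h6
    · omega
    · rw [← h4, hw] at h6
      exact one_ne_zero h6

theorem CC.val_three (hC : CC w) {χ : G → ℂ} (h : IsIrrCharacter G χ) (h3 : χ 1 = 3) : χ w = -1 := by
  have hne : χ ≠ fun _ => (1 : ℂ) := by
    intro h4; rw [h4] at h3; norm_num at h3
  rcases hC.hu χ h hne with h1 | h1
  · rw [h3] at h1; linear_combination (-1 : ℂ) * h1
  · exfalso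
    obtain ⟨k, hk, hk2, -⟩ := hC.D_pos h hne
    rw [h1, h3] at hk2
    have : ((3 : ℕ) : ℂ) = ((4 * k : ℕ) : ℂ) := by push_cast; rw [← hk2]; ring
    have h3 : 3 = 4 * k := by exact_mod_cast this
    omega

theorem inner_mul_swap (a b c d : G → ℂ) :
    classInner (fun g => a g * conj (b g)) (fun g => c g * conj (d g)) =
      classInner (fun g => d g * conj (b g)) (fun g => c g * conj (a g)) := by
  unfold classInner
  congr 1
  apply Finset.sum_congr rfl
  intro g _
  simp only [map_mul, Complex.conj_conj]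
  ring

theorem inner_mul_one (a b : G → ℂ) :
    classInner (fun g => a g * conj (b g)) (fun _ => (1 : ℂ)) = classInner a b := by
  unfold classInner
  simp

/-- the product of two distinct irreducible characters of degree three -/
theorem CC.prod_nine (hC : CC w) {χ ψ : G → ℂ} (h : IsIrrCharacter G χ) (h3 : χ 1 = 3)
    (h' : IsIrrCharacter G ψ) (h3' : ψ 1 = 3) (hne : χ ≠ ψ) :
    ∃ (α β : G → ℂ) (a b : ℕ), IsIrrCharacter G α ∧ IsIrrCharacter G β ∧
      (fun g => χ g * conj (ψ g)) = α + β ∧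
      α 1 = a ∧ β 1 = b ∧ 3 ≤ a ∧ a ≤ 4 ∧ 5 ≤ b ∧ b ≤ 6 ∧ α 1 - α w = 4 ∧ β 1 - β w = 4 := by
  apply hC.split_nine
  · exact isCharacter_mul (isCharacter_of_isIrr h) (isCharacter_conj (isCharacter_of_isIrr h'))
  · rw [inner_mul_one, inner_irr_ne h h' hne]
  · show χ 1 * conj (ψ 1) = 9
    rw [h3, h3', map_ofNat]; norm_num
  · show χ w * conj (ψ w) = 1
    rw [hC.val_three h h3, hC.val_three h' h3']; simp

/-- its norm is two -/
theorem CC.norm_prod (hC : CC w) {χ ψ : G → ℂ} (h : IsIrrCharacter G χ) (h3 : χ 1 = 3)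
    (h' : IsIrrCharacter G ψ) (h3' : ψ 1 = 3) (hne : χ ≠ ψ) :
    classInner (fun g => ψ g * conj (ψ g)) (fun g => χ g * conj (χ g)) = 2 := by
  rw [← inner_mul_swap]
  obtain ⟨α, β, a, b, hα, hβ, hs, ha, hb, ha3, ha4, hb5, hb6, -, -⟩ := hC.prod_nine h h3 h' h3' hne
  rw [hs]
  have hab : α ≠ β := by
    rintro rfl
    have : (a : ℂ) = b := by rw [← ha, ← hb]
    have : a = b := by exact_mod_cast this
    omega
  rw [H18.CharOrtho.inner_add_left, H18.CharOrtho.inner_add_right, H18.CharOrtho.inner_add_right, inner_irr_self hα, inner_irr_self hβ,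
    inner_irr_ne hα hβ hab, inner_irr_ne hβ hα hab.symm]
  norm_num

/-- the symmetric square minus ... -/
theorem CC.isCharacter_S (hC : CC w) {χ : G → ℂ} (h : IsIrrCharacter G χ) (h3 : χ 1 = 3) :
    IsCharacter G (fun g => χ g ^ 2 - conj (χ g)) := by
  have h1 := H59.SymAlt.isCharacter_sym (isCharacter_of_isIrr h)
  have h2 : (fun g => (χ g ^ 2 + χ (g * g)) / 2) = fun g => χ g ^ 2 - conj (χ g) := by
    funext g
    rw [sq_sub hC.hu.perfect (isCharacter_of_isIrr h) h3 g]
    ring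
  rwa [h2] at h1

theorem inner_sq_one (a : G → ℂ) :
    classInner (fun g => a g ^ 2) (fun _ => (1 : ℂ)) = classInner a (fun g => conj (a g)) := by
  unfold classInner
  congr 1
  apply Finset.sum_congr rfl
  intro g _
  simp only [map_one, mul_one, Complex.conj_conj]
  ring

end H81.Four
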