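import Cfsg.Agent.Lib.H81.Four2

/-!
# The class of groups with an involution `w`, `χ(1) - χ(w) = 4` or `χ(w) = 0`: characters of
degree three are real
-/

set_option autoImplicit false
set_option linter.unusedSectionVars false
set_option linter.style.haveILetI false

namespace H81.Four

open Cfsg H18.CharBasic H18.CharOrtho H18.CharQuot H18.CharInd
open scoped ComplexConjugate

universe u
variable {G : Type u} [Group G] [Fintype G] {w : G}

theorem ne_of_degree {α β : G → ℂ} {a b : ℕ} (ha : α 1 = a) (hb : β 1 = b) (hab : a ≠ b) : α ≠ β := by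
  rintro rfl
  apply hab
  have : (a : ℂ) = b := by rw [← ha, ← hb]
  exact_mod_cast this

section nonreal

variable {χ : G → ℂ}

theorem CC.irr_S (hC : CC w) (h : IsIrrCharacter G χ) (h3 : χ 1 = 3)
    (hne : χ ≠ fun g => conj (χ g)) : IsIrrCharacter G (fun g => χ g ^ 2 - conj (χ g)) := by
  have hc := isIrrCharacter_conj h
  apply hC.irr_of_four (hC.isCharacter_S h h3)
  · have e : (fun g => χ g ^ 2 - conj (χ g)) = (fun g => χ g ^ 2) - (fun g => conj (χ g)) := rfl
    rw [e, H18.CharOrtho.inner_sub_left, inner_sq_one, inner_irr_ne h hc hne,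
      inner_irr_ne hc isIrrCharacter_one, sub_zero]
    intro h4
    have := congrFun h4 1
    simp only [h3, map_ofNat] at this
    norm_num at this
  · simp only [h3, hC.val_three h h3, map_ofNat]
    norm_num

theorem CC.norm_F (hC : CC w) (h : IsIrrCharacter G χ) (h3 : χ 1 = 3)
    (hne : χ ≠ fun g => conj (χ g)) :
    classInner (fun g => χ g * conj (χ g)) (fun g => χ g * conj (χ g)) = 2 := by
  have hc := isIrrCharacter_conj h
  have hS := hC.irr_S h h3 hne
  have h1 : classInner (fun g => χ g ^ 2) (fun g => χ g ^ 2) = 2 := by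
    have e : (fun g => χ g ^ 2) = (fun g => χ g ^ 2 - conj (χ g)) + (fun g => conj (χ g)) := by
      funext g; simp
    have hd : (fun g => χ g ^ 2 - conj (χ g)) ≠ fun g => conj (χ g) := by
      apply ne_of_degree (a := 6) (b := 3)
      · simp only [h3, map_ofNat]; norm_num
      · simp only [h3, map_ofNat]; norm_num
      · norm_num
    rw [e, H18.CharOrtho.inner_add_left, H18.CharOrtho.inner_add_right, H18.CharOrtho.inner_add_right,
      inner_irr_self hS, inner_irr_self hc, inner_irr_ne hS hc hd, inner_irr_ne hc hS hd.symm]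
    norm_num
  rw [← h1]
  unfold classInner
  congr 1
  apply Finset.sum_congr rfl
  intro g _
  simp only [map_mul, Complex.conj_conj, map_pow]
  ring

/-- the character of degree eight -/
theorem CC.irr_eta (hC : CC w) (h : IsIrrCharacter G χ) (h3 : χ 1 = 3)
    (hne : χ ≠ fun g => conj (χ g)) : IsIrrCharacter G (fun g => χ g * conj (χ g) - 1) := by
  have hF : IsCharacter G (fun g => χ g * conj (χ g)) :=
    isCharacter_mul (isCharacter_of_isIrr h) (isCharacter_conj (isCharacter_of_isIrr h))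
  have h1 : classInner (fun g => χ g * conj (χ g)) (fun _ => (1 : ℂ)) = 1 := by
    rw [inner_mul_one, inner_irr_self h]
  have h2 := isCharacter_sub_constituent hF isIrrCharacter_one (by rw [h1]; exact one_ne_zero)
  have e : (fun g => χ g * conj (χ g) - 1) = (fun g => χ g * conj (χ g)) - fun _ => (1 : ℂ) := rfl
  rw [e]
  apply isIrr_of_norm_one h2
  have h3' : classInner (fun _ => (1 : ℂ)) (fun g => χ g * conj (χ g)) = 1 := by
    rw [← H18.CharOrtho.inner_conj_symm, h1, map_one]
  rw [H18.CharOrtho.inner_sub_left, H18.CharOrtho.inner_sub_right, H18.CharOrtho.inner_sub_right,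
    hC.norm_F h h3 hne, h1, h3', inner_irr_self isIrrCharacter_one]
  norm_num

/-- orthogonality of the products `χψ̄` and `χψ̄'` -/
theorem CC.inner_prod_zero (hC : CC w) (h : IsIrrCharacter G χ) (h3 : χ 1 = 3)
    (hne : χ ≠ fun g => conj (χ g)) {ψ ψ' : G → ℂ} (h1 : IsIrrCharacter G ψ) (h13 : ψ 1 = 3)
    (h2 : IsIrrCharacter G ψ') (h23 : ψ' 1 = 3) (hd : ψ ≠ ψ') :
    classInner (fun g => χ g * conj (ψ g)) (fun g => χ g * conj (ψ' g)) = 0 := by
  rw [inner_mul_swap]
  obtain ⟨α, β, a, b, hα, hβ, hs, ha, hb, ha3, ha4, hb5, hb6, -, -⟩ :=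
    hC.prod_nine h2 h23 h1 h13 hd.symm
  rw [hs]
  have hη := hC.irr_eta h h3 hne
  have hη8 : (fun g => χ g * conj (χ g) - 1) 1 = ((8 : ℕ) : ℂ) := by
    simp only [h3, map_ofNat]; norm_num
  have h1' : (fun _ => (1 : ℂ)) (1 : G) = ((1 : ℕ) : ℂ) := by simp
  have e : (fun g => χ g * conj (χ g)) = (fun g => χ g * conj (χ g) - 1) + fun _ => (1 : ℂ) := by
    funext g; simp
  rw [e, H18.CharOrtho.inner_add_left, H18.CharOrtho.inner_add_right, H18.CharOrtho.inner_add_right,
    inner_irr_ne hα hη (ne_of_degree ha hη8 (by omega)), inner_irr_ne hβ hη (ne_of_degree hb hη8 (by omega)),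
    inner_irr_ne hα isIrrCharacter_one (ne_of_degree ha h1' (by omega)),
    inner_irr_ne hβ isIrrCharacter_one (ne_of_degree hb h1' (by omega))]
  norm_num

open Classical in
theorem CC.real (hC : CC w) (h : IsIrrCharacter G χ) (h3 : χ 1 = 3) :
    χ = fun g => conj (χ g) := by
  by_contra hne
  letI : Fintype (IrrCharacter G) := Fintype.ofFinite _
  set T : Finset (IrrCharacter G) := Finset.univ.filter (fun θ => (θ : G → ℂ) 1 = 3) with hT
  set B : Finset (IrrCharacter G) := Finset.univ.filter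
    (fun θ => (θ : G → ℂ) 1 - (θ : G → ℂ) w = 4 ∧ ∃ b : ℕ, 5 ≤ b ∧ (θ : G → ℂ) 1 = b) with hB
  -- the map
  have hmap : ∀ ψ ∈ T.erase ⟨χ, h⟩, ∃ θ ∈ B, classInner (fun g => χ g * conj ((ψ : G → ℂ) g)) (θ : G → ℂ) ≠ 0 := by
    intro ψ hψ
    rw [Finset.mem_erase, hT, Finset.mem_filter] at hψ
    have hd : χ ≠ (ψ : G → ℂ) := by
      intro h4
      exact hψ.1 (Subtype.ext h4.symm)
    obtain ⟨α, β, a, b, hα, hβ, hs, ha, hb, ha3, ha4, hb5, hb6, -, hβw⟩ :=
      hC.prod_nine h h3 ψ.2 hψ.2.2 hd
    refine ⟨⟨β, hβ⟩, ?_, ?_⟩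
    · rw [hB, Finset.mem_filter]
      exact ⟨Finset.mem_univ _, hβw, b, hb5, hb⟩
    · rw [hs, H18.CharOrtho.inner_add_left, inner_irr_self hβ,
        inner_irr_ne hα hβ (ne_of_degree ha hb (by omega))]
      norm_num
  choose! f hf1 hf2 using hmap
  have hinj : Set.InjOn f (T.erase ⟨χ, h⟩ : Finset (IrrCharacter G)) := by
    intro ψ hψ ψ' hψ' heq
    by_contra hd
    have hψ2 := hψ
    have hψ'2 := hψ'
    rw [Finset.mem_coe, Finset.mem_erase, hT, Finset.mem_filter] at hψ2 hψ'2
    have h4 := hC.inner_prod_zero h h3 hne ψ.2 hψ2.2.2 ψ'.2 hψ'2.2.2 (fun h5 => hd (Subtype.ext h5))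
    have hchar : ∀ θ : IrrCharacter G, IsCharacter G (fun g => χ g * conj ((θ : G → ℂ) g)) := fun θ =>
      isCharacter_mul (isCharacter_of_isIrr h) (isCharacter_conj (isCharacter_of_isIrr θ.2))
    have h5 := isCharacter_sub_constituent (hchar ψ) (f ψ).2 (hf2 ψ hψ)
    obtain ⟨m, hm⟩ := inner_char_natCast h5 (hchar ψ')
    obtain ⟨m', hm'⟩ := inner_char_natCast (isCharacter_of_isIrr (f ψ).2) (hchar ψ')
    rw [H18.CharOrtho.inner_sub_left, h4, hm'] at hm
    have h6 : ((m + m' : ℕ) : ℂ) = 0 := by push_cast; linear_combination (-1 : ℂ) * hm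
    have h7 : m + m' = 0 := by exact_mod_cast h6
    have h8 : m' = 0 := by omega
    apply hf2 ψ' hψ'
    rw [← H18.CharOrtho.inner_conj_symm, ← heq, hm', h8]
    simp
  have hcard : (T.erase ⟨χ, h⟩).card ≤ B.card :=
    Finset.card_le_card_of_injOn f (fun ψ hψ => hf1 ψ hψ) hinj
  have hχT : (⟨χ, h⟩ : IrrCharacter G) ∈ T := by
    rw [hT, Finset.mem_filter]; exact ⟨Finset.mem_univ _, h3⟩
  rw [Finset.card_erase_of_mem hχT] at hcard
  -- the sum
  have hsum := sum_degree_mul (G := G) hC.ne
  have hsum' : ∑ θ : IrrCharacter G, ((θ : G → ℂ) 1 * (θ : G → ℂ) w).re = 0 := by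
    rw [← Complex.re_sum, hsum, Complex.zero_re]
  set v : IrrCharacter G → ℝ := fun θ => ((θ : G → ℂ) 1 * (θ : G → ℂ) w).re with hv
  have hp : IsIrrCharacter G (fun _ => (1 : ℂ)) := isIrrCharacter_one
  have hlow : ∀ θ : IrrCharacter G, (if θ = ⟨fun _ => 1, hp⟩ then (1 : ℝ) else 0) +
      (if θ ∈ T then (-3 : ℝ) else 0) + (if θ ∈ B then v θ else 0) ≤ v θ := by
    intro θ
    by_cases h1 : θ = ⟨fun _ => 1, hp⟩
    · have hT1 : θ ∉ T := by
        rw [h1, hT, Finset.mem_filter]
        rintro ⟨-, h4⟩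
        norm_num at h4
      have hB1 : θ ∉ B := by
        rw [h1, hB, Finset.mem_filter]
        rintro ⟨-, h4, -⟩
        norm_num at h4
      rw [if_pos h1, if_neg hT1, if_neg hB1, hv, h1]
      simp
    · have hne1 : (θ : G → ℂ) ≠ fun _ => (1 : ℂ) := fun h4 => h1 (Subtype.ext h4)
      rw [if_neg h1]
      by_cases hθT : θ ∈ T
      · have hθB : θ ∉ B := by
          rw [hT, Finset.mem_filter] at hθT
          rw [hB, Finset.mem_filter]
          rintro ⟨-, -, b, hb5, hb⟩
          rw [hθT.2] at hb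
          have : (3 : ℕ) = b := by exact_mod_cast hb
          omega
        rw [if_pos hθT, if_neg hθB]
        rw [hT, Finset.mem_filter] at hθT
        rw [hv]
        simp only [hθT.2, hC.val_three θ.2 hθT.2]
        norm_num
      · rw [if_neg hθT]
        by_cases hθB : θ ∈ B
        · rw [if_pos hθB]; linarith
        · rw [if_neg hθB]
          obtain ⟨n, hn, hn3⟩ := hC.three_le θ.2 hne1
          rcases hC.hu _ θ.2 hne1 with h4 | h4
          · have hn5 : n < 5 := by
              by_contra h5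
              apply hθB
              rw [hB, Finset.mem_filter]
              exact ⟨Finset.mem_univ _, h4, n, by omega, hn⟩
            have hn4 : n ≠ 3 := by
              rintro rfl
              apply hθT
              rw [hT, Finset.mem_filter]
              exact ⟨Finset.mem_univ _, by rw [hn]; norm_num⟩
            have : n = 4 := by omega
            subst this
            have h6 : (θ : G → ℂ) w = 0 := by
              rw [hn] at h4; push_cast at h4; linear_combination (-1 : ℂ) * h4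
            rw [hv]; simp [h6]
          · rw [hv]; simp [h4]
  have htot := Finset.sum_le_sum (s := Finset.univ) (fun θ _ => hlow θ)
  rw [Finset.sum_add_distrib, Finset.sum_add_distrib, Finset.sum_ite_eq' Finset.univ, hv, hsum',
    if_pos (Finset.mem_univ _), ← Finset.sum_filter, ← Finset.sum_filter, Finset.sum_const] at htot
  have hfT : (Finset.univ.filter (fun θ => θ ∈ T)) = T := by ext θ; simp
  have hfB : (Finset.univ.filter (fun θ => θ ∈ B)) = B := by ext θ; simp
  rw [hfT, hfB, nsmul_eq_mul] at htot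
  -- bounds
  have hBval : ∀ θ ∈ B, (5 : ℝ) ≤ v θ := by
    intro θ hθ
    rw [hB, Finset.mem_filter] at hθ
    obtain ⟨-, h4, b, hb5, hb⟩ := hθ
    have h5 : (θ : G → ℂ) w = (b : ℂ) - 4 := by rw [hb] at h4; linear_combination (-1 : ℂ) * h4
    have h6 : v θ = (b : ℝ) * ((b : ℝ) - 4) := by
      rw [hv]
      simp only [hb, h5]
      have : (b : ℂ) * ((b : ℂ) - 4) = (((b : ℝ) * ((b : ℝ) - 4) : ℝ) : ℂ) := by push_cast; ring
      rw [this, Complex.ofReal_re]
    rw [h6]
    have : (5 : ℝ) ≤ b := by exact_mod_cast hb5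
    nlinarith
  have hlow1 : (5 : ℝ) * B.card ≤ ∑ θ ∈ B, v θ := by
    have := Finset.card_nsmul_le_sum B v 5 hBval
    rw [nsmul_eq_mul] at this
    linarith
  have hS := hC.irr_S h h3 hne
  have hSB : (⟨_, hS⟩ : IrrCharacter G) ∈ B := by
    rw [hB, Finset.mem_filter]
    refine ⟨Finset.mem_univ _, ?_, 6, by norm_num, ?_⟩
    · simp only [h3, hC.val_three h h3, map_ofNat]; norm_num
    · simp only [h3, map_ofNat]; norm_num
  have hlow2 : (12 : ℝ) ≤ ∑ θ ∈ B, v θ := by
    refine le_trans ?_ (Finset.single_le_sum (fun θ hθ => by linarith [hBval θ hθ]) hSB)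
    rw [hv]
    simp only [h3, hC.val_three h h3, map_ofNat]
    norm_num
  have hc' : (T.card : ℝ) - 1 ≤ B.card := by
    have : T.card ≤ B.card + 1 := by omega
    have : (T.card : ℝ) ≤ B.card + 1 := by exact_mod_cast this
    linarith
  linarith

end nonreal

end H81.Four
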