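import Cfsg.Agent.Lib.H81.Four3
import Cfsg.Agent.Lib.H5.BurnsideZero

/-!
# The class of groups with an involution `w`, `χ(1) - χ(w) = 4` or `χ(w) = 0`: with a faithful
character of degree three the group has order 60
-/

set_option autoImplicit false
set_option linter.unusedSectionVars false
set_option linter.style.haveILetI false

namespace H81.Four

open Cfsg H18.CharBasic H18.CharOrtho H18.CharQuot H18.CharInd
open scoped ComplexConjugate

universe u
variable {G : Type u} [Group G] [Fintype G] {w : G} {χ : G → ℂ}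

theorem CC.irr_lam (hC : CC w) (h : IsIrrCharacter G χ) (h3 : χ 1 = 3) :
    IsIrrCharacter G (fun g => χ g ^ 2 - χ g - 1) := by
  have hr := hC.real h h3
  have hr' : ∀ g, conj (χ g) = χ g := fun g => (congrFun hr g).symm
  have hS := hC.isCharacter_S h h3
  have e1 : (fun g => χ g ^ 2 - conj (χ g)) = (fun g => χ g ^ 2 - χ g) := by
    funext g; rw [hr']
  rw [e1] at hS
  have hχ1 : χ ≠ fun _ => (1 : ℂ) := by
    intro h4; rw [h4] at h3; norm_num at h3
  have h1 : classInner (fun g => χ g ^ 2 - χ g) (fun _ => (1 : ℂ)) = 1 := by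
    have e : (fun g => χ g ^ 2 - χ g) = (fun g => χ g ^ 2) - χ := rfl
    rw [e, H18.CharOrtho.inner_sub_left, inner_sq_one, ← hr, inner_irr_self h,
      inner_irr_ne h isIrrCharacter_one hχ1, sub_zero]
  have h2 := isCharacter_sub_constituent hS isIrrCharacter_one (by rw [h1]; exact one_ne_zero)
  have e : (fun g => χ g ^ 2 - χ g - 1) = (fun g => χ g ^ 2 - χ g) - fun _ => (1 : ℂ) := rfl
  rw [e]
  apply hC.irr_of_four h2
  · rw [H18.CharOrtho.inner_sub_left, h1, inner_irr_self isIrrCharacter_one, sub_self]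
  · simp only [Pi.sub_apply, h3, hC.val_three h h3]
    norm_num

theorem CC.lam_eq (hC : CC w) (h : IsIrrCharacter G χ) (h3 : χ 1 = 3) {ψ : G → ℂ}
    (h' : IsIrrCharacter G ψ) (h3' : ψ 1 = 3) (g : G) : χ g ^ 2 - χ g = ψ g ^ 2 - ψ g := by
  by_cases hne : χ = ψ
  · rw [hne]
  have hr : ∀ g, conj (χ g) = χ g := fun g => (congrFun (hC.real h h3) g).symm
  have hr' : ∀ g, conj (ψ g) = ψ g := fun g => (congrFun (hC.real h' h3') g).symm
  have hL := hC.irr_lam h h3
  have hL' := hC.irr_lam h' h3'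
  have hnorm := hC.norm_prod h h3 h' h3' hne
  have e1 : (fun g => χ g * conj (χ g)) = ((fun g => χ g ^ 2 - χ g - 1) + χ) + fun _ => (1 : ℂ) := by
    funext g
    simp only [Pi.add_apply, hr]
    ring
  have e2 : (fun g => ψ g * conj (ψ g)) = ((fun g => ψ g ^ 2 - ψ g - 1) + ψ) + fun _ => (1 : ℂ) := by
    funext g
    simp only [Pi.add_apply, hr']
    ring
  have d1 : (fun g => χ g ^ 2 - χ g - 1) 1 = ((5 : ℕ) : ℂ) := by simp only [h3]; norm_num
  have d2 : (fun g => ψ g ^ 2 - ψ g - 1) 1 = ((5 : ℕ) : ℂ) := by simp only [h3']; norm_num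
  have d3 : χ 1 = ((3 : ℕ) : ℂ) := by rw [h3]; norm_num
  have d4 : ψ 1 = ((3 : ℕ) : ℂ) := by rw [h3']; norm_num
  have d5 : (fun _ => (1 : ℂ)) (1 : G) = ((1 : ℕ) : ℂ) := by simp
  have hp : IsIrrCharacter G (fun _ => (1 : ℂ)) := isIrrCharacter_one
  rw [e1, e2] at hnorm
  simp only [H18.CharOrtho.inner_add_left, H18.CharOrtho.inner_add_right] at hnorm
  rw [inner_irr_ne hL' h (ne_of_degree d2 d3 (by norm_num)),
    inner_irr_ne hL' hp (ne_of_degree d2 d5 (by norm_num)),
    inner_irr_ne h' hL (ne_of_degree d4 d1 (by norm_num)),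
    inner_irr_ne h' h (Ne.symm hne),
    inner_irr_ne h' hp (ne_of_degree d4 d5 (by norm_num)),
    inner_irr_ne hp hL (ne_of_degree d5 d1 (by norm_num)),
    inner_irr_ne hp h (ne_of_degree d5 d3 (by norm_num)), inner_irr_self hp] at hnorm
  have hLL : classInner (fun g => ψ g ^ 2 - ψ g - 1) (fun g => χ g ^ 2 - χ g - 1) ≠ 0 := by
    intro h0
    rw [h0] at hnorm
    norm_num at hnorm
  have heq : (fun g => ψ g ^ 2 - ψ g - 1) = (fun g => χ g ^ 2 - χ g - 1) := by
    by_contra hd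
    exact hLL (inner_irr_ne hL' hL hd)
  have := congrFun heq g
  linear_combination (-1 : ℂ) * this

theorem CC.values (hC : CC w) (h : IsIrrCharacter G χ) (h3 : χ 1 = 3) (g : G) :
    χ g = 3 ∨ χ g = -1 ∨ χ g = 0 ∨ χ g = 1 ∨ χ g = 2 ∨ χ g ^ 2 = χ g + 1 := by
  have hσ : ∀ σ : ℂ ≃+* ℂ, IsIrrCharacter G (fun g => σ (χ g)) ∧ (fun g => σ (χ g)) 1 = 3 := by
    intro σ
    refine ⟨isIrrCharacter_ringHom (σ : ℂ →+* ℂ) h, ?_⟩
    simp only [h3, map_ofNat]
  have hint := char_isIntegral (isCharacter_of_isIrr h) g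
  have hbound : ∀ ψ : G → ℂ, IsIrrCharacter G ψ → ψ 1 = 3 → -1 ≤ (ψ g).re ∧ (ψ g).re ≤ 3 ∧ (ψ g).im = 0 := by
    intro ψ hψ hψ3
    have h4 := (congrFun (hC.real hψ hψ3) g).symm
    obtain ⟨h5, h6⟩ := ge_neg_one hC.hu.perfect (isCharacter_of_isIrr hψ) hψ3 g h4
    exact ⟨h5, h6, Complex.conj_eq_iff_im.1 h4⟩
  obtain ⟨hb1, hb2, hb3⟩ := hbound χ h h3
  have hx : χ g = ((χ g).re : ℂ) := by
    apply Complex.ext <;> simp [hb3]
  by_cases hfix : ∀ σ : ℂ ≃+* ℂ, σ (χ g) = χ g
  · obtain ⟨n, hn⟩ := H5.BurnsideZero.int_of_fixed hint hfix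
    rw [← hn] at hb1 hb2
    rw [Complex.intCast_re] at hb1 hb2
    have h5 : -1 ≤ n := by exact_mod_cast hb1
    have h6 : n ≤ 3 := by exact_mod_cast hb2
    rw [← hn]
    have : n = 3 ∨ n = -1 ∨ n = 0 ∨ n = 1 ∨ n = 2 := by omega
    rcases this with rfl | rfl | rfl | rfl | rfl <;> norm_num
  · push Not at hfix
    obtain ⟨σ, hσ1⟩ := hfix
    have h5 := hC.lam_eq h h3 (hσ σ).1 (hσ σ).2 g
    have h6 : (χ g - σ (χ g)) * (χ g + σ (χ g) - 1) = 0 := by linear_combination h5
    have h7 : χ g + σ (χ g) - 1 = 0 := by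
      rcases mul_eq_zero.1 h6 with h8 | h8
      · exfalso
        exact hσ1 (sub_eq_zero.1 h8).symm
      · exact h8
    obtain ⟨hc1, hc2, hc3⟩ := hbound _ (hσ σ).1 (hσ σ).2
    have h8 : (σ (χ g)).re = 1 - (χ g).re := by
      have := congrArg Complex.re h7
      simp only [Complex.sub_re, Complex.add_re, Complex.one_re, Complex.zero_re] at this
      linarith
    simp only [h8] at hc1 hc2
    -- the common value is an integer
    have hLint : IsIntegral ℤ (χ g ^ 2 - χ g - 1) := (hint.pow 2 |>.sub hint).sub isIntegral_one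
    have hLfix : ∀ τ : ℂ ≃+* ℂ, τ (χ g ^ 2 - χ g - 1) = χ g ^ 2 - χ g - 1 := by
      intro τ
      have h9 := hC.lam_eq h h3 (hσ τ).1 (hσ τ).2 g
      rw [map_sub, map_sub, map_pow, map_one, ← h9]
    obtain ⟨m, hm⟩ := H5.BurnsideZero.int_of_fixed hLint hLfix
    have hm' : (m : ℝ) = (χ g).re ^ 2 - (χ g).re - 1 := by
      have h9 : ((m : ℝ) : ℂ) = (((χ g).re ^ 2 - (χ g).re - 1 : ℝ) : ℂ) := by
        push_cast
        rw [← hx, ← hm]
      exact_mod_cast h9
    have hm1 : (m : ℝ) ≤ 1 := by rw [hm']; nlinarith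
    have hm2 : (-2 : ℝ) < m := by rw [hm']; nlinarith [sq_nonneg ((χ g).re - 1 / 2)]
    have hm3 : m ≤ 1 := by exact_mod_cast hm1
    have hm4 : -2 < m := by exact_mod_cast hm2
    have hm5 : m = -1 ∨ m = 0 ∨ m = 1 := by omega
    rcases hm5 with rfl | rfl | rfl
    · push_cast at hm
      have h9 : χ g * (χ g - 1) = 0 := by linear_combination (-1 : ℂ) * hm
      rcases mul_eq_zero.1 h9 with h10 | h10
      · right; right; left; exact h10
      · right; right; right; left; linear_combination h10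
    · push_cast at hm
      right; right; right; right; right
      linear_combination (-1 : ℂ) * hm
    · push_cast at hm
      have h9 : (χ g + 1) * (χ g - 2) = 0 := by linear_combination (-1 : ℂ) * hm
      rcases mul_eq_zero.1 h9 with h10 | h10
      · right; left; linear_combination h10
      · right; right; right; right; left; linear_combination h10

open Classical in
theorem CC.card_sixty (hC : CC w) (h : IsIrrCharacter G χ) (h3 : χ 1 = 3)
    (hf : ∀ g, χ g = 3 → g = 1) : Nat.card G = 60 := by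
  have hr : ∀ g, conj (χ g) = χ g := fun g => (congrFun (hC.real h h3) g).symm
  have hL := hC.irr_lam h h3
  have hp : IsIrrCharacter G (fun _ => (1 : ℂ)) := isIrrCharacter_one
  have d1 : (fun g => χ g ^ 2 - χ g - 1) 1 = ((5 : ℕ) : ℂ) := by simp only [h3]; norm_num
  have d3 : χ 1 = ((3 : ℕ) : ℂ) := by rw [h3]; norm_num
  have d5 : (fun _ => (1 : ℂ)) (1 : G) = ((1 : ℕ) : ℂ) := by simp
  have hc0 : (Nat.card G : ℂ) ≠ 0 := card_ne_zero'
  have hinner : ∀ (a b : G → ℂ) (c : ℂ), classInner a b = c → ∑ g, a g * conj (b g) = c * (Nat.card G : ℂ) := by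
    intro a b c hc
    rw [← hc]
    unfold classInner
    field_simp
  -- the golden set
  set Φ : Finset G := Finset.univ.filter (fun g => χ g ^ 2 = χ g + 1) with hΦ
  set A := (Finset.univ.filter (fun g => χ g = -1)).card with hA
  set B := (Finset.univ.filter (fun g => χ g = 0)).card with hB
  set C := (Finset.univ.filter (fun g => χ g = 1)).card with hCdef
  set E := (Finset.univ.filter (fun g => χ g = 2)).card with hE
  have h1card : (Finset.univ.filter (fun g => χ g = 3)) = {1} := by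
    ext g
    rw [Finset.mem_filter, Finset.mem_singleton]
    constructor
    · rintro ⟨-, h4⟩; exact hf g h4
    · rintro rfl; exact ⟨Finset.mem_univ _, h3⟩
  have hsplit : ∀ f : ℂ → ℂ, ∑ g, f (χ g) = f 3 + f (-1) * A + f 0 * B + f 1 * C + f 2 * E +
      ∑ g ∈ Φ, f (χ g) := by
    intro f
    have h4 : ∀ g, f (χ g) = (if χ g = 3 then f 3 else 0) + (if χ g = -1 then f (-1) else 0) +
        (if χ g = 0 then f 0 else 0) + (if χ g = 1 then f 1 else 0) + (if χ g = 2 then f 2 else 0) +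
        (if χ g ^ 2 = χ g + 1 then f (χ g) else 0) := by
      intro g
      rcases hC.values h h3 g with h5 | h5 | h5 | h5 | h5 | h5
      · rw [h5]; norm_num
      · rw [h5]; norm_num
      · rw [h5]; norm_num
      · rw [h5]; norm_num
      · rw [h5]; norm_num
      · have n3 : χ g ≠ 3 := by intro h6; rw [h6] at h5; norm_num at h5
        have nm1 : χ g ≠ -1 := by intro h6; rw [h6] at h5; norm_num at h5
        have n0 : χ g ≠ 0 := by intro h6; rw [h6] at h5; norm_num at h5
        have n1 : χ g ≠ 1 := by intro h6; rw [h6] at h5; norm_num at h5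
        have n2 : χ g ≠ 2 := by intro h6; rw [h6] at h5; norm_num at h5
        rw [if_neg n3, if_neg nm1, if_neg n0, if_neg n1, if_neg n2, if_pos h5]
        ring
    rw [Finset.sum_congr rfl fun g _ => h4 g]
    simp only [Finset.sum_add_distrib]
    rw [← Finset.sum_filter, ← Finset.sum_filter, ← Finset.sum_filter, ← Finset.sum_filter,
      ← Finset.sum_filter, ← Finset.sum_filter, h1card, Finset.sum_singleton]
    simp only [Finset.sum_const, nsmul_eq_mul]
    ring
  have hgold : ∀ g ∈ Φ, χ g ^ 2 = χ g + 1 := by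
    intro g hg
    rw [hΦ, Finset.mem_filter] at hg
    exact hg.2
  -- the equations
  have q1 := hsplit (fun _ => 1)
  have q2 := hsplit (fun x => x)
  have q3 := hsplit (fun x => (x ^ 2 - x - 1) * x)
  have q4 := hsplit (fun x => x ^ 2 - x - 1)
  have q5 := hsplit (fun x => (x ^ 2 - x - 1) ^ 2)
  have q6 := hsplit (fun x => (x ^ 2 - x - 1) ^ 2 * x)
  have z3 : ∑ g ∈ Φ, (χ g ^ 2 - χ g - 1) * χ g = 0 := Finset.sum_eq_zero fun g hg => by
    rw [hgold g hg]; ring
  have z4 : ∑ g ∈ Φ, (χ g ^ 2 - χ g - 1) = 0 := Finset.sum_eq_zero fun g hg => by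
    rw [hgold g hg]; ring
  have z5 : ∑ g ∈ Φ, (χ g ^ 2 - χ g - 1) ^ 2 = 0 := Finset.sum_eq_zero fun g hg => by
    rw [hgold g hg]; ring
  have z6 : ∑ g ∈ Φ, (χ g ^ 2 - χ g - 1) ^ 2 * χ g = 0 := Finset.sum_eq_zero fun g hg => by
    rw [hgold g hg]; ring
  have s1 : ∑ _g : G, (1 : ℂ) = (Nat.card G : ℂ) := by
    rw [Finset.sum_const, Finset.card_univ, nsmul_eq_mul, mul_one, Nat.card_eq_fintype_card]
  have s2 : ∑ g, χ g = 0 := by
    have := hinner χ (fun _ => 1) 0 (inner_irr_ne h hp (ne_of_degree d3 d5 (by norm_num)))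
    simpa using this
  have s3 : ∑ g, (χ g ^ 2 - χ g - 1) * χ g = 0 := by
    have := hinner _ χ 0 (inner_irr_ne hL h (ne_of_degree d1 d3 (by norm_num)))
    simp only [hr] at this
    rw [this, zero_mul]
  have s4 : ∑ g, (χ g ^ 2 - χ g - 1) = 0 := by
    have := hinner _ (fun _ => 1) 0 (inner_irr_ne hL hp (ne_of_degree d1 d5 (by norm_num)))
    simpa using this
  have s5 : ∑ g, (χ g ^ 2 - χ g - 1) ^ 2 = (Nat.card G : ℂ) := by
    have := hinner _ _ 1 (inner_irr_self hL)
    rw [one_mul] at this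
    rw [← this]
    apply Finset.sum_congr rfl
    intro g _
    simp only [map_sub, map_pow, hr, map_one]
    ring
  obtain ⟨b, hb⟩ := inner_char_natCast (isCharacter_mul (isCharacter_of_isIrr hL) (isCharacter_of_isIrr hL))
    (isCharacter_of_isIrr h)
  have s6 : ∑ g, (χ g ^ 2 - χ g - 1) ^ 2 * χ g = b * (Nat.card G : ℂ) := by
    have := hinner _ _ _ hb
    rw [← this]
    apply Finset.sum_congr rfl
    intro g _
    simp only [hr, Pi.mul_apply]
    ring
  rw [s1] at q1
  rw [s2] at q2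
  simp only [s3, z3] at q3
  simp only [s4, z4] at q4
  simp only [s5, z5] at q5
  simp only [s6, z6] at q6
  rw [Finset.sum_const, nsmul_eq_mul, mul_one] at q1
  -- the number of golden elements
  have hN : (Φ.card : ℂ) = 24 := by linear_combination (-1 : ℂ) * q1 + q5
  -- their sum
  have hs : ∑ g ∈ Φ, χ g = 12 := by
    have h4 : ∀ g ∈ Φ, ∃ e : ℤ, 2 * χ g - 1 = e * ((Real.sqrt 5 : ℝ) : ℂ) := by
      intro g hg
      have h5 := hgold g hg
      have h6 : (2 * χ g - 1 - ((Real.sqrt 5 : ℝ) : ℂ)) * (2 * χ g - 1 + ((Real.sqrt 5 : ℝ) : ℂ)) = 0 := by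
        have h7 : ((Real.sqrt 5 : ℝ) : ℂ) * ((Real.sqrt 5 : ℝ) : ℂ) = 5 := by
          rw [← Complex.ofReal_mul, Real.mul_self_sqrt (by norm_num)]; norm_num
        linear_combination 4 * h5 - h7
      rcases mul_eq_zero.1 h6 with h8 | h8
      · exact ⟨1, by push_cast; linear_combination h8⟩
      · exact ⟨-1, by push_cast; linear_combination h8⟩
    choose! e he using h4
    have h5 : 2 * (∑ g ∈ Φ, χ g) - 24 = ((∑ g ∈ Φ, e g : ℤ) : ℂ) * ((Real.sqrt 5 : ℝ) : ℂ) := by
      rw [← hN]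
      push_cast
      rw [Finset.mul_sum, Finset.sum_mul, ← Finset.sum_congr rfl he, Finset.sum_sub_distrib,
        Finset.sum_const, nsmul_eq_mul, mul_one]
    set k : ℤ := ∑ g ∈ Φ, e g with hk
    have h6 : ∑ g ∈ Φ, χ g = ((A : ℤ) - C - 2 * E - 3 : ℤ) := by
      push_cast
      linear_combination (-1 : ℂ) * q2
    rw [h6] at h5
    have h7 : ((2 * ((A : ℤ) - C - 2 * E - 3) - 24 : ℤ) : ℝ) = (k : ℝ) * Real.sqrt 5 := by
      have : (((2 * ((A : ℤ) - C - 2 * E - 3) - 24 : ℤ) : ℝ) : ℂ) = (((k : ℝ) * Real.sqrt 5 : ℝ) : ℂ) := by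
        push_cast
        push_cast at h5
        exact h5
      exact_mod_cast this
    have hirr := (Nat.Prime.irrational_sqrt (by norm_num : Nat.Prime 5))
    have hk0 : k = 0 := by
      by_contra hk0
      apply hirr.ne_rat (((2 * ((A : ℤ) - C - 2 * E - 3) - 24 : ℤ) : ℚ) / (k : ℚ))
      have hk' : (k : ℝ) ≠ 0 := by exact_mod_cast hk0
      rw [Rat.cast_div, Rat.cast_intCast, Rat.cast_intCast, h7, eq_div_iff hk']
      push_cast
      ring
    rw [hk0] at h5
    rw [h6]
    push_cast at h5 ⊢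
    linear_combination (1 / 2 : ℂ) * h5
  rw [hs] at q2
  norm_num [-Nat.card_eq_fintype_card] at q3 q4 q5 q6
  have hC0 : (C : ℂ) = 0 := by linear_combination (-1 / 2 : ℂ) * q2 + (1 / 2 : ℂ) * q3
  have hA' : (A : ℂ) = 15 + 2 * E := by linear_combination q3 - hC0
  have hB' : (B : ℂ) = 20 + 3 * E := by linear_combination q4 + hA' - hC0
  have hG : (Nat.card G : ℂ) = 60 + 6 * E := by linear_combination q5 + hA' + hB' + hC0
  have hbG : (b : ℂ) * (Nat.card G : ℂ) = 60 := by linear_combination q6 - hA' + hC0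
  have hG' : Nat.card G = 60 + 6 * E := by exact_mod_cast hG
  have hbG' : b * Nat.card G = 60 := by exact_mod_cast hbG
  have hle : Nat.card G ≤ 60 := Nat.le_of_dvd (by norm_num) ⟨b, by rw [← hbG']; ring⟩
  omega

end H81.Four
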