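import Cfsg.Agent.Lib.H81.Four4

/-!
# Groups with `χ(1) - χ(w) = 4` or `χ(w) = 0`: the normal subgroup with quotient of order 60
-/

set_option autoImplicit false
set_option linter.unusedSectionVars false
set_option linter.style.haveILetI false

namespace H81.Four

open Cfsg H18.CharBasic H18.CharOrtho H18.CharQuot H18.CharInd
open scoped ComplexConjugate

universe u
variable {G : Type u} [Group G] [Fintype G] {w : G} {χ : G → ℂ}

theorem HU.exists_three (hH : HU G w) (hw : w ≠ 1) :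
    ∃ χ : G → ℂ, IsIrrCharacter G χ ∧ χ 1 = 3 ∧ χ w = -1 := by
  classical
  by_contra hcon
  push Not at hcon
  letI : Fintype (IrrCharacter G) := Fintype.ofFinite _
  have hsum := sum_degree_mul (G := G) hw
  have hsum' : ∑ θ : IrrCharacter G, ((θ : G → ℂ) 1 * (θ : G → ℂ) w).re = 0 := by
    rw [← Complex.re_sum, hsum, Complex.zero_re]
  have hnn : ∀ θ : IrrCharacter G, 0 ≤ ((θ : G → ℂ) 1 * (θ : G → ℂ) w).re := by
    intro θ
    by_cases h1 : (θ : G → ℂ) = fun _ => (1 : ℂ)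
    · rw [h1]; simp
    · obtain ⟨n, hn0, hn⟩ := exists_degree_pos θ.2
      rcases hH _ θ.2 h1 with h4 | h4
      · have h5 : (θ : G → ℂ) w = (n : ℂ) - 4 := by rw [hn] at h4; linear_combination (-1 : ℂ) * h4
        rcases Nat.lt_or_ge n 4 with h6 | h6
        · have : n = 1 ∨ n = 2 ∨ n = 3 := by omega
          rcases this with rfl | rfl | rfl
          · exact absurd (hH.linear θ.2 (by simpa using hn)) h1
          · rw [hH.deg_two θ.2 (by simpa using hn)]; simp
          · exfalso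
            apply hcon _ θ.2 (by simpa using hn)
            rw [h5]; norm_num
        · rw [hn, h5]
          have : (n : ℂ) * ((n : ℂ) - 4) = (((n : ℝ) * ((n : ℝ) - 4) : ℝ) : ℂ) := by push_cast; ring
          rw [this, Complex.ofReal_re]
          have : (4 : ℝ) ≤ n := by exact_mod_cast h6
          nlinarith
      · rw [h4]; simp
  have h0 := (Finset.sum_eq_zero_iff_of_nonneg (fun θ _ => hnn θ)).1 hsum'
    ⟨_, isIrrCharacter_one⟩ (Finset.mem_univ _)
  simp at h0

theorem cc_quot (hH : HU G w) {N : Subgroup G} [N.Normal] (h1 : w ∉ N) (h2 : w * w ∈ N) :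
    CC (w : G ⧸ N) where
  hu := hH.quot N
  ne := fun h => h1 ((QuotientGroup.eq_one_iff w).1 h)
  sq := by rw [← QuotientGroup.mk_mul]; exact (QuotientGroup.eq_one_iff _).2 h2

theorem HU.sq_mem (hH : HU G w) {χ : G → ℂ} (h : IsIrrCharacter G χ) (h3 : χ 1 = 3)
    (hm : χ w = -1) : w * w ∈ kerSub χ (isCharacter_of_isIrr h) := by
  rw [mem_kerSub, sq_sub hH.perfect (isCharacter_of_isIrr h) h3, hm, h3]
  simp
  norm_num

theorem HU.not_mem_ker (_hH : HU G w) {χ : G → ℂ} (h : IsIrrCharacter G χ) (h3 : χ 1 = 3)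
    (hm : χ w = -1) : w ∉ kerSub χ (isCharacter_of_isIrr h) := by
  rw [mem_kerSub, hm, h3]
  norm_num

theorem HU.ker_le (hH : HU G w) {χ ψ : G → ℂ} (h : IsIrrCharacter G χ) (h3 : χ 1 = 3)
    (hm : χ w = -1) (h' : IsIrrCharacter G ψ) (h3' : ψ 1 = 3) (hm' : ψ w = -1) :
    kerSub χ (isCharacter_of_isIrr h) ≤ kerSub ψ (isCharacter_of_isIrr h') := by
  classical
  intro g hg
  set N := kerSub χ (isCharacter_of_isIrr h) ⊓ kerSub ψ (isCharacter_of_isIrr h') with hN
  haveI : N.Normal := inferInstance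
  letI : Fintype (G ⧸ N) := Fintype.ofFinite _
  have hC : CC (w : G ⧸ N) := cc_quot hH
    (fun h4 => hH.not_mem_ker h h3 hm (Subgroup.mem_inf.1 h4).1)
    (Subgroup.mem_inf.2 ⟨hH.sq_mem h h3 hm, hH.sq_mem h' h3' hm'⟩)
  have hNχ : ∀ n ∈ N, χ n = χ 1 := fun n hn => (Subgroup.mem_inf.1 hn).1
  have hNψ : ∀ n ∈ N, ψ n = ψ 1 := fun n hn => (Subgroup.mem_inf.1 hn).2
  have d1 := isIrrCharacter_deflate N h hNχ
  have d2 := isIrrCharacter_deflate N h' hNψ
  have e1 := deflate_mk N (isCharacter_of_isIrr h) hNχ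
  have e2 := deflate_mk N (isCharacter_of_isIrr h') hNψ
  have f1 : deflate N χ 1 = 3 := by rw [← QuotientGroup.mk_one, e1, h3]
  have f2 : deflate N ψ 1 = 3 := by rw [← QuotientGroup.mk_one, e2, h3']
  have h5 := hC.lam_eq d1 f1 d2 f2 (g : G ⧸ N)
  rw [e1, e2] at h5
  rw [mem_kerSub, h3] at hg
  rw [hg] at h5
  rw [mem_kerSub, h3']
  have h6 : (ψ g - 3) * (ψ g + 2) = 0 := by linear_combination (-1 : ℂ) * h5
  rcases mul_eq_zero.1 h6 with h7 | h7
  · linear_combination h7
  · exfalso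
    have h8 : ψ g = -2 := by linear_combination h7
    have h9 := (ge_neg_one hH.perfect (isCharacter_of_isIrr h') h3' g (by rw [h8, map_neg, map_ofNat])).1
    rw [h8] at h9
    norm_num at h9

theorem HU.structure_thm (hH : HU G w) (hw : w ≠ 1) : ∃ (M : Subgroup G) (_ : M.Normal),
    Nat.card (G ⧸ M) = 60 ∧ w ∉ M ∧ w * w ∈ M ∧
    ∀ ψ : G → ℂ, IsIrrCharacter G ψ → (∃ m ∈ M, ψ m ≠ ψ 1) → ψ w = 0 := by
  classical
  obtain ⟨χ, h, h3, hm⟩ := hH.exists_three hw
  set M := kerSub χ (isCharacter_of_isIrr h) with hM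
  have hwM : w ∉ M := hH.not_mem_ker h h3 hm
  have hw2M : w * w ∈ M := hH.sq_mem h h3 hm
  refine ⟨M, inferInstance, ?_, hwM, hw2M, ?_⟩
  · letI : Fintype (G ⧸ M) := Fintype.ofFinite _
    have hC : CC (w : G ⧸ M) := cc_quot hH hwM hw2M
    have hMχ : ∀ n ∈ M, χ n = χ 1 := fun n hn => hn
    have d1 := isIrrCharacter_deflate M h hMχ
    have e1 := deflate_mk M (isCharacter_of_isIrr h) hMχ
    have f1 : deflate M χ 1 = 3 := by rw [← QuotientGroup.mk_one, e1, h3]
    apply hC.card_sixty d1 f1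
    intro q hq
    obtain ⟨g, rfl⟩ := QuotientGroup.mk_surjective q
    rw [e1] at hq
    exact (QuotientGroup.eq_one_iff g).2 (by rw [hM, mem_kerSub, hq, h3])
  · letI : Fintype (IrrCharacter G) := Fintype.ofFinite _
    letI : Fintype (IrrCharacter (G ⧸ M)) := Fintype.ofFinite _
    set v : IrrCharacter G → ℝ := fun θ => ((θ : G → ℂ) 1 * (θ : G → ℂ) w).re with hv
    have hsum : ∑ θ : IrrCharacter G, v θ = 0 := by
      rw [hv, ← Complex.re_sum, sum_degree_mul (G := G) hw, Complex.zero_re]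
    have hwM' : (w : G ⧸ M) ≠ 1 := fun h => hwM ((QuotientGroup.eq_one_iff w).1 h)
    have hsum2 : ∑ θ : IrrCharacter (G ⧸ M), ((θ : G ⧸ M → ℂ) 1 * (θ : G ⧸ M → ℂ) w).re = 0 := by
      rw [← Complex.re_sum, sum_degree_mul (G := G ⧸ M) hwM', Complex.zero_re]
    have hsplit := Finset.sum_filter_add_sum_filter_not (Finset.univ : Finset (IrrCharacter G))
      (fun θ : IrrCharacter G => ∀ n ∈ M, (θ : G → ℂ) n = (θ : G → ℂ) 1) v
    have hfirst : ∑ θ ∈ Finset.univ.filter
        (fun θ : IrrCharacter G => ∀ n ∈ M, (θ : G → ℂ) n = (θ : G → ℂ) 1), v θ = 0 := by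
      rw [← hsum2]
      rw [Finset.sum_subtype (p := fun θ : IrrCharacter G => ∀ n ∈ M, (θ : G → ℂ) n = (θ : G → ℂ) 1)
        _ (fun θ => by simp)]
      rw [← Equiv.sum_comp (irrQuotEquiv M)]
      apply Finset.sum_congr rfl
      intro θ _
      rw [hv]
      simp only [irrQuotEquiv_apply, QuotientGroup.mk_one]
    rw [hfirst, hsum, zero_add] at hsplit
    have hnn : ∀ θ ∈ Finset.univ.filter
        (fun θ : IrrCharacter G => ¬ ∀ n ∈ M, (θ : G → ℂ) n = (θ : G → ℂ) 1), 0 ≤ v θ := by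
      intro θ hθ
      rw [Finset.mem_filter] at hθ
      have h1 : (θ : G → ℂ) ≠ fun _ => (1 : ℂ) := by
        intro h4
        apply hθ.2
        intro n _
        rw [h4]
      obtain ⟨n, hn0, hn⟩ := exists_degree_pos θ.2
      rcases hH _ θ.2 h1 with h4 | h4
      · have h5 : (θ : G → ℂ) w = (n : ℂ) - 4 := by rw [hn] at h4; linear_combination (-1 : ℂ) * h4
        rcases Nat.lt_or_ge n 4 with h6 | h6
        · have : n = 1 ∨ n = 2 ∨ n = 3 := by omega
          rcases this with rfl | rfl | rfl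
          · exact absurd (hH.linear θ.2 (by simpa using hn)) h1
          · rw [hv]; simp [hH.deg_two θ.2 (by simpa using hn)]
          · exfalso
            apply hθ.2
            have h7 : (θ : G → ℂ) w = -1 := by rw [h5]; norm_num
            intro m hm'
            have := hH.ker_le h h3 hm θ.2 (by simpa using hn) h7 hm'
            exact this
        · rw [hv]
          simp only [hn, h5]
          have : (n : ℂ) * ((n : ℂ) - 4) = (((n : ℝ) * ((n : ℝ) - 4) : ℝ) : ℂ) := by push_cast; ring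
          rw [this, Complex.ofReal_re]
          have : (4 : ℝ) ≤ n := by exact_mod_cast h6
          nlinarith
      · rw [hv]; simp [h4]
    have hzero := (Finset.sum_eq_zero_iff_of_nonneg hnn).1 hsplit
    intro ψ hψ hne
    have hψmem : (⟨ψ, hψ⟩ : IrrCharacter G) ∈ Finset.univ.filter
        (fun θ : IrrCharacter G => ¬ ∀ n ∈ M, (θ : G → ℂ) n = (θ : G → ℂ) 1) := by
      rw [Finset.mem_filter]
      refine ⟨Finset.mem_univ _, ?_⟩
      push Not
      exact hne
    have h1 : ψ ≠ fun _ => (1 : ℂ) := by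
      rintro rfl
      obtain ⟨m, hm, hne⟩ := hne
      exact hne rfl
    rcases hH _ hψ h1 with h4 | h4
    · have h5 := hzero _ hψmem
      obtain ⟨n, hn0, hn⟩ := exists_degree_pos hψ
      have h6 : ψ w = (((n : ℝ) - 4 : ℝ) : ℂ) := by rw [hn] at h4; push_cast; linear_combination (-1 : ℂ) * h4
      rw [hv] at h5
      simp only [hn, h6] at h5
      have : (n : ℂ) * (((n : ℝ) - 4 : ℝ) : ℂ) = (((n : ℝ) * ((n : ℝ) - 4) : ℝ) : ℂ) := by push_cast; ring
      rw [this, Complex.ofReal_re] at h5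
      have hn0' : (n : ℝ) ≠ 0 := by exact_mod_cast hn0.ne'
      rcases mul_eq_zero.1 h5 with h7 | h7
      · exact absurd h7 hn0'
      · rw [h6, h7]; simp
    · exact h4

theorem conj_and_card {M : Subgroup G} [M.Normal]
    (hz : ∀ ψ : G → ℂ, IsIrrCharacter G ψ → (∃ m ∈ M, ψ m ≠ ψ 1) → ψ w = 0) {v : G}
    (hv : (v : G ⧸ M) = w) : IsConj w v ∧
      Nat.card (Subgroup.centralizer ({w} : Set G)) = Nat.card (Subgroup.centralizer ({(w : G ⧸ M)} : Set (G ⧸ M))) := by
  classical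
  letI : Fintype (IrrCharacter G) := Fintype.ofFinite _
  letI : Fintype (IrrCharacter (G ⧸ M)) := Fintype.ofFinite _
  have h1 := column_orthogonality (G := G) w v
  have h2 := column_orthogonality (G := G ⧸ M) (w : G ⧸ M) (v : G ⧸ M)
  rw [if_pos (by rw [hv])] at h2
  have hsplit := Finset.sum_filter_add_sum_filter_not (Finset.univ : Finset (IrrCharacter G))
    (fun θ : IrrCharacter G => ∀ n ∈ M, (θ : G → ℂ) n = (θ : G → ℂ) 1)
    (fun θ => (θ : G → ℂ) w * conj ((θ : G → ℂ) v))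
  have hfirst : ∑ θ ∈ Finset.univ.filter
      (fun θ : IrrCharacter G => ∀ n ∈ M, (θ : G → ℂ) n = (θ : G → ℂ) 1),
        (θ : G → ℂ) w * conj ((θ : G → ℂ) v) =
      (Nat.card (Subgroup.centralizer ({(w : G ⧸ M)} : Set (G ⧸ M))) : ℂ) := by
    rw [← h2]
    rw [Finset.sum_subtype (p := fun θ : IrrCharacter G => ∀ n ∈ M, (θ : G → ℂ) n = (θ : G → ℂ) 1)
      _ (fun θ => by simp)]
    rw [← Equiv.sum_comp (irrQuotEquiv M)]
    apply Finset.sum_congr rfl
    intro θ _
    simp only [irrQuotEquiv_apply]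
  have hsecond : ∑ θ ∈ Finset.univ.filter
      (fun θ : IrrCharacter G => ¬ ∀ n ∈ M, (θ : G → ℂ) n = (θ : G → ℂ) 1),
        (θ : G → ℂ) w * conj ((θ : G → ℂ) v) = 0 := by
    apply Finset.sum_eq_zero
    intro θ hθ
    rw [Finset.mem_filter] at hθ
    have h3 := hθ.2
    push Not at h3
    rw [hz _ θ.2 h3, zero_mul]
  rw [hfirst, hsecond, add_zero, h1] at hsplit
  have hne : (Nat.card (Subgroup.centralizer ({(w : G ⧸ M)} : Set (G ⧸ M))) : ℂ) ≠ 0 := by
    exact_mod_cast (Nat.card_pos (α := Subgroup.centralizer ({(w : G ⧸ M)} : Set (G ⧸ M)))).ne'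
  split_ifs at hsplit with hc
  · refine ⟨hc, ?_⟩
    exact_mod_cast hsplit.symm
  · exact absurd hsplit hne

end H81.Four
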