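import Mathlib

/-!
# Involutions of `A_5`
-/

set_option autoImplicit false
set_option linter.unusedSectionVars false
set_option linter.style.haveILetI false

namespace H81.Four

open Equiv

/-- the standard involution -/
def x0 : Perm (Fin 5) := swap 0 1 * swap 2 3

/-- another one -/
def y0 : Perm (Fin 5) := swap 0 2 * swap 1 3

theorem sign_x0 : Perm.sign x0 = 1 := by decide +kernel
theorem sign_y0 : Perm.sign y0 = 1 := by decide +kernel

/-- the standard involution -/
def X0 : alternatingGroup (Fin 5) := ⟨x0, Perm.mem_alternatingGroup.2 sign_x0⟩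

/-- another one -/
def Y0 : alternatingGroup (Fin 5) := ⟨y0, Perm.mem_alternatingGroup.2 sign_y0⟩

set_option maxRecDepth 100000 in
theorem perm_conj : ∀ x : Perm (Fin 5), Perm.sign x = 1 → x * x = 1 → x ≠ 1 →
    ∃ g : Perm (Fin 5), Perm.sign g = 1 ∧ g * x0 * g⁻¹ = x := by decide +kernel

set_option maxRecDepth 100000 in
theorem perm_cent : (Finset.univ.filter (fun g : Perm (Fin 5) => Perm.sign g = 1 ∧ g * x0 = x0 * g)).card = 4 := by
  decide +kernel

set_option maxRecDepth 100000 in
theorem perm_four : ∀ x : Perm (Fin 5), Perm.sign x = 1 → x ^ 4 = 1 → x * x = 1 := by decide +kernel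

theorem a5_conj {x : alternatingGroup (Fin 5)} (hx : x * x = 1) (hx1 : x ≠ 1) : IsConj X0 x := by
  obtain ⟨g, hg, hgx⟩ := perm_conj x.1 (Perm.mem_alternatingGroup.1 x.2)
    (congrArg Subtype.val hx) (fun h => hx1 (Subtype.ext h))
  rw [isConj_iff]
  exact ⟨⟨g, Perm.mem_alternatingGroup.2 hg⟩, Subtype.ext hgx⟩

theorem a5_cent : Nat.card (Subgroup.centralizer ({X0} : Set (alternatingGroup (Fin 5)))) = 4 := by
  classical
  rw [← perm_cent, ← Fintype.card_coe, ← Nat.card_eq_fintype_card]
  refine Nat.card_congr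
    { toFun := fun g => ⟨g.1.1, ?_⟩
      invFun := fun g => ⟨⟨g.1, ?_⟩, ?_⟩
      left_inv := fun g => rfl
      right_inv := fun g => rfl }
  · rw [Finset.mem_filter]
    refine ⟨Finset.mem_univ _, Perm.mem_alternatingGroup.1 g.1.2, ?_⟩
    have := Subgroup.mem_centralizer_singleton_iff.1 g.2
    exact congrArg Subtype.val this
  · have := g.2
    rw [Finset.mem_filter] at this
    exact Perm.mem_alternatingGroup.2 this.2.1
  · have := g.2
    rw [Finset.mem_filter] at this
    exact Subgroup.mem_centralizer_singleton_iff.2 (Subtype.ext this.2.2)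

theorem card_cent_of_isConj {G : Type*} [Group G] {x y : G} (h : IsConj x y) :
    Nat.card (Subgroup.centralizer ({x} : Set G)) = Nat.card (Subgroup.centralizer ({y} : Set G)) := by
  obtain ⟨g, rfl⟩ := isConj_iff.1 h
  refine Nat.card_congr
    { toFun := fun c => ⟨g * c.1 * g⁻¹, ?_⟩
      invFun := fun c => ⟨g⁻¹ * c.1 * g, ?_⟩
      left_inv := fun c => Subtype.ext (by group)
      right_inv := fun c => Subtype.ext (by group) }
  · have := Subgroup.mem_centralizer_singleton_iff.1 c.2
    rw [Subgroup.mem_centralizer_singleton_iff]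
    have h1 : g * (c : G) * g⁻¹ * (g * x * g⁻¹) = g * (c * x) * g⁻¹ := by group
    rw [h1, this]; group
  · have := Subgroup.mem_centralizer_singleton_iff.1 c.2
    rw [Subgroup.mem_centralizer_singleton_iff]
    have h1 : g⁻¹ * (c : G) * g * x = g⁻¹ * (c * (g * x * g⁻¹)) * g := by group
    rw [h1, this]; group

/-- in a group isomorphic to `A_5` -/
theorem alt_facts {Q : Type*} [Group Q] (e : Q ≃* alternatingGroup (Fin 5)) :
    (∀ x y : Q, x * x = 1 → x ≠ 1 → y * y = 1 → y ≠ 1 → IsConj x y) ∧
    (∀ x : Q, x * x = 1 → x ≠ 1 → Nat.card (Subgroup.centralizer ({x} : Set Q)) = 4) ∧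
    (∀ x : Q, x ^ 4 = 1 → x * x = 1) ∧
    (∃ x y : Q, x * x = 1 ∧ x ≠ 1 ∧ y * y = 1 ∧ y ≠ 1 ∧ (x * y) * (x * y) = 1 ∧ x * y ≠ 1) := by
  have hconj : ∀ x : Q, x * x = 1 → x ≠ 1 → IsConj (e.symm X0) x := by
    intro x hx hx1
    have h1 : IsConj X0 (e x) := a5_conj (by rw [← map_mul, hx, map_one])
      (fun h => hx1 (e.injective (by rw [h, map_one])))
    have h2 := MonoidHom.map_isConj (e.symm : alternatingGroup (Fin 5) →* Q) h1
    simpa using h2
  refine ⟨fun x y hx hx1 hy hy1 => (hconj x hx hx1).symm.trans (hconj y hy hy1), ?_, ?_, ?_⟩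
  · intro x hx hx1
    rw [← card_cent_of_isConj (hconj x hx hx1), ← a5_cent]
    refine Nat.card_congr
      { toFun := fun c => ⟨e c.1, ?_⟩
        invFun := fun c => ⟨e.symm c.1, ?_⟩
        left_inv := fun c => Subtype.ext (by simp)
        right_inv := fun c => Subtype.ext (by simp) }
    · have := Subgroup.mem_centralizer_singleton_iff.1 c.2
      rw [Subgroup.mem_centralizer_singleton_iff]
      have h1 := congrArg e this
      simpa using h1
    · have := Subgroup.mem_centralizer_singleton_iff.1 c.2
      rw [Subgroup.mem_centralizer_singleton_iff]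
      have h1 := congrArg e.symm this
      simpa using h1
  · intro x hx
    have h1 := perm_four (e x).1 (Perm.mem_alternatingGroup.1 (e x).2) (by
      have : (e x) ^ 4 = 1 := by rw [← map_pow, hx, map_one]
      exact congrArg Subtype.val this)
    apply e.injective
    rw [map_mul, map_one]
    exact Subtype.ext h1
  · refine ⟨e.symm X0, e.symm Y0, ?_, ?_, ?_, ?_, ?_, ?_⟩
    · rw [← map_mul, show X0 * X0 = 1 by decide +kernel, map_one]
    · intro h
      have : X0 = 1 := e.symm.injective (by rw [h, map_one])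
      exact absurd this (by decide +kernel)
    · rw [← map_mul, show Y0 * Y0 = 1 by decide +kernel, map_one]
    · intro h
      have : Y0 = 1 := e.symm.injective (by rw [h, map_one])
      exact absurd this (by decide +kernel)
    · rw [← map_mul, ← map_mul, show (X0 * Y0) * (X0 * Y0) = 1 by decide +kernel, map_one]
    · intro h
      have : X0 * Y0 = 1 := e.symm.injective (by rw [map_mul, h, map_one])
      exact absurd this (by decide +kernel)

end H81.Four
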