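import Mathlib
import Cfsg.Prelude.Def_CaseTheorems
import Cfsg.Agent.Lib.H1.Cores
import Cfsg.Agent.Lib.H76.MaxClass
import Cfsg.Agent.Lib.H81.Four6

/-!
# Extensions of `A_5` in which the elements over involutions form one class
-/

set_option autoImplicit false
set_option linter.unusedSectionVars false
set_option linter.style.haveILetI false

namespace H81.Four

open Cfsg Subgroup

variable {G : Type*} [Group G] [Finite G]

/-- the data -/
structure AData (M : Subgroup G) [M.Normal] (w : G) : Prop where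
  card : Nat.card (G ⧸ M) = 60
  simple : IsSimpleGroup (G ⧸ M)
  four : ∀ x : G, x ^ 4 ∈ M → x * x ∈ M
  klein : ∃ x y : G, x * x ∈ M ∧ x ∉ M ∧ y * y ∈ M ∧ y ∉ M ∧ x * y * (x * y) ∈ M ∧ x * y ∉ M
  hw : w ∉ M
  hw2 : w * w ∈ M
  conj : ∀ v, v ∉ M → v * v ∈ M → IsConj w v
  cent : ∀ v, v ∉ M → v * v ∈ M → Nat.card (centralizer ({v} : Set G)) = 4

variable {M : Subgroup G} [hMn : M.Normal] {w : G}

omit [Finite G] in
theorem mul_not_mem {x m : G} (hx : x ∉ M) (hm : m ∈ M) : x * m ∉ M :=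
  fun h => hx ((M.mul_mem_cancel_right hm).1 h)

omit [Finite G] in
theorem mul_mul_mem {x m : G} (hx : x * x ∈ M) (hm : m ∈ M) : x * m * (x * m) ∈ M := by
  rw [← QuotientGroup.eq_one_iff] at hx hm ⊢
  rw [QuotientGroup.mk_mul] at hx
  rw [QuotientGroup.mk_mul, QuotientGroup.mk_mul, hm, mul_one, hx]

omit [Finite G] in
/-- inversion by three elements -/
theorem inv_three {x y q : G} (hx : x * q * x⁻¹ = q⁻¹) (hy : y * q * y⁻¹ = q⁻¹)
    (hxy : (x * y) * q * (x * y)⁻¹ = q⁻¹) : q * q = 1 := by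
  have h1 : (x * y) * q * (x * y)⁻¹ = q := by
    have h2 : (x * y) * q * (x * y)⁻¹ = x * (y * q * y⁻¹) * x⁻¹ := by group
    rw [h2, hy]
    have h3 : x * q⁻¹ * x⁻¹ = (x * q * x⁻¹)⁻¹ := by group
    rw [h3, hx, inv_inv]
  rw [h1] at hxy
  nth_rewrite 2 [hxy]
  exact mul_inv_cancel q

/-- the case of an involution -/
theorem AData.case_two (h : AData M w) (h1 : w * w = 1) : M = ⊥ := by
  classical
  have hsq : ∀ v, v ∉ M → v * v ∈ M → v * v = 1 := by
    intro v hv hv2
    obtain ⟨g, hg⟩ := isConj_iff.1 (h.conj v hv hv2)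
    rw [← hg]
    have : g * w * g⁻¹ * (g * w * g⁻¹) = g * (w * w) * g⁻¹ := by group
    rw [this, h1]; group
  have hinv : ∀ v, v ∉ M → v * v ∈ M → ∀ m ∈ M, v * m * v⁻¹ = m⁻¹ := by
    intro v hv hv2 m hm
    have h2 := hsq _ (mul_not_mem hv hm) (mul_mul_mem hv2 hm)
    have h3 := hsq v hv hv2
    have h4 : v⁻¹ = v := inv_eq_of_mul_eq_one_left h3
    rw [h4]
    apply eq_inv_of_mul_eq_one_left
    rw [← h2]; group
  obtain ⟨x, y, hx2, hx, hy2, hy, hxy2, hxy⟩ := h.klein
  rw [eq_bot_iff]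
  intro m hm
  rw [mem_bot]
  by_contra hne
  have hmm := inv_three (hinv x hx hx2 m hm) (hinv y hy hy2 m hm) (hinv _ hxy hxy2 m hm)
  have hmi : m⁻¹ = m := inv_eq_of_mul_eq_one_left hmm
  have ex : x * x = 1 := hsq x hx hx2
  have ey : y * y = 1 := hsq y hy hy2
  have exy : x * y * (x * y) = 1 := hsq _ hxy hxy2
  have hx1 : x ≠ 1 := fun h => hx (h ▸ M.one_mem)
  have hy1 : y ≠ 1 := fun h => hy (h ▸ M.one_mem)
  have hxy1 : x * y ≠ 1 := fun h => hxy (h ▸ M.one_mem)
  have hcomm : y * x = x * y := by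
    have ix : x⁻¹ = x := inv_eq_of_mul_eq_one_left ex
    have iy : y⁻¹ = y := inv_eq_of_mul_eq_one_left ey
    have h2 : (x * y)⁻¹ = x * y := inv_eq_of_mul_eq_one_left exy
    rw [mul_inv_rev, ix, iy] at h2
    exact h2
  have hmc : m * x = x * m := by
    have := hinv x hx hx2 m hm
    rw [hmi, mul_inv_eq_iff_eq_mul] at this
    exact this.symm
  set C := centralizer ({x} : Set G) with hC
  have hcard := h.cent x hx hx2
  have c1 : (1 : G) ∈ C := one_mem _
  have cx : x ∈ C := mem_centralizer_singleton_iff.2 rfl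
  have cy : y ∈ C := mem_centralizer_singleton_iff.2 hcomm
  have cxy : x * y ∈ C := C.mul_mem cx cy
  have cm : m ∈ C := mem_centralizer_singleton_iff.2 hmc
  letI : Fintype C := Fintype.ofFinite _
  let s : Finset C := {⟨1, c1⟩, ⟨x, cx⟩, ⟨y, cy⟩, ⟨x * y, cxy⟩, ⟨m, cm⟩}
  have hs : s.card = 5 := by
    rw [Finset.card_insert_of_notMem, Finset.card_insert_of_notMem, Finset.card_insert_of_notMem,
      Finset.card_insert_of_notMem, Finset.card_singleton]
    · simp only [Finset.mem_singleton, Subtype.mk.injEq]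
      rintro rfl
      exact hxy hm
    · simp only [Finset.mem_insert, Finset.mem_singleton, Subtype.mk.injEq, not_or]
      refine ⟨fun h2 => hx1 ?_, fun h2 => hy (h2 ▸ hm)⟩
      exact mul_eq_right.1 h2.symm
    · simp only [Finset.mem_insert, Finset.mem_singleton, Subtype.mk.injEq, not_or]
      refine ⟨fun h2 => hxy1 (by rw [← h2]; exact ex), fun h2 => hy1 ?_, fun h2 => hx (h2 ▸ hm)⟩
      exact mul_eq_left.1 h2.symm
    · simp only [Finset.mem_insert, Finset.mem_singleton, Subtype.mk.injEq, not_or]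
      exact ⟨Ne.symm hx1, Ne.symm hy1, Ne.symm hxy1, Ne.symm hne⟩
  have hle := Finset.card_le_univ s
  rw [hs, ← Nat.card_eq_fintype_card, hcard] at hle
  omega

section big

variable (h : AData M w) (h1 : w * w ≠ 1)
include h h1

theorem AData.pow_four {v : G} (hv : v ∉ M) (hv2 : v * v ∈ M) : v ^ 4 = 1 ∧ orderOf v = 4 := by
  have hvv : v * v ≠ 1 := by
    obtain ⟨g, hg⟩ := isConj_iff.1 (h.conj v hv hv2)
    intro h2
    apply h1
    rw [← hg] at h2
    have : g * w * g⁻¹ * (g * w * g⁻¹) = g * (w * w) * g⁻¹ := by group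
    rw [this] at h2
    have h3 : g⁻¹ * (g * (w * w) * g⁻¹) * g = g⁻¹ * 1 * g := congrArg (fun t => g⁻¹ * t * g) h2
    have e1 : g⁻¹ * (g * (w * w) * g⁻¹) * g = w * w := by group
    have e2 : g⁻¹ * 1 * g = 1 := by group
    rwa [e1, e2] at h3
  have hdvd : orderOf v ∣ 4 := by
    rw [← h.cent v hv hv2]
    have hvC : v ∈ centralizer ({v} : Set G) := mem_centralizer_singleton_iff.2 rfl
    have := orderOf_dvd_natCard (⟨v, hvC⟩ : centralizer ({v} : Set G))
    rwa [Subgroup.orderOf_mk] at this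
  refine ⟨orderOf_dvd_iff_pow_eq_one.1 hdvd, ?_⟩
  have h4 : ¬ orderOf v ∣ 2 := by
    intro h5
    rw [orderOf_dvd_iff_pow_eq_one, pow_two] at h5
    exact hvv h5
  have h6 : orderOf v ≤ 4 := Nat.le_of_dvd (by norm_num) hdvd
  have h7 : orderOf v ≠ 0 := (orderOf_pos v).ne'
  interval_cases (orderOf v)
  · omega
  · exact absurd (one_dvd 2) h4
  · exact absurd (dvd_refl 2) h4
  · omega
  · rfl

theorem AData.mem_pow {v c : G} (hv : v ∉ M) (hv2 : v * v ∈ M) (hc : c * v = v * c) :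
    c = 1 ∨ c = v ∨ c = v * v ∨ c = v * v * v := by
  classical
  have ho := (h.pow_four h1 hv hv2).2
  have heq : zpowers v = centralizer ({v} : Set G) := by
    apply Subgroup.eq_of_le_of_card_ge
    · rw [zpowers_le]
      exact mem_centralizer_singleton_iff.2 rfl
    · rw [h.cent v hv hv2, Nat.card_zpowers, ho]
  have hmem : c ∈ zpowers v := by
    rw [heq]; exact mem_centralizer_singleton_iff.2 hc
  rw [mem_zpowers_iff_mem_range_orderOf, ho] at hmem
  simp only [Finset.mem_image, Finset.mem_range] at hmem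
  obtain ⟨n, hn, rfl⟩ := hmem
  interval_cases n
  · left; exact pow_zero v
  · right; left; exact pow_one v
  · right; right; left; exact pow_two v
  · right; right; right; rw [pow_succ, pow_two]

variable (P : Sylow 2 G) (hwP : w ∈ P)

theorem AData.relIndex_eq : M.relIndex (P : Subgroup G) = 4 := by
  have h2 : M.relIndex (P : Subgroup G) ∣ Nat.card (P : Subgroup G) := relIndex_dvd_card _ _
  obtain ⟨k, hk⟩ := IsPGroup.iff_card.1 P.isPGroup'
  rw [hk] at h2
  obtain ⟨j, -, hj⟩ := (Nat.dvd_prime_pow Nat.prime_two).1 h2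
  have h3 : M.relIndex ((P : Subgroup G) ⊔ M) * ((P : Subgroup G) ⊔ M).index = M.index :=
    relIndex_mul_index le_sup_right
  rw [relIndex_sup_right, hj, show M.index = 60 from h.card] at h3
  have h4 : ¬ 2 ∣ ((P : Subgroup G) ⊔ M).index := fun h5 =>
    P.not_dvd_index (h5.trans (index_dvd_of_le le_sup_left))
  rw [hj]
  have hj5 : j ≤ 5 := by
    by_contra h6
    push Not at h6
    have h7 : 2 ^ 6 ≤ 2 ^ j := Nat.pow_le_pow_right (by norm_num) h6
    have h8 : 2 ^ j ≤ 60 := Nat.le_of_dvd (by norm_num) ⟨_, h3.symm⟩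
    omega
  interval_cases j <;> omega

theorem AData.card_P : Nat.card (P : Subgroup G) = 4 * Nat.card ((P : Subgroup G) ⊓ M : Subgroup G) := by
  have h2 := card_mul_index (M.subgroupOf (P : Subgroup G))
  have h3 : (M.subgroupOf (P : Subgroup G)).index = 4 := h.relIndex_eq h1 P
  have h4 : Nat.card (M.subgroupOf (P : Subgroup G)) = Nat.card ((P : Subgroup G) ⊓ M : Subgroup G) := by
    rw [inf_comm, ← subgroupOf_map_subtype]
    exact Nat.card_congr ((M.subgroupOf (P : Subgroup G)).equivMapOfInjective _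
      (P : Subgroup G).subtype_injective).toEquiv
  rw [← h2, h3, h4]; ring

/-- elements of `P` outside `M` -/
theorem AData.sq_mem {x : G} (hx : x ∈ P) : x * x ∈ M := by
  apply h.four
  have h2 := pow_index_mem (M.subgroupOf (P : Subgroup G)) (⟨x, hx⟩ : (P : Subgroup G))
  have h3 : (M.subgroupOf (P : Subgroup G)).index = 4 := h.relIndex_eq h1 P
  rw [h3] at h2
  exact h2

include hwP in
theorem AData.exists_y : ∃ y ∈ P, y ∉ M ∧ w * y ∉ M := by
  by_contra hcon
  push Not at hcon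
  have h3 : (M.subgroupOf (P : Subgroup G)).index = 4 := h.relIndex_eq h1 P
  have h4 : (M.subgroupOf (P : Subgroup G)).index = 2 := by
    rw [index_eq_two_iff']
    refine ⟨⟨w, hwP⟩, fun b => ?_⟩
    rw [xor_iff_iff_not, mem_subgroupOf, mem_subgroupOf]
    constructor
    · intro h5 h6
      exact h.hw ((M.mul_mem_cancel_right h6).1 h5)
    · intro h5
      exact hcon b.1 b.2 h5
  omega

include hwP in
/-- the common square -/
theorem AData.exists_z : ∃ z ∈ P, z ∈ M ∧ z ≠ 1 ∧ (∀ x ∈ P, z * x = x * z) ∧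
    ∀ x ∈ P, x ∉ M → x * x = z := by
  haveI : Nontrivial (P : Subgroup G) := by
    refine ⟨⟨1, ⟨w, hwP⟩, fun h2 => h.hw ?_⟩⟩
    have : w = 1 := (congrArg Subtype.val h2).symm
    rw [this]; exact M.one_mem
  haveI := P.isPGroup'.center_nontrivial
  obtain ⟨c, hc⟩ := exists_ne (1 : Subgroup.center (P : Subgroup G))
  have hc1 : ((c : (P : Subgroup G)) : G) ≠ 1 := fun h2 => hc (Subtype.ext (Subtype.ext h2))
  have hcP : ((c : (P : Subgroup G)) : G) ∈ P := c.1.2
  have hcc : ∀ x ∈ P, ((c : (P : Subgroup G)) : G) * x = x * ((c : (P : Subgroup G)) : G) := by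
    intro x hx
    have := Subgroup.mem_center_iff.1 c.2 ⟨x, hx⟩
    exact (congrArg Subtype.val this).symm
  have hcM : ((c : (P : Subgroup G)) : G) ∈ M := by
    by_contra hcM
    have h2 := h.cent _ hcM (h.sq_mem h1 P hcP)
    have h3 : (P : Subgroup G) ≤ centralizer ({((c : (P : Subgroup G)) : G)} : Set G) := fun x hx =>
      mem_centralizer_singleton_iff.2 (hcc x hx).symm
    have h4 := card_dvd_of_le h3
    rw [h2, h.card_P h1 P] at h4
    have h5 : Nat.card ((P : Subgroup G) ⊓ M : Subgroup G) = 1 := by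
      have h6 : 4 * Nat.card ((P : Subgroup G) ⊓ M : Subgroup G) ≤ 4 := Nat.le_of_dvd (by norm_num) h4
      have h7 : 0 < Nat.card ((P : Subgroup G) ⊓ M : Subgroup G) := Nat.card_pos
      omega
    rw [card_eq_one] at h5
    apply h1
    have : w * w ∈ (P : Subgroup G) ⊓ M := ⟨P.mul_mem hwP hwP, h.hw2⟩
    rw [h5] at this
    exact this
  refine ⟨_, hcP, hcM, hc1, hcc, fun x hx hxM => ?_⟩
  have hx2 := h.sq_mem h1 P hx
  rcases h.mem_pow h1 hxM hx2 (hcc x hx) with h2 | h2 | h2 | h2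
  · exact absurd h2 hc1
  · rw [h2] at hcM; exact absurd hcM hxM
  · exact h2.symm
  · rw [h2] at hcM
    exact absurd ((M.mul_mem_cancel_left hx2).1 hcM) hxM

include hwP in
/-- the structure of `P` -/
theorem AData.sylow_structure : ∃ z ∈ P, z ∈ M ∧ z ≠ 1 ∧ z * z = 1 ∧ (∀ x ∈ P, z * x = x * z) ∧
    (∀ x ∈ P, x ∉ M → x * x = z) ∧ (∀ q ∈ P, q ∈ M → q = 1 ∨ q = z) ∧
    Nat.card (P : Subgroup G) = 8 ∧ Nonempty ((P : Subgroup G) ≃* QuaternionGroup 2) := by
  obtain ⟨z, hzP, hzM, hz1, hzc, hsq⟩ := h.exists_z h1 P hwP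
  obtain ⟨y, hyP, hyM, hwy⟩ := h.exists_y h1 P hwP
  have hwz : w * w = z := hsq w hwP h.hw
  have hw4 : w ^ 4 = 1 := (h.pow_four h1 h.hw h.hw2).1
  have hzz : z * z = 1 := by
    rw [← hwz, ← hw4]
    simp only [pow_succ, pow_zero, one_mul, mul_assoc]
  have hinv : ∀ x ∈ P, x ∉ M → ∀ q ∈ P, q ∈ M → x * q * x⁻¹ = q⁻¹ := by
    intro x hx hxM q hq hqM
    have h2 := hsq _ (P.mul_mem hx hq) (mul_not_mem hxM hqM)
    rw [← hsq x hx hxM] at h2
    have h3 : q * (x * q) = x := by
      have h4 : x * (q * (x * q)) = x * x := by rw [← h2]; group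
      exact mul_left_cancel h4
    rw [mul_inv_eq_iff_eq_mul]
    rw [← eq_inv_mul_iff_mul_eq] at h3
    exact h3
  have hQ : ∀ q ∈ P, q ∈ M → q = 1 ∨ q = z := by
    intro q hq hqM
    have h2 := inv_three (hinv w hwP h.hw q hq hqM) (hinv y hyP hyM q hq hqM)
      (hinv _ (P.mul_mem hwP hyP) hwy q hq hqM)
    have h3 : q⁻¹ = q := inv_eq_of_mul_eq_one_left h2
    have h4 := hinv w hwP h.hw q hq hqM
    rw [h3, mul_inv_eq_iff_eq_mul] at h4
    rcases h.mem_pow h1 h.hw h.hw2 h4.symm with h5 | h5 | h5 | h5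
    · left; exact h5
    · rw [h5] at hqM; exact absurd hqM h.hw
    · right; rw [h5, hwz]
    · rw [h5] at hqM
      exact absurd ((M.mul_mem_cancel_left h.hw2).1 hqM) h.hw
  have hcardQ : Nat.card ((P : Subgroup G) ⊓ M : Subgroup G) = 2 := by
    have h2 : ((P : Subgroup G) ⊓ M : Subgroup G) = zpowers z := by
      apply le_antisymm
      · intro q hq
        rcases hQ q hq.1 hq.2 with h3 | h3
        · rw [h3]; exact one_mem _
        · rw [h3]; exact mem_zpowers z
      · rw [zpowers_le]; exact ⟨hzP, hzM⟩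
    rw [h2, Nat.card_zpowers]
    exact orderOf_eq_prime (by rw [pow_two, hzz]) hz1
  have hcardP : Nat.card (P : Subgroup G) = 8 := by rw [h.card_P h1 P, hcardQ]
  refine ⟨z, hzP, hzM, hz1, hzz, hzc, hsq, hQ, hcardP, ?_⟩
  have hyw : y * w ∉ M := by
    intro h2
    apply hwy
    have h3 := hMn.conj_mem _ h2 y⁻¹
    have h4 : y⁻¹ * (y * w) * y⁻¹⁻¹ = w * y := by group
    rwa [h4] at h3
  have hyz : y * y = z := hsq y hyP hyM
  have hywyw : y * w * (y * w) = z := hsq _ (P.mul_mem hyP hwP) hyw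
  have hconj : y * w * y⁻¹ = w⁻¹ := by
    rw [mul_inv_eq_iff_eq_mul, eq_inv_mul_iff_mul_eq]
    have h3 : y * (w * (y * w)) = y * y := by rw [hyz, ← hywyw]; group
    exact mul_left_cancel h3
  have how : orderOf (⟨w, hwP⟩ : (P : Subgroup G)) = 2 * 2 := by
    rw [Subgroup.orderOf_mk, (h.pow_four h1 h.hw h.hw2).2]
  apply H76.MaxClass.quaternion_of (⟨w, hwP⟩ : (P : Subgroup G)) (⟨y, hyP⟩ : (P : Subgroup G)) how
  · exact Subtype.ext hconj
  · rw [pow_two, pow_two]
    exact Subtype.ext (hyz.trans hwz.symm)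
  · classical
    intro h2
    rw [mem_zpowers_iff_mem_range_orderOf, how] at h2
    simp only [Finset.mem_image, Finset.mem_range] at h2
    obtain ⟨n, hn, hny⟩ := h2
    have hny' : w ^ n = y := congrArg Subtype.val hny
    interval_cases n
    · apply hyM; rw [← hny', pow_zero]; exact M.one_mem
    · apply hwy; rw [← hny', pow_one]; exact h.hw2
    · apply hyM; rw [← hny', pow_two]; exact h.hw2
    · apply hwy; rw [← hny', ← pow_succ', hw4]; exact M.one_mem
  · have h2 := card_mul_index (zpowers (⟨w, hwP⟩ : (P : Subgroup G)))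
    rw [Nat.card_zpowers, how, hcardP] at h2
    omega

end big

end H81.Four
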