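import Cfsg.Agent.Lib.H81.Four7

/-!
# Extensions of `A_5` in which the elements over involutions form one class: the odd core
-/

set_option autoImplicit false
set_option linter.unusedSectionVars false
set_option linter.style.haveILetI false

namespace H81.Four

open Cfsg Subgroup

universe u
variable {G : Type u} [Group G] [Finite G] {M : Subgroup G} [hMn : M.Normal] {w : G}

theorem odd_oddCore : Odd (Nat.card (oddCore G)) :=
  (Nat.coprime_two_right).1 (H1.Cores.coprime_card_pPrimeCore 2)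

theorem AData.oddCore_le (h : AData M w) : oddCore G ≤ M := by
  haveI := h.simple
  have hn : ((oddCore G).map (QuotientGroup.mk' M)).Normal :=
    Subgroup.Normal.map (H1.Cores.pPrimeCore_normal 2) _ (QuotientGroup.mk'_surjective M)
  rcases hn.eq_bot_or_eq_top with h2 | h2
  · rw [Subgroup.map_eq_bot_iff, QuotientGroup.ker_mk'] at h2
    exact h2
  · exfalso
    have h3 : Nat.card ((oddCore G).map (QuotientGroup.mk' M)) ∣ Nat.card (oddCore G) :=
      card_map_dvd _ _
    rw [h2, card_top, h.card] at h3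
    have h4 := odd_oddCore (G := G)
    have h5 : 2 ∣ Nat.card (oddCore G) := (by norm_num : (2 : ℕ) ∣ 60).trans h3
    rw [Nat.odd_iff] at h4
    omega

section big

variable (h : AData M w) (h1 : w * w ≠ 1)
include h h1

variable (P : Sylow 2 G) (hwP : w ∈ P)

include hwP in
theorem AData.card_oddCore : 2 * Nat.card (oddCore G) = Nat.card M := by
  obtain ⟨z, hzP, hzM, hz1, hzz, hzc, hsq, hQ, hcardP, -⟩ := h.sylow_structure h1 P hwP
  have hG : Nat.card G = 60 * Nat.card M := by
    have := M.card_mul_index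
    rw [show M.index = 60 from h.card] at this
    rw [← this]; ring
  have hM0 : Nat.card M ≠ 0 := Nat.card_pos.ne'
  have hfac : (Nat.card M).factorization 2 = 1 := by
    have h2 := P.card_eq_multiplicity
    rw [hcardP, hG, Nat.factorization_mul (by norm_num) hM0, Finsupp.add_apply,
      show (8 : ℕ) = 2 ^ 3 by norm_num] at h2
    have h3 := Nat.pow_right_injective (le_refl 2) h2
    have h4 : (60 : ℕ).factorization 2 = 2 := by
      rw [show (60 : ℕ) = 2 ^ 2 * 15 by norm_num, Nat.factorization_mul (by norm_num) (by norm_num),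
        Finsupp.add_apply, Nat.factorization_pow, Nat.factorization_eq_zero_of_not_dvd (n := 15) (by norm_num)]
      simp [Nat.prime_two.factorization_self]
    omega
  obtain ⟨S⟩ : Nonempty (Sylow 2 M) := inferInstance
  have hS : Nat.card (S : Subgroup M) = 2 := by
    rw [S.card_eq_multiplicity, hfac, pow_one]
  have h2M : 2 ∣ Nat.card M := by
    rw [← hS]; exact card_subgroup_dvd_card _
  have hmin : (Nat.card M).minFac = 2 := (Nat.minFac_eq_two_iff _).2 h2M
  have hcyc : IsCyclic (S : Subgroup M) := isCyclic_of_prime_card hS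
  have hcompl := IsCyclic.isComplement' hmin hcyc
  set K := (MonoidHom.transferSylow S (hcyc.normalizer_le_centralizer hmin)).ker with hK
  have hcardK : Nat.card K * 2 = Nat.card M := by
    rw [← hS]; exact hcompl.card_mul_card
  have hKodd : Odd (Nat.card K) := by
    rw [← Nat.not_even_iff_odd]
    intro he
    obtain ⟨r, hr⟩ := he.two_dvd
    have h3 : 2 ^ 2 ∣ Nat.card M := ⟨r, by rw [← hcardK, hr]; ring⟩
    have h4 := (Nat.prime_two.pow_dvd_iff_le_factorization hM0).1 h3
    omega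
  have hKle : K ≤ pPrimeCore 2 M := H1.Cores.le_pPrimeCore inferInstance ((Nat.coprime_two_right).2 hKodd)
  have h3 : Nat.card K ∣ Nat.card (oddCore G) := by
    have h4 := card_dvd_of_le hKle
    have h5 := H1.Cores.map_subtype_pPrimeCore 2 M
    rw [inf_eq_right.2 h.oddCore_le] at h5
    have h6 : Nat.card (pPrimeCore 2 M) = Nat.card (oddCore G) := by
      rw [← h5]
      exact Nat.card_congr ((pPrimeCore 2 M).equivMapOfInjective _ M.subtype_injective).toEquiv
    rwa [h6] at h4
  have h4 : Nat.card (oddCore G) ∣ Nat.card K := by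
    have h5 := card_dvd_of_le h.oddCore_le
    rw [← hcardK] at h5
    exact Nat.Coprime.dvd_of_dvd_mul_right (H1.Cores.coprime_card_pPrimeCore 2) h5
  rw [← Nat.dvd_antisymm h3 h4, ← hcardK]; ring

include hwP in
theorem AData.card_quot : Nat.card (G ⧸ oddCore G) = 120 := by
  have h2 := (oddCore G).card_mul_index
  have h3 := M.card_mul_index
  rw [show M.index = 60 from h.card, ← h.card_oddCore h1 P hwP] at h3
  have h4 : Nat.card (oddCore G) * (oddCore G).index = Nat.card (oddCore G) * 120 := by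
    rw [h2, ← h3]; ring
  exact Nat.eq_of_mul_eq_mul_left Nat.card_pos h4

omit hMn h h1 in
theorem sylow_inf_oddCore : (P : Subgroup G) ⊓ oddCore G = ⊥ := by
  rw [← card_eq_one]
  obtain ⟨k, hk⟩ := IsPGroup.iff_card.1 P.isPGroup'
  have h2 : Nat.card ((P : Subgroup G) ⊓ oddCore G : Subgroup G) ∣ 2 ^ k := by
    rw [← hk]; exact card_dvd_of_le inf_le_left
  have h3 : Nat.card ((P : Subgroup G) ⊓ oddCore G : Subgroup G) ∣ Nat.card (oddCore G) :=
    card_dvd_of_le inf_le_right
  exact Nat.eq_one_of_dvd_coprimes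
    ((H1.Cores.coprime_card_pPrimeCore (G := G) 2).symm.pow_left k) h2 h3

include hwP in
theorem AData.sylow_quot (Q : Sylow 2 (G ⧸ oddCore G)) :
    Nonempty ((Q : Subgroup (G ⧸ oddCore G)) ≃* QuaternionGroup 2) := by
  obtain ⟨z, -, -, -, -, -, -, -, -, ⟨e⟩⟩ := h.sylow_structure h1 P hwP
  have hsurj := QuotientGroup.mk'_surjective (oddCore G)
  let P' : Sylow 2 (G ⧸ oddCore G) := P.mapSurjective hsurj
  have hinj : Function.Injective ((QuotientGroup.mk' (oddCore G)).comp (P : Subgroup G).subtype) := by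
    rw [injective_iff_map_eq_one]
    intro a ha
    have ha2 : (a : G) ∈ oddCore G := (QuotientGroup.eq_one_iff (a : G)).1 ha
    have : (a : G) ∈ (P : Subgroup G) ⊓ oddCore G := ⟨a.2, ha2⟩
    rw [sylow_inf_oddCore, mem_bot] at this
    exact Subtype.ext this
  have e1 : (P : Subgroup G) ≃* (P' : Subgroup (G ⧸ oddCore G)) :=
    (MonoidHom.ofInjective hinj).trans (MulEquiv.subgroupCongr (by
      rw [MonoidHom.range_comp, range_subtype]; rfl))
  exact ⟨((Sylow.equiv Q P').trans e1.symm).trans e⟩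

include hwP in
theorem AData.comm_oddCore : ∀ a ∈ oddCore G, ∀ b ∈ oddCore G, a * b = b * a := by
  obtain ⟨z, hzP, hzM, hz1, hzz, hzc, hsq, hQ, hcardP, -⟩ := h.sylow_structure h1 P hwP
  obtain ⟨y, hyP, hyM, hwy⟩ := h.exists_y h1 P hwP
  have hRn : (oddCore G).Normal := H1.Cores.pPrimeCore_normal 2
  have hodd : ∀ r ∈ oddCore G, r * r = 1 → r = 1 := by
    intro r hr hrr
    have h2 : orderOf r ∣ 2 := orderOf_dvd_of_pow_eq_one (by rw [pow_two, hrr])
    have h3 : orderOf r ∣ Nat.card (oddCore G) := by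
      have := orderOf_dvd_natCard (⟨r, hr⟩ : oddCore G)
      rwa [Subgroup.orderOf_mk] at this
    have h4 := Nat.eq_one_of_dvd_coprimes (H1.Cores.coprime_card_pPrimeCore (G := G) 2).symm h2 h3
    exact orderOf_eq_one_iff.1 h4
  -- `z` has no fixed points
  have hfix1 : ∀ x ∈ P, x ∉ M → ∀ r ∈ oddCore G, z * r = r * z → x * r * x⁻¹ = r⁻¹ := by
    intro x hx hxM r hr hzr
    have hrM : r ∈ M := h.oddCore_le hr
    have h2 := (h.pow_four h1 (mul_not_mem hxM hrM) (mul_mul_mem (h.sq_mem h1 P hx) hrM)).1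
    have hxx := hsq x hx hxM
    -- t = x⁻¹ r x r
    have ht : x⁻¹ * r * x * r ∈ oddCore G := by
      have h3 := hRn.conj_mem _ hr x⁻¹
      rw [inv_inv] at h3
      exact mul_mem h3 hr
    have hzx : z * x = x * z := hzc x hx
    have htz : z * (x⁻¹ * r * x * r) = (x⁻¹ * r * x * r) * z := by
      have h3 : z * x⁻¹ = x⁻¹ * z := by
        rw [eq_inv_mul_iff_mul_eq, ← mul_assoc, ← hzx]; group
      calc z * (x⁻¹ * r * x * r) = (z * x⁻¹) * r * x * r := by group
        _ = x⁻¹ * (z * r) * x * r := by rw [h3]; group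
        _ = x⁻¹ * r * (z * x) * r := by rw [hzr]; group
        _ = x⁻¹ * r * x * (z * r) := by rw [hzx]; group
        _ = (x⁻¹ * r * x * r) * z := by rw [hzr]; group
    have h4 : x * r * (x * r) = z * (x⁻¹ * r * x * r) := by
      rw [← hxx]; group
    have h5 : (x * r) ^ 4 = (x * r * (x * r)) * (x * r * (x * r)) := by
      simp only [pow_succ, pow_zero, one_mul, mul_assoc]
    rw [h5, h4] at h2
    have h6 : z * (x⁻¹ * r * x * r) * (z * (x⁻¹ * r * x * r)) =
        (x⁻¹ * r * x * r) * (x⁻¹ * r * x * r) := by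
      calc z * (x⁻¹ * r * x * r) * (z * (x⁻¹ * r * x * r)) =
          (z * (x⁻¹ * r * x * r) * z) * (x⁻¹ * r * x * r) := by group
        _ = ((x⁻¹ * r * x * r) * (z * z)) * (x⁻¹ * r * x * r) := by rw [htz]; group
        _ = _ := by rw [hzz, mul_one]
    rw [h6] at h2
    have h7 := hodd _ ht h2
    have h8 : r * x * r = x := by
      have h9 : x⁻¹ * (r * x * r) = 1 := by rw [← h7]; group
      exact (inv_mul_eq_one.1 h9).symm
    rw [mul_inv_eq_iff_eq_mul, eq_inv_mul_iff_mul_eq, ← mul_assoc]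
    exact h8
  have hfix : ∀ r ∈ oddCore G, z * r = r * z → r = 1 := by
    intro r hr hzr
    apply hodd r hr
    exact inv_three (hfix1 w hwP h.hw r hr hzr) (hfix1 y hyP hyM r hr hzr)
      (hfix1 _ (P.mul_mem hwP hyP) hwy r hr hzr)
  have hzinv : z⁻¹ = z := inv_eq_of_mul_eq_one_left hzz
  have hmem : ∀ r ∈ oddCore G, r⁻¹ * (z * r * z⁻¹) ∈ oddCore G := fun r hr =>
    mul_mem (inv_mem hr) (hRn.conj_mem _ hr z)
  let f : oddCore G → oddCore G := fun r => ⟨(r : G)⁻¹ * (z * r * z⁻¹), hmem _ r.2⟩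
  have hinj : Function.Injective f := by
    intro r s hrs
    have h2 : (r : G)⁻¹ * (z * r * z⁻¹) = (s : G)⁻¹ * (z * s * z⁻¹) := congrArg Subtype.val hrs
    have h3 : z * ((s : G) * (r : G)⁻¹) = ((s : G) * (r : G)⁻¹) * z := by
      have h4 : (s : G) * ((r : G)⁻¹ * (z * r * z⁻¹)) = z * s * z⁻¹ := by rw [h2]; group
      have h5 : (s : G) * (r : G)⁻¹ * z = z * s * (r : G)⁻¹ := by
        have h6 : (s : G) * (r : G)⁻¹ * z = (s : G) * ((r : G)⁻¹ * (z * r * z⁻¹)) * (z * (r : G)⁻¹) := by group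
        rw [h6, h4]; group
      rw [h5]; group
    have h4 := hfix _ (mul_mem s.2 (inv_mem r.2)) h3
    exact Subtype.ext (mul_inv_eq_one.1 h4).symm
  have hsurj : Function.Surjective f := Finite.injective_iff_surjective.1 hinj
  have hinvert : ∀ t ∈ oddCore G, z * t * z⁻¹ = t⁻¹ := by
    intro t ht
    obtain ⟨r, hr⟩ := hsurj ⟨t, ht⟩
    have h2 : (r : G)⁻¹ * (z * r * z⁻¹) = t := congrArg Subtype.val hr
    rw [← h2]
    calc z * ((r : G)⁻¹ * (z * r * z⁻¹)) * z⁻¹ = z * (r : G)⁻¹ * z⁻¹ * ((z * z) * r * (z * z)⁻¹) := by group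
      _ = z * (r : G)⁻¹ * z⁻¹ * r := by rw [hzz]; group
      _ = ((r : G)⁻¹ * (z * r * z⁻¹))⁻¹ := by group
  intro a ha b hb
  have h2 := hinvert _ (mul_mem ha hb)
  have h3 : z * (a * b) * z⁻¹ = (z * a * z⁻¹) * (z * b * z⁻¹) := by group
  rw [h3, hinvert a ha, hinvert b hb] at h2
  have h4 : (b * a)⁻¹ = (a * b)⁻¹ := by rw [mul_inv_rev, h2]
  exact (inv_injective h4).symm

end big

end H81.Four
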