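import Cfsg.Agent.Lib.H81.Four5
import Cfsg.Agent.Lib.H81.Four8
import Cfsg.Agent.Lib.H60.Ord60
import Cfsg.Agent.Lib.H6.SmallIsoA
import Cfsg.Agent.S3378

/-!
# Groups with `χ(1) - χ(w) = 4` or `χ(w) = 0`: the main theorem
-/

set_option autoImplicit false
set_option linter.unusedSectionVars false
set_option linter.style.haveILetI false

namespace H81.Four

open Cfsg Subgroup

universe u
variable {G : Type u} [Group G] [Finite G] {w : G}

theorem not_solvable_of_perfect {Q : Type*} [Group Q] [Nontrivial Q] (h : commutator Q = ⊤) :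
    ¬ Group.IsSolvable Q := by
  intro hs
  have := Group.IsSolvable.commutator_lt_top_of_nontrivial Q
  exact absurd h this.ne

theorem HU.exists_data (hH : HU G w) (hw : w ≠ 1) :
    ∃ (M : Subgroup G) (_ : M.Normal), AData M w ∧ Nonempty (G ⧸ M ≃* alternatingGroup (Fin 5)) := by
  classical
  letI : Fintype G := Fintype.ofFinite G
  obtain ⟨M, hMn, hcard, hwM, hw2, hz⟩ := hH.structure_thm hw
  haveI : Nontrivial (G ⧸ M) := Finite.one_lt_card_iff_nontrivial.mp (by rw [hcard]; norm_num)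
  have hns := not_solvable_of_perfect (hH.quot M).perfect
  haveI hsimple := H60.Ord60.isSimple_of_not_solvable hcard hns
  obtain ⟨e⟩ := H60.Ord60.iso_alt5 (G := G ⧸ M) hcard
  obtain ⟨f1, f2, f3, x, y, hx2, hx, hy2, hy, hxy2, hxy⟩ := alt_facts e
  have hwc : (w : G ⧸ M) ≠ 1 := fun h => hwM ((QuotientGroup.eq_one_iff w).1 h)
  have hwc2 : (w : G ⧸ M) * (w : G ⧸ M) = 1 := by
    rw [← QuotientGroup.mk_mul]; exact (QuotientGroup.eq_one_iff _).2 hw2
  have hconj : ∀ v, v ∉ M → v * v ∈ M → IsConj w v := by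
    intro v hv hv2
    have h1 : (v : G ⧸ M) ≠ 1 := fun h => hv ((QuotientGroup.eq_one_iff v).1 h)
    have h2 : (v : G ⧸ M) * (v : G ⧸ M) = 1 := by
      rw [← QuotientGroup.mk_mul]; exact (QuotientGroup.eq_one_iff _).2 hv2
    obtain ⟨g, hg⟩ := isConj_iff.1 (f1 _ _ h2 h1 hwc2 hwc)
    obtain ⟨g, rfl⟩ := QuotientGroup.mk_surjective g
    rw [← QuotientGroup.mk_inv, ← QuotientGroup.mk_mul, ← QuotientGroup.mk_mul] at hg
    have h3 := (conj_and_card hz hg).1
    exact h3.trans (isConj_iff.2 ⟨g⁻¹, by group⟩)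
  refine ⟨M, hMn, ⟨hcard, hsimple, ?_, ?_, hwM, hw2, hconj, ?_⟩, ⟨e⟩⟩
  · intro x hx
    rw [← QuotientGroup.eq_one_iff] at hx ⊢
    rw [QuotientGroup.mk_pow] at hx
    rw [QuotientGroup.mk_mul]
    exact f3 _ hx
  · obtain ⟨x, rfl⟩ := QuotientGroup.mk_surjective x
    obtain ⟨y, rfl⟩ := QuotientGroup.mk_surjective y
    simp only [← QuotientGroup.mk_mul] at hx2 hy2 hxy2 hxy
    exact ⟨x, y, (QuotientGroup.eq_one_iff _).1 hx2, fun h => hx ((QuotientGroup.eq_one_iff _).2 h),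
      (QuotientGroup.eq_one_iff _).1 hy2, fun h => hy ((QuotientGroup.eq_one_iff _).2 h),
      (QuotientGroup.eq_one_iff _).1 hxy2, fun h => hxy ((QuotientGroup.eq_one_iff _).2 h)⟩
  · intro v hv hv2
    rw [← card_cent_of_isConj (hconj v hv hv2), (conj_and_card hz (v := w) rfl).2]
    exact f2 _ hwc2 hwc

theorem main (hH : HU G w) (hw : w ≠ 1) : IsMulCommutative ↥(Cfsg.oddCore G) ∧
    ((Nonempty (G ⧸ Cfsg.oddCore G ≃* Matrix.ProjectiveSpecialLinearGroup (Fin 2) (ZMod 5)) ∧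
      orderOf w = 2) ∨
    (Nonempty (G ⧸ Cfsg.oddCore G ≃* Matrix.SpecialLinearGroup (Fin 2) (ZMod 5)) ∧
      orderOf w = 4)) := by
  classical
  obtain ⟨M, hMn, h, ⟨e⟩⟩ := hH.exists_data hw
  by_cases h1 : w * w = 1
  · have hM := h.case_two h1
    have hR : oddCore G = ⊥ := by
      rw [eq_bot_iff, ← hM]; exact h.oddCore_le
    refine ⟨⟨⟨fun a b => ?_⟩⟩, Or.inl ⟨?_, ?_⟩⟩
    · apply Subtype.ext
      have ha : (a : G) = 1 := by
        exact mem_bot.1 (hR.le a.2)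
      have hb : (b : G) = 1 := by
        exact mem_bot.1 (hR.le b.2)
      show (a : G) * b = b * a
      rw [ha, hb]
    · haveI : Fact (Nat.Prime 5) := ⟨by norm_num⟩
      obtain ⟨e2⟩ := H6.SmallIsoA.psl2_five (F := ZMod 5) (ZMod.card 5)
      exact ⟨((QuotientGroup.quotientMulEquivOfEq (hR.trans hM.symm)).trans e).trans e2.symm⟩
    · exact orderOf_eq_prime (by rw [pow_two, h1]) hw
  · have hw4 := h.pow_four h1 h.hw h.hw2
    have hp : IsPGroup 2 (zpowers w) := IsPGroup.of_card (n := 2) (by rw [Nat.card_zpowers, hw4.2]; norm_num)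
    obtain ⟨P, hP⟩ := hp.exists_le_sylow
    have hwP : w ∈ P := hP (mem_zpowers w)
    refine ⟨⟨⟨fun a b => Subtype.ext (h.comm_oddCore h1 P hwP a a.2 b b.2)⟩⟩, Or.inr ⟨?_, hw4.2⟩⟩
    have hcard := h.card_quot h1 P hwP
    haveI : Nontrivial (G ⧸ oddCore G) := Finite.one_lt_card_iff_nontrivial.mp (by rw [hcard]; norm_num)
    exact (Cfsg.Agent.S3378.result).1 (G ⧸ oddCore G) hcard
      (not_solvable_of_perfect (hH.quot (oddCore G)).perfect) (h.sylow_quot h1 P hwP)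

end H81.Four
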