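import Cfsg.Agent.Lib.H84.Star10

/-!
# Exact heights from the contributions
-/

set_option autoImplicit false
set_option linter.unusedSectionVars false
set_option linter.unusedVariables false

namespace H81.HtF

open Cfsg H20.Loc H20.GA H20.DefGrp H20.Defect H20.Height H18.CharBasic H18.CharOrtho H18.CharInd
open H20.Blk H20.Orth H20.Ind H81.Section H81.Contrib H84.Star
open scoped ComplexConjugate

universe u

attribute [local instance 2000] Fintype.ofFinite

variable {M : Ideal AlgInt} {G : Type u} [Group G] [Finite G] {p : ℕ}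

/-- central element attached to a class function of `C z` -/
noncomputable def bz (z : G) (F : C z → ℂ) : ZG G :=
  zof (indFun (C z) (shift z F)) (isClassFunction_indFun _ _)

theorem bz_mem [M.IsPrime] {z : G} {F : C z → ℂ} (hF : IsClassFunction (C z) F)
    (hv : ∀ c, MemLocalRing M (F c)) : bz z F ∈ zr M G := by
  classical
  intro g
  change MemLocalRing M (indFun (C z) (shift z F) g)
  have hcl : IsClassFunction (C z) (shift z F) := shift_class hF
  rw [indFun_apply, H19.Second2.sum_cosets (C z)]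
  · rw [nsmul_eq_mul, ← mul_assoc, inv_mul_cancel₀ (by exact_mod_cast (Nat.card_pos (α := C z)).ne'), one_mul]
    apply locR_sum
    intro s _
    by_cases h : (Quotient.out s : G)⁻¹ * g * Quotient.out s ∈ C z
    · rw [ext_mem _ _ h]
      exact hv _
    · rw [ext_notMem _ _ h]; exact locR_zero
  · intro t d
    have h1 : (t * (d : G))⁻¹ * g * (t * d) = (d : G)⁻¹ * (t⁻¹ * g * t) * (d : G) := by group
    rw [h1]
    exact ext_conj_mem' (C z) hcl d.2 _

theorem omega_bz {z : G} {F : C z → ℂ} (χ : IrrCharacter G) :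
    omega χ (bz z F) = (Nat.card G : ℂ) / (χ : G → ℂ) 1 * ((Nat.card (C z) : ℂ)⁻¹ *
      ∑ c : C z, tw z (χ : G → ℂ) c * F c) := by
  classical
  have hG : (Nat.card G : ℂ) ≠ 0 := by exact_mod_cast (Nat.card_pos (α := G)).ne'
  have h1 := sum_indFun_mul (C z) (shift z F) (χ := (χ : G → ℂ)) (irr_class χ)
  rw [omega_eq_sum]
  have h2 : ∑ g : G, zc (bz z F) g * (χ : G → ℂ) g = ∑ g : G, indFun (C z) (shift z F) g * (χ : G → ℂ) g :=
    rfl
  have h3 : ∑ h : C z, shift z F h * (χ : G → ℂ) h = ∑ c : C z, tw z (χ : G → ℂ) c * F c := by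
    symm
    refine Fintype.sum_equiv (Equiv.mulLeft (cy z)) _ _ fun c => ?_
    rw [Equiv.coe_mulLeft, shift, inv_mul_cancel_left, mul_comm]
    rfl
  rw [h2]
  rw [h3] at h1
  have h4 : ∑ g : G, indFun (C z) (shift z F) g * (χ : G → ℂ) g = (Nat.card G : ℂ) *
      ((Nat.card (C z) : ℂ)⁻¹ * ∑ c : C z, tw z (χ : G → ℂ) c * F c) := by
    rw [← h1, ← mul_assoc, mul_inv_cancel₀ hG, one_mul]
  rw [h4]
  ring

theorem comp_class (hM : IsPModular p M) {z : G} {b : Set (IrrCharacter (C z))} (hb : IsPBlock M b) (ψ : G → ℂ) :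
    IsClassFunction (C z) (comp p z b ψ) := by
  have hpr := pm_isPrime hM
  exact (mem_Vb hM (isUnion_of_isPBlock hb) (comp_mem ψ)).1

theorem comp_int (z : G) (hz : ∃ k : ℕ, orderOf z = p ^ k) (b : Set (IrrCharacter (C z))) (ψ : IrrCharacter G) (c : C z) :
    IsIntegral ℤ (comp p z b (ψ : G → ℂ) c) := by
  classical
  rw [comp_eq, Finset.sum_apply]
  refine IsIntegral.sum _ fun ξ _ => ?_
  rw [Pi.smul_apply, smul_eq_mul]
  refine IsIntegral.mul ?_ ?_
  · split_ifs
    · obtain ⟨ω, hω, h1⟩ := exists_twist z ξ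
      obtain ⟨m, hm⟩ := inner_char_natCast (isCharacter_restrict (C z) (irr_char ψ)) (irr_char ξ)
      rw [h1, hm]
      refine IsIntegral.mul ?_ (isIntegral_natCast m)
      refine IsIntegral.of_pow (orderOf_pos z) ?_
      rw [hω]; exact isIntegral_one
    · exact isIntegral_zero
  · rw [reg]
    split_ifs
    · exact isIntegral_zero
    · exact irr_int ξ c

/-- (F) -/
theorem height_val2 (hM : IsPModular p M) {z : G} (hz : ∃ k : ℕ, orderOf z = p ^ k)
    {b : Set (IrrCharacter (C z))} {B : Set (IrrCharacter G)} (hind : IsInducedBlock M (C z) b B)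
    (hd : blockDefect p b = blockDefect p B) {χ ψ : IrrCharacter G} (hχ : χ ∈ B) (hψ : ψ ∈ B)
    (h0 : blockHeight p B (ψ : G → ℂ) = 0) : ∃ v : ℂ, MemLocalRing M v ∧ ¬ MemLocalIdeal M v ∧
      (p : ℂ) ^ blockDefect p b * classInner (comp p z b (χ : G → ℂ)) (comp p z b (ψ : G → ℂ)) =
        (p : ℂ) ^ blockHeight p B (χ : G → ℂ) * v := by
  classical
  have hpr := pm_isPrime hM
  set F : C z → ℂ := fun c => conj (comp p z b (ψ : G → ℂ) c) with hF
  have hFc : IsClassFunction (C z) F := conj_class (comp_class hM hind.1 _)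
  have hFv : ∀ c, MemLocalRing M (F c) := fun c =>
    isIntegral_mem ((comp_int z hz b ψ c).map (starRingEnd ℂ).toIntAlgHom)
  have hinner : ∀ χ' : IrrCharacter G, (Nat.card (C z) : ℂ)⁻¹ * ∑ c : C z, tw z (χ' : G → ℂ) c * F c =
      classInner (comp p z b (χ' : G → ℂ)) (comp p z b (ψ : G → ℂ)) := by
    intro χ'
    have h1 := inner_comp (p := p) (y := z) (b := b) hM (isUnion_of_isPBlock hind.1) (ψ : G → ℂ) (χ' : G → ℂ)
    rw [← H18.CharOrtho.inner_conj_symm (comp p z b (ψ : G → ℂ)) (comp p z b (χ' : G → ℂ)), h1, H18.CharOrtho.inner_conj_symm]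
    rfl
  have key : ∀ (χ' : IrrCharacter G), χ' ∈ B → ∃ u : ℂ, MemLocalRing M u ∧ ¬ MemLocalIdeal M u ∧
      (p : ℂ) ^ blockDefect p b * classInner (comp p z b (χ' : G → ℂ)) (comp p z b (ψ : G → ℂ)) =
        (p : ℂ) ^ blockHeight p B (χ' : G → ℂ) * u * omega χ' (bz z F) := by
    intro χ' hχ'
    obtain ⟨u, hu1, hu2, hu⟩ := H81.RegMat.exists_ratio hM hind.2.1 hχ'
    refine ⟨u, hu1, hu2, ?_⟩
    have hχ1 := H18.CharBasic.irr_one_ne_zero χ'.2
    rw [omega_bz χ', hinner, hd]
    field_simp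
    linear_combination classInner (comp p z b (χ' : G → ℂ)) (comp p z b (ψ : G → ℂ)) * hu
  obtain ⟨u', hu1', hu2', hu'⟩ := key ψ hψ
  obtain ⟨u, hu1, hu2, hu⟩ := key χ hχ
  have hmem := bz_mem (M := M) hFc hFv
  have hor := omega_mem (M := M) χ hmem
  have hor' := omega_mem (M := M) ψ hmem
  have h1 : ¬ MemLocalIdeal M (omega ψ (bz z F)) := by
    intro hc
    apply scaled_unit hM hz hind hψ hψ h0 h0
    rw [hu']
    exact locI_mul_left (locR_mul (locR_pow (locR_natCast _) _) hu1') hc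
  have h2 : ¬ MemLocalIdeal M (omega χ (bz z F)) := by
    intro hc
    have h3 := sameBlock_iff.1 (isPBlock_sameBlock hind.2.1 hψ hχ) _ hmem
    exact h1 ((locI_congr h3).2 hc)
  refine ⟨u * omega χ (bz z F), locR_mul hu1 hor, not_locI_mul hu1 hor hu2 h2, ?_⟩
  rw [hu]; ring

end H81.HtF
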