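import Cfsg.Agent.Lib.H81.CharAvg
import Cfsg.Agent.Lib.H82.Coset
import Cfsg.Agent.Lib.H20.DefZero
import Cfsg.Agent.Lib.H29.Gen
import Cfsg.Agent.Lib.H78.Cong
import Cfsg.Agent.Lib.H18.Primitive

/-!
# Characters multiplicative on products of elements of coprime prime power orders
-/

set_option autoImplicit false
set_option linter.unusedSectionVars false
set_option linter.style.haveILetI false

namespace H81.MulPP

open Cfsg H18.CharBasic H18.CharOrtho H18.CharQuot H18.CharInd H82.Deg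
open scoped ComplexConjugate commutatorElement

universe u
variable {G : Type u} [Group G] [Finite G]

variable (G) in
def Hyp : Prop := ∀ (x y : G) (χ : IrrCharacter G), x ≠ 1 → y ≠ 1 →
  (∃ p q a b : ℕ, p.Prime ∧ q.Prime ∧ p ≠ q ∧ orderOf x = p ^ a ∧ orderOf y = q ^ b) →
  (χ : G → ℂ) (x * y) = (χ : G → ℂ) x * (χ : G → ℂ) y

/-! ### consequences of the hypothesis -/

theorem prod_zero (h : Hyp G) {χ : IrrCharacter G} (hχ : (χ : G → ℂ) 1 ≠ 1) {x y : G} (hx : x ≠ 1) (hy : y ≠ 1)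
    {p q a b : ℕ} (hp : p.Prime) (hq : q.Prime) (hpq : p ≠ q) (hxa : orderOf x = p ^ a) (hyb : orderOf y = q ^ b) :
    (χ : G → ℂ) x * (χ : G → ℂ) y = 0 := by
  classical
  letI := Fintype.ofFinite G
  have h1 := H81.CharAvg.sum_conj_mul χ.2 x y
  have h2 : ∀ a : G, (χ : G → ℂ) (a * x * a⁻¹ * y) = (χ : G → ℂ) x * (χ : G → ℂ) y := by
    intro a
    rw [h (a * x * a⁻¹) y χ (by
      intro h3
      apply hx
      have h4 : x = a⁻¹ * (a * x * a⁻¹) * a := by group
      rw [h4, h3]; group) hy ⟨p, q, _, b, hp, hq, hpq, by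
        rw [← hxa]
        have h4 : a * x * a⁻¹ = MulAut.conj a x := rfl
        rw [h4]
        exact orderOf_injective (MulAut.conj a).toMonoidHom (MulAut.conj a).injective x, hyb⟩]
    rw [(isClassFunction_of_isIrr χ.2) x a]
  simp only [h2] at h1
  rw [Finset.sum_const, Finset.card_univ, nsmul_eq_mul, ← Nat.card_eq_fintype_card] at h1
  have hG : (Nat.card G : ℂ) ≠ 0 := by exact_mod_cast (Nat.card_pos (α := G)).ne'
  have h10 := irr_one_ne_zero χ.2
  rw [eq_div_iff h10] at h1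
  have h3 : (Nat.card G : ℂ) * ((χ : G → ℂ) x * (χ : G → ℂ) y) * ((χ : G → ℂ) 1 - 1) = 0 := by
    linear_combination h1
  rcases mul_eq_zero.1 h3 with h4 | h4
  · exact (mul_eq_zero.1 h4).resolve_left hG
  · exact absurd (sub_eq_zero.1 h4) hχ

theorem full_degree {q : ℕ} (hq : q.Prime) (χ : IrrCharacter G)
    (h : ∀ y : G, y ≠ 1 → (∃ b, orderOf y = q ^ b) → (χ : G → ℂ) y = 0) :
    (charDegree (χ : G → ℂ)).factorization q = (Nat.card G).factorization q := by
  classical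
  haveI : Fact q.Prime := ⟨hq⟩
  obtain ⟨Q⟩ := (inferInstance : Nonempty (Sylow q G))
  letI := Fintype.ofFinite (Q : Subgroup G)
  have h1 := inner_char_natCast (isCharacter_restrict (Q : Subgroup G) (isCharacter_of_isIrr χ.2))
    (isCharacter_one (G := (Q : Subgroup G)))
  obtain ⟨n, hn⟩ := h1
  have h2 : classInner (fun x : (Q : Subgroup G) => (χ : G → ℂ) x) (fun _ => 1) =
      (charDegree (χ : G → ℂ) : ℂ) / (Nat.card (Q : Subgroup G) : ℂ) := by
    unfold classInner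
    rw [Finset.sum_eq_single (1 : (Q : Subgroup G))]
    · rw [map_one, mul_one, coe_charDegree', div_eq_inv_mul]; rfl
    · intro x _ hx
      have h5 : (χ : G → ℂ) (x : G) = 0 := by
        apply h x (fun h3 => hx (Subtype.ext h3))
        obtain ⟨b, hb⟩ := Q.isPGroup'.exists_orderOf_eq_pow x
        exact ⟨b, by rw [← hb, Subgroup.orderOf_coe]⟩
      show (χ : G → ℂ) (x : G) * _ = 0
      rw [h5, zero_mul]
    · intro h3; exact absurd (Finset.mem_univ _) h3
  have h3 : (charDegree (χ : G → ℂ) : ℂ) = (n : ℂ) * (Nat.card (Q : Subgroup G) : ℂ) := by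
    have h4 : (Nat.card (Q : Subgroup G) : ℂ) ≠ 0 := by exact_mod_cast Nat.card_pos.ne'
    rw [← div_eq_iff h4, ← h2]
    exact hn
  have h4 : charDegree (χ : G → ℂ) = n * Nat.card (Q : Subgroup G) := by exact_mod_cast h3
  apply le_antisymm
  · exact (Nat.factorization_le_iff_dvd (charDegree_ne_zero χ) Nat.card_pos.ne').2 (degree_dvd_card χ) q
  · rw [← hq.pow_dvd_iff_le_factorization (charDegree_ne_zero χ), ← Sylow.card_eq_multiplicity Q, h4]
    exact Dvd.intro_left _ rfl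

/-- `χ` does not vanish on some nonidentity `q`-element -/
def NV (χ : IrrCharacter G) (q : ℕ) : Prop := ∃ x : G, x ≠ 1 ∧ (∃ b, orderOf x = q ^ b) ∧ (χ : G → ℂ) x ≠ 0

theorem nv_unique (h : Hyp G) {χ : IrrCharacter G} (hχ : (χ : G → ℂ) 1 ≠ 1) {p q : ℕ} (hp : p.Prime) (hq : q.Prime)
    (h1 : NV χ p) (h2 : NV χ q) : p = q := by
  by_contra hne
  obtain ⟨x, hx, ⟨a, ha⟩, hx0⟩ := h1
  obtain ⟨y, hy, ⟨b, hb⟩, hy0⟩ := h2
  rcases mul_eq_zero.1 (prod_zero h hχ hx hy hp hq hne ha hb) with h3 | h3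
  · exact hx0 h3
  · exact hy0 h3

theorem full_of_not_nv {χ : IrrCharacter G} {q : ℕ} (hq : q.Prime) (h : ¬ NV χ q) :
    (charDegree (χ : G → ℂ)).factorization q = (Nat.card G).factorization q := by
  apply full_degree hq
  intro y hy hb
  by_contra hne
  exact h ⟨y, hy, hb, hne⟩

theorem card_dvd {χ : IrrCharacter G} {p : ℕ} (hp : p.Prime)
    (h : ∀ q : ℕ, q.Prime → q ≠ p → (charDegree (χ : G → ℂ)).factorization q = (Nat.card G).factorization q) :
    Nat.card G ∣ charDegree (χ : G → ℂ) * p ^ (Nat.card G).factorization p := by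
  have hd := charDegree_ne_zero χ
  have hpp : p ^ (Nat.card G).factorization p ≠ 0 := pow_ne_zero _ hp.ne_zero
  rw [← Nat.factorization_prime_le_iff_dvd Nat.card_pos.ne' (mul_ne_zero hd hpp)]
  intro q hq
  rw [Nat.factorization_mul hd hpp, Finsupp.add_apply]
  by_cases hqp : q = p
  · subst hqp
    rw [Nat.Prime.factorization_pow hp, Finsupp.single_eq_same]
    omega
  · rw [h q hq hqp]; omega

theorem nonlinear_ne {χ : IrrCharacter G} (hχ : (χ : G → ℂ) 1 ≠ 1) : (χ : G → ℂ) ≠ fun _ => 1 := by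
  intro h; exact hχ (by rw [h])

theorem exists_prime (h : Hyp G) {χ₀ : IrrCharacter G} (hχ₀ : (χ₀ : G → ℂ) 1 ≠ 1) :
    ∃ p : ℕ, p.Prime ∧ ∀ χ : IrrCharacter G, (χ : G → ℂ) 1 ≠ 1 → ∀ q : ℕ, q.Prime → q ≠ p →
      (charDegree (χ : G → ℂ)).factorization q = (Nat.card G).factorization q := by
  obtain ⟨p, hp, hnv⟩ : ∃ p : ℕ, p.Prime ∧ NV χ₀ p := by
    by_contra hcon
    push Not at hcon
    have h1 := card_dvd (χ := χ₀) Nat.prime_two (fun q hq _ => full_of_not_nv hq (hcon q hq))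
    have h2 : Nat.card G ∣ charDegree (χ₀ : G → ℂ) := by
      rw [← Nat.factorization_prime_le_iff_dvd Nat.card_pos.ne' (charDegree_ne_zero χ₀)]
      intro q hq
      rw [full_of_not_nv hq (hcon q hq)]
    have h3 := Nat.le_of_dvd (charDegree_pos χ₀) h2
    have h4 := ne_one_degree_sq_lt χ₀ (nonlinear_ne hχ₀)
    have h5 : charDegree (χ₀ : G → ℂ) ≤ charDegree (χ₀ : G → ℂ) ^ 2 := Nat.le_self_pow two_ne_zero _
    omega
  refine ⟨p, hp, fun χ hχ q hq hqp => ?_⟩
  by_cases hnq : NV χ q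
  · exfalso
    have h1 := card_dvd (χ := χ₀) hp (fun r hr hrp => full_of_not_nv hr (fun h2 => hrp (nv_unique h hχ₀ hr hp h2 hnv)))
    have h2 : p ^ (Nat.card G).factorization p ∣ charDegree (χ : G → ℂ) := by
      rw [hp.pow_dvd_iff_le_factorization (charDegree_ne_zero χ)]
      rw [full_of_not_nv hp (fun h3 => hqp (nv_unique h hχ hq hp hnq h3))]
    have h3 := Nat.le_of_dvd (Nat.mul_pos (charDegree_pos χ₀) (pow_pos hp.pos _)) h1
    have h4 := Nat.le_of_dvd (charDegree_pos χ) h2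
    have h5 := ne_one_degree_sq_lt χ₀ (nonlinear_ne hχ₀)
    have h6 := ne_one_degree_sq_lt χ (nonlinear_ne hχ)
    have h7 : Nat.card G ≤ charDegree (χ₀ : G → ℂ) * charDegree (χ : G → ℂ) :=
      h3.trans (Nat.mul_le_mul_left _ h4)
    have h8 : (charDegree (χ₀ : G → ℂ) * charDegree (χ : G → ℂ)) ^ 2 < Nat.card G ^ 2 := by
      rw [mul_pow, sq (Nat.card G)]
      exact Nat.mul_lt_mul_of_lt_of_lt h5 h6
    have h9 := Nat.pow_le_pow_left h7 2
    omega
  · exact full_of_not_nv hq hnq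

/-- nonlinear characters vanish off the `p`-elements -/
theorem vanish {p : ℕ} {χ : IrrCharacter G} (h : ∀ q : ℕ, q.Prime → q ≠ p →
      (charDegree (χ : G → ℂ)).factorization q = (Nat.card G).factorization q) {g : G}
    (hg : ¬ ∃ a, orderOf g = p ^ a) : (χ : G → ℂ) g = 0 := by
  obtain ⟨q, hq, hqp, hqg⟩ : ∃ q : ℕ, q.Prime ∧ q ≠ p ∧ q ∣ orderOf g := by
    by_contra hcon
    push Not at hcon
    apply hg
    refine ⟨_, Nat.eq_prime_pow_of_unique_prime_dvd (orderOf_pos g).ne' ?_⟩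
    intro d hd hdg
    by_contra hne
    exact hcon d hd hne hdg
  obtain ⟨M, hM⟩ := H78.Cong.exists_isPModular hq
  exact H20.DefZero.vanish_of_full_degree hM (h q hq hqp) hqg

/-- if all nonlinear characters vanish at `g`, then the class of `g` contains `g G'`. -/
theorem isConj_mul {g : G} (h : ∀ χ : IrrCharacter G, (χ : G → ℂ) 1 ≠ 1 → (χ : G → ℂ) g = 0) {n : G}
    (hn : n ∈ commutator G) : IsConj g (g * n) := by
  classical
  letI := Fintype.ofFinite (IrrCharacter G)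
  by_contra hcon
  have h1 := column_orthogonality g (g * n)
  rw [if_neg hcon] at h1
  have h2 : ∀ χ : IrrCharacter G, (χ : G → ℂ) g * conj ((χ : G → ℂ) (g * n)) =
      if (χ : G → ℂ) 1 = 1 then 1 else 0 := by
    intro χ
    split_ifs with h3
    · obtain ⟨f, hf⟩ := exists_hom_of_degree_one (isCharacter_of_isIrr χ.2) h3
      have h4 : f n = 1 := by
        have h5 : commutator G ≤ f.ker := by
          rw [commutator_eq_closure, Subgroup.closure_le]
          rintro _ ⟨a, b, rfl⟩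
          show f ⁅a, b⁆ = 1
          rw [map_commutatorElement, commutatorElement_eq_one_iff_mul_comm, mul_comm]
        exact h5 hn
      rw [hf]
      simp only
      rw [map_mul, h4, mul_one, Complex.mul_conj, Complex.normSq_eq_norm_sq, hom_norm_one]
      norm_num
    · rw [h χ h3, zero_mul]
  simp only [h2] at h1
  rw [Finset.sum_ite, Finset.sum_const_zero, add_zero, Finset.sum_const, nsmul_eq_mul, mul_one] at h1
  have h3 : (Finset.univ.filter (fun χ : IrrCharacter G => (χ : G → ℂ) 1 = 1)).card = 0 := by exact_mod_cast h1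
  rw [Finset.card_eq_zero, Finset.filter_eq_empty_iff] at h3
  exact h3 (Finset.mem_univ ⟨fun _ => 1, isIrrCharacter_one⟩) rfl

theorem exists_nonlinear (h : ¬ IsMulCommutative G) : ∃ χ : IrrCharacter G, (χ : G → ℂ) 1 ≠ 1 := by
  by_contra hcon
  push Not at hcon
  apply h
  refine ⟨⟨fun a b => ?_⟩⟩
  have h1 : ⁅a, b⁆ = 1 := by
    apply eq_one_of_forall_irr
    intro χ hχ
    obtain ⟨f, hf⟩ := exists_hom_of_degree_one (isCharacter_of_isIrr hχ) (hcon ⟨χ, hχ⟩)
    rw [hf]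
    simp only
    rw [map_commutatorElement, commutatorElement_eq_one_iff_mul_comm.2 (mul_comm _ _), map_one]
  exact commutatorElement_eq_one_iff_mul_comm.1 h1

/-- a fixed point free element: every element of `D` is a commutator -/
theorem surj_comm {D : Subgroup G} (hDn : D.Normal) {h : G} (hh : ∀ d ∈ D, h * d = d * h → d = 1) {n : G}
    (hn : n ∈ D) : ∃ d ∈ D, h⁻¹ * d * h * d⁻¹ = n := by
  have hmem : ∀ d : D, h⁻¹ * (d : G) * h * (d : G)⁻¹ ∈ D := by
    intro d
    refine D.mul_mem ?_ (D.inv_mem d.2)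
    have := hDn.conj_mem _ d.2 h⁻¹
    rwa [inv_inv] at this
  let φ : D → D := fun d => ⟨h⁻¹ * (d : G) * h * (d : G)⁻¹, hmem d⟩
  have hinj : Function.Injective φ := by
    intro c d hcd
    have h1 : h⁻¹ * (c : G) * h * (c : G)⁻¹ = h⁻¹ * (d : G) * h * (d : G)⁻¹ := congrArg Subtype.val hcd
    have h2 : (c : G) * h * (c : G)⁻¹ = (d : G) * h * (d : G)⁻¹ := by
      calc (c : G) * h * (c : G)⁻¹ = h * (h⁻¹ * (c : G) * h * (c : G)⁻¹) := by group
        _ = h * (h⁻¹ * (d : G) * h * (d : G)⁻¹) := by rw [h1]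
        _ = (d : G) * h * (d : G)⁻¹ := by group
    have h3 : h * ((d : G)⁻¹ * c) = ((d : G)⁻¹ * c) * h := by
      calc h * ((d : G)⁻¹ * c) = (d : G)⁻¹ * ((d : G) * h * (d : G)⁻¹) * c := by group
        _ = (d : G)⁻¹ * ((c : G) * h * (c : G)⁻¹) * c := by rw [h2]
        _ = ((d : G)⁻¹ * c) * h := by group
    have h4 := hh _ (D.mul_mem (D.inv_mem d.2) c.2) h3
    exact Subtype.ext (inv_mul_eq_one.1 h4).symm
  obtain ⟨d, hd⟩ := (Finite.injective_iff_surjective.1 hinj) ⟨n, hn⟩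
  exact ⟨d, d.2, congrArg Subtype.val hd⟩

theorem isConj_of_fpf {D : Subgroup G} (hDn : D.Normal) {h : G} (hh : ∀ d ∈ D, h * d = d * h → d = 1) {n : G}
    (hn : n ∈ D) : IsConj h (h * n) := by
  obtain ⟨d, -, h1⟩ := surj_comm hDn hh hn
  rw [isConj_iff]
  refine ⟨d, ?_⟩
  rw [← h1]; group

/-! ### (1) implies (2) -/

theorem forward (h : Hyp G) (hnab : ¬ IsMulCommutative G) (hnp : ∀ p : ℕ, p.Prime → ¬ IsPGroup p G) :
    ∃ (p : ℕ) (_ : Fact p.Prime) (P : Sylow p G) (A : Subgroup G), (P : Subgroup G).Normal ∧ IsCyclic ↥A ∧ A ≠ ⊥ ∧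
      (Nat.card ↥A).Coprime p ∧ A ⊔ (P : Subgroup G) = ⊤ ∧
      IsMulCommutative ↥((P : Subgroup G) ⊓ Subgroup.centralizer (A : Set G)) ∧ (⁅A, (P : Subgroup G)⁆).Normal ∧
      ((P : Subgroup G) ⊓ Subgroup.centralizer (A : Set G)) ⊔ ⁅A, (P : Subgroup G)⁆ = (P : Subgroup G) ∧
      ((P : Subgroup G) ⊓ Subgroup.centralizer (A : Set G)) ⊓ ⁅A, (P : Subgroup G)⁆ = ⊥ ∧
      ∀ a ∈ A, a ≠ 1 → ∀ d ∈ ⁅A, (P : Subgroup G)⁆, a * d = d * a → d = 1 := by
  classical
  obtain ⟨χ₀, hχ₀⟩ := exists_nonlinear hnab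
  obtain ⟨p, hp, hfull⟩ := exists_prime h hχ₀
  haveI hpf : Fact p.Prime := ⟨hp⟩
  have hconj : ∀ g : G, (¬ ∃ a, orderOf g = p ^ a) → ∀ n ∈ commutator G, IsConj g (g * n) := fun g hg n hn =>
    isConj_mul (fun χ hχ => vanish (hfull χ hχ) hg) hn
  have hordconj : ∀ {a b : G}, IsConj a b → orderOf a = orderOf b := by
    intro a b hab
    obtain ⟨c, hc⟩ := isConj_iff.1 hab
    rw [← hc]
    exact (orderOf_injective (MulAut.conj c).toMonoidHom (MulAut.conj c).injective a).symm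
  have hcomm : IsPGroup p (commutator G) := by
    rw [IsPGroup.iff_orderOf]
    intro n
    by_contra hcon
    have h1 := hconj (n : G) (by
      rintro ⟨a, ha⟩
      exact hcon ⟨a, by rw [← ha, Subgroup.orderOf_coe]⟩) ((n : G)⁻¹) (inv_mem n.2)
    rw [mul_inv_cancel] at h1
    have h2 : (n : G) = 1 := (isConj_one_left.1 h1)
    apply hcon
    refine ⟨0, ?_⟩
    rw [← Subgroup.orderOf_coe, h2, orderOf_one, pow_zero]
  obtain ⟨P⟩ := (inferInstance : Nonempty (Sylow p G))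
  have hGP : commutator G ≤ (P : Subgroup G) := by
    have h1 : IsPGroup p ((P : Subgroup G) ⊔ commutator G : Subgroup G) := P.isPGroup'.to_sup_of_normal_right hcomm
    have h2 := P.is_maximal' h1 le_sup_left
    rw [← h2]; exact le_sup_right
  have hPn : (P : Subgroup G).Normal := by
    refine ⟨fun n hn g => ?_⟩
    have h1 : ⁅g, n⁆ ∈ commutator G := Subgroup.commutator_mem_commutator (Subgroup.mem_top g) (Subgroup.mem_top n)
    have h2 : g * n * g⁻¹ = ⁅g, n⁆ * n := by rw [commutatorElement_def]; group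
    rw [h2]
    exact mul_mem (hGP h1) hn
  have hcop : (Nat.card (P : Subgroup G)).Coprime (P : Subgroup G).index := P.card_coprime_index
  obtain ⟨A, hA⟩ := Subgroup.exists_right_complement'_of_coprime hcop
  have hAcard : Nat.card A = (P : Subgroup G).index := hA.symm.index_eq_card.symm
  have hAP : A ⊓ (P : Subgroup G) = ⊥ := hA.symm.disjoint.eq_bot
  have htop : A ⊔ (P : Subgroup G) = ⊤ := hA.symm.sup_eq_top
  have hAcop : (Nat.card A).Coprime p := by
    rw [hAcard]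
    exact (Nat.Prime.coprime_iff_not_dvd hp).2 (P.not_dvd_index) |>.symm
  have hAne : A ≠ ⊥ := by
    intro h1
    rw [h1, bot_sup_eq] at htop
    apply hnp p hp
    have h2 := P.isPGroup'
    have h3 : IsPGroup p (⊤ : Subgroup G) := by rw [← htop]; exact h2
    exact h3.of_equiv Subgroup.topEquiv
  have hAab : ∀ a ∈ A, ∀ b ∈ A, a * b = b * a := by
    intro a ha b hb
    have h1 : ⁅a, b⁆ ∈ A ⊓ (P : Subgroup G) := by
      refine ⟨?_, hGP (Subgroup.commutator_mem_commutator (Subgroup.mem_top a) (Subgroup.mem_top b))⟩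
      show ⁅a, b⁆ ∈ A
      rw [commutatorElement_def]
      exact A.mul_mem (A.mul_mem (A.mul_mem ha hb) (A.inv_mem ha)) (A.inv_mem hb)
    rw [hAP, Subgroup.mem_bot] at h1
    exact commutatorElement_eq_one_iff_mul_comm.1 h1
  have hAnp : ∀ a ∈ A, a ≠ 1 → ¬ ∃ k, orderOf a = p ^ k := by
    rintro a ha ha1 ⟨k, hk⟩
    have h1 : orderOf a ∣ Nat.card A := Subgroup.orderOf_dvd_natCard A ha
    have h2 : (orderOf a).Coprime p := Nat.Coprime.coprime_dvd_left h1 hAcop
    rcases Nat.eq_zero_or_pos k with h3 | h3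
    · rw [h3, pow_zero, orderOf_eq_one_iff] at hk; exact ha1 hk
    · rw [hk] at h2
      have := Nat.Coprime.coprime_dvd_left (dvd_pow_self p h3.ne') h2
      rw [Nat.coprime_self] at this
      exact hp.one_lt.ne' this
  have hfpf : ∀ a ∈ A, a ≠ 1 → ∀ c ∈ commutator G, a * c = c * a → c = 1 := by
    intro a ha ha1 c hc hac
    have h1 := hordconj (hconj a (hAnp a ha ha1) c hc)
    have h2 : ∃ k, orderOf c = p ^ k := by
      obtain ⟨k, hk⟩ := hcomm.exists_orderOf_eq_pow ⟨c, hc⟩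
      exact ⟨k, by rw [← hk, Subgroup.orderOf_mk]⟩
    obtain ⟨k, hk⟩ := h2
    have h3 : (orderOf a).Coprime (orderOf c) := by
      rw [hk]
      apply Nat.Coprime.pow_right
      exact Nat.Coprime.coprime_dvd_left (Subgroup.orderOf_dvd_natCard A ha) hAcop
    have h4 : orderOf (a * c) = orderOf a * orderOf c := Commute.orderOf_mul_eq_mul_orderOf_of_coprime hac h3
    rw [h4] at h1
    have h5 : orderOf c = 1 := by
      have h6 := orderOf_pos a
      have h7 : orderOf a * orderOf c = orderOf a * 1 := by rw [mul_one]; exact h1.symm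
      exact Nat.eq_of_mul_eq_mul_left h6 h7
    exact orderOf_eq_one_iff.1 h5
  obtain ⟨a₀, ha₀, ha₀1⟩ : ∃ a ∈ A, a ≠ 1 := by
    obtain ⟨⟨a, ha⟩, hne⟩ := Subgroup.ne_bot_iff_exists_ne_one.1 hAne
    exact ⟨a, ha, fun h1 => hne (Subtype.ext h1)⟩
  have hD : ⁅A, (P : Subgroup G)⁆ = commutator G := by
    apply le_antisymm
    · rw [commutator_def]
      exact Subgroup.commutator_mono le_top le_top
    · intro c hc
      obtain ⟨d, hd, h1⟩ := surj_comm (D := commutator G) inferInstance (hfpf a₀ ha₀ ha₀1) hc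
      rw [← h1]
      have h2 : a₀⁻¹ * d * a₀ * d⁻¹ = ⁅a₀⁻¹, d⁆ := by rw [commutatorElement_def, inv_inv]
      rw [h2]
      exact Subgroup.commutator_mem_commutator (A.inv_mem ha₀) (hGP hd)
  have hcopAP : (Nat.card A).Coprime (Nat.card (P : Subgroup G)) := by
    rw [hAcard]; exact hcop.symm
  have hCD : ((P : Subgroup G) ⊓ Subgroup.centralizer (A : Set G)) ⊔ ⁅A, (P : Subgroup G)⁆ = (P : Subgroup G) := by
    have h1 := H1.Coprime2.commutator_sup_centralizer A (P : Subgroup G)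
      (le_top.trans (Subgroup.normalizer_eq_top (P : Subgroup G)).ge) hcopAP (Or.inl (Group.isSolvable_of_comm
        (fun a b => Subtype.ext (hAab a a.2 b b.2))))
    rw [Subgroup.commutator_comm, sup_comm] at h1
    exact h1
  have hCDbot : ((P : Subgroup G) ⊓ Subgroup.centralizer (A : Set G)) ⊓ ⁅A, (P : Subgroup G)⁆ = ⊥ := by
    rw [hD, eq_bot_iff]
    rintro c ⟨⟨-, hc1⟩, hc2⟩
    rw [Subgroup.mem_bot]
    exact hfpf a₀ ha₀ ha₀1 c hc2 ((Subgroup.mem_centralizer_iff.1 hc1) a₀ ha₀)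
  refine ⟨p, hpf, P, A, hPn, ?_, hAne, hAcop, htop, ?_, ?_, hCD, hCDbot, ?_⟩
  · by_contra hnc
    have hne : commutator G ≠ ⊥ := by
      intro h1
      apply hnab
      refine ⟨⟨fun a b => ?_⟩⟩
      have h2 : ⁅a, b⁆ ∈ commutator G := Subgroup.commutator_mem_commutator (Subgroup.mem_top a) (Subgroup.mem_top b)
      rw [h1, Subgroup.mem_bot] at h2
      exact commutatorElement_eq_one_iff_mul_comm.1 h2
    have hc : (Nat.card A).Coprime (Nat.card (commutator G)) :=
      Nat.Coprime.coprime_dvd_right (Subgroup.card_dvd_of_le hGP) hcopAP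
    obtain ⟨a, ha, ha1, h2⟩ := H29.Gen.exists_cent_ne_bot (A := A) (K := commutator G)
      ⟨⟨fun a b => Subtype.ext (hAab a a.2 b b.2)⟩⟩ hnc
      (le_top.trans (Subgroup.normalizer_eq_top (commutator G)).ge) hc hne
    apply h2
    rw [eq_bot_iff]
    rintro c ⟨hc1, hc2⟩
    rw [Subgroup.mem_bot]
    refine hfpf a ha ha1 c hc1 ?_
    exact (Subgroup.mem_centralizer_iff.1 hc2) a rfl
  · refine ⟨⟨fun a b => ?_⟩⟩
    have h2 : ⁅(a : G), (b : G)⁆ ∈ ((P : Subgroup G) ⊓ Subgroup.centralizer (A : Set G)) ⊓ ⁅A, (P : Subgroup G)⁆ := by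
      refine ⟨?_, ?_⟩
      · show ⁅(a : G), (b : G)⁆ ∈ (P : Subgroup G) ⊓ Subgroup.centralizer (A : Set G)
        rw [commutatorElement_def]
        exact Subgroup.mul_mem _ (Subgroup.mul_mem _ (Subgroup.mul_mem _ a.2 b.2) (Subgroup.inv_mem _ a.2)) (Subgroup.inv_mem _ b.2)
      · rw [hD]
        exact Subgroup.commutator_mem_commutator (Subgroup.mem_top _) (Subgroup.mem_top _)
    rw [hCDbot, Subgroup.mem_bot] at h2
    exact Subtype.ext (commutatorElement_eq_one_iff_mul_comm.1 h2)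
  · rw [hD]; infer_instance
  · intro a ha ha1 d hd had
    rw [hD] at hd
    exact hfpf a ha ha1 d hd had

/-! ### (2) implies (1) -/

theorem off_conj {p : ℕ} [Fact p.Prime] (P : Sylow p G) (A : Subgroup G)
    (hcop : (Nat.card ↥A).Coprime p) 
    (hDn : (⁅A, (P : Subgroup G)⁆).Normal)
    (hCD : ((P : Subgroup G) ⊓ Subgroup.centralizer (A : Set G)) ⊔ ⁅A, (P : Subgroup G)⁆ = (P : Subgroup G))
    (hfpf : ∀ a ∈ A, a ≠ 1 → ∀ d ∈ ⁅A, (P : Subgroup G)⁆, a * d = d * a → d = 1)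
    (hdec : ∀ g : G, ∃ a ∈ A, ∃ c ∈ (P : Subgroup G) ⊓ Subgroup.centralizer (A : Set G),
      ∃ d ∈ ⁅A, (P : Subgroup G)⁆, g = a * c * d) {g : G} (hg : g ∉ (P : Subgroup G)) {n : G}
    (hn : n ∈ ⁅A, (P : Subgroup G)⁆) : IsConj g (g * n) := by
  obtain ⟨a, ha, c, hc, d, hd, rfl⟩ := hdec g
  have hDP : ⁅A, (P : Subgroup G)⁆ ≤ (P : Subgroup G) := by
    conv_rhs => rw [← hCD]
    exact le_sup_right
  have ha1 : a ≠ 1 := by
    intro h1
    apply hg
    rw [h1, one_mul]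
    exact (P : Subgroup G).mul_mem hc.1 (hDP hd)
  have hac : a * c = c * a := (Subgroup.mem_centralizer_iff.1 hc.2) a ha
  have hcent : ∀ x ∈ ⁅A, (P : Subgroup G)⁆, (a * c) * x = x * (a * c) → x = 1 := by
    intro x hx hxc
    -- `a` is a power of `a c`
    obtain ⟨k, hk⟩ : ∃ k, orderOf c = p ^ k := by
      obtain ⟨k, hk⟩ := P.isPGroup'.exists_orderOf_eq_pow ⟨c, hc.1⟩
      exact ⟨k, by rw [← hk, Subgroup.orderOf_mk]⟩
    have h3 : (p ^ k).Coprime (orderOf a) := by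
      apply Nat.Coprime.pow_left
      exact (Nat.Coprime.coprime_dvd_left (Subgroup.orderOf_dvd_natCard A ha) hcop).symm
    have h4 : (a * c) ^ (p ^ k) = a ^ (p ^ k) := by
      rw [(show Commute a c from hac).mul_pow, ← hk, pow_orderOf_eq_one, mul_one]
    obtain ⟨m, hm⟩ := exists_pow_eq_self_of_coprime h3
    have h5 : Commute (a * c) x := hxc
    have h6 : Commute a x := by
      rw [← hm, ← h4, ← pow_mul]
      exact h5.pow_left _
    exact hfpf a ha ha1 x hx h6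
  have h1 := isConj_of_fpf hDn hcent hd
  have h2 := isConj_of_fpf hDn hcent (Subgroup.mul_mem _ hd hn)
  have h3 : a * c * d * n = a * c * (d * n) := by group
  rw [h3]
  exact h1.symm.trans h2

theorem backward {p : ℕ} [Fact p.Prime] (P : Sylow p G) (A : Subgroup G) (hPn : (P : Subgroup G).Normal)
    (hAc : IsCyclic ↥A) (hcop : (Nat.card ↥A).Coprime p) (htop : A ⊔ (P : Subgroup G) = ⊤)
    (hCab : IsMulCommutative ↥((P : Subgroup G) ⊓ Subgroup.centralizer (A : Set G)))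
    (hDn : (⁅A, (P : Subgroup G)⁆).Normal)
    (hCD : ((P : Subgroup G) ⊓ Subgroup.centralizer (A : Set G)) ⊔ ⁅A, (P : Subgroup G)⁆ = (P : Subgroup G))
    (hfpf : ∀ a ∈ A, a ≠ 1 → ∀ d ∈ ⁅A, (P : Subgroup G)⁆, a * d = d * a → d = 1) : Hyp G := by
  classical
  have hp : p.Prime := Fact.out
  -- decomposition of elements
  have hdec : ∀ g : G, ∃ a ∈ A, ∃ c ∈ (P : Subgroup G) ⊓ Subgroup.centralizer (A : Set G),
      ∃ d ∈ ⁅A, (P : Subgroup G)⁆, g = a * c * d := by
    intro g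
    have h1 : g ∈ A ⊔ (P : Subgroup G) := by rw [htop]; trivial
    rw [Subgroup.mem_sup_of_normal_right] at h1
    obtain ⟨a, ha, x, hx, rfl⟩ := h1
    rw [← hCD, Subgroup.mem_sup_of_normal_right] at hx
    obtain ⟨c, hc, d, hd, rfl⟩ := hx
    exact ⟨a, ha, c, hc, d, hd, by group⟩
  -- commutators
  have hcomm : ∀ g h : G, g * h * g⁻¹ * h⁻¹ ∈ ⁅A, (P : Subgroup G)⁆ := by
    intro g h
    obtain ⟨a, ha, c, hc, d, hd, rfl⟩ := hdec g
    obtain ⟨a', ha', c', hc', d', hd', rfl⟩ := hdec h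
    rw [← QuotientGroup.eq_one_iff]
    have hA : ∀ u ∈ A, ∀ v ∈ A, u * v = v * u := by
      intro u hu v hv
      have hab := IsCyclic.isMulCommutative (α := A)
      exact congrArg Subtype.val (hab.is_comm.comm (⟨u, hu⟩ : A) ⟨v, hv⟩)
    have hC : ∀ u ∈ (P : Subgroup G) ⊓ Subgroup.centralizer (A : Set G),
        ∀ v ∈ (P : Subgroup G) ⊓ Subgroup.centralizer (A : Set G), u * v = v * u := by
      intro u hu v hv
      exact congrArg Subtype.val (hCab.is_comm.comm ⟨u, hu⟩ ⟨v, hv⟩)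
    have hAC : ∀ u ∈ A, ∀ v ∈ (P : Subgroup G) ⊓ Subgroup.centralizer (A : Set G), u * v = v * u := by
      intro u hu v hv
      exact (Subgroup.mem_centralizer_iff.1 hv.2) u hu
    have hd1 : ((d : G) : G ⧸ ⁅A, (P : Subgroup G)⁆) = 1 := (QuotientGroup.eq_one_iff d).2 hd
    have hd2 : ((d' : G) : G ⧸ ⁅A, (P : Subgroup G)⁆) = 1 := (QuotientGroup.eq_one_iff d').2 hd'
    have h3 : (a * c) * (a' * c') = (a' * c') * (a * c) := by
      calc (a * c) * (a' * c') = a * (c * a') * c' := by group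
        _ = a * (a' * c) * c' := by rw [hAC a' ha' c hc]
        _ = (a * a') * (c * c') := by group
        _ = (a' * a) * (c' * c) := by rw [hA a ha a' ha', hC c hc c' hc']
        _ = a' * (a * c') * c := by group
        _ = a' * (c' * a) * c := by rw [hAC a ha c' hc']
        _ = (a' * c') * (a * c) := by group
    have h4 : (((a * c : G) : G ⧸ ⁅A, (P : Subgroup G)⁆)) * ((a' * c' : G) : G ⧸ ⁅A, (P : Subgroup G)⁆) =
        ((a' * c' : G) : G ⧸ ⁅A, (P : Subgroup G)⁆) * ((a * c : G) : G ⧸ ⁅A, (P : Subgroup G)⁆) := by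
      rw [← QuotientGroup.mk_mul, ← QuotientGroup.mk_mul, h3]
    have h5 : ((a * c * d : G) : G ⧸ ⁅A, (P : Subgroup G)⁆) = ((a * c : G) : G ⧸ ⁅A, (P : Subgroup G)⁆) := by
      rw [QuotientGroup.mk_mul _ (a * c) d, hd1, mul_one]
    have h6 : ((a' * c' * d' : G) : G ⧸ ⁅A, (P : Subgroup G)⁆) = ((a' * c' : G) : G ⧸ ⁅A, (P : Subgroup G)⁆) := by
      rw [QuotientGroup.mk_mul _ (a' * c') d', hd2, mul_one]
    rw [QuotientGroup.mk_mul, QuotientGroup.mk_mul, QuotientGroup.mk_mul, QuotientGroup.mk_inv, QuotientGroup.mk_inv,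
      h5, h6, h4]
    group
  have hoff : ∀ g : G, g ∉ (P : Subgroup G) → ∀ n ∈ ⁅A, (P : Subgroup G)⁆, IsConj g (g * n) := fun g hg n hn =>
    off_conj P A hcop hDn hCD hfpf hdec hg hn
  -- nonlinear characters vanish off `P`
  have hvan : ∀ χ : IrrCharacter G, (χ : G → ℂ) 1 ≠ 1 → ∀ g : G, g ∉ (P : Subgroup G) → (χ : G → ℂ) g = 0 := by
    intro χ hχ g hg
    apply H82.Coset.eq_zero_of_coset ⁅A, (P : Subgroup G)⁆ g (hoff g hg) χ
    intro hov
    apply hχ
    letI := Fintype.ofFinite G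
    exact H18.Primitive.degree_one_of_commutator χ.2 (fun a b => hov _ (hcomm a b))
  -- the conclusion
  rintro x y χ hx hy ⟨p₁, p₂, a, b, hp₁, hp₂, hne, hxa, hyb⟩
  by_cases hχ : (χ : G → ℂ) 1 = 1
  · obtain ⟨f, hf⟩ := exists_hom_of_degree_one (isCharacter_of_isIrr χ.2) hχ
    rw [hf]
    simp
  · have hPpow : ∀ z ∈ (P : Subgroup G), z ≠ 1 → ∀ r e, r.Prime → orderOf z = r ^ e → r = p := by
      intro z hz hz1 r e hr hre
      obtain ⟨k, hk⟩ := P.isPGroup'.exists_orderOf_eq_pow ⟨z, hz⟩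
      rw [Subgroup.orderOf_mk] at hk
      have he : e ≠ 0 := by
        rintro rfl
        rw [pow_zero, orderOf_eq_one_iff] at hre
        exact hz1 hre
      have h1 : r ∣ p ^ k := by rw [← hk, hre]; exact dvd_pow_self r he
      exact (Nat.prime_dvd_prime_iff_eq hr hp).1 (hr.dvd_of_dvd_pow h1)
    have hnot : ¬ (x ∈ (P : Subgroup G) ∧ y ∈ (P : Subgroup G)) := by
      rintro ⟨h1, h2⟩
      exact hne ((hPpow x h1 hx _ _ hp₁ hxa).trans (hPpow y h2 hy _ _ hp₂ hyb).symm)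
    have hxy : x * y ∉ (P : Subgroup G) := by
      intro h1
      apply hnot
      have h2 : ((x : G) : G ⧸ (P : Subgroup G)) * (y : G ⧸ (P : Subgroup G)) = 1 := by
        rw [← QuotientGroup.mk_mul]
        exact (QuotientGroup.eq_one_iff _).2 h1
      have h3 : orderOf ((x : G) : G ⧸ (P : Subgroup G)) ∣ p₁ ^ a := by
        rw [← hxa]; exact orderOf_map_dvd (QuotientGroup.mk' (P : Subgroup G)) x
      have h4 : orderOf ((x : G) : G ⧸ (P : Subgroup G)) ∣ p₂ ^ b := by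
        rw [← hyb, eq_inv_of_mul_eq_one_left h2, orderOf_inv]
        exact orderOf_map_dvd (QuotientGroup.mk' (P : Subgroup G)) y
      have h5 : Nat.Coprime (p₁ ^ a) (p₂ ^ b) := Nat.Coprime.pow _ _ ((Nat.coprime_primes hp₁ hp₂).2 hne)
      have h6 : orderOf ((x : G) : G ⧸ (P : Subgroup G)) = 1 := Nat.eq_one_of_dvd_coprimes h5 h3 h4
      rw [orderOf_eq_one_iff] at h6
      rw [h6, one_mul] at h2
      exact ⟨(QuotientGroup.eq_one_iff _).1 h6, (QuotientGroup.eq_one_iff _).1 h2⟩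
    rw [hvan χ hχ _ hxy]
    by_cases hxP : x ∈ (P : Subgroup G)
    · rw [hvan χ hχ y (fun h => hnot ⟨hxP, h⟩), mul_zero]
    · rw [hvan χ hχ x hxP, zero_mul]

theorem backward_pgroup {p : ℕ} (hp : p.Prime) (h : IsPGroup p G) : Hyp G := by
  rintro x y χ hx hy ⟨p₁, p₂, a, b, hp₁, hp₂, hne, hxa, hyb⟩
  exfalso
  haveI : Fact p.Prime := ⟨hp⟩
  have key : ∀ z : G, z ≠ 1 → ∀ r e, r.Prime → orderOf z = r ^ e → r = p := by
    intro z hz1 r e hr hre
    obtain ⟨k, hk⟩ := h.exists_orderOf_eq_pow z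
    have he : e ≠ 0 := by
      rintro rfl
      rw [pow_zero, orderOf_eq_one_iff] at hre
      exact hz1 hre
    have h1 : r ∣ p ^ k := by rw [← hk, hre]; exact dvd_pow_self r he
    exact (Nat.prime_dvd_prime_iff_eq hr hp).1 (hr.dvd_of_dvd_pow h1)
  exact hne ((key x hx _ _ hp₁ hxa).trans (key y hy _ _ hp₂ hyb).symm)

theorem backward_comm (h : IsMulCommutative G) : Hyp G := by
  rintro x y χ - - -
  obtain ⟨f, hf⟩ := exists_hom_of_isIrr_of_comm (fun a b => h.is_comm.comm a b) χ.2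
  rw [hf]
  simp

end H81.MulPP
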