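import Cfsg.Agent.Lib.H20.Height
import Cfsg.Agent.Lib.H62.CentralInv
import Cfsg.Agent.Lib.H18.CharQuot

/-!
# Height zero characters and an element of order four of a defect group inverted inside it
-/

set_option autoImplicit false
set_option linter.unusedSectionVars false
set_option linter.unusedVariables false
set_option linter.style.haveILetI false

namespace H81.OddHt

open Cfsg H20.Loc H20.GA H20.Blk H20.DefGrp H20.Orth H20.Defect H20.Ind H20.Height
open scoped ComplexConjugate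

universe u
variable {M : Ideal AlgInt} {G : Type u} [Group G] [Finite G]

/-- if `t` commutes with `g`, `t ^ 4 = 1`, then `(1/4) Σ χ(t^k g) i^k` is an algebraic integer. -/
theorem isIntegral_four {χ : G → ℂ} (hχ : IsCharacter G χ) {t g : G} (hc : t * g = g * t)
    (ho : orderOf t = 4) :
    IsIntegral ℤ ((4 : ℂ)⁻¹ * (χ g + Complex.I * χ (t * g) - χ (t ^ 2 * g) - Complex.I * χ (t ^ 3 * g))) := by
  classical
  have hcomm : ∀ (u : Subgroup.zpowers t) (z : Subgroup.zpowers g), (u : G) * (z : G) = (z : G) * (u : G) := by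
    rintro ⟨_, k, rfl⟩ ⟨_, l, rfl⟩
    have h : Commute t g := hc
    exact (h.zpow_zpow k l)
  let f : (Subgroup.zpowers t) × (Subgroup.zpowers g) →* G :=
    { toFun := fun x => (x.1 : G) * (x.2 : G)
      map_one' := by simp
      map_mul' := by
        intro x y
        simp only [Prod.fst_mul, Prod.snd_mul, Subgroup.coe_mul]
        have := hcomm y.1 x.2
        calc (x.1 : G) * (y.1 : G) * ((x.2 : G) * (y.2 : G))
            = (x.1 : G) * ((y.1 : G) * (x.2 : G)) * (y.2 : G) := by group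
          _ = (x.1 : G) * ((x.2 : G) * (y.1 : G)) * (y.2 : G) := by rw [this]
          _ = _ := by group }
  let T : Subgroup.zpowers t := ⟨t, Subgroup.mem_zpowers t⟩
  have hT : ∀ x : Subgroup.zpowers t, x ∈ Subgroup.zpowers T := by
    rintro ⟨_, k, rfl⟩
    exact ⟨k, Subtype.ext (by simp [T])⟩
  have hoT : orderOf T = 4 := by rw [← Subgroup.orderOf_coe]; exact ho
  let i : ℂˣ := Units.mk0 Complex.I Complex.I_ne_zero
  have hi : i ^ 4 = 1 := by
    ext
    simp [i, Complex.I_pow_four]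
  let lam : Subgroup.zpowers t →* ℂˣ := monoidHomOfForallMemZpowers hT (g' := i)
    (by rw [hoT]; exact orderOf_dvd_of_pow_eq_one hi)
  have hlam : lam T = i := monoidHomOfForallMemZpowers_apply_gen hT _
  letI : Fintype (Subgroup.zpowers t) := Fintype.ofFinite _
  have h1 := isCharacter_avg (H18.CharQuot.isCharacter_hom_mul (lam.comp (MonoidHom.fst _ _))
    (H18.CharBasic.isCharacter_comp f hχ))
  have h2 := H18.CharBasic.char_isIntegral h1 ⟨g, Subgroup.mem_zpowers g⟩
  have h3 : Nat.card (Subgroup.zpowers t) = 4 := by rw [Nat.card_zpowers, ho]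
  have h4 : ∀ F : Subgroup.zpowers t → ℂ, ∑ x, F x = F 1 + F T + F (T ^ 2) + F (T ^ 3) := by
    intro F
    have e : ∑ k : Fin 4, F (T ^ (k : ℕ)) = ∑ x, F x := by
      let e0 : Fin (orderOf T) ≃ Subgroup.zpowers T := finEquivZPowers (isOfFinOrder_of_finite T)
      have hinj : Function.Injective (fun k : Fin 4 => T ^ (k : ℕ)) := by
        intro a b hab
        have := (pow_inj_mod (x := T)).1 hab
        rw [hoT, Nat.mod_eq_of_lt a.2, Nat.mod_eq_of_lt b.2] at this
        exact Fin.ext this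
      have hbij : Function.Bijective (fun k : Fin 4 => T ^ (k : ℕ)) := by
        rw [Fintype.bijective_iff_injective_and_card]
        refine ⟨hinj, ?_⟩
        rw [Fintype.card_fin, ← Nat.card_eq_fintype_card, h3]
      exact hbij.sum_comp F
    rw [← e, Fin.sum_univ_four]
    simp
  rw [h4, h3] at h2
  have hl0 : ((lam.comp (MonoidHom.fst (Subgroup.zpowers t) (Subgroup.zpowers g))) (1, ⟨g, Subgroup.mem_zpowers g⟩) : ℂˣ) = 1 := by
    simp
  have hl1 : ((lam.comp (MonoidHom.fst (Subgroup.zpowers t) (Subgroup.zpowers g))) (T, ⟨g, Subgroup.mem_zpowers g⟩) : ℂˣ) = i := by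
    simp [hlam]
  have hl2 : ((lam.comp (MonoidHom.fst (Subgroup.zpowers t) (Subgroup.zpowers g))) (T ^ 2, ⟨g, Subgroup.mem_zpowers g⟩) : ℂˣ) = i ^ 2 := by
    simp [hlam]
  have hl3 : ((lam.comp (MonoidHom.fst (Subgroup.zpowers t) (Subgroup.zpowers g))) (T ^ 3, ⟨g, Subgroup.mem_zpowers g⟩) : ℂˣ) = i ^ 3 := by
    simp [hlam]
  rw [hl0, hl1, hl2, hl3] at h2
  convert h2 using 1
  have e0 : f (1, ⟨g, Subgroup.mem_zpowers g⟩) = g := one_mul g
  have e1 : f (T, ⟨g, Subgroup.mem_zpowers g⟩) = t * g := rfl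
  have e2 : f (T ^ 2, ⟨g, Subgroup.mem_zpowers g⟩) = t ^ 2 * g := rfl
  have e3 : f (T ^ 3, ⟨g, Subgroup.mem_zpowers g⟩) = t ^ 3 * g := rfl
  rw [e0, e1, e2, e3]
  have i1 : ((i : ℂˣ) : ℂ) = Complex.I := rfl
  have i2 : ((i ^ 2 : ℂˣ) : ℂ) = -1 := by
    rw [Units.val_pow_eq_pow_val, i1, Complex.I_sq]
  have i3 : ((i ^ 3 : ℂˣ) : ℂ) = -Complex.I := by
    rw [Units.val_pow_eq_pow_val, i1, Complex.I_pow_three]
  rw [i1, i2, i3]
  push_cast
  ring

/-- (C) -/
theorem odd_height (hM : IsPModular 2 M) {B : Set (IrrCharacter G)} (hB : IsPBlock M B) {D : Subgroup G}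
    (hD : IsDefectGroup 2 M B D) {t y z : G} (ht : t ∈ D) (hy : y ∈ D) (hz : ∀ g : G, g * z = z * g)
    (htz : t * t = z) (hzz : z * z = 1) (hyt : y * t * y⁻¹ = t⁻¹)
    {χ : IrrCharacter G} (hχ : χ ∈ B) (h0 : blockHeight 2 B (χ : G → ℂ) = 0) :
    (χ : G → ℂ) z = (χ : G → ℂ) 1 := by
  haveI := pm_isPrime hM
  haveI : Fact (Nat.Prime 2) := ⟨Nat.prime_two⟩
  rcases H62.CentralInv.central_sign χ.2 (fun g => (hz g).symm) hzz with h | h
  · have := h 1
    rwa [mul_one] at this
  exfalso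
  -- the defect class
  obtain ⟨g, hg, P, rfl⟩ := hD
  have hcg : ∀ x ∈ ((P : Subgroup (Subgroup.centralizer ({g} : Set G))).map
      (Subgroup.centralizer ({g} : Set G)).subtype), x * g = g * x := by
    rintro _ ⟨x, hx, rfl⟩
    exact Subgroup.mem_centralizer_singleton_iff.1 x.2
  have htg := hcg t ht
  have hyg := hcg y hy
  have ht2 : t ^ 2 = z := by rw [pow_two]; exact htz
  have ht4 : t ^ 4 = 1 := by
    have : t ^ 4 = t ^ 2 * t ^ 2 := by rw [← pow_add]
    rw [this, ht2, hzz]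
  have hχ1 := H18.CharBasic.irr_one_ne_zero χ.2
  have hz1 : z ≠ 1 := by
    rintro rfl
    have := h 1
    rw [mul_one] at this
    have h2 : (χ : G → ℂ) 1 = 0 := by linear_combination this / 2
    exact hχ1 h2
  have ho : orderOf t = 4 := by
    have := orderOf_eq_prime_pow (p := 2) (n := 1) (x := t) (by rw [pow_one, ht2]; exact hz1)
      (by norm_num; exact ht4)
    simpa using this
  have hcl := irr_class χ
  have h1 : (χ : G → ℂ) (t ^ 2 * g) = -(χ : G → ℂ) g := by rw [ht2]; exact h g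
  have ht3 : t ^ 3 = z * t := by
    rw [← ht2, ← pow_succ]
  have hti : t⁻¹ = z * t := by
    rw [inv_eq_iff_mul_eq_one, ← ht3, ← pow_succ', ht4]
  have h3 : (χ : G → ℂ) (t ^ 3 * g) = -(χ : G → ℂ) (t * g) := by
    rw [ht3, mul_assoc]; exact h (t * g)
  have h3' : (χ : G → ℂ) (t ^ 3 * g) = (χ : G → ℂ) (t * g) := by
    rw [ht3, ← hti, ← hyt]
    have : y * t * y⁻¹ * g = y * (t * g) * y⁻¹ := by
      have e : y⁻¹ * g = g * y⁻¹ := by
        rw [inv_mul_eq_iff_eq_mul, ← mul_assoc, hyg, mul_inv_cancel_right]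
      rw [mul_assoc _ _ g, e]; group
    rw [this]
    exact hcl _ _
  have h4 : (χ : G → ℂ) (t * g) = 0 := by linear_combination (h3' - h3) / (-2)
  have h5 := isIntegral_four (irr_char χ) htg ho
  rw [h3, h1, h4] at h5
  have h6 : (χ : G → ℂ) g = (2 : ℕ) * ((4 : ℂ)⁻¹ * ((χ : G → ℂ) g + Complex.I * 0 - -(χ : G → ℂ) g - Complex.I * -0)) := by
    push_cast; ring
  have h7 : MemLocalIdeal M ((χ : G → ℂ) g) := by
    rw [h6]
    exact locI_mul_right (locI_p hM) (isIntegral_mem h5)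
  -- but it is a unit
  apply hg.2.2 χ hχ
  have h8 := (height_zero_iff hM hB hχ).1 h0
  rw [blockDefect_eq hM hB hg, ← factorization_index (p := 2) g] at h8
  have h9 : (charDegree (χ : G → ℂ)).factorization 2 = (Subgroup.centralizer ({g} : Set G)).index.factorization 2 := by
    omega
  rw [centralChar, ← charDegree_irr]
  set a := (Subgroup.centralizer ({g} : Set G)).index with ha
  set b := charDegree (χ : G → ℂ) with hb
  have hb0 : b ≠ 0 := charDegree_ne_zero χ
  obtain ⟨a', ha'⟩ : 2 ^ (a.factorization 2) ∣ a := Nat.ordProj_dvd a 2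
  have hb' := Nat.ordProj_mul_ordCompl_eq_self b 2
  have hb2 : ¬ 2 ∣ b / 2 ^ (b.factorization 2) := Nat.not_dvd_ordCompl Nat.prime_two hb0
  set b' := b / 2 ^ (b.factorization 2) with hb''
  have hb'0 : (b' : ℂ) ≠ 0 := by
    rintro h0
    apply hb2
    have : b' = 0 := by exact_mod_cast h0
    rw [this]; exact dvd_zero 2
  have e1 : (a : ℂ) = 2 ^ (b.factorization 2) * (a' : ℂ) := by
    rw [h9]
    conv_lhs => rw [ha']
    push_cast
    rfl
  have e2 : (b : ℂ) = 2 ^ (b.factorization 2) * (b' : ℂ) := by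
    conv_lhs => rw [← hb']
    push_cast
    rfl
  have e3 : (a : ℂ) * (χ : G → ℂ) g / (b : ℂ) = ((a' : ℂ) * (b' : ℂ)⁻¹) * (χ : G → ℂ) g := by
    rw [e1, e2]
    field_simp
  rw [e3]
  exact locI_mul_left (locR_mul (locR_natCast _) (locR_natCast_inv hM hb2)) h7

end H81.OddHt
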