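import Cfsg.Agent.Lib.H77.CopDeg
import Cfsg.Agent.Lib.H82.Deg
import Cfsg.Agent.Lib.H77.CopSub
import Cfsg.Agent.Lib.H83.Gallagher
import Cfsg.Agent.Lib.H5.PLocal
import Cfsg.Agent.Lib.H31.CoprimeExt

/-!
# Groups with a normal `p`-complement and one irreducible character of degree divisible by `p`
-/

set_option autoImplicit false
set_option linter.unusedSectionVars false
set_option linter.style.haveILetI false

namespace H81.OneSing

open Cfsg H18.CharBasic H18.CharOrtho H18.CharQuot H18.CharInd H82.Deg H77.CopDeg H77.CopSub H77.CopChain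
open scoped ComplexConjugate commutatorElement Pointwise

universe u
variable {G : Type u} [Group G] [Finite G] (p : ℕ) [Fact p.Prime]

/-! ### counting classes -/

section classes
variable (N : Subgroup G) [hN : N.Normal] (P : Sylow p G) 

theorem inf_eq_bot (hcop : (Nat.card N).Coprime p) : N ⊓ (P : Subgroup G) = ⊥ := by
  obtain ⟨n, hn⟩ := IsPGroup.iff_card.1 P.isPGroup'
  apply (Subgroup.disjoint_of_coprime_natCard _).eq_bot
  rw [hn]
  exact Nat.Coprime.pow_right n hcop

theorem sup_eq_top (hcop : (Nat.card N).Coprime p) (hidx : ∃ k : ℕ, N.index = p ^ k) : N ⊔ (P : Subgroup G) = ⊤ := by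
  obtain ⟨k, hk⟩ := hidx
  apply Subgroup.eq_top_of_card_eq
  apply Nat.dvd_antisymm (Subgroup.card_subgroup_dvd_card _)
  rw [← N.card_mul_index]
  apply Nat.Coprime.mul_dvd_of_dvd_of_dvd
  · rw [hk]; exact Nat.Coprime.pow_right k hcop
  · exact Subgroup.card_dvd_of_le le_sup_left
  · have h1 : N.index ∣ Nat.card (P : Subgroup G) := by
      rw [hk, Sylow.card_eq_multiplicity, ← hk]
      have h2 : N.index ∣ Nat.card G := N.index_dvd_card
      rw [hk] at h2 ⊢
      exact pow_dvd_pow p ((Nat.Prime.pow_dvd_iff_le_factorization Fact.out Nat.card_pos.ne').1 h2)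
    exact h1.trans (Subgroup.card_dvd_of_le le_sup_right)

variable {p}

theorem pow_eq_self_of_coprime' {x : G} {m : ℕ} (hx : (orderOf x).Coprime m) :
    ∃ k : ℕ, ∀ c : G, x * c = c * x → c ^ m = 1 → (x * c) ^ k = x := by
  obtain ⟨j, hj⟩ := exists_pow_eq_self_of_coprime (n := m) (x := x) hx.symm
  refine ⟨m * j, fun c hxc hc => ?_⟩
  rw [pow_mul, (show Commute x c from hxc).mul_pow, hc, mul_one, hj]

/-- fusion: elements of `C_N(P)` conjugate in `G` are conjugate in `C_N(P)` -/
theorem fusion (hcop : (Nat.card N).Coprime p) (hidx : ∃ k : ℕ, N.index = p ^ k)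
    {c c' : G} (hc : c ∈ N ⊓ Subgroup.centralizer ((P : Subgroup G) : Set G))
    (hc' : c' ∈ N ⊓ Subgroup.centralizer ((P : Subgroup G) : Set G)) {g : G} (h : g * c * g⁻¹ = c') :
    ∃ u ∈ N ⊓ Subgroup.centralizer ((P : Subgroup G) : Set G), u * c * u⁻¹ = c' := by
  -- two Sylow subgroups of `C_G(c)`
  let Z := Subgroup.centralizer ({c} : Set G)
  have hPZ : (P : Subgroup G) ≤ Z := by
    intro x hx
    rw [Subgroup.mem_centralizer_singleton_iff]
    exact ((Subgroup.mem_centralizer_iff.1 hc.2) x hx)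
  have hPgZ : ((g⁻¹ • P : Sylow p G) : Subgroup G) ≤ Z := by
    intro y hy
    rw [Sylow.coe_subgroup_smul, Subgroup.mem_pointwise_smul_iff_inv_smul_mem, MulAut.smul_def, ← map_inv,
      MulAut.conj_apply] at hy
    rw [Subgroup.mem_centralizer_singleton_iff]
    have h1 := (Subgroup.mem_centralizer_iff.1 hc'.2) _ hy
    rw [inv_inv, ← h] at h1
    have h2 : g * (y * c) * g⁻¹ = g * (c * y) * g⁻¹ := by
      calc g * (y * c) * g⁻¹ = (g * y * g⁻¹) * (g * c * g⁻¹) := by group
        _ = (g * c * g⁻¹) * (g * y * g⁻¹) := h1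
        _ = g * (c * y) * g⁻¹ := by group
    exact mul_left_cancel (mul_right_cancel h2)
  let P1 : Sylow p Z := P.subtype hPZ
  let P2 : Sylow p Z := (g⁻¹ • P : Sylow p G).subtype hPgZ
  obtain ⟨h0, hh0⟩ := MulAction.exists_smul_eq Z P2 P1
  -- `m = h0 g⁻¹` normalizes `P`
  have hm : ∀ x ∈ (P : Subgroup G), ((h0 : G) * g⁻¹) * x * ((h0 : G) * g⁻¹)⁻¹ ∈ (P : Subgroup G) := by
    intro x hx
    have h1 : g⁻¹ * x * g ∈ ((g⁻¹ • P : Sylow p G) : Subgroup G) := by
      rw [Sylow.coe_subgroup_smul, Subgroup.mem_pointwise_smul_iff_inv_smul_mem, MulAut.smul_def, ← map_inv,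
        MulAut.conj_apply]
      have h2 : g⁻¹⁻¹ * (g⁻¹ * x * g) * g⁻¹⁻¹⁻¹ = x := by group
      rw [h2]; exact hx
    have h2 : (⟨g⁻¹ * x * g, hPgZ h1⟩ : Z) ∈ (P2 : Subgroup Z) := h1
    have h3 : MulAut.conj h0 • (⟨g⁻¹ * x * g, hPgZ h1⟩ : Z) ∈ MulAut.conj h0 • (P2 : Subgroup Z) :=
      Subgroup.smul_mem_pointwise_smul _ _ _ h2
    have h4 : MulAut.conj h0 • (P2 : Subgroup Z) = (P1 : Subgroup Z) := by
      rw [← hh0]; rfl
    rw [h4] at h3
    have h5 : (h0 : G) * (g⁻¹ * x * g) * (h0 : G)⁻¹ ∈ (P : Subgroup G) := h3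
    have h6 : ((h0 : G) * g⁻¹) * x * ((h0 : G) * g⁻¹)⁻¹ = (h0 : G) * (g⁻¹ * x * g) * (h0 : G)⁻¹ := by group
    rw [h6]; exact h5
  -- write `m⁻¹ = g h0⁻¹ = y u` hmm
  have htop := sup_eq_top p N P hcop hidx
  have hbot := inf_eq_bot p N P hcop
  have hmem : (h0 : G) * g⁻¹ ∈ N ⊔ (P : Subgroup G) := by rw [htop]; trivial
  rw [Subgroup.mem_sup_of_normal_left] at hmem
  obtain ⟨n, hn, y, hy, hny⟩ := hmem
  have hnP : n ∈ Subgroup.centralizer ((P : Subgroup G) : Set G) := by
    rw [Subgroup.mem_centralizer_iff]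
    intro x hx
    have h1 := hm (y⁻¹ * x * y) ((P : Subgroup G).mul_mem ((P : Subgroup G).mul_mem ((P : Subgroup G).inv_mem hy) hx) hy)
    rw [← hny] at h1
    have h2 : n * y * (y⁻¹ * x * y) * (n * y)⁻¹ = n * x * n⁻¹ := by group
    rw [h2] at h1
    have h3 : n * x * n⁻¹ * x⁻¹ ∈ N ⊓ (P : Subgroup G) := by
      refine ⟨?_, (P : Subgroup G).mul_mem h1 ((P : Subgroup G).inv_mem hx)⟩
      have h4 : n * x * n⁻¹ * x⁻¹ = n * (x * n⁻¹ * x⁻¹) := by group
      show n * x * n⁻¹ * x⁻¹ ∈ N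
      rw [h4]
      exact N.mul_mem hn (hN.conj_mem _ (N.inv_mem hn) x)
    rw [hbot, Subgroup.mem_bot] at h3
    have h5 : n * x = x * n := by
      calc n * x = (n * x * n⁻¹ * x⁻¹) * x * n := by group
        _ = x * n := by rw [h3, one_mul]
    exact h5.symm
  refine ⟨n⁻¹, ⟨N.inv_mem hn, Subgroup.inv_mem _ hnP⟩, ?_⟩
  -- `c' = g c g⁻¹` and `h0` centralizes `c`
  have h1 : (h0 : G) * c = c * (h0 : G) := Subgroup.mem_centralizer_singleton_iff.1 h0.2
  have h2 : y * (n⁻¹ * c * n) = (n⁻¹ * c * n) * y := by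
    have h3 : n⁻¹ * c * n ∈ Subgroup.centralizer ((P : Subgroup G) : Set G) :=
      Subgroup.mul_mem _ (Subgroup.mul_mem _ (Subgroup.inv_mem _ hnP) hc.2) hnP
    exact (Subgroup.mem_centralizer_iff.1 h3) y hy
  have h3 : g = (n * y)⁻¹ * h0 := by rw [hny]; group
  rw [← h, h3]
  symm
  calc (n * y)⁻¹ * h0 * c * ((n * y)⁻¹ * h0)⁻¹ = (n * y)⁻¹ * (h0 * c) * (h0 : G)⁻¹ * (n * y) := by group
    _ = (n * y)⁻¹ * (c * h0) * (h0 : G)⁻¹ * (n * y) := by rw [h1]
    _ = y⁻¹ * ((n⁻¹ * c * n) * y) := by group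
    _ = y⁻¹ * (y * (n⁻¹ * c * n)) := by rw [h2]
    _ = n⁻¹ * c * n⁻¹⁻¹ := by group

/-- for abelian `P` the classes of size prime to `p` correspond to pairs `(x, [c])` -/
theorem card_classes (hcop : (Nat.card N).Coprime p) (hidx : ∃ k : ℕ, N.index = p ^ k)
    (hab : ∀ x ∈ (P : Subgroup G), ∀ y ∈ (P : Subgroup G), x * y = y * x) :
    Nat.card {K : ConjClasses G // ¬ p ∣ Nat.card K.carrier} =
      Nat.card (P : Subgroup G) *
        Nat.card (ConjClasses ↥(N ⊓ Subgroup.centralizer ((P : Subgroup G) : Set G))) := by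
  classical
  have hpp : p.Prime := Fact.out
  have hbot := inf_eq_bot p N P hcop
  have htop := sup_eq_top p N P hcop hidx
  set C : Subgroup G := N ⊓ Subgroup.centralizer ((P : Subgroup G) : Set G) with hC
  have hcomm : ∀ x ∈ (P : Subgroup G), ∀ c ∈ C, x * c = c * x := by
    intro x hx c hc
    exact (Subgroup.mem_centralizer_iff.1 hc.2) x hx
  -- size of classes
  have hsize : ∀ g : G, ¬ p ∣ Nat.card (ConjClasses.mk g).carrier ↔
      ∃ Q : Sylow p G, (Q : Subgroup G) ≤ Subgroup.centralizer ({g} : Set G) := by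
    intro g
    have h1 : Nat.card (ConjClasses.mk g).carrier = (Subgroup.centralizer ({g} : Set G)).index := by
      rw [← H18.CharInd.card_isConj_eq_index]
      apply Nat.card_congr
      exact Equiv.subtypeEquivRight (fun x => by
        rw [ConjClasses.mem_carrier_iff_mk_eq, ConjClasses.mk_eq_mk_iff_isConj]
        exact ⟨fun h => h.symm, fun h => h.symm⟩)
    rw [h1]
    constructor
    · intro h2
      obtain ⟨Q⟩ := (inferInstance : Nonempty (Sylow p (Subgroup.centralizer ({g} : Set G))))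
      have h3 : IsPGroup p ((Q : Subgroup (Subgroup.centralizer ({g} : Set G))).map
          (Subgroup.centralizer ({g} : Set G)).subtype) := Q.isPGroup'.map _
      obtain ⟨R, hR⟩ := h3.exists_le_sylow
      have h4 : Nat.card ((Q : Subgroup (Subgroup.centralizer ({g} : Set G))).map
          (Subgroup.centralizer ({g} : Set G)).subtype) = Nat.card (R : Subgroup G) := by
        rw [Subgroup.card_map_of_injective (Subgroup.subtype_injective _), Q.card_eq_multiplicity,
          R.card_eq_multiplicity]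
        congr 1
        rw [← (Subgroup.centralizer ({g} : Set G)).card_mul_index,
          Nat.factorization_mul Nat.card_pos.ne' (Subgroup.index_ne_zero_of_finite), Finsupp.add_apply,
          Nat.factorization_eq_zero_of_not_dvd h2, add_zero]
      have h5 := Subgroup.eq_of_le_of_card_ge hR h4.ge
      refine ⟨R, ?_⟩
      rw [← h5]
      exact Subgroup.map_subtype_le _
    · rintro ⟨Q, hQ⟩ h2
      have h3 : (Subgroup.centralizer ({g} : Set G)).index ∣ (Q : Subgroup G).index := Subgroup.index_dvd_of_le hQ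
      exact Q.not_dvd_index (h2.trans h3)
  let f : ↥(P : Subgroup G) × ConjClasses C → {K : ConjClasses G // ¬ p ∣ Nat.card K.carrier} := fun a =>
    ⟨ConjClasses.mk ((a.1 : G) * ((a.2.out : C) : G)), by
      rw [hsize]
      refine ⟨P, fun y hy => ?_⟩
      rw [Subgroup.mem_centralizer_singleton_iff]
      have h1 := hab y hy a.1 a.1.2
      have h2 := hcomm y hy (a.2.out : C) (a.2.out : C).2
      calc y * ((a.1 : G) * ((a.2.out : C) : G)) = (y * a.1) * ((a.2.out : C) : G) := by group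
        _ = (a.1 * y) * ((a.2.out : C) : G) := by rw [h1]
        _ = a.1 * (y * ((a.2.out : C) : G)) := by group
        _ = a.1 * (((a.2.out : C) : G) * y) := by rw [h2]
        _ = _ := by group⟩
  rw [← Nat.card_prod]
  symm
  apply Nat.card_congr (Equiv.ofBijective f ⟨?_, ?_⟩)
  · rintro ⟨x, K⟩ ⟨x', K'⟩ hff
    have h1 : IsConj ((x : G) * ((K.out : C) : G)) ((x' : G) * ((K'.out : C) : G)) :=
      ConjClasses.mk_eq_mk_iff_isConj.1 (congrArg Subtype.val hff)
    obtain ⟨g, hg⟩ := isConj_iff.1 h1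
    -- orders
    have hm : ∀ c : C, (c : G) ^ Nat.card N = 1 := by
      intro c
      have h2 := pow_card_eq_one' (x := (⟨c, c.2.1⟩ : N))
      exact congrArg Subtype.val h2
    have hxo : ∀ x : (P : Subgroup G), (orderOf (x : G)).Coprime (Nat.card N) := by
      intro x
      obtain ⟨k, hk⟩ := P.isPGroup'.exists_orderOf_eq_pow x
      rw [Subgroup.orderOf_coe, hk]
      exact (Nat.Coprime.pow_right k hcop).symm
    -- `x = x'`
    have hxx : x = x' := by
      apply Subtype.ext
      have h2 : (x : G) * (x' : G)⁻¹ ∈ N ⊓ (P : Subgroup G) := by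
        refine ⟨?_, (P : Subgroup G).mul_mem x.2 ((P : Subgroup G).inv_mem x'.2)⟩
        have hgm : g ∈ N ⊔ (P : Subgroup G) := by rw [htop]; trivial
        rw [Subgroup.mem_sup_of_normal_left] at hgm
        obtain ⟨n, hn, y, hy, rfl⟩ := hgm
        show (x : G) * (x' : G)⁻¹ ∈ N
        rw [← QuotientGroup.eq_one_iff, QuotientGroup.mk_mul, QuotientGroup.mk_inv, mul_inv_eq_one]
        have h3 := congrArg (fun z : G => (z : G ⧸ N)) hg
        simp only [QuotientGroup.mk_mul, QuotientGroup.mk_inv] at h3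
        have h4 : ((n : G) : G ⧸ N) = 1 := (QuotientGroup.eq_one_iff n).2 hn
        have h5 : ((((K.out : C) : G)) : G ⧸ N) = 1 := (QuotientGroup.eq_one_iff _).2 (K.out : C).2.1
        have h6 : ((((K'.out : C) : G)) : G ⧸ N) = 1 := (QuotientGroup.eq_one_iff _).2 (K'.out : C).2.1
        rw [h4, h5, h6, mul_one, mul_one, one_mul] at h3
        rw [← h3, ← QuotientGroup.mk_mul, hab y hy x x.2, QuotientGroup.mk_mul, mul_inv_cancel_right]
      rw [hbot, Subgroup.mem_bot] at h2
      exact mul_inv_eq_one.1 h2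
    subst hxx
    obtain ⟨k, hk⟩ := pow_eq_self_of_coprime' (hxo x)
    have h2 : g * (x : G) * g⁻¹ = x := by
      have h3 := hk _ (hcomm x x.2 _ (K.out : C).2) (hm _)
      have h4 := hk _ (hcomm x x.2 _ (K'.out : C).2) (hm _)
      calc g * (x : G) * g⁻¹ = g * ((x : G) * ((K.out : C) : G)) ^ k * g⁻¹ := by rw [h3]
        _ = (g * ((x : G) * ((K.out : C) : G)) * g⁻¹) ^ k := by rw [conj_pow]
        _ = x := by rw [hg, h4]
    have h3 : g * ((K.out : C) : G) * g⁻¹ = ((K'.out : C) : G) := by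
      have h4 : (g * (x : G) * g⁻¹) * (g * ((K.out : C) : G) * g⁻¹) = x * ((K'.out : C) : G) := by
        rw [← hg]; group
      rw [h2] at h4
      exact mul_left_cancel h4
    obtain ⟨u, hu, hu2⟩ := fusion N P hcop hidx (K.out : C).2 (K'.out : C).2 h3
    have h4 : IsConj (K.out : C) (K'.out : C) := by
      rw [isConj_iff]
      exact ⟨⟨u, hu⟩, Subtype.ext hu2⟩
    have h5 : K = K' := by
      have h6 : ConjClasses.mk (K.out : C) = ConjClasses.mk (K'.out : C) := ConjClasses.mk_eq_mk_iff_isConj.2 h4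
      have h7 : ConjClasses.mk (K.out : C) = K := Quotient.out_eq K
      have h8 : ConjClasses.mk (K'.out : C) = K' := Quotient.out_eq K'
      rw [h7, h8] at h6
      exact h6
    rw [h5]
  · rintro ⟨K, hK⟩
    obtain ⟨g, rfl⟩ := ConjClasses.mk_surjective K
    obtain ⟨Q, hQ⟩ := (hsize g).1 hK
    obtain ⟨a, ha⟩ := MulAction.exists_smul_eq G Q P
    have h1 : a * g * a⁻¹ ∈ Subgroup.centralizer ((P : Subgroup G) : Set G) := by
      rw [Subgroup.mem_centralizer_iff]
      intro x hx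
      have h2 : x ∈ ((a • Q : Sylow p G) : Subgroup G) := by rw [ha]; exact hx
      rw [Sylow.coe_subgroup_smul, Subgroup.mem_pointwise_smul_iff_inv_smul_mem, MulAut.smul_def, ← map_inv,
        MulAut.conj_apply] at h2
      have h3 := Subgroup.mem_centralizer_singleton_iff.1 (hQ h2)
      rw [inv_inv] at h3
      calc x * (a * g * a⁻¹) = a * ((a⁻¹ * x * a) * g) * a⁻¹ := by group
        _ = a * (g * (a⁻¹ * x * a)) * a⁻¹ := by rw [h3]
        _ = a * g * a⁻¹ * x := by group
    have hgm : a * g * a⁻¹ ∈ N ⊔ (P : Subgroup G) := by rw [htop]; trivial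
    rw [Subgroup.mem_sup_of_normal_left] at hgm
    obtain ⟨n, hn, y, hy, hny⟩ := hgm
    have hyC : y ∈ Subgroup.centralizer ((P : Subgroup G) : Set G) := by
      rw [Subgroup.mem_centralizer_iff]
      intro x hx
      exact hab x hx y hy
    have hnC : n ∈ C := by
      refine ⟨hn, ?_⟩
      have h2 : n = (a * g * a⁻¹) * y⁻¹ := by rw [← hny]; group
      show n ∈ Subgroup.centralizer ((P : Subgroup G) : Set G)
      rw [h2]
      exact Subgroup.mul_mem _ h1 (Subgroup.inv_mem _ hyC)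
    refine ⟨(⟨y, hy⟩, ConjClasses.mk ⟨n, hnC⟩), ?_⟩
    apply Subtype.ext
    show ConjClasses.mk (y * (((ConjClasses.mk (⟨n, hnC⟩ : C)).out : C) : G)) = ConjClasses.mk g
    rw [ConjClasses.mk_eq_mk_iff_isConj]
    have h2 : IsConj (⟨n, hnC⟩ : C) (ConjClasses.mk (⟨n, hnC⟩ : C)).out := by
      rw [← ConjClasses.mk_eq_mk_iff_isConj]
      exact (Quotient.out_eq (ConjClasses.mk (⟨n, hnC⟩ : C))).symm
    obtain ⟨u, hu⟩ := isConj_iff.1 h2
    have h3 : (u : G) * n * (u : G)⁻¹ = (((ConjClasses.mk (⟨n, hnC⟩ : C)).out : C) : G) := congrArg Subtype.val hu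
    rw [← h3]
    have h4 : IsConj (y * n) (y * ((u : G) * n * (u : G)⁻¹)) := by
      rw [isConj_iff]
      refine ⟨u, ?_⟩
      have h5 := hcomm y hy u u.2
      calc (u : G) * (y * n) * (u : G)⁻¹ = (u * y) * n * (u : G)⁻¹ := by group
        _ = (y * u) * n * (u : G)⁻¹ := by rw [h5]
        _ = _ := by group
    refine h4.symm.trans ?_
    rw [hcomm y hy n hnC, hny, isConj_iff]
    exact ⟨a⁻¹, by group⟩

end classes

/-! ### characters -/

section chars
variable (N : Subgroup G) [hN : N.Normal]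

/-- an irreducible character of degree prime to `|G : N|` restricts irreducibly to `N`. -/
theorem restrict_irr {χ : IrrCharacter G} (hχ : (charDegree χ.1).Coprime N.index) :
    IsIrrCharacter N (fun n : N => χ.1 n) := by
  classical
  letI := Fintype.ofFinite G
  letI := Fintype.ofFinite N
  have hcN : IsCharacter N (fun n : N => χ.1 n) :=
    isCharacter_restrict N (isCharacter_of_isIrr χ.2)
  obtain ⟨θ, hθ, hne⟩ := exists_irr_inner_ne_zero (isClassFunction_of_isCharacter hcN)
    (fun h => irr_one_ne_zero χ.2 (congrFun h 1))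
  obtain ⟨h1, h2⟩ := H19.CharExt.dvd_index χ.2 hθ hne _ _ (coe_charDegree (isCharacter_of_isIrr χ.2)).symm
    (coe_charDegree (isCharacter_of_isIrr hθ)).symm
  obtain ⟨t, ht⟩ := h1
  have hd0 : charDegree θ ≠ 0 := charDegree_ne_zero ⟨θ, hθ⟩
  have ht' : charDegree χ.1 / charDegree θ = t := by
    rw [ht, Nat.mul_div_cancel_left _ (Nat.pos_of_ne_zero hd0)]
  rw [ht'] at h2
  have ht1 : t = 1 := by
    have h3 : t ∣ charDegree χ.1 := ht ▸ Dvd.intro_left _ rfl
    have h4 := Nat.dvd_gcd h3 h2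
    rw [hχ] at h4
    exact Nat.dvd_one.1 h4
  have hres : (fun n : N => χ.1 n) = θ := H77.SubChar.eq_of_degree hcN hθ hne (by
    show χ.1 ((1 : N) : G) = θ 1
    rw [Subgroup.coe_one, ← coe_charDegree (isCharacter_of_isIrr χ.2), ← coe_charDegree (isCharacter_of_isIrr hθ),
      ht, ht1, mul_one])
  rw [hres]
  exact hθ

variable {p}

/-- `G ⧸ N` is abelian -/
theorem quot_comm (hnil : ¬ Group.IsNilpotent G) (hcop : (Nat.card N).Coprime p) (hidx : ∃ k : ℕ, N.index = p ^ k)
    (hone : Nat.card {χ : IrrCharacter G // p ∣ charDegree (χ : G → ℂ)} = 1) (a b : G ⧸ N) : a * b = b * a := by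
  classical
  have hpp : p.Prime := Fact.out
  obtain ⟨k, hk⟩ := hidx
  by_contra hab
  -- a nonlinear character of the quotient
  obtain ⟨β, hβ1⟩ : ∃ β : IrrCharacter (G ⧸ N), (β : G ⧸ N → ℂ) 1 ≠ 1 := by
    by_contra hcon
    push Not at hcon
    apply hab
    have h1 : ⁅a, b⁆ = 1 := by
      apply eq_one_of_forall_irr
      intro χ hχ
      obtain ⟨f, hf⟩ := exists_hom_of_degree_one (isCharacter_of_isIrr hχ) (hcon ⟨χ, hχ⟩)
      rw [hf]
      simp only
      rw [map_commutatorElement, commutatorElement_eq_one_iff_mul_comm.2 (mul_comm _ _), map_one]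
    exact commutatorElement_eq_one_iff_mul_comm.1 h1
  have hdiv : p ∣ charDegree (β : G ⧸ N → ℂ) := by
    have h1 := degree_dvd_card β
    have h2 : Nat.card (G ⧸ N) = p ^ k := hk
    rw [h2] at h1
    obtain ⟨j, -, hj⟩ := (Nat.dvd_prime_pow hpp).1 h1
    rw [hj]
    apply dvd_pow_self
    rintro rfl
    apply hβ1
    rw [← coe_charDegree' β, hj]; simp
  let B : IrrCharacter G := ⟨fun g => (β : G ⧸ N → ℂ) (g : G ⧸ N), isIrrCharacter_inflate N β.2⟩
  have hB : charDegree (B : G → ℂ) = charDegree (β : G ⧸ N → ℂ) := by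
    apply charDegree_eq_of
    rw [coe_charDegree']
    rfl
  have huniq : ∀ χ : IrrCharacter G, p ∣ charDegree (χ : G → ℂ) → χ = B := by
    intro χ hχ
    have h1 := (Nat.card_eq_one_iff_unique.1 hone).1
    exact congrArg Subtype.val (h1.elim (⟨χ, hχ⟩ : {χ : IrrCharacter G // p ∣ charDegree (χ : G → ℂ)}) ⟨B, by rw [hB]; exact hdiv⟩)
  have hBN : ∀ n ∈ N, (B : G → ℂ) n = (B : G → ℂ) 1 := by
    intro n hn
    show (β : G ⧸ N → ℂ) (n : G ⧸ N) = (β : G ⧸ N → ℂ) ((1 : G) : G ⧸ N)
    rw [(QuotientGroup.eq_one_iff n).2 hn, QuotientGroup.mk_one]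
  -- `N` is trivial
  have hNbot : N = ⊥ := by
    rw [eq_bot_iff]
    intro n hn
    rw [Subgroup.mem_bot]
    apply eq_one_of_forall_irr
    intro χ hχ
    by_cases hd : p ∣ charDegree χ
    · have := huniq ⟨χ, hχ⟩ hd
      have h1 : χ = (B : G → ℂ) := congrArg Subtype.val this
      rw [h1]; exact hBN n hn
    · have hirr : IsIrrCharacter N (fun n : N => χ n) := restrict_irr N (χ := ⟨χ, hχ⟩) (by
        rw [hk]
        exact (Nat.Coprime.pow_left k ((Nat.Prime.coprime_iff_not_dvd hpp).2 hd)).symm)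
      have h1 := H83.Gallagher.isIrr_mul hχ N hirr B.2 hBN
      have h2 : p ∣ charDegree (fun g => (B : G → ℂ) g * χ g) := by
        have h3 : charDegree (fun g => (B : G → ℂ) g * χ g) = charDegree (B : G → ℂ) * charDegree χ := by
          apply charDegree_eq_of
          rw [Nat.cast_mul, coe_charDegree', coe_charDegree (isCharacter_of_isIrr hχ)]
        rw [h3, hB]
        exact Dvd.dvd.mul_right hdiv _
      have h3 := congrArg Subtype.val (huniq ⟨_, h1⟩ h2)
      have h4 : ∀ g, (B : G → ℂ) g * χ g = (B : G → ℂ) g := fun g => congrFun h3 g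
      have hB1 : (B : G → ℂ) 1 ≠ 0 := irr_one_ne_zero B.2
      have h5 := h4 n
      have h6 := h4 1
      rw [hBN n hn] at h5
      exact mul_left_cancel₀ hB1 (h5.trans h6.symm)
  apply hnil
  have h1 : IsPGroup p G := by
    apply IsPGroup.of_card (n := k)
    rw [← hk, hNbot, Subgroup.index_bot]
  exact h1.isNilpotent

/-- number of `G`-invariant characters of `N` -/
theorem card_inv (P : Sylow p G) (hcop : (Nat.card N).Coprime p) (hidx : ∃ k : ℕ, N.index = p ^ k) :
    Nat.card {θ : IrrCharacter N // GInv N θ} =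
      Nat.card (ConjClasses ↥(N ⊓ Subgroup.centralizer ((P : Subgroup G) : Set G))) := by
  classical
  letI := Fintype.ofFinite N
  have hpp : p.Prime := Fact.out
  have htop := sup_eq_top p N P hcop hidx
  have hnorm : ∀ s ∈ (P : Subgroup G), ∀ g ∈ N, s * g * s⁻¹ ∈ N := fun s _ g hg => hN.conj_mem g hg s
  have hcopP : (Nat.card N).Coprime (Nat.card (P : Subgroup G)) := by
    obtain ⟨n, hn⟩ := IsPGroup.iff_card.1 P.isPGroup'
    rw [hn]; exact Nat.Coprime.pow_right n hcop
  have h1 := (card_inv_irr (Nat.card (P : Subgroup G)) (P : Subgroup G) rfl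
    (by haveI := P.isPGroup'.isNilpotent; infer_instance) N hcopP (conjHom N (P : Subgroup G) hnorm)
    ↥(N ⊓ Subgroup.centralizer ((P : Subgroup G) : Set G)) (Subgroup.inclusion inf_le_left)
    (Subgroup.inclusion_injective _) (hC_iff N (P : Subgroup G) hnorm rfl inf_le_left)).1
  rw [← card_irr_eq_card_conjClasses, ← h1]
  apply Nat.card_congr
  apply Equiv.subtypeEquivRight
  intro θ
  rw [← inv_iff]
  constructor
  · intro h s hs g g' hg'
    have := h s g
    rw [← this]
    exact congrArg θ.1 (Subtype.ext hg')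
  · intro h x n
    have hx : x ∈ N ⊔ (P : Subgroup G) := by rw [htop]; trivial
    rw [Subgroup.mem_sup_of_normal_left] at hx
    obtain ⟨m, hm, y, hy, rfl⟩ := hx
    have h2 := h y hy n ⟨y * n * y⁻¹, hnorm y hy n n.2⟩ rfl
    rw [← h2]
    have h3 := (isClassFunction_of_isIrr θ.2) ⟨y * n * y⁻¹, hnorm y hy n n.2⟩ ⟨m, hm⟩
    rw [← h3]
    refine congrArg θ.1 (Subtype.ext ?_)
    show m * y * (n : G) * (m * y)⁻¹ = m * (y * n * y⁻¹) * m⁻¹
    group

/-- S4763 -/
theorem main (hnil : ¬ Group.IsNilpotent G) (hcop : (Nat.card N).Coprime p) (hidx : ∃ k : ℕ, N.index = p ^ k)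
    (hone : Nat.card {χ : IrrCharacter G // p ∣ charDegree (χ : G → ℂ)} = 1) :
    Nat.card {C : ConjClasses G // p ∣ Nat.card C.carrier} = 1 := by
  classical
  have hpp : p.Prime := Fact.out
  have hab := quot_comm N hnil hcop hidx hone
  obtain ⟨P⟩ := (inferInstance : Nonempty (Sylow p G))
  have hbot := inf_eq_bot p N P hcop
  have hPab : ∀ x ∈ (P : Subgroup G), ∀ y ∈ (P : Subgroup G), x * y = y * x := by
    intro x hx y hy
    have h1 : x * y * x⁻¹ * y⁻¹ ∈ N ⊓ (P : Subgroup G) := by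
      refine ⟨?_, (P : Subgroup G).mul_mem ((P : Subgroup G).mul_mem ((P : Subgroup G).mul_mem hx hy)
        ((P : Subgroup G).inv_mem hx)) ((P : Subgroup G).inv_mem hy)⟩
      show x * y * x⁻¹ * y⁻¹ ∈ N
      rw [← QuotientGroup.eq_one_iff, QuotientGroup.mk_mul, QuotientGroup.mk_mul, QuotientGroup.mk_mul,
        QuotientGroup.mk_inv, QuotientGroup.mk_inv, hab (x : G ⧸ N) (y : G ⧸ N)]
      group
    rw [hbot, Subgroup.mem_bot] at h1
    calc x * y = (x * y * x⁻¹ * y⁻¹) * y * x := by group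
      _ = y * x := by rw [h1, one_mul]
  obtain ⟨k, hk⟩ := hidx
  have hk0 : k ≠ 0 := by
    rintro rfl
    rw [pow_zero, Subgroup.index_eq_one] at hk
    obtain ⟨⟨χ, hχ⟩⟩ := (Nat.card_eq_one_iff_unique.1 hone).2
    have h1 := hχ.trans (degree_dvd_card χ)
    rw [hk, Subgroup.card_top] at hcop
    exact (Nat.Prime.coprime_iff_not_dvd hpp).1 hcop.symm h1
  have hcopI : (Nat.card N).Coprime N.index := by rw [hk]; exact Nat.Coprime.pow_right k hcop
  have h1 := count N hcopI
  rw [card_inv N P hcop ⟨k, hk⟩, H31.CoprimeExt.card_hom_of_comm hab] at h1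
  have h2 := card_classes N P hcop ⟨k, hk⟩ hPab
  have hPcard : Nat.card (P : Subgroup G) = Nat.card (G ⧸ N) := by
    have h3 : Nat.card (G ⧸ N) = p ^ k := hk
    rw [h3, Sylow.card_eq_multiplicity]
    congr 1
    rw [← N.card_mul_index, Nat.factorization_mul Nat.card_pos.ne' Subgroup.index_ne_zero_of_finite,
      Finsupp.add_apply, hk, Nat.Prime.factorization_pow hpp, Finsupp.single_eq_same,
      Nat.factorization_eq_zero_of_not_dvd ((Nat.Prime.coprime_iff_not_dvd hpp).1 hcop.symm), zero_add]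
  rw [hPcard, mul_comm] at h2
  have h3 : Nat.card {χ : IrrCharacter G // (charDegree χ.1).Coprime N.index} =
      Nat.card {χ : IrrCharacter G // ¬ p ∣ charDegree (χ : G → ℂ)} := by
    apply Nat.card_congr
    apply Equiv.subtypeEquivRight
    intro χ
    rw [hk, Nat.coprime_pow_right_iff (Nat.pos_of_ne_zero hk0), Nat.coprime_comm, Nat.Prime.coprime_iff_not_dvd hpp]
  have h4 : Nat.card {χ : IrrCharacter G // ¬ p ∣ charDegree (χ : G → ℂ)} =
      Nat.card {K : ConjClasses G // ¬ p ∣ Nat.card K.carrier} := by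
    rw [← h3, h1, h2]
  have h5 : Nat.card (IrrCharacter G) = Nat.card {χ : IrrCharacter G // p ∣ charDegree (χ : G → ℂ)} +
      Nat.card {χ : IrrCharacter G // ¬ p ∣ charDegree (χ : G → ℂ)} := by
    rw [← Nat.card_sum]
    exact Nat.card_congr (Equiv.sumCompl _).symm
  have h6 : Nat.card (ConjClasses G) = Nat.card {K : ConjClasses G // p ∣ Nat.card K.carrier} +
      Nat.card {K : ConjClasses G // ¬ p ∣ Nat.card K.carrier} := by
    rw [← Nat.card_sum]
    exact Nat.card_congr (Equiv.sumCompl _).symm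
  have h7 := card_irr_eq_card_conjClasses (G := G)
  omega

end chars

end H81.OneSing
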