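import Cfsg.Agent.Lib.H4.Defect
import Cfsg.Agent.Lib.H20.Height
import Cfsg.Agent.Lib.H81.ClassCount

/-!
# The sum of the `p`-elements
-/

set_option autoImplicit false
set_option linter.unusedSectionVars false
set_option linter.unusedVariables false
set_option linter.style.haveILetI false
open Cfsg H20.Loc H20.GA H20.Blk H20.DefGrp H20.Orth H20.Defect H20.Height
open scoped ComplexConjugate

namespace H81.PElem

open H18.CharBasic H18.CharOrtho H18.CharInd

universe u
variable {G : Type u} [Group G] {M : Ideal AlgInt} {p : ℕ}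

/-- being a `p`-element -/
def PEl (p : ℕ) (g : G) : Prop := ∃ k : ℕ, orderOf g = p ^ k

open Classical in
/-- indicator function of the set of `p`-elements -/
noncomputable def ind (p : ℕ) : G → ℂ := fun g => if PEl p g then 1 else 0

theorem ind_of {g : G} (h : PEl p g) : ind p g = 1 := if_pos h
theorem ind_not {g : G} (h : ¬ PEl p g) : ind p g = 0 := if_neg h

theorem ind_class : IsClassFunction G (ind p : G → ℂ) := by
  intro g h
  have h1 : orderOf (h * g * h⁻¹) = orderOf g := by
    have := MulEquiv.orderOf_eq (MulAut.conj h) g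
    simpa using this
  by_cases hg : PEl p g
  · rw [ind_of hg, ind_of (by rwa [PEl, h1])]
  · rw [ind_not hg, ind_not (by rwa [PEl, h1])]

/-- `|G|_{p'}` times the indicator function of the `p`-elements is a generalized character. -/
theorem isGen_ind [Finite G] [hp : Fact p.Prime] :
    IsGeneralizedCharacter G
      (fun g => ((Nat.card G / p ^ (Nat.card G).factorization p : ℕ) : ℂ) * ind p g) := by
  classical
  have := Fintype.ofFinite G
  refine H4.Brauer.brauer_characterization _ ?_ ?_
  · intro g h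
    simp only [ind_class g h]
  intro E q hq hE
  have := Fintype.ofFinite E
  have hnil : Group.IsNilpotent E := H4.Brauer.isNilpotent_of_isElementary hq hE
  obtain ⟨P, Q, hQ, hcard, hQcop⟩ := H4.Defect.exists_reg_part E p
  have := Fintype.ofFinite Q
  have := Fintype.ofFinite (P : Subgroup E)
  have hPpos : 0 < Nat.card P := Nat.card_pos
  have hP0 : (Nat.card P : ℂ) ≠ 0 := by exact_mod_cast hPpos.ne'
  have hQ0 : (Nat.card Q : ℂ) ≠ 0 := by exact_mod_cast (Nat.card_pos (α := Q)).ne'
  have hPn : (P : Subgroup E).Normal := H73.Nilp.sylow_normal P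
  rw [isGen_iff]
  constructor
  · intro g h
    have := ind_class (p := p) (g : G) (h : G)
    simp only [Subgroup.coe_mul, Subgroup.coe_inv, this]
  intro ψ hψ
  have hmem : ∀ e : E, e ∈ (P : Subgroup E) ↔ PEl p (e : G) := by
    intro e
    constructor
    · intro he
      obtain ⟨k, hk⟩ := IsPGroup.iff_orderOf.1 P.isPGroup' ⟨e, he⟩
      refine ⟨k, ?_⟩
      rw [Subgroup.orderOf_coe, ← hk]
      exact (Subgroup.orderOf_coe (⟨e, he⟩ : (P : Subgroup E)))
    · rintro ⟨k, hk⟩
      rw [Subgroup.orderOf_coe] at hk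
      have h1 : IsPGroup p (Subgroup.zpowers e) := by
        apply IsPGroup.of_card (n := k)
        rw [Nat.card_zpowers, hk]
      obtain ⟨S, hS⟩ := h1.exists_le_sylow
      have h2 : S = P := by
        obtain ⟨g, hg⟩ := MulAction.exists_smul_eq E P S
        rw [← hg]
        exact Sylow.smul_eq_of_normal
      rw [h2] at hS
      exact hS (Subgroup.mem_zpowers e)
  set c := Nat.card G / p ^ (Nat.card G).factorization p with hc
  have hsum : ∑ e : E, (c : ℂ) * ind p (e : G) * conj (ψ e) =
      (c : ℂ) * ∑ y : (P : Subgroup E), 1 * conj (ψ y) := by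
    rw [Finset.mul_sum, ← Finset.sum_subset
      (s₁ := Finset.univ.filter (fun e : E => e ∈ (P : Subgroup E)))
      (Finset.subset_univ _)]
    · rw [← Finset.sum_subtype (Finset.univ.filter (fun e : E => e ∈ (P : Subgroup E)))
        (p := fun e => e ∈ (P : Subgroup E))
        (by simp) (fun e : E => (c : ℂ) * (1 * conj (ψ e)))]
      refine Finset.sum_congr rfl fun e he => ?_
      have heQ : e ∈ (P : Subgroup E) := (Finset.mem_filter.mp he).2
      rw [ind_of ((hmem e).1 heQ), mul_one, one_mul]
    · intro e _ he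
      have heQ : ¬ e ∈ (P : Subgroup E) := fun h => he (Finset.mem_filter.mpr ⟨Finset.mem_univ _, h⟩)
      rw [hmem] at heQ
      rw [ind_not heQ]
      ring
  obtain ⟨k, hk⟩ := inner_gen_intCast (G := (P : Subgroup E)) isGen_one
    (isGen_restrict (P : Subgroup E) (isGen_of_isIrr hψ))
  have hdvd : Nat.card Q ∣ c := by
    have h1 : Nat.card Q ∣ Nat.card G :=
      (Subgroup.card_subgroup_dvd_card Q).trans (Subgroup.card_subgroup_dvd_card E)
    have h2 : Nat.card G = p ^ (Nat.card G).factorization p * c :=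
      (Nat.mul_div_cancel' (Nat.ordProj_dvd _ p)).symm
    rw [h2] at h1
    exact Nat.Coprime.dvd_of_dvd_mul_left (Nat.Coprime.pow_right _ hQcop) h1
  obtain ⟨m, hm⟩ := hdvd
  refine ⟨m * k, ?_⟩
  have hEc : (Nat.card E : ℂ) = Nat.card P * Nat.card Q := by rw [← hcard]; push_cast; ring
  rw [classInner, hsum, hEc, hm]
  rw [classInner] at hk
  push_cast
  rw [← hk]
  have hP0' : (Nat.card (P : Subgroup E) : ℂ) ≠ 0 := hP0
  field_simp

variable [Finite G]

/-- the sum of the `p`-elements as a central element. -/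
noncomputable def zp (p : ℕ) : ZG G := zof (ind p) ind_class

theorem zc_zp (g : G) : zc (zp p : ZG G) g = ind p g := rfl

/-- the multiplicity of `χ` in the indicator function of the `p`-elements -/
noncomputable def sχ (p : ℕ) (χ : IrrCharacter G) : ℂ :=
  (Nat.card G : ℂ)⁻¹ * (omega χ (zp p) * (χ : G → ℂ) 1)

theorem ind_inv (g : G) : ind p g⁻¹ = (ind p g : ℂ) := by
  by_cases h : PEl p g
  · rw [ind_of h, ind_of (by rwa [PEl, orderOf_inv])]
  · rw [ind_not h, ind_not (by rwa [PEl, orderOf_inv])]

theorem sχ_eq [Fintype G] (χ : IrrCharacter G) : sχ p χ = classInner (ind p) (χ : G → ℂ) := by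
  have h1 := H18.CharBasic.irr_one_ne_zero χ.2
  rw [sχ, omega_eq_sum, div_mul_cancel₀ _ h1, classInner]
  congr 1
  refine Fintype.sum_equiv (Equiv.inv G) _ _ fun g => ?_
  rw [Equiv.inv_apply, zc_zp, ind_inv, ← char_inv (irr_char χ), inv_inv]

theorem sχ_mem (hM : IsPModular p M) (χ : IrrCharacter G) : MemLocalRing M (sχ p χ) := by
  haveI := pm_isPrime hM
  haveI : Fact p.Prime := ⟨pm_prime hM⟩
  letI := Fintype.ofFinite G
  obtain ⟨n, hn⟩ := inner_gen_intCast (isGen_ind (G := G) (p := p)) (isGen_of_isIrr χ.2)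
  set c := Nat.card G / p ^ (Nat.card G).factorization p with hc
  have hcp : ¬ p ∣ c := Nat.not_dvd_ordCompl (pm_prime hM) (Nat.card_pos (α := G)).ne'
  have hc0 : (c : ℂ) ≠ 0 := by
    intro h
    apply hcp
    have : c = 0 := by exact_mod_cast h
    rw [this]; exact dvd_zero _
  have h2 : (c : ℂ) * sχ p χ = n := by
    rw [sχ_eq, ← hn, ← H18.CharOrtho.inner_smul_left]
    rfl
  have h3 : sχ p χ = (n : ℂ) * (c : ℂ)⁻¹ := by rw [← h2]; field_simp
  rw [h3]
  exact locR_mul (locR_intCast n) (locR_natCast_inv hM hcp)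

end H81.PElem
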