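import Cfsg.Agent.Lib.H81.PL1b
import Cfsg.Agent.S1946
import Cfsg.Agent.Lib.H4.CharCount

/-!
# A principal block of smallest possible dimension
-/

set_option autoImplicit false
set_option linter.unusedSectionVars false
set_option linter.unusedVariables false
set_option linter.style.haveILetI false

namespace H81.PL1

open Cfsg H20.Loc H20.GA H80.GA H80.GB H18.CharBasic H18.CharOrtho H18.CharInd
open H20.Blk H20.Orth H20.Ind H20.Defect H80.BR1 H80.BR2 H19.Second3 H78.PrincReal H20.NormQ
open scoped ComplexConjugate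

universe u

attribute [local instance 2000] Fintype.ofFinite

variable {M : Ideal AlgInt} {G : Type u} [Group G] [Finite G] {p : ℕ} [Fact p.Prime]

theorem char_zero {χ : G → ℂ} (h : IsCharacter G χ) (h1 : χ 1 = 0) : χ = 0 := by
  by_contra hne
  obtain ⟨ψ, hψ, hin⟩ := H18.CharQuot.exists_constituent h hne
  have h2 := H18.CharQuot.isCharacter_sub_constituent h hψ hin
  have h3 := charDegree_cast h2
  have h4 := charDegree_irr (⟨ψ, hψ⟩ : IrrCharacter G)
  have h5 := charDegree_ne_zero (⟨ψ, hψ⟩ : IrrCharacter G)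
  rw [Pi.sub_apply, h1, zero_sub] at h3
  have h6 : ((charDegree (χ - ψ) + charDegree ψ : ℕ) : ℂ) = 0 := by
    push_cast
    rw [h3]
    have h7 : (charDegree ψ : ℂ) = ψ 1 := h4
    rw [h7]; ring
  have h7 : charDegree (χ - ψ) + charDegree ψ = 0 := by exact_mod_cast h6
  exact h5 (by
    show charDegree ψ = 0
    omega)

/-- the coefficients of the block idempotent on a Sylow subgroup -/
theorem phi_zero (hM : IsPModular p M) (P : Subgroup G) (hP : IsPGroup p P) {x : G} (hx : x ∈ P) (hx1 : x ≠ 1)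
    [DecidablePred (· ∈ principalBlock M G)] :
    ∑ χ : IrrCharacter G, (if χ ∈ principalBlock M G then (χ : G → ℂ) 1 * conj ((χ : G → ℂ) x) else 0) = 0 := by
  have hpr := pm_isPrime hM
  refine weak_orth hM (isUnion_of_isPBlock isPBlock_principal) ?_ ?_
  · rw [orderOf_one]
    exact (pm_prime hM).one_lt.ne' ∘ Nat.dvd_one.1
  · obtain ⟨k, hk⟩ := (IsPGroup.iff_orderOf.1 hP) ⟨x, hx⟩
    rw [← Subgroup.orderOf_coe] at hk
    change orderOf x = p ^ k at hk
    rcases Nat.eq_zero_or_pos k with h0 | h0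
    · exfalso
      rw [h0, pow_zero, orderOf_eq_one_iff] at hk
      exact hx1 hk
    · rw [hk]; exact dvd_pow_self _ h0.ne'

theorem exists_ext (hM : IsPModular p M) (Q : Sylow p G) [DecidablePred (· ∈ principalBlock M G)]
    (hS : ∑ χ : IrrCharacter G, (if χ ∈ principalBlock M G then (χ : G → ℂ) 1 ^ 2 else 0) =
      (Nat.card (Q : Subgroup G) : ℂ)) (lam : IrrCharacter (Q : Subgroup G)) :
    ∃ θ : IrrCharacter G, ∀ x : (Q : Subgroup G), (θ : G → ℂ) x = (lam : ↥(Q : Subgroup G) → ℂ) x := by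
  classical
  have hc0 : (Nat.card (Q : Subgroup G) : ℂ) ≠ 0 := by exact_mod_cast Nat.card_pos.ne'
  -- the fundamental equation
  have h1 : ∑ χ : IrrCharacter G, (if χ ∈ principalBlock M G then (χ : G → ℂ) 1 *
      classInner (lam : ↥(Q : Subgroup G) → ℂ) (fun x : (Q : Subgroup G) => (χ : G → ℂ) x) else 0) =
      (lam : ↥(Q : Subgroup G) → ℂ) 1 := by
    have e1 : ∀ χ : IrrCharacter G, (if χ ∈ principalBlock M G then (χ : G → ℂ) 1 *
        classInner (lam : ↥(Q : Subgroup G) → ℂ) (fun x : (Q : Subgroup G) => (χ : G → ℂ) x) else 0) =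
        (Nat.card (Q : Subgroup G) : ℂ)⁻¹ * ∑ x : (Q : Subgroup G), (lam : ↥(Q : Subgroup G) → ℂ) x *
          (if χ ∈ principalBlock M G then (χ : G → ℂ) 1 * conj ((χ : G → ℂ) x) else 0) := by
      intro χ
      by_cases hχ : χ ∈ principalBlock M G
      · rw [if_pos hχ]
        unfold classInner
        rw [mul_left_comm, Finset.mul_sum]
        congr 1
        refine Finset.sum_congr rfl fun x _ => ?_
        rw [if_pos hχ]; ring
      · rw [if_neg hχ]
        simp only [if_neg hχ, mul_zero, Finset.sum_const_zero]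
    rw [Finset.sum_congr rfl fun χ _ => e1 χ, ← Finset.mul_sum, Finset.sum_comm]
    rw [Finset.sum_eq_single (1 : (Q : Subgroup G))]
    · rw [← Finset.mul_sum]
      have e2 : ∑ χ : IrrCharacter G, (if χ ∈ principalBlock M G then (χ : G → ℂ) 1 *
          conj ((χ : G → ℂ) ((1 : (Q : Subgroup G)) : G)) else 0) = (Nat.card (Q : Subgroup G) : ℂ) := by
        rw [← hS]
        refine Finset.sum_congr rfl fun χ _ => ?_
        by_cases hχ : χ ∈ principalBlock M G
        · rw [if_pos hχ, if_pos hχ, OneMemClass.coe_one, ← charDegree_irr χ, Complex.conj_natCast]; ring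
        · rw [if_neg hχ, if_neg hχ]
      rw [e2]
      field_simp
    · intro x _ hx
      rw [← Finset.mul_sum, phi_zero hM (Q : Subgroup G) Q.2 x.2 (fun h => hx (Subtype.ext h)), mul_zero]
    · intro h; exact absurd (Finset.mem_univ _) h
  -- natural numbers
  choose n hn using fun χ : IrrCharacter G => inner_char_natCast (isCharacter_of_isIrr lam.2)
    (isCharacter_restrict (Q : Subgroup G) (isCharacter_of_isIrr χ.2))
  have h2 : ∑ χ : IrrCharacter G, (if χ ∈ principalBlock M G then charDegree (χ : G → ℂ) * n χ else 0) =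
      charDegree (lam : ↥(Q : Subgroup G) → ℂ) := by
    have : ((∑ χ : IrrCharacter G, (if χ ∈ principalBlock M G then charDegree (χ : G → ℂ) * n χ else 0) : ℕ) : ℂ) =
        (charDegree (lam : ↥(Q : Subgroup G) → ℂ) : ℂ) := by
      rw [charDegree_irr lam, ← h1]
      push_cast
      refine Finset.sum_congr rfl fun χ _ => ?_
      by_cases hχ : χ ∈ principalBlock M G
      · rw [if_pos hχ, if_pos hχ, charDegree_irr χ, hn χ]
      · rw [if_neg hχ, if_neg hχ]
    exact_mod_cast this
  obtain ⟨θ, hθ⟩ : ∃ θ : IrrCharacter G,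
      (if θ ∈ principalBlock M G then charDegree (θ : G → ℂ) * n θ else 0) ≠ 0 := by
    by_contra hcon
    push Not at hcon
    rw [Finset.sum_eq_zero fun χ _ => hcon χ] at h2
    exact charDegree_ne_zero lam h2.symm
  have hθB : θ ∈ principalBlock M G := by
    by_contra h
    rw [if_neg h] at hθ
    exact hθ rfl
  rw [if_pos hθB] at hθ
  have h3 : charDegree (θ : G → ℂ) * n θ ≤ charDegree (lam : ↥(Q : Subgroup G) → ℂ) := by
    rw [← h2]
    have := Finset.single_le_sum (f := fun χ : IrrCharacter G =>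
      (if χ ∈ principalBlock M G then charDegree (χ : G → ℂ) * n χ else 0)) (fun _ _ => Nat.zero_le _)
      (Finset.mem_univ θ)
    simp only [if_pos hθB] at this
    exact this
  have hn0 : n θ ≠ 0 := fun h => hθ (by rw [h, mul_zero])
  have h4 : charDegree (θ : G → ℂ) ≤ charDegree (lam : ↥(Q : Subgroup G) → ℂ) :=
    (Nat.le_mul_of_pos_right _ (Nat.pos_of_ne_zero hn0)).trans h3
  have hne : classInner (fun x : (Q : Subgroup G) => (θ : G → ℂ) x) (lam : ↥(Q : Subgroup G) → ℂ) ≠ 0 := by
    rw [← H18.CharOrtho.inner_conj_symm, hn θ, Complex.conj_natCast]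
    exact_mod_cast hn0
  have hch := H18.CharQuot.isCharacter_sub_constituent
    (isCharacter_restrict (Q : Subgroup G) (isCharacter_of_isIrr θ.2)) lam.2 hne
  have h5 := charDegree_cast hch
  rw [Pi.sub_apply, OneMemClass.coe_one, ← charDegree_irr θ, ← charDegree_irr lam] at h5
  have h6 : charDegree ((fun x : (Q : Subgroup G) => (θ : G → ℂ) x) - (lam : ↥(Q : Subgroup G) → ℂ)) +
      charDegree (lam : ↥(Q : Subgroup G) → ℂ) = charDegree (θ : G → ℂ) := by
    have : ((charDegree ((fun x : (Q : Subgroup G) => (θ : G → ℂ) x) - (lam : ↥(Q : Subgroup G) → ℂ)) +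
      charDegree (lam : ↥(Q : Subgroup G) → ℂ) : ℕ) : ℂ) = (charDegree (θ : G → ℂ) : ℂ) := by
      push_cast
      rw [h5]; ring
    exact_mod_cast this
  have h7 := char_zero hch (by
    rw [← charDegree_cast hch]
    have : charDegree ((fun x : (Q : Subgroup G) => (θ : G → ℂ) x) - (lam : ↥(Q : Subgroup G) → ℂ)) = 0 := by omega
    rw [this]; simp)
  refine ⟨θ, fun x => ?_⟩
  have h8 := congrFun h7 x
  rw [Pi.sub_apply, Pi.zero_apply, sub_eq_zero] at h8
  exact h8

theorem npc (hM : IsPModular p M) (Q : Sylow p G) [DecidablePred (· ∈ principalBlock M G)]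
    (hS : ∑ χ : IrrCharacter G, (if χ ∈ principalBlock M G then (χ : G → ℂ) 1 ^ 2 else 0) =
      (Nat.card (Q : Subgroup G) : ℂ)) : HasNormalPComplement p G := by
  rw [Cfsg.Agent.S1946.result Q]
  intro a ha _ g hg
  have h1 : IsConj (⟨a, ha⟩ : (Q : Subgroup G)) ⟨g * a * g⁻¹, hg⟩ := by
    rw [H4.CharCount.isConj_iff_irr]
    intro lam
    obtain ⟨θ, hθ⟩ := exists_ext hM Q hS lam
    rw [← hθ, ← hθ]
    exact (isClassFunction_of_isIrr θ.2 a g).symm
  obtain ⟨c, hc⟩ := isConj_iff.1 h1
  exact ⟨c, c.2, (congrArg Subtype.val hc).symm⟩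

end H81.PL1
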