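import Cfsg.Agent.Lib.H81.PL1c
import Cfsg.Agent.Lib.H28.PLen
import Cfsg.Agent.Lib.H30.PLen

/-!
# Restriction of the principal block to the normalizer of a Sylow subgroup
-/

set_option autoImplicit false
set_option linter.unusedSectionVars false
set_option linter.unusedVariables false
set_option linter.style.haveILetI false

namespace H81.PL1

open Cfsg H20.Loc H20.GA H80.GA H80.GB H18.CharBasic H18.CharOrtho H18.CharInd
open H20.Blk H20.Orth H20.Ind H20.Defect H80.BR1 H80.BR2 H19.Second3 H78.PrincReal H20.NormQ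
open scoped ComplexConjugate

universe u

attribute [local instance 2000] Fintype.ofFinite

variable {M : Ideal AlgInt} {G : Type u} [Group G] [Finite G] {p : ℕ} [Fact p.Prime]

section clif
variable (L : Subgroup G)

theorem sum_theta (χ : IrrCharacter G) :
    ∑ θ : IrrCharacter L, classInner (fun n : L => (χ : G → ℂ) n) (θ : L → ℂ) * (θ : L → ℂ) 1 = (χ : G → ℂ) 1 := by
  have h1 := congrFun (mem_classFun_expand (H18.CharOrtho.isClassFunction_restrict L
    (isClassFunction_of_isIrr χ.2))) 1
  rw [Finset.sum_apply] at h1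
  have h2 : (χ : G → ℂ) ((1 : L) : G) = (χ : G → ℂ) 1 := by rw [OneMemClass.coe_one]
  rw [← h2]
  refine Eq.trans ?_ h1.symm
  exact Finset.sum_congr rfl fun θ _ => rfl

theorem sum_chi (θ : IrrCharacter L) :
    ∑ χ : IrrCharacter G, classInner (fun n : L => (χ : G → ℂ) n) (θ : L → ℂ) * (χ : G → ℂ) 1 =
      (L.index : ℂ) * (θ : L → ℂ) 1 := by
  have h1 := congrFun (mem_classFun_expand (H18.CharInd.isClassFunction_indFun L (θ : L → ℂ))) 1
  rw [Finset.sum_apply, indFun_one] at h1
  rw [h1]
  refine Finset.sum_congr rfl fun χ _ => ?_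
  rw [Pi.smul_apply, smul_eq_mul, frobenius L _ (isClassFunction_of_isIrr χ.2)]
  congr 1
  obtain ⟨n, hn⟩ := inner_char_natCast (isCharacter_restrict L (isCharacter_of_isIrr χ.2)) (isCharacter_of_isIrr θ.2)
  rw [← H18.CharOrtho.inner_conj_symm (fun x : L => (χ : G → ℂ) x) (θ : L → ℂ), hn, Complex.conj_natCast]

end clif

section main
variable (P : Sylow p G) (L : Subgroup G) [hL : L.Normal]

open Classical in
theorem E1 (hM : IsPModular p M) (hPL : (P : Subgroup G) ≤ L)
    (hC : Subgroup.centralizer ((P : Subgroup G) : Set G) ≤ L) :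
    (L.index : ℂ) * ∑ θ : IrrCharacter L, (if θ ∈ principalBlock M L then (θ : L → ℂ) 1 ^ 2 else 0) =
      ∑ χ : IrrCharacter G, (if χ ∈ principalBlock M G then (χ : G → ℂ) 1 ^ 2 else 0) := by
  have h1 : ∀ θ : IrrCharacter L, (L.index : ℂ) * (if θ ∈ principalBlock M L then (θ : L → ℂ) 1 ^ 2 else 0) =
      ∑ χ : IrrCharacter G, (if θ ∈ principalBlock M L then
        classInner (fun n : L => (χ : G → ℂ) n) (θ : L → ℂ) * (θ : L → ℂ) 1 * (χ : G → ℂ) 1 else 0) := by
    intro θ
    by_cases hθ : θ ∈ principalBlock M L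
    · simp only [if_pos hθ]
      have h2 := sum_chi L θ
      calc (L.index : ℂ) * (θ : L → ℂ) 1 ^ 2 = ((L.index : ℂ) * (θ : L → ℂ) 1) * (θ : L → ℂ) 1 := by ring
        _ = _ := by
          rw [← h2, Finset.sum_mul]
          exact Finset.sum_congr rfl fun χ _ => by ring
    · simp only [if_neg hθ, mul_zero, Finset.sum_const_zero]
  rw [Finset.mul_sum, Finset.sum_congr rfl fun θ _ => h1 θ, Finset.sum_comm]
  refine Finset.sum_congr rfl fun χ _ => ?_
  by_cases hχ : χ ∈ principalBlock M G
  · rw [if_pos hχ]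
    have h2 : ∀ θ : IrrCharacter L, (if θ ∈ principalBlock M L then
        classInner (fun n : L => (χ : G → ℂ) n) (θ : L → ℂ) * (θ : L → ℂ) 1 * (χ : G → ℂ) 1 else 0) =
        classInner (fun n : L => (χ : G → ℂ) n) (θ : L → ℂ) * (θ : L → ℂ) 1 * (χ : G → ℂ) 1 := by
      intro θ
      by_cases hθ : θ ∈ principalBlock M L
      · rw [if_pos hθ]
      · rw [if_neg hθ]
        have h3 : classInner (fun n : L => (χ : G → ℂ) n) (θ : L → ℂ) = 0 := by
          by_contra hne
          exact hθ (H78.Cover.mem_principal_of_over L hM hχ hne)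
        rw [h3, zero_mul, zero_mul]
    rw [Finset.sum_congr rfl fun θ _ => h2 θ, ← Finset.sum_mul, sum_theta, pow_two]
  · rw [if_neg hχ]
    refine Finset.sum_eq_zero fun θ _ => ?_
    by_cases hθ : θ ∈ principalBlock M L
    · rw [if_pos hθ]
      have h3 : classInner (fun n : L => (χ : G → ℂ) n) (θ : L → ℂ) = 0 := by
        by_contra hne
        exact hχ (mem_principal hM P L hPL hC hθ hne)
      rw [h3, zero_mul, zero_mul]
    · rw [if_neg hθ]

open Classical in
theorem E2 (hM : IsPModular p M) (hPL : (P : Subgroup G) ≤ L)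
    (hC : Subgroup.centralizer ((P : Subgroup G) : Set G) ≤ L)
    (hk : ∀ χ : IrrCharacter G, χ ∈ principalBlock M G → (∀ x ∈ (P : Subgroup G), (χ : G → ℂ) x = (χ : G → ℂ) 1) →
      ∀ x ∈ L, (χ : G → ℂ) x = (χ : G → ℂ) 1) :
    (L.index : ℂ) = ∑ χ : IrrCharacter G, (if χ ∈ principalBlock M G ∧
      (∀ x ∈ (P : Subgroup G), (χ : G → ℂ) x = (χ : G → ℂ) 1) then (χ : G → ℂ) 1 ^ 2 else 0) := by
  have hpr := pm_isPrime hM
  have h1 := sum_chi L (triv L)
  have h2 : ((triv L : IrrCharacter L) : L → ℂ) 1 = 1 := rfl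
  rw [h2, mul_one] at h1
  rw [← h1]
  refine Finset.sum_congr rfl fun χ _ => ?_
  by_cases h : χ ∈ principalBlock M G ∧ ∀ x ∈ (P : Subgroup G), (χ : G → ℂ) x = (χ : G → ℂ) 1
  · rw [if_pos h]
    have h3 : (fun n : L => (χ : G → ℂ) n) = (χ : G → ℂ) 1 • ((triv L : IrrCharacter L) : L → ℂ) := by
      funext n
      rw [hk χ h.1 h.2 n n.2]
      show _ = (χ : G → ℂ) 1 * 1
      rw [mul_one]
    rw [h3, H18.CharOrtho.inner_smul_left, inner_irr_self (triv L).2]
    ring
  · rw [if_neg h]
    have h3 : classInner (fun n : L => (χ : G → ℂ) n) ((triv L : IrrCharacter L) : L → ℂ) = 0 := by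
      by_contra hne
      apply h
      refine ⟨mem_principal hM P L hPL hC (triv_mem) hne, fun x hx => ?_⟩
      exact H78.Cover.ker_of_over_one L χ.2 hne x (hPL hx)
    rw [h3, zero_mul]

open Classical in
theorem E3 (hM : IsPModular p M)
    (hirr : ∀ χ ∈ principalBlock M G, IsIrrCharacter (Subgroup.normalizer ((P : Subgroup G) : Set G))
      (fun n : Subgroup.normalizer ((P : Subgroup G) : Set G) => (χ : G → ℂ) n)) :
    ∑ χ : IrrCharacter G, (if χ ∈ principalBlock M G then (χ : G → ℂ) 1 ^ 2 else 0) =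
      (Nat.card (P : Subgroup G) : ℂ) * ∑ χ : IrrCharacter G, (if χ ∈ principalBlock M G ∧
      (∀ x ∈ (P : Subgroup G), (χ : G → ℂ) x = (χ : G → ℂ) 1) then (χ : G → ℂ) 1 ^ 2 else 0) := by
  have hpr := pm_isPrime hM
  -- both sides are the sum of the function over `P`
  have h1 : ∑ x : ↥(P : Subgroup G), ∑ χ : IrrCharacter G, (if χ ∈ principalBlock M G then (χ : G → ℂ) 1 *
      conj ((χ : G → ℂ) x) else 0) =
      ∑ χ : IrrCharacter G, (if χ ∈ principalBlock M G then (χ : G → ℂ) 1 ^ 2 else 0) := by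
    rw [Finset.sum_eq_single (1 : ↥(P : Subgroup G))]
    · refine Finset.sum_congr rfl fun χ _ => ?_
      by_cases hχ : χ ∈ principalBlock M G
      · rw [if_pos hχ, if_pos hχ, OneMemClass.coe_one, ← charDegree_irr χ, Complex.conj_natCast]; ring
      · rw [if_neg hχ, if_neg hχ]
    · intro x _ hx
      exact phi_zero hM (P : Subgroup G) P.2 x.2 (fun h => hx (Subtype.ext h))
    · intro h; exact absurd (Finset.mem_univ _) h
  rw [← h1, Finset.sum_comm, Finset.mul_sum]
  refine Finset.sum_congr rfl fun χ _ => ?_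
  by_cases hχ : χ ∈ principalBlock M G
  · simp only [if_pos hχ]
    by_cases hker : ∀ x ∈ (P : Subgroup G), (χ : G → ℂ) x = (χ : G → ℂ) 1
    · rw [if_pos ⟨hχ, hker⟩]
      have h2 : ∀ x : ↥(P : Subgroup G), (χ : G → ℂ) 1 * conj ((χ : G → ℂ) x) = (χ : G → ℂ) 1 ^ 2 := by
        intro x
        rw [hker x x.2, ← charDegree_irr χ, Complex.conj_natCast]; ring
      rw [Finset.sum_congr rfl fun x _ => h2 x, Finset.sum_const, Finset.card_univ, ← Nat.card_eq_fintype_card,
        nsmul_eq_mul]
    · rw [if_neg (fun h => hker h.2), mul_zero, ← Finset.mul_sum]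
      apply mul_eq_zero_of_right
      set N := Subgroup.normalizer ((P : Subgroup G) : Set G) with hN
      have hPN : (P : Subgroup G) ≤ N := Subgroup.le_normalizer
      haveI hn1 : ((P : Subgroup G).subgroupOf N).Normal := Subgroup.normal_in_normalizer
      have h3 : classInner (fun x : (P : Subgroup G).subgroupOf N => (fun n : N => (χ : G → ℂ) n) x) (fun _ => 1) = 0 := by
        by_contra hne
        apply hker
        intro x hx
        exact H78.Cover.ker_of_over_one ((P : Subgroup G).subgroupOf N) (hirr χ hχ) hne ⟨x, hPN hx⟩ hx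
      unfold classInner at h3
      have hc0 : (Nat.card ((P : Subgroup G).subgroupOf N) : ℂ) ≠ 0 := by exact_mod_cast Nat.card_pos.ne'
      rcases mul_eq_zero.1 h3 with h | h
      · exact absurd h (inv_ne_zero hc0)
      · have h4 : ∑ x : ↥(P : Subgroup G), (χ : G → ℂ) x = 0 := by
          rw [← h]
          refine (Fintype.sum_equiv (Subgroup.subgroupOfEquivOfLe hPN).toEquiv _ _ fun x => ?_).symm
          rw [map_one, mul_one]
          rfl
        rw [← map_sum, h4, map_zero]
  · simp only [if_neg hχ, Finset.sum_const_zero, if_neg (fun h : χ ∈ principalBlock M G ∧ _ => hχ h.1), mul_zero]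

end main

theorem plen (hM : IsPModular p M) (P : Sylow p G)
    (hirr : ∀ χ ∈ principalBlock M G, IsIrrCharacter (Subgroup.normalizer ((P : Subgroup G) : Set G))
      (fun n : Subgroup.normalizer ((P : Subgroup G) : Set G) => (χ : G → ℂ) n)) : PLengthLE p 1 G := by
  classical
  have hpr := pm_isPrime hM
  set L : Subgroup G := Subgroup.normalClosure (((P : Subgroup G) : Set G) ∪
    (Subgroup.centralizer ((P : Subgroup G) : Set G) : Set G)) with hL
  have hPL : (P : Subgroup G) ≤ L := fun x hx => Subgroup.subset_normalClosure (Or.inl hx)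
  have hC : Subgroup.centralizer ((P : Subgroup G) : Set G) ≤ L := fun x hx => Subgroup.subset_normalClosure (Or.inr hx)
  have hk : ∀ χ : IrrCharacter G, χ ∈ principalBlock M G → (∀ x ∈ (P : Subgroup G), (χ : G → ℂ) x = (χ : G → ℂ) 1) →
      ∀ x ∈ L, (χ : G → ℂ) x = (χ : G → ℂ) 1 := by
    intro χ hχ hker
    have h1 : L ≤ H18.CharQuot.kerSub (χ : G → ℂ) (isCharacter_of_isIrr χ.2) := by
      apply Subgroup.normalClosure_le_normal
      rintro x (hx | hx)
      · exact hker x hx
      · exact cent_ker hM P hχ (hirr χ hχ) hker hx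
    exact fun x hx => h1 hx
  have e1 := E1 P L hM hPL hC
  have e2 := E2 P L hM hPL hC hk
  have e3 := E3 P hM hirr
  rw [e3, ← e2] at e1
  have hi0 : (L.index : ℂ) ≠ 0 := by exact_mod_cast Subgroup.index_ne_zero_of_finite
  have e4 : ∑ θ : IrrCharacter L, (if θ ∈ principalBlock M L then (θ : L → ℂ) 1 ^ 2 else 0) =
      (Nat.card (P : Subgroup G) : ℂ) := by
    apply mul_left_cancel₀ hi0
    rw [e1, mul_comm]
  have hcard : Nat.card ((P.subtype hPL : Sylow p L) : Subgroup L) = Nat.card (P : Subgroup G) :=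
    Nat.card_congr (Subgroup.subgroupOfEquivOfLe hPL).toEquiv
  have hnpc : HasNormalPComplement p L := npc hM (P.subtype hPL) (by rw [e4, hcard])
  haveI : L.Normal := Subgroup.normalClosure_normal
  refine H28.PLen.pLengthLE_one_of_normal L ?_ ?_
  · obtain ⟨S, K, hKn, hKc⟩ := hnpc
    haveI := hKn
    refine H28.PLen.pLengthLE_one_of (N := K) (K := ⊤) hKn inferInstance ?_ ?_ ?_
    · have h5 : K.index = Nat.card (S : Subgroup L) := hKc.symm.index_eq_card
      have h6 : ¬ p ∣ Nat.card K := by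
        intro hd
        have h7 : Nat.card K = (S : Subgroup L).index := by rw [hKc.index_eq_card]
        rw [h7] at hd
        exact S.not_dvd_index hd
      exact (Nat.Prime.coprime_iff_not_dvd (Fact.out : p.Prime)).2 h6 |>.symm
    · intro x _
      have h5 : IsPGroup p (L ⧸ K) := by
        have h6 : Nat.card (L ⧸ K) = Nat.card (S : Subgroup L) := hKc.symm.index_eq_card
        obtain ⟨k, hk⟩ := IsPGroup.iff_card.1 S.2
        exact IsPGroup.of_card (n := k) (by rw [h6, hk])
      obtain ⟨j, hj⟩ := h5 (x : L ⧸ K)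
      refine ⟨j, ?_⟩
      rw [← QuotientGroup.eq_one_iff]
      exact hj
    · simp
  · refine ((Nat.Prime.coprime_iff_not_dvd (Fact.out : p.Prime)).2 ?_).symm
    intro hd
    exact P.not_dvd_index (hd.trans (Subgroup.index_dvd_of_le hPL))

end H81.PL1
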