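import Cfsg.Agent.Lib.H81.PL1d
import Cfsg.Agent.Lib.H19.Cover2

/-!
# Groups of `p`-length one: characters of the principal block restrict irreducibly
-/

set_option autoImplicit false
set_option linter.unusedSectionVars false
set_option linter.unusedVariables false
set_option linter.style.haveILetI false

namespace H81.PL1

open Cfsg H20.Loc H20.GA H80.GA H80.GB H18.CharBasic H18.CharOrtho H18.CharInd
open H20.Blk H20.Orth H20.Ind H20.Defect H80.BR1 H80.BR2 H19.Second3 H78.PrincReal H20.NormQ
open scoped ComplexConjugate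

universe u

attribute [local instance 2000] Fintype.ofFinite

variable {M : Ideal AlgInt} {G : Type u} [Group G] [Finite G] {p : ℕ} [Fact p.Prime]

theorem irr_of_plen (hM : IsPModular p M) (P : Sylow p G) (h : PLengthLE p 1 G) {χ : IrrCharacter G}
    (hχ : χ ∈ principalBlock M G) : IsIrrCharacter (Subgroup.normalizer ((P : Subgroup G) : Set G))
      (fun n : Subgroup.normalizer ((P : Subgroup G) : Set G) => (χ : G → ℂ) n) := by
  classical
  have hpr := pm_isPrime hM
  set K := pPrimeCore p G with hK
  haveI : K.Characteristic := H1.Cores.pPrimeCore_characteristic (G := G) p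
  haveI : K.Normal := inferInstance
  have hKp : ¬ p ∣ Nat.card K := by
    have h1 := H1.Cores.coprime_card_pPrimeCore (G := G) p
    exact (Nat.Prime.coprime_iff_not_dvd (Fact.out : p.Prime)).1 h1.symm
  have h1 : SameBlock M ((triv G : IrrCharacter G) : G → ℂ) (χ : G → ℂ) := hχ
  have h2 := H19.Cover2.over_of_sameBlock hM K hKp h1 (triv K) (by
    have h3 : (fun n : K => ((triv G : IrrCharacter G) : G → ℂ) n) = ((triv K : IrrCharacter K) : K → ℂ) := rfl
    rw [h3, inner_irr_self (triv K).2]
    exact one_ne_zero)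
  have h3 := H78.Cover.ker_of_over_one K χ.2 h2
  obtain ⟨χ', hχ'⟩ := exists_infl (N := K) (ψ := χ) h3
  have h4 := H30.PLen.sup_normalizer_eq_top h P
  set N := Subgroup.normalizer ((P : Subgroup G) : Set G) with hN
  have hsurj : Function.Surjective ((QuotientGroup.mk' K).comp N.subtype) := by
    intro q
    obtain ⟨g, rfl⟩ := QuotientGroup.mk_surjective q
    have hg : g ∈ K ⊔ N := by rw [h4]; exact Subgroup.mem_top g
    rw [sup_comm, Subgroup.mem_sup_of_normal_right] at hg
    obtain ⟨n, hn, k, hk, rfl⟩ := hg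
    refine ⟨⟨n, hn⟩, ?_⟩
    show (n : G ⧸ K) = ((n * k : G) : G ⧸ K)
    rw [QuotientGroup.mk_mul, (QuotientGroup.eq_one_iff k).2 hk, mul_one]
  have h5 := isIrrCharacter_comp ((QuotientGroup.mk' K).comp N.subtype) hsurj χ'.2
  have h6 : (fun n : N => (χ : G → ℂ) n) = (χ' : G ⧸ K → ℂ) ∘ ((QuotientGroup.mk' K).comp N.subtype) := by
    funext n
    rw [← hχ']
    rfl
  rw [h6]
  exact h5

end H81.PL1
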