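import Cfsg.Agent.Lib.H81.Contrib

/-!
# Principal blocks and sections: `∑_{χ ∈ B₀(G)} χ(yc) conj χ(yc') = ∑_{ψ ∈ B₀(C(y))} ψ(c) conj ψ(c')`
-/

set_option autoImplicit false
set_option linter.unusedSectionVars false
set_option linter.unusedVariables false
set_option linter.style.haveILetI false
open Cfsg H20.Loc H20.GA H20.Blk H20.DefGrp H20.Orth H20.Defect H20.Ind H20.Height H81.Contrib
open scoped ComplexConjugate

namespace H81.SectPrin

open H18.CharBasic H18.CharOrtho H18.CharInd H81.Section

universe u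
variable {G : Type u} [Group G] [Fintype G] {M : Ideal AlgInt} {p : ℕ}

/-- a sum over a union of blocks vanishes as soon as the sums over its blocks vanish -/
theorem sum_union_eq_zero [M.IsPrime] [Fintype (IrrCharacter G)] {T : Set (IrrCharacter G)}
    [DecidablePred (· ∈ T)] (hT : IsUnion M T) (F : IrrCharacter G → ℂ)
    (h : ∀ (b : Set (IrrCharacter G)) [DecidablePred (· ∈ b)], IsPBlock M b → b ⊆ T →
      ∑ χ : IrrCharacter G, (if χ ∈ b then F χ else 0) = 0) :
    ∑ χ : IrrCharacter G, (if χ ∈ T then F χ else 0) = 0 := by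
  classical
  let f : IrrCharacter G → Set (IrrCharacter G) := fun θ => blockOf M (θ : G → ℂ)
  have hsum : ∑ χ : IrrCharacter G, (if χ ∈ T then F χ else 0) =
      ∑ b ∈ (Finset.univ.filter (fun χ => χ ∈ T)).image f,
        ∑ χ : IrrCharacter G, (if χ ∈ b then F χ else 0) := by
    rw [← Finset.sum_filter]
    rw [← Finset.sum_fiberwise_of_maps_to (s := Finset.univ.filter (fun χ => χ ∈ T))
      (t := (Finset.univ.filter (fun χ => χ ∈ T)).image f) (g := f)
      (fun χ hχ => Finset.mem_image_of_mem f hχ)]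
    refine Finset.sum_congr rfl fun b hb => ?_
    rw [Finset.mem_image] at hb
    obtain ⟨θ, hθ, rfl⟩ := hb
    rw [Finset.mem_filter] at hθ
    rw [← Finset.sum_filter]
    apply Finset.sum_congr _ fun _ _ => rfl
    ext χ
    simp only [Finset.mem_filter, Finset.mem_univ, true_and]
    constructor
    · rintro ⟨h1, h2⟩
      rw [← h2]; exact mem_blockOf_self χ
    · intro h1
      have h2 : SameBlock M (θ : G → ℂ) (χ : G → ℂ) := mem_blockOf.1 h1
      exact ⟨hT θ hθ.2 χ h2, (blockOf_eq_of_sameBlock h2).symm⟩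
  rw [hsum]
  refine Finset.sum_eq_zero fun b hb => ?_
  rw [Finset.mem_image] at hb
  obtain ⟨θ, hθ, rfl⟩ := hb
  rw [Finset.mem_filter] at hθ
  exact h _ (isPBlock_blockOf θ) (fun χ hχ => hT θ hθ.2 χ (mem_blockOf.1 hχ))

/-- the function representing evaluation at `c` -/
noncomputable def ev [Fintype (IrrCharacter G)] (c : G) : G → ℂ :=
  ∑ ψ : IrrCharacter G, (conj ((ψ : G → ℂ) c)) • (ψ : G → ℂ)

theorem inner_ev [Fintype (IrrCharacter G)] (c : G) {θ : G → ℂ} (hθ : IsClassFunction G θ) :
    classInner θ (ev c) = θ c := by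
  rw [ev, inner_sum_right]
  conv_rhs => rw [mem_classFun_expand hθ]
  rw [Finset.sum_apply]
  refine Finset.sum_congr rfl fun ψ _ => ?_
  rw [H18.CharOrtho.inner_smul_right, Complex.conj_conj, Pi.smul_apply, smul_eq_mul, mul_comm]

theorem ev_class [Fintype (IrrCharacter G)] (c : G) : IsClassFunction G (ev c) := by
  intro g h
  rw [ev, Finset.sum_apply, Finset.sum_apply]
  refine Finset.sum_congr rfl fun ψ _ => ?_
  rw [Pi.smul_apply, Pi.smul_apply, irr_class ψ g h]

theorem ev_eq_zero [Fintype (IrrCharacter G)] {c g : G} (h : ¬ IsConj c g) : ev c g = 0 := by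
  classical
  rw [ev, Finset.sum_apply]
  have h1 := column_orthogonality (G := G) g c
  rw [if_neg (fun hc => h hc.symm)] at h1
  refine Eq.trans ?_ h1
  refine Finset.sum_congr rfl fun ψ _ => ?_
  rw [Pi.smul_apply, smul_eq_mul, mul_comm]

theorem ev_reg [Fintype (IrrCharacter G)] {c : G} (hc : ¬ p ∣ orderOf c) : reg p (ev c) = ev c := by
  funext g
  by_cases hg : p ∣ orderOf g
  · rw [reg_not hg, ev_eq_zero]
    intro hcg
    apply hc
    obtain ⟨x, hx⟩ := isConj_iff.1 hcg
    have : orderOf g = orderOf c := by rw [← hx]; exact orderOf_conj x c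
    rwa [this] at hg
  · rw [reg_of hg]

/-- The section identity for a union of blocks of the centralizer. -/
theorem sum_proj [Fintype (IrrCharacter G)] (hM : IsPModular p M) {y : G} [Fintype (C y)]
    [Fintype (IrrCharacter (C y))] (hy : ∃ k : ℕ, orderOf y = p ^ k)
    {S : Set (IrrCharacter (C y))} [DecidablePred (· ∈ S)] (hS : IsUnion M S) {c c' : C y}
    (hc : ¬ p ∣ orderOf c) (hc' : ¬ p ∣ orderOf c') :
    ∑ χ : IrrCharacter G, conj (proj S (tw y (χ : G → ℂ)) c) * proj S (tw y (χ : G → ℂ)) c' =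
      ∑ ψ : IrrCharacter (C y), if ψ ∈ S then conj ((ψ : C y → ℂ) c) * (ψ : C y → ℂ) c' else 0 := by
  classical
  have hev : ∀ d : C y, ¬ p ∣ orderOf d → ∀ e : C y, p ∣ orderOf e → proj S (ev d) e = 0 := by
    intro d hd e he
    rw [← ev_reg hd]
    exact proj_reg_singular hM hS _ he
  have h1 := sum_section (pm_prime hM) hy (f := proj S (ev c)) (f' := proj S (ev c'))
    (hev c hc) (proj_class S _) (hev c' hc')
  have h2 : ∀ (d : C y) (χ : IrrCharacter G), classInner (proj S (ev d)) (tw y (χ : G → ℂ)) =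
      conj (proj S (tw y (χ : G → ℂ)) d) := by
    intro d χ
    rw [inner_proj_comm, ← H18.CharOrtho.inner_conj_symm, inner_ev d (proj_class S _)]
  simp only [h2, Complex.conj_conj] at h1
  rw [h1, inner_proj_comm, ← H18.CharOrtho.inner_conj_symm, inner_ev c (proj_class S _)]
  -- value of proj S (proj S (ev c')) at c
  have h3 : proj S (proj S (ev c')) = proj S (ev c') := by
    rw [proj_eq S (proj S (ev c'))]
    rw [proj_eq S (ev c')]
    refine Finset.sum_congr rfl fun χ _ => ?_
    rw [← proj_eq S (ev c'), inner_proj S (ev c') χ]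
    by_cases hχ : χ ∈ S
    · simp only [if_pos hχ]
    · simp only [if_neg hχ]
  rw [h3, proj_eq_sum, map_sum]
  refine Finset.sum_congr rfl fun ψ _ => ?_
  by_cases hψ : ψ ∈ S
  · rw [if_pos hψ, if_pos hψ, ← H18.CharOrtho.inner_conj_symm, inner_ev c' (irr_class ψ), map_mul,
      Complex.conj_conj, mul_comm]
  · rw [if_neg hψ, if_neg hψ, map_zero]

/-- For a character of the principal block only the principal block of the centralizer
contributes on the section. -/
theorem proj_principal [Fintype (IrrCharacter G)] (hM : IsPModular p M) {y : G} [Fintype (C y)]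
    [Fintype (IrrCharacter (C y))] (hy : ∃ k : ℕ, orderOf y = p ^ k) {c : C y}
    (hc : ¬ p ∣ orderOf c) {χ : IrrCharacter G} (hχ : χ ∈ principalBlock M G) :
    proj (principalBlock M (C y)) (tw y (χ : G → ℂ)) c = (χ : G → ℂ) (y * (c : G)) := by
  classical
  haveI := pm_isPrime hM
  have hone : ∀ {K : Type u} [Group K] [Finite K], IsPBlock M (principalBlock M K) := by
    intro K _ _
    exact isPBlock_blockOf ⟨_, H18.CharBasic.isIrrCharacter_one⟩
  have h1 : (χ : G → ℂ) (y * (c : G)) = tw y (χ : G → ℂ) c := rfl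
  rw [h1]
  conv_rhs => rw [mem_classFun_expand (tw_class (y := y) (irr_class χ))]
  rw [Finset.sum_apply, proj_eq_sum, ← sub_eq_zero, ← Finset.sum_sub_distrib]
  have h2 := sum_union_eq_zero (M := M) (T := (principalBlock M (C y))ᶜ)
    (isUnion_compl (isUnion_of_isPBlock hone))
    (fun ψ => classInner (tw y (χ : G → ℂ)) (ψ : C y → ℂ) * (ψ : C y → ℂ) c) (by
      intro b _ hb hbT
      have h3 : ¬ IsInducedBlock M (C y) b (blockOf M (χ : G → ℂ)) := by
        intro hind
        have h4 : blockOf M (χ : G → ℂ) = principalBlock M G :=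
          (isPBlock_eq hone hχ).symm
        rw [h4] at hind
        have h5 := (third_main hM ⟨_, hind⟩).1 hind
        obtain ⟨ξ, hξ⟩ := isPBlock_nonempty hb
        exact hbT hξ (h5 ▸ hξ)
      have h4 := congrFun (comp_eq_zero hM hb hy χ h3) c
      rw [comp, reg_of hc, proj_eq_sum] at h4
      simp only [Pi.zero_apply] at h4
      convert h4 using 1
      exact Finset.sum_congr rfl fun _ _ => by congr)
  rw [← neg_eq_zero, ← Finset.sum_neg_distrib]
  refine Eq.trans ?_ h2
  refine Finset.sum_congr rfl fun ψ _ => ?_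
  rw [Pi.smul_apply, smul_eq_mul]
  by_cases hψ : ψ ∈ principalBlock M (C y)
  · rw [if_pos hψ, if_neg (fun h : ψ ∈ (principalBlock M ↥(C y))ᶜ => h hψ)]; ring
  · rw [if_neg hψ, if_pos (show ψ ∈ (principalBlock M ↥(C y))ᶜ from hψ)]; ring

theorem proj_principal_not (hM : IsPModular p M) {y : G} [Fintype (C y)]
    (hy : ∃ k : ℕ, orderOf y = p ^ k) {c : C y}
    (hc : ¬ p ∣ orderOf c) {χ : IrrCharacter G} (hχ : χ ∉ principalBlock M G) :
    proj (principalBlock M (C y)) (tw y (χ : G → ℂ)) c = 0 := by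
  haveI := pm_isPrime hM
  have hone : ∀ {K : Type u} [Group K] [Finite K], IsPBlock M (principalBlock M K) := by
    intro K _ _
    exact isPBlock_blockOf ⟨_, H18.CharBasic.isIrrCharacter_one⟩
  have hdef : InducedBlockDefined M (C y) (principalBlock M (C y)) :=
    H19.BrMap2.induced_centralizer hM y hy hone
  have hind := (third_main hM hdef).2 rfl
  have h1 := congrFun (comp_eq_zero' hM hy hind hχ) c
  rw [comp, reg_of hc] at h1
  exact h1

/-- The section identity for principal blocks. -/
theorem sum_principal [Fintype (IrrCharacter G)] (hM : IsPModular p M) {y : G} [Fintype (C y)]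
    [Fintype (IrrCharacter (C y))] (hy : ∃ k : ℕ, orderOf y = p ^ k)
    [DecidablePred (· ∈ principalBlock M G)] [DecidablePred (· ∈ principalBlock M (C y))]
    {c c' : C y} (hc : ¬ p ∣ orderOf c) (hc' : ¬ p ∣ orderOf c') :
    ∑ χ : IrrCharacter G, (if χ ∈ principalBlock M G then
      conj ((χ : G → ℂ) (y * (c : G))) * (χ : G → ℂ) (y * (c' : G)) else 0) =
      ∑ ψ : IrrCharacter (C y), if ψ ∈ principalBlock M (C y) then
        conj ((ψ : C y → ℂ) c) * (ψ : C y → ℂ) c' else 0 := by
  haveI := pm_isPrime hM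
  have hone : IsPBlock M (principalBlock M (C y)) :=
    isPBlock_blockOf ⟨_, H18.CharBasic.isIrrCharacter_one⟩
  rw [← sum_proj hM hy (isUnion_of_isPBlock hone) hc hc']
  refine Finset.sum_congr rfl fun χ _ => ?_
  split_ifs with hχ
  · rw [proj_principal hM hy hc hχ, proj_principal hM hy hc' hχ]
  · rw [proj_principal_not hM hy hc hχ, map_zero, zero_mul]

end H81.SectPrin
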