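import Cfsg.Agent.Lib.H78.BlkCount
import Cfsg.Agent.Lib.H19.BrMap2
import Cfsg.Agent.Lib.H81.Contrib

/-!
# Restriction to unions of sections, induction of functions in the span of a block
-/

set_option autoImplicit false
set_option linter.unusedSectionVars false
set_option linter.unusedVariables false

namespace H81.SpnE

open Cfsg H20.Loc H20.GA H20.DefGrp H20.Defect H20.Height H18.CharBasic H18.CharOrtho H18.CharInd
open H78.BlkCount H20.Blk H20.Orth H20.Ind H19.Second H19.Second3 H81.Section H81.Contrib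
open scoped ComplexConjugate

universe u

attribute [local instance 2000] Fintype.ofFinite

variable {M : Ideal AlgInt} {G : Type u} [Group G] [Finite G] {p : ℕ}

theorem mem_spn_of_proj {B : Set (IrrCharacter G)} {F : G → ℂ} (h : proj B F = F) : F ∈ spn B := by
  rw [← h]; exact proj_mem_spn B F

theorem mem_spn_of_inner {B : Set (IrrCharacter G)} {F : G → ℂ} (hF : IsClassFunction G F)
    (h : ∀ χ : IrrCharacter G, χ ∉ B → classInner F (χ : G → ℂ) = 0) : F ∈ spn B := by
  classical
  apply mem_spn_of_proj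
  have h2 := H18.CharOrtho.mem_classFun_expand hF
  funext g
  rw [proj_eq_sum]
  conv_rhs => rw [h2]
  rw [Finset.sum_apply]
  refine Finset.sum_congr rfl fun χ _ => ?_
  rw [Pi.smul_apply, smul_eq_mul]
  split_ifs with hχ
  · rfl
  · rw [h χ hχ, zero_mul]

theorem indicator_class {F : G → ℂ} (hF : IsClassFunction G F) {T : Set G}
    (hTc : ∀ g x : G, x ∈ T → g * x * g⁻¹ ∈ T) : IsClassFunction G (T.indicator F) := by
  classical
  intro g h
  by_cases hg : g ∈ T
  · rw [Set.indicator_of_mem hg, Set.indicator_of_mem (hTc h g hg)]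
    exact hF g h
  · rw [Set.indicator_of_notMem hg, Set.indicator_of_notMem]
    intro hc
    apply hg
    have := hTc h⁻¹ _ hc
    have e : h⁻¹ * (h * g * h⁻¹) * h⁻¹⁻¹ = g := by group
    rwa [e] at this

/-- (E2) -/
theorem restr_spn (hM : IsPModular p M) {B : Set (IrrCharacter G)} (hB : IsPBlock M B) {F : G → ℂ} (hF : F ∈ spn B)
    {T : Set G} (hT : ∀ g x : G, IsPPart p g x → (g ∈ T ↔ x ∈ T)) (hTc : ∀ g x : G, x ∈ T → g * x * g⁻¹ ∈ T) :
    T.indicator F ∈ spn B := by
  classical
  have hpr := pm_isPrime hM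
  have hFc := class_of_mem_spn hF
  have hFp := proj_of_mem_spn hF
  have hTc' : ∀ g x : G, x ∈ Tᶜ → g * x * g⁻¹ ∈ Tᶜ := by
    intro g x hx hc
    apply hx
    have := hTc g⁻¹ _ hc
    have e : g⁻¹ * (g * x * g⁻¹) * g⁻¹⁻¹ = x := by group
    rwa [e] at this
  have h1 := indicator_class hFc hTc
  have h2 := indicator_class hFc hTc'
  have hsum : T.indicator F + Tᶜ.indicator F = F := Set.indicator_self_add_compl T F
  have hconj : ∀ x z : G, IsConj x z → (x ∈ T ↔ z ∈ T) := by
    intro x z hxz
    obtain ⟨c, rfl⟩ := isConj_iff.1 hxz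
    constructor
    · exact hTc c x
    · intro hc
      have := hTc c⁻¹ _ hc
      have e : c⁻¹ * (c * x * c⁻¹) * c⁻¹⁻¹ = x := by group
      rwa [e] at this
  apply mem_spn_of_proj
  funext g
  obtain ⟨x, hx⟩ := exists_isPPart (pm_prime hM) g
  by_cases hg : g ∈ T
  · have hxT := (hT g x hx).1 hg
    have h3 : proj B (Tᶜ.indicator F) g = 0 := by
      refine section_blockPart hM _ h2 x ?_ B hB g x hx (IsConj.refl x)
      intro u z hu hxz
      apply Set.indicator_of_notMem
      intro hc
      exact hc ((hT u z hu).2 ((hconj x z hxz).1 hxT))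
    have h4 : proj B (T.indicator F) g = proj B F g := by
      conv_rhs => rw [← hsum, proj_add', Pi.add_apply, h3, add_zero]
    rw [h4, hFp, Set.indicator_of_mem hg]
  · have hxT : x ∉ T := fun hc => hg ((hT g x hx).2 hc)
    rw [Set.indicator_of_notMem hg]
    refine section_blockPart hM _ h1 x ?_ B hB g x hx (IsConj.refl x)
    intro u z hu hxz
    apply Set.indicator_of_notMem
    intro hc
    exact hxT ((hconj x z hxz).2 ((hT u z hu).1 hc))

theorem proj_restrict (H : Subgroup G) (b : Set (IrrCharacter H)) {θ : G → ℂ} (hθ : IsClassFunction G θ) (y : H) :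
    proj b (fun c : H => θ (c : G)) y = ∑ᶠ k : H, blockCoeff b k * θ ((k : G) * (y : G)) := by
  classical
  have hcf : IsClassFunction H (fun c : H => θ (c : G)) := by
    intro g h
    exact hθ (g : G) (h : G)
  rw [← evA_eB_single b hcf, finsum_eq_sum_of_fintype]
  rw [← MonoidAlgebra.sum_coeff_single (toA (eB b)), Finsupp.sum_fintype _ _ (by simp)]
  rw [Finset.sum_mul, map_sum]
  refine Finset.sum_congr rfl fun k _ => ?_
  rw [MonoidAlgebra.single_mul_single, evA_single, mul_one]
  rfl

/-- (E1) -/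
theorem ind_spn (hM : IsPModular p M) {H : Subgroup G} {b : Set (IrrCharacter H)} {B : Set (IrrCharacter G)}
    (hind : IsInducedBlock M H b B) {F : H → ℂ} (hF : F ∈ spn b)
    (hs : ∀ h : H, F h ≠ 0 → ∀ x : G, IsPPart p (h : G) x → Subgroup.centralizer ({x} : Set G) ≤ H) :
    indFun H F ∈ spn B := by
  classical
  have hpr := pm_isPrime hM
  have hFp := proj_of_mem_spn hF
  apply mem_spn_of_inner (isClassFunction_indFun _ _)
  intro χ hχ
  rw [frobenius H F (irr_class χ), ← hFp, inner_proj_comm, classInner]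
  rw [Finset.sum_eq_zero, mul_zero]
  intro h _
  by_cases h0 : F h = 0
  · rw [h0, zero_mul]
  · rw [proj_restrict H b (irr_class χ) h, second_main_idem hM H b B hind h (hs h h0) χ hχ, map_zero, mul_zero]

end H81.SpnE
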