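import Cfsg.Agent.Lib.H81.Lattice
import Cfsg.Agent.Lib.H18.CharBasic
import Cfsg.Agent.Lib.H5.PLocal
import Cfsg.Prelude.Def_Characters
import Cfsg.Prelude.Def_Blocks

/-!
# Small characters of groups with a TI Sylow subgroup
-/

set_option autoImplicit false
set_option linter.unusedSectionVars false
set_option linter.style.haveILetI false

namespace H81.TISmall

open Module H81.Lattice Cfsg H18.CharBasic
open scoped ComplexConjugate Pointwise

/-! ### inner products and commutants -/

theorem inner_eq_finrank {G : Type*} [Group G] [Fintype G] {n : ℕ} (ρ : Representation ℂ G (Fin n → ℂ)) :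
    classInner ρ.character ρ.character = (finrank ℂ (Representation.invariants (Representation.linHom ρ ρ)) : ℂ) := by
  haveI : Invertible (Nat.card G : ℂ) := invertibleOfNonzero (by exact_mod_cast Nat.card_pos.ne')
  rw [← Representation.card_inv_mul_sum_char_eq_finrank]
  unfold classInner
  congr 1
  apply Finset.sum_congr rfl
  intro g _
  rw [Representation.char_linHom, char_inv ⟨n, ρ, rfl⟩, mul_comm]

theorem inner_eq_of_commutant {G : Type*} [Group G] [Fintype G] {n : ℕ} (ρ : Representation ℂ G (Fin n → ℂ))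
    (H : Subgroup G) [Fintype H]
    (h : ∀ f : (Fin n → ℂ) →ₗ[ℂ] (Fin n → ℂ), (∀ g ∈ H, ρ g ∘ₗ f = f ∘ₗ ρ g) → ∀ g, ρ g ∘ₗ f = f ∘ₗ ρ g) :
    classInner ρ.character ρ.character =
      classInner (fun h : H => ρ.character (h : G)) (fun h : H => ρ.character (h : G)) := by
  let ρH : Representation ℂ H (Fin n → ℂ) := ρ.comp H.subtype
  have h1 : (fun h : H => ρ.character (h : G)) = ρH.character := rfl
  rw [h1, inner_eq_finrank, inner_eq_finrank]
  have hiff : ∀ {K : Type _} [Group K] (τ : Representation ℂ K (Fin n → ℂ)) (g : K)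
      (f : (Fin n → ℂ) →ₗ[ℂ] (Fin n → ℂ)), Representation.linHom τ τ g f = f ↔ τ g ∘ₗ f = f ∘ₗ τ g := by
    intro K _ τ g f
    rw [Representation.linHom_apply]
    have hinv : τ g⁻¹ ∘ₗ τ g = LinearMap.id := by
      rw [← Module.End.mul_eq_comp, ← map_mul, inv_mul_cancel, map_one]; rfl
    have hinv' : τ g ∘ₗ τ g⁻¹ = LinearMap.id := by
      rw [← Module.End.mul_eq_comp, ← map_mul, mul_inv_cancel, map_one]; rfl
    constructor
    · intro h
      conv_rhs => rw [← h]
      rw [LinearMap.comp_assoc, LinearMap.comp_assoc, hinv, LinearMap.comp_id]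
    · intro h
      rw [← LinearMap.comp_assoc, h, LinearMap.comp_assoc, hinv', LinearMap.comp_id]
  have h2 : Representation.invariants (Representation.linHom ρ ρ) =
      Representation.invariants (Representation.linHom ρH ρH) := by
    ext f
    rw [Representation.mem_invariants, Representation.mem_invariants]
    constructor
    · intro h3 g
      exact h3 g
    · intro h3 g
      exact (hiff ρ g f).2 (h f (fun g hg => (hiff ρ g f).1 (h3 ⟨g, hg⟩)) g)
  rw [h2]

/-! ### sums over free orbits -/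

section free
variable {k : Type*} [Field k] {p : ℕ} [Fact p.Prime] [CharP k p] {P : Type*} [Group P] [Fintype P]

theorem sum_orbits (hP : IsPGroup p P) (h1 : 1 < Fintype.card P) {n : ℕ} (hn : n ^ 2 ≤ Fintype.card P)
    (A : P →* Matrix (Fin n) (Fin n) k) {X : Type*} [Fintype X] [MulAction P X] (x0 : X) (hx0 : ∀ x : P, x • x0 = x0)
    (hfree : ∀ t : X, t ≠ x0 → ∀ x : P, x • t = t → x = 1)
    (f : X → Matrix (Fin n) (Fin n) k) (hf : ∀ (x : P) (t : X), f (x • t) = A x * f t * A x⁻¹) :
    ∑ t, f t = f x0 := by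
  classical
  letI := MulAction.orbitRel P X
  letI : Fintype (Quotient (MulAction.orbitRel P X)) := Fintype.ofFinite _
  rw [← Finset.sum_fiberwise Finset.univ (fun t => (Quotient.mk (MulAction.orbitRel P X) t)) f]
  have key : ∀ ω : Quotient (MulAction.orbitRel P X), ∑ t with Quotient.mk (MulAction.orbitRel P X) t = ω, f t =
      if ω = Quotient.mk (MulAction.orbitRel P X) x0 then f x0 else 0 := by
    intro ω
    obtain ⟨t0, rfl⟩ := Quotient.exists_rep ω
    have hmem : ∀ t, Quotient.mk (MulAction.orbitRel P X) t = Quotient.mk (MulAction.orbitRel P X) t0 ↔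
        ∃ x : P, x • t0 = t := by
      intro t
      rw [Quotient.eq, MulAction.orbitRel_apply, MulAction.mem_orbit_iff]
    split_ifs with h
    · rw [Finset.sum_eq_single x0]
      · intro t ht hne
        exfalso
        rw [Finset.mem_filter, h, Quotient.eq, MulAction.orbitRel_apply, MulAction.mem_orbit_iff] at ht
        obtain ⟨x, hx⟩ := ht.2
        rw [hx0] at hx
        exact hne hx.symm
      · intro h2
        exact absurd (Finset.mem_filter.2 ⟨Finset.mem_univ x0, h.symm⟩) h2
    · have hne : t0 ≠ x0 := fun e => h (by rw [e])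
      rw [← norm_zero hP h1 hn A (f t0)]
      symm
      apply Finset.sum_bij (fun x _ => x • t0)
      · intro x _
        rw [Finset.mem_filter]
        exact ⟨Finset.mem_univ _, (hmem _).2 ⟨x, rfl⟩⟩
      · intro x _ y _ hxy
        have h3 : (y⁻¹ * x) • t0 = t0 := by
          rw [mul_smul, show x • t0 = y • t0 from hxy, inv_smul_smul]
        have := hfree t0 hne _ h3
        exact (inv_mul_eq_one.1 this).symm
      · intro t ht
        rw [Finset.mem_filter, hmem] at ht
        obtain ⟨x, hx⟩ := ht.2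
        exact ⟨x, Finset.mem_univ _, hx⟩
      · intro x _
        rw [hf]
  simp only [key]
  rw [Finset.sum_ite_eq' Finset.univ, if_pos (Finset.mem_univ _)]

end free

/-! ### the main argument -/

section main
variable {G : Type*} [Group G] [Finite G] {p : ℕ} [Fact p.Prime]

/-- a subgroup containing the normalizer of a TI Sylow subgroup is strongly embedded -/
theorem free_of_TI (P : Sylow p G)
    (hTI : ∀ g : G, g ∉ Subgroup.normalizer ((P : Subgroup G) : Set G) →
      (P : Subgroup G) ⊓ (MulAut.conj g • (P : Subgroup G)) = ⊥)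
    (H : Subgroup G) (hH : Subgroup.normalizer ((P : Subgroup G) : Set G) ≤ H) {x g : G} (hx : x ∈ (P : Subgroup G))
    (hg : g ∉ H) (hxg : g⁻¹ * x * g ∈ H) : x = 1 := by
  have hPH : (P : Subgroup G) ≤ H := Subgroup.le_normalizer.trans hH
  let PH : Sylow p H := P.subtype hPH
  have hpg : IsPGroup p (Subgroup.zpowers (⟨g⁻¹ * x * g, hxg⟩ : H)) := by
    have h1 : ∃ n, orderOf x = p ^ n := by
      have := P.isPGroup'.exists_orderOf_eq_pow ⟨x, hx⟩
      obtain ⟨n, hn⟩ := this
      exact ⟨n, by rw [← hn, Subgroup.orderOf_mk]⟩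
    obtain ⟨n, hn⟩ := h1
    apply H5.PLocal.isPGroup_zpowers (n := n)
    rw [Subgroup.orderOf_mk, ← hn]
    have h2 : g⁻¹ * x * g = MulAut.conj g⁻¹ x := by simp
    rw [h2]
    exact orderOf_injective (MulAut.conj g⁻¹).toMonoidHom (MulAut.conj g⁻¹).injective x
  obtain ⟨h, hh⟩ := H5.PLocal.exists_conj_le_sylow PH hpg
  have h1 := hh _ (Subgroup.mem_zpowers _)
  have h2 : (h : G) * (g⁻¹ * x * g) * (h : G)⁻¹ ∈ (P : Subgroup G) := h1
  by_contra hne
  have h3 : g * (h : G)⁻¹ ∈ Subgroup.normalizer ((P : Subgroup G) : Set G) := by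
    by_contra h4
    have h5 := hTI _ h4
    have h6 : x ∈ (P : Subgroup G) ⊓ (MulAut.conj (g * (h : G)⁻¹) • (P : Subgroup G)) := by
      refine ⟨hx, ?_⟩
      show x ∈ MulAut.conj (g * (h : G)⁻¹) • (P : Subgroup G)
      rw [Subgroup.mem_pointwise_smul_iff_inv_smul_mem, MulAut.smul_def, ← map_inv, MulAut.conj_apply]
      have h7 : (g * (h : G)⁻¹)⁻¹ * x * ((g * (h : G)⁻¹)⁻¹)⁻¹ = (h : G) * (g⁻¹ * x * g) * (h : G)⁻¹ := by group
      rw [h7]
      exact h2
    rw [h5, Subgroup.mem_bot] at h6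
    exact hne h6
  have h4 := hH h3
  have h5 : g = (g * (h : G)⁻¹) * h := by group
  exact hg (by rw [h5]; exact H.mul_mem h4 h.2)

/-- the matrix argument -/
theorem commute_all (R : ValuationSubring ℂ) (hpR : (p : ℂ) ∈ R.nonunits) (P : Sylow p G)
    (hTI : ∀ g : G, g ∉ Subgroup.normalizer ((P : Subgroup G) : Set G) →
      (P : Subgroup G) ⊓ (MulAut.conj g • (P : Subgroup G)) = ⊥)
    (H : Subgroup G) (hH : Subgroup.normalizer ((P : Subgroup G) : Set G) ≤ H) {n : ℕ}
    (h1 : 1 < Nat.card (P : Subgroup G)) (hn : n ^ 2 ≤ Nat.card (P : Subgroup G))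
    (A : G →* Matrix (Fin n) (Fin n) ℂ) (hA : ∀ g i j, A g i j ∈ R)
    (w : Matrix (Fin n) (Fin n) ℂ) (hw : ∀ h ∈ H, A h * w = w * A h) (g : G) : A g * w = w * A g := by
  classical
  have hPH : (P : Subgroup G) ≤ H := Subgroup.le_normalizer.trans hH
  letI : Fintype G := Fintype.ofFinite G
  letI : Fintype (P : Subgroup G) := Fintype.ofFinite _
  letI : Fintype (G ⧸ H) := Fintype.ofFinite _
  have hinv : ∀ g, A g * A g⁻¹ = 1 := fun g => by rw [← map_mul, mul_inv_cancel, map_one]
  have hinv' : ∀ g, A g⁻¹ * A g = 1 := fun g => by rw [← map_mul, inv_mul_cancel, map_one]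
  -- conjugation
  let F : Matrix (Fin n) (Fin n) ℂ → G → Matrix (Fin n) (Fin n) ℂ := fun m g => A g * m * A g⁻¹
  let T : Matrix (Fin n) (Fin n) ℂ → Matrix (Fin n) (Fin n) ℂ := fun m => ∑ t : G ⧸ H, F m t.out
  have hF1 : ∀ m, (∀ h ∈ H, A h * m = m * A h) → ∀ g h, h ∈ H → F m (g * h) = F m g := by
    intro m hm g h hh
    show A (g * h) * m * A (g * h)⁻¹ = A g * m * A g⁻¹
    rw [mul_inv_rev, map_mul, map_mul, mul_assoc (A g), hm h hh]
    have : A g * (m * A h) * (A h⁻¹ * A g⁻¹) = A g * m * (A h * A h⁻¹) * A g⁻¹ := by noncomm_ring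
    rw [this, hinv, mul_one]
  have hF2 : ∀ m, (∀ h ∈ H, A h * m = m * A h) → ∀ g : G, F m ((g : G ⧸ H).out) = F m g := by
    intro m hm g
    obtain ⟨h, hh⟩ := QuotientGroup.mk_out_eq_mul H g
    rw [hh, hF1 m hm g h h.2]
  have hT1 : ∀ m, (∀ h ∈ H, A h * m = m * A h) → ∀ g, A g * T m = T m * A g := by
    intro m hm g
    have h2 : A g * T m * A g⁻¹ = T m := by
      show A g * (∑ t : G ⧸ H, F m t.out) * A g⁻¹ = ∑ t : G ⧸ H, F m t.out
      rw [Finset.mul_sum, Finset.sum_mul]
      rw [← Equiv.sum_comp (MulAction.toPerm g) (fun t : G ⧸ H => F m t.out)]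
      apply Finset.sum_congr rfl
      intro t _
      rw [MulAction.toPerm_apply]
      obtain ⟨y, rfl⟩ := QuotientGroup.mk_surjective t
      have h3 : g • ((y : G) : G ⧸ H) = ((g * y : G) : G ⧸ H) := rfl
      rw [h3, hF2 m hm, hF2 m hm]
      show A g * (A y * m * A y⁻¹) * A g⁻¹ = A (g * y) * m * A (g * y)⁻¹
      rw [mul_inv_rev, map_mul, map_mul]
      noncomm_ring
    calc A g * T m = A g * T m * (A g⁻¹ * A g) := by rw [hinv', mul_one]
      _ = A g * T m * A g⁻¹ * A g := by rw [mul_assoc (A g * T m)]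
      _ = T m * A g := by rw [h2]
  have hT2 : ∀ m, (∀ g, A g * m = m * A g) → T m = (Fintype.card (G ⧸ H) : ℂ) • m := by
    intro m hm
    show ∑ t : G ⧸ H, A t.out * m * A (t.out)⁻¹ = _
    have h3 : ∀ t : G ⧸ H, A t.out * m * A (t.out)⁻¹ = m := by
      intro t
      rw [hm, mul_assoc, hinv, mul_one]
    simp only [h3]
    rw [Finset.sum_const, Finset.card_univ, Nat.cast_smul_eq_nsmul]
  -- the residue field
  let k := IsLocalRing.ResidueField R
  let π : R →+* k := IsLocalRing.residue R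
  have hpmem : (p : R) ∈ IsLocalRing.maximalIdeal R := by
    rw [IsLocalRing.mem_maximalIdeal]
    have h2 := hpR
    rw [ValuationSubring.mem_nonunits_iff_exists_mem_maximalIdeal] at h2
    obtain ⟨ha, hb⟩ := h2
    rw [IsLocalRing.mem_maximalIdeal] at hb
    exact hb
  haveI : CharP k p := by
    have h2 : ((p : ℕ) : k) = 0 := by
      have h3 : π (p : R) = 0 := (IsLocalRing.residue_eq_zero_iff _).2 hpmem
      rwa [map_natCast] at h3
    obtain ⟨r, hr⟩ := CharP.exists k
    have h4 := (CharP.cast_eq_zero_iff k r p).1 h2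
    rcases (Nat.dvd_prime Fact.out).1 h4 with h5 | h5
    · exact absurd h5 (CharP.char_ne_one k r)
    · rw [← h5]; exact hr
  -- matrices over `R`
  let AR : G → Matrix (Fin n) (Fin n) R := fun g => Matrix.of fun i j => ⟨A g i j, hA g i j⟩
  have hAR : ∀ g, (AR g).map R.subtype = A g := fun g => rfl
  have hinj : ∀ {a b : Matrix (Fin n) (Fin n) R}, a.map R.subtype = b.map R.subtype → a = b := by
    intro a b hab
    ext i j
    exact congrFun (congrFun hab i) j
  have hAR1 : AR 1 = 1 := by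
    apply hinj
    rw [hAR, map_one, Matrix.map_one _ (map_zero _) (map_one _)]
  have hARmul : ∀ g h, AR (g * h) = AR g * AR h := by
    intro g h
    apply hinj
    rw [Matrix.map_mul, hAR, hAR, hAR, map_mul]
  let Ak : G →* Matrix (Fin n) (Fin n) k :=
    { toFun := fun g => (AR g).map π
      map_one' := by rw [hAR1, Matrix.map_one _ (map_zero _) (map_one _)]
      map_mul' := fun g h => by rw [hARmul, Matrix.map_mul] }
  let AP : (P : Subgroup G) →* Matrix (Fin n) (Fin n) k := Ak.comp (P : Subgroup G).subtype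
  -- the key congruence
  have key : ∀ m : Matrix (Fin n) (Fin n) R, (∀ h ∈ H, A h * (m.map R.subtype) = (m.map R.subtype) * A h) →
      T (m.map R.subtype) = 0 → m.map π = 0 := by
    intro m hm hTm
    let FR : G → Matrix (Fin n) (Fin n) R := fun g => AR g * m * AR g⁻¹
    have hFR : ∀ g, (FR g).map R.subtype = F (m.map R.subtype) g := by
      intro g
      show (AR g * m * AR g⁻¹).map R.subtype = _
      rw [Matrix.map_mul, Matrix.map_mul, hAR, hAR]
    have hsumR : ∑ t : G ⧸ H, FR t.out = 0 := by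
      apply hinj
      have h3 : (∑ t : G ⧸ H, FR t.out).map R.subtype = ∑ t : G ⧸ H, (FR t.out).map R.subtype := by
        ext i j
        simp [Matrix.sum_apply]
      rw [h3, Matrix.map_zero _ (map_zero _)]
      simp only [hFR]
      exact hTm
    have hsumk : ∑ t : G ⧸ H, (FR t.out).map π = 0 := by
      have h3 : (∑ t : G ⧸ H, FR t.out).map π = ∑ t : G ⧸ H, (FR t.out).map π := by
        ext i j
        simp [Matrix.sum_apply]
      rw [← h3, hsumR, Matrix.map_zero _ (map_zero _)]
    have hFR2 : ∀ g : G, FR ((g : G ⧸ H).out) = FR g := by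
      intro g
      apply hinj
      rw [hFR, hFR, hF2 _ hm]
    have hx0 : ∀ x : (P : Subgroup G), x • ((1 : G) : G ⧸ H) = ((1 : G) : G ⧸ H) := by
      intro x
      show (((x : G) * 1 : G) : G ⧸ H) = _
      rw [mul_one, QuotientGroup.eq]
      simpa using hPH x.2
    have h4 := sum_orbits P.isPGroup' (by rw [← Nat.card_eq_fintype_card]; exact h1)
      (by rw [← Nat.card_eq_fintype_card]; exact hn) AP (X := G ⧸ H) ((1 : G) : G ⧸ H) hx0 (by
        intro t ht x hxt
        obtain ⟨y, rfl⟩ := QuotientGroup.mk_surjective t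
        have h5 : (((x : G) * y : G) : G ⧸ H) = (y : G ⧸ H) := hxt
        rw [QuotientGroup.eq] at h5
        have h6 : y⁻¹ * (x : G) * y ∈ H := by
          have h7 := H.inv_mem h5
          have h8 : ((x * y : G)⁻¹ * y)⁻¹ = y⁻¹ * (x : G) * y := by group
          rwa [h8] at h7
        have h9 : y ∉ H := by
          intro h10
          apply ht
          show (y : G ⧸ H) = ((1 : G) : G ⧸ H)
          rw [QuotientGroup.eq]
          simpa using h10
        exact Subtype.ext (free_of_TI P hTI H hH x.2 h9 h6)) (fun t => (FR t.out).map π) (by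
        intro x t
        obtain ⟨y, rfl⟩ := QuotientGroup.mk_surjective t
        have h5 : x • ((y : G) : G ⧸ H) = (((x : G) * y : G) : G ⧸ H) := rfl
        rw [h5, hFR2, hFR2]
        show (AR (x * y) * m * AR (x * y)⁻¹).map π = (AR x).map π * (AR y * m * AR y⁻¹).map π *
          (AR ((x⁻¹ : (P : Subgroup G)) : G)).map π
        rw [← Matrix.map_mul, ← Matrix.map_mul, hARmul, mul_inv_rev, hARmul]
        congr 1
        rw [Subgroup.coe_inv]
        noncomm_ring)
    rw [hsumk, hFR2] at h4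
    have h5 : FR 1 = m := by
      show AR 1 * m * AR 1⁻¹ = m
      rw [inv_one, hAR1, one_mul, mul_one]
    rw [h5] at h4
    exact h4.symm
  -- the contradiction
  by_contra hcon
  set N : ℂ := (Fintype.card (G ⧸ H) : ℂ) with hN
  have hN0 : N ≠ 0 := by rw [hN]; exact_mod_cast Fintype.card_ne_zero
  let m0 : Matrix (Fin n) (Fin n) ℂ := w - N⁻¹ • T w
  have hTadd : ∀ a b, T (a - b) = T a - T b := by
    intro a b
    show ∑ t : G ⧸ H, A t.out * (a - b) * A (t.out)⁻¹ = (∑ t : G ⧸ H, A t.out * a * A (t.out)⁻¹) -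
      ∑ t : G ⧸ H, A t.out * b * A (t.out)⁻¹
    rw [← Finset.sum_sub_distrib]
    apply Finset.sum_congr rfl
    intro t _
    rw [mul_sub, sub_mul]
  have hTsmul : ∀ (c : ℂ) a, T (c • a) = c • T a := by
    intro c a
    show ∑ t : G ⧸ H, A t.out * (c • a) * A (t.out)⁻¹ = c • ∑ t : G ⧸ H, A t.out * a * A (t.out)⁻¹
    rw [Finset.smul_sum]
    apply Finset.sum_congr rfl
    intro t _
    rw [Matrix.mul_smul, Matrix.smul_mul]
  have hm0 : ∀ h ∈ H, A h * m0 = m0 * A h := by
    intro h hh
    show A h * (w - N⁻¹ • T w) = (w - N⁻¹ • T w) * A h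
    rw [mul_sub, sub_mul, hw h hh, Matrix.mul_smul, Matrix.smul_mul, hT1 w hw h]
  have hTm0 : T m0 = 0 := by
    show T (w - N⁻¹ • T w) = 0
    rw [hTadd, hTsmul, hT2 (T w) (hT1 w hw), smul_smul, inv_mul_cancel₀ hN0, one_smul, sub_self]
  have hm0ne : m0 ≠ 0 := by
    intro h0
    have h2 : w = N⁻¹ • T w := sub_eq_zero.1 h0
    apply hcon
    rw [h2, Matrix.mul_smul, Matrix.smul_mul, hT1 w hw g]
  -- scale
  obtain ⟨i1, j1, hij1⟩ : ∃ i j, m0 i j ≠ 0 := by
    by_contra hall
    push Not at hall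
    exact hm0ne (Matrix.ext hall)
  obtain ⟨⟨i0, j0⟩, -, hmax⟩ := Finset.exists_max_image (Finset.univ : Finset (Fin n × Fin n))
    (fun ij => R.valuation (m0 ij.1 ij.2)) ⟨(i1, j1), Finset.mem_univ _⟩
  have hmax' : ∀ i j, R.valuation (m0 i j) ≤ R.valuation (m0 i0 j0) := fun i j => hmax (i, j) (Finset.mem_univ _)
  have h00 : m0 i0 j0 ≠ 0 := by
    intro h0
    have h2 := hmax' i1 j1
    rw [h0, map_zero, le_zero_iff, map_eq_zero] at h2
    exact hij1 h2
  have hmemR : ∀ i j, (m0 i0 j0)⁻¹ * m0 i j ∈ R := by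
    intro i j
    rw [← ValuationSubring.valuation_le_one_iff, map_mul, map_inv₀]
    have h3 : R.valuation (m0 i0 j0) ≠ 0 := by rw [Ne, map_eq_zero]; exact h00
    calc (R.valuation (m0 i0 j0))⁻¹ * R.valuation (m0 i j)
        ≤ (R.valuation (m0 i0 j0))⁻¹ * R.valuation (m0 i0 j0) := mul_le_mul_right (hmax' i j) _
      _ = 1 := inv_mul_cancel₀ h3
  let m : Matrix (Fin n) (Fin n) R := Matrix.of fun i j => ⟨(m0 i0 j0)⁻¹ * m0 i j, hmemR i j⟩
  have hm : m.map R.subtype = (m0 i0 j0)⁻¹ • m0 := rfl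
  have hfin := key m (by
    intro h hh
    rw [hm, Matrix.mul_smul, Matrix.smul_mul, hm0 h hh]) (by
    rw [hm, hTsmul, hTm0, smul_zero])
  have h5 := congrFun (congrFun hfin i0) j0
  have h6 : m i0 j0 = 1 := by
    apply Subtype.ext
    show (m0 i0 j0)⁻¹ * m0 i0 j0 = 1
    exact inv_mul_cancel₀ h00
  rw [Matrix.map_apply, h6, map_one] at h5
  exact one_ne_zero h5

/-- S4750 -/
theorem final {G : Type*} [Group G] [Fintype G] (p : ℕ) [Fact p.Prime] (P : Sylow p G)
    (hTI : ∀ g : G, g ∉ Subgroup.normalizer ((P : Subgroup G) : Set G) →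
      (P : Subgroup G) ⊓ (MulAut.conj g • (P : Subgroup G)) = ⊥) (χ : G → ℂ)
    (hχ : IsCharacter G χ) (hdeg : charDegree χ ^ 2 ≤ Nat.card ↥(P : Subgroup G)) (H : Subgroup G) [Fintype ↥H]
    (hH : Subgroup.normalizer ((P : Subgroup G) : Set G) ≤ H) :
    classInner χ χ = classInner (fun h : ↥H => χ h) (fun h : ↥H => χ h) := by
  classical
  obtain ⟨n, ρ, rfl⟩ := hχ
  have hn : charDegree ρ.character = n := by
    unfold charDegree
    have h1 : ρ.character 1 = (n : ℂ) := by
      rw [Representation.char_one]; simp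
    rw [h1]; simp
  rw [hn] at hdeg
  apply inner_eq_of_commutant
  intro f hf g
  rcases Nat.lt_or_ge 1 (Nat.card (P : Subgroup G)) with h1 | h1
  · obtain ⟨R, hR⟩ := exists_valuationSubring p
    obtain ⟨b, hb⟩ := exists_lattice R ρ
    let A : G →* Matrix (Fin n) (Fin n) ℂ :=
      { toFun := fun g => LinearMap.toMatrix b b (ρ g)
        map_one' := by rw [map_one]; exact LinearMap.toMatrix_one b
        map_mul' := fun g h => by rw [map_mul]; exact LinearMap.toMatrix_mul b _ _ }
    have h2 := commute_all R hR P hTI H hH h1 hdeg A hb (LinearMap.toMatrix b b f) (fun h hh => by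
      show LinearMap.toMatrix b b (ρ h) * LinearMap.toMatrix b b f = LinearMap.toMatrix b b f * LinearMap.toMatrix b b (ρ h)
      rw [← LinearMap.toMatrix_mul, ← LinearMap.toMatrix_mul]
      exact congrArg _ (hf h hh)) g
    have h3 : LinearMap.toMatrix b b (ρ g) * LinearMap.toMatrix b b f =
      LinearMap.toMatrix b b f * LinearMap.toMatrix b b (ρ g) := h2
    rw [← LinearMap.toMatrix_mul, ← LinearMap.toMatrix_mul] at h3
    exact (LinearMap.toMatrix b b).injective h3
  · apply hf
    have h2 : (P : Subgroup G) = ⊥ := by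
      apply Subgroup.eq_bot_of_card_eq
      exact le_antisymm h1 Nat.card_pos
    apply hH
    rw [h2]
    have : ((⊥ : Subgroup G)).Normal := inferInstance
    rw [Subgroup.normalizer_eq_top]
    trivial

end main

end H81.TISmall
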