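import Mathlib
import Cfsg.Agent.Lib.H21.NE8
import Cfsg.Agent.Lib.H21.NE6
import Cfsg.Agent.Lib.H31.ChTools
import Cfsg.Agent.Lib.H81.Pu4c

/-! Simple groups of order 5616: character values in the principal 13-block (towards S3668). -/

set_option autoImplicit false
set_option linter.unusedSectionVars false
set_option linter.unusedVariables false
set_option linter.style.haveILetI false

namespace H81.U5616

open Cfsg H18.CharBasic H18.CharOrtho H18.CharInd H21.PLat H21.BK H21.BT H21.NE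
open H20.GA (zc cls zc_mul zc_cls_of zc_cls_not omega_cls isIntegral_centralChar omega)
open scoped ComplexConjugate

universe u

/-- the data of the principal 13-block -/
structure Dat (G : Type u) [Group G] [Fintype G] [Fintype (IrrCharacter G)] (y : G)
    (α β : IrrCharacter G) (Y : Finset (IrrCharacter G)) : Prop where
  dα : charDegree (α : G → ℂ) = 12
  dβ : charDegree (β : G → ℂ) = 27
  nα : α ≠ triv G
  nβ : β ≠ triv G
  αβ : α ≠ β
  αY : α ∉ Y
  βY : β ∉ Y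
  tY : triv G ∉ Y
  dY : ∀ θ ∈ Y, charDegree (θ : G → ℂ) = 16
  cY : Y.card = 4
  rel : ∀ θ ∈ Y, ∀ g : G, ¬ 13 ∣ orderOf g → (θ : G → ℂ) g = 1 - (α : G → ℂ) g + (β : G → ℂ) g
  ya : (α : G → ℂ) y = -1
  yb : (β : G → ℂ) y = 1
  sY : ∑ θ ∈ Y, (θ : G → ℂ) y = -1
  van : ∀ χ : IrrCharacter G, χ ≠ triv G → χ ≠ α → χ ≠ β → χ ∉ Y → (χ : G → ℂ) y = 0
  ninv : ∀ g : G, g * g = 1 → g * y * g⁻¹ ≠ y⁻¹
  rat : ∀ g : G, ∃ n : ℤ, (α : G → ℂ) g = n
  pq : ∀ q : ℕ, q.Prime → ∀ g : G, orderOf g ≠ 13 * q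

theorem exists_dat {G : Type u} [Group G] [Fintype G] [Fintype (IrrCharacter G)] [IsSimpleGroup G]
    (hN : Nat.card G = 5616) : ∃ y α β Y, Dat G y α β Y := by
  classical
  have f13 : Fact (Nat.Prime 13) := ⟨by norm_num⟩
  have hG := not_comm_of_card hN (by norm_num)
  obtain ⟨x0, a, Y, ε, e, n, c, h, hmem⟩ := main2 hG hN 13 75 [(2, 16), (3, 27)] (by
    intro x hx
    simp only [List.mem_cons, List.not_mem_nil, or_false] at hx
    rcases hx with rfl | rfl <;> norm_num) [(144, 3, [1, 1])] (by decide +kernel)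
  rw [List.mem_singleton, Prod.mk.injEq, Prod.mk.injEq] at hmem
  obtain ⟨hv, he, hcnt⟩ := hmem
  subst he
  have hn : n = 11 := by omega
  subst hn
  have hc : c = 1 := by
    have h1 := h.hcard
    rw [hN] at h1
    omega
  subst hc
  have hL : cands 5616 13 (1 + 11 * 13) 3 1 75 = [12, 27] := by decide +kernel
  rw [hL] at hcnt
  simp only [List.map_cons, List.map_nil, List.cons.injEq, and_true] at hcnt
  obtain ⟨c12, c27⟩ := hcnt
  obtain ⟨α, hα, hαD⟩ := cnt_pos (S := SS a) (D := 12) (by omega)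
  obtain ⟨β, hβ, hβD⟩ := cnt_pos (S := SS a) (D := 27) (by omega)
  have hαβ : α ≠ β := by
    rintro rfl
    omega
  have hSS : SS a = {α, β} := by
    symm
    apply Finset.eq_of_subset_of_card_le
    · intro χ hχ
      simp only [Finset.mem_insert, Finset.mem_singleton] at hχ
      rcases hχ with rfl | rfl
      · exact hα
      · exact hβ
    · have := card_SS h
      rw [Finset.card_pair hαβ]
      omega
  obtain ⟨hα0, hαt⟩ := mem_SS.1 hα
  obtain ⟨hβ0, hβt⟩ := mem_SS.1 hβ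
  have haα : a α = -1 := by
    rw [(deg_mod h (by norm_num) hα0).2, hαD]; rfl
  have haβ : a β = 1 := by
    rw [(deg_mod h (by norm_num) hβ0).2, hβD]; rfl
  have ha0 : ∀ χ : IrrCharacter G, χ ≠ triv G → χ ≠ α → χ ≠ β → a χ = 0 := by
    intro χ h1 h2 h3
    by_contra h4
    have h5 : χ ∈ SS a := mem_SS.2 ⟨h4, h1⟩
    rw [hSS] at h5
    simp only [Finset.mem_insert, Finset.mem_singleton] at h5
    rcases h5 with h5 | h5
    · exact h2 h5
    · exact h3 h5
  have hαY : α ∉ Y := fun h1 => hα0 (h.hYa α h1)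
  have hβY : β ∉ Y := fun h1 => hβ0 (h.hYa β h1)
  have hd2 : ∀ θ ∈ Y, ε * (charDegree (θ : G → ℂ) : ℤ) = 16 := by
    intro θ hθ
    obtain ⟨-, d2, -⟩ := degree_eq h (by norm_num) hG (B := 75) (by rw [hN]; norm_num) hθ
    rw [hN, hL] at d2
    simp only [List.map_cons, List.map_nil, List.sum_cons, List.sum_nil, c12, c27, sg] at d2
    norm_num at d2
    exact d2
  obtain ⟨θ0, hθ0⟩ := h.exists_Y
  have hε : ε = 1 := by
    rcases h.hε with h1 | h1
    · exact h1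
    · have := hd2 θ0 hθ0
      rw [h1] at this
      omega
  subst hε
  have hdY : ∀ θ ∈ Y, charDegree (θ : G → ℂ) = 16 := by
    intro θ hθ
    have := hd2 θ hθ
    omega
  have hpw1 : pw x0 (1 : ZMod 13) = x0 := pw_one h.hx0
  have hone : (1 : ZMod 13) ≠ 0 := one_ne_zero
  have hsuma : ∀ f : IrrCharacter G → ℂ, ∑ ψ, (a ψ : ℂ) * f ψ = f (triv G) - f α + f β := by
    intro f
    have h1 : ∑ ψ, (a ψ : ℂ) * f ψ = ∑ ψ ∈ ({triv G, α, β} : Finset (IrrCharacter G)), (a ψ : ℂ) * f ψ := by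
      symm
      apply Finset.sum_subset (Finset.subset_univ _)
      intro χ _ hn
      simp only [Finset.mem_insert, Finset.mem_singleton, not_or] at hn
      rw [ha0 χ hn.1 hn.2.1 hn.2.2]; simp
    rw [h1, Finset.sum_insert, Finset.sum_insert, Finset.sum_singleton, h.htriv, haα, haβ]
    · push_cast; ring
    · simp [hαβ]
    · simp [hαt.symm, hβt.symm]
  refine ⟨x0, α, β, Y, hαD, hβD, hαt, hβt, hαβ, hαY, hβY, fun h1 => h.triv_notin h1 rfl, hdY, ?_, ?_,
    ?_, ?_, ?_, ?_, ?_, ?_, ?_⟩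
  · have := h.hcardY
    omega
  · intro θ hθ g hg
    have h1 := h.hrel θ hθ g hg
    rw [hsuma (fun ψ => (ψ : G → ℂ) g)] at h1
    rw [Int.cast_one, one_mul] at h1
    rw [h1]
  · have h1 := h.hval α hα0 1 hone
    rw [hpw1, haα] at h1
    rw [h1]; norm_num
  · have h1 := h.hval β hβ0 1 hone
    rw [hpw1, haβ] at h1
    rw [h1]; norm_num
  · have h1 := sum_Y h rfl
    rw [hsuma (fun ψ => (charDegree (ψ : G → ℂ) : ℂ)), hαD, hβD, triv_degree] at h1
    have h2 : ∑ θ ∈ Y, (charDegree (θ : G → ℂ) : ℂ) * (θ : G → ℂ) x0 = 16 * ∑ θ ∈ Y, (θ : G → ℂ) x0 := by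
      rw [Finset.mul_sum]
      refine Finset.sum_congr rfl fun θ hθ => ?_
      rw [hdY θ hθ]; norm_num
    rw [h2] at h1
    have h3 : (16 : ℂ) ≠ 0 := by norm_num
    apply mul_left_cancel₀ h3
    rw [h1]; norm_num
  · intro χ h1 h2 h3 h4
    have h5 := hz h rfl (ha0 χ h1 h2 h3) h4 hone
    rw [hpw1] at h5
    exact h5
  · intro g hg hinv
    have hmemN : g ∈ Subgroup.normalizer (Subgroup.zpowers x0 : Set G) := by
      rw [Subgroup.mem_normalizer_iff]
      intro z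
      have key : ∀ w ∈ Subgroup.zpowers x0, g * w * g⁻¹ ∈ Subgroup.zpowers x0 := by
        intro w hw
        obtain ⟨k, rfl⟩ := Subgroup.mem_zpowers_iff.1 hw
        rw [← conj_zpow, hinv]
        exact Subgroup.zpow_mem _ (Subgroup.inv_mem _ (Subgroup.mem_zpowers _)) k
      constructor
      · exact key z
      · intro hz1
        have h1 := key _ hz1
        have hgi : g⁻¹ = g := inv_eq_of_mul_eq_one_left hg
        have h2 : g * (g * z * g⁻¹) * g⁻¹ = z := by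
          rw [hgi]
          calc g * (g * z * g) * g = (g * g) * z * (g * g) := by group
            _ = z := by rw [hg]; group
        rwa [h2] at h1
    have h1 : orderOf g ∣ 39 := by
      have h2 := Subgroup.orderOf_dvd_natCard _ hmemN
      rw [h.hcardN] at h2
      exact h2
    have h2 : orderOf g ∣ 2 := orderOf_dvd_of_pow_eq_one (by rw [pow_two, hg])
    have h4 : g = 1 := by
      have h5 := Nat.dvd_gcd h1 h2
      have h6 : Nat.gcd 39 2 = 1 := by norm_num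
      rw [h6] at h5
      exact orderOf_eq_one_iff.1 (Nat.dvd_one.1 h5)
    rw [h4, one_mul, inv_one, mul_one] at hinv
    have h5 : x0 ^ 2 = 1 := by
      rw [pow_two]; nth_rewrite 2 [hinv]; rw [mul_inv_cancel]
    have h6 := orderOf_dvd_of_pow_eq_one h5
    rw [h.hx0] at h6
    norm_num at h6
  · intro g
    obtain ⟨M, hM, hB⟩ := h.hM
    have hfix : ∀ σ : ℂ ≃+* ℂ, σ ((α : G → ℂ) g) = (α : G → ℂ) g := by
      intro σ
      apply galois_fixed ((hB α).1 (Or.inl hα0))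
      intro ψ hψ hψD
      rw [hαD] at hψD
      rcases (hB ψ).2 hψ with h1 | h1
      · by_contra h2
        by_cases h3 : ψ = triv G
        · rw [h3, triv_degree] at hψD; omega
        by_cases h4 : ψ = β
        · rw [h4, hβD] at hψD; omega
        · exact h1 (ha0 ψ h3 h2 h4)
      · rw [hdY ψ h1] at hψD; omega
    have hint : IsIntegral ℤ ((α : G → ℂ) g) := char_isIntegral (isCharacter_of_isIrr α.2) g
    obtain ⟨q, hq⟩ := H4.Rational.exists_rat_of_fixed hint.tower_top hfix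
    rw [hq] at hint
    obtain ⟨m, hm⟩ := H4.Integral.exists_int_of_isIntegral_rat hint
    refine ⟨m, ?_⟩
    rw [hq, hm]; simp
  · intro q hq g
    exact no_pq h rfl hq g

section use
variable {G : Type u} [Group G] [Fintype G] [Fintype (IrrCharacter G)] {y : G}
  {α β : IrrCharacter G} {Y : Finset (IrrCharacter G)}

theorem deg1 (χ : IrrCharacter G) : (χ : G → ℂ) 1 = (charDegree (χ : G → ℂ) : ℂ) :=
  (H82.Deg.coe_charDegree' χ).symm

/-- the class sum at `y` -/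
theorem Dat.sum_eq (D : Dat G y α β Y) (f : IrrCharacter G → ℂ) :
    ∑ χ : IrrCharacter G, f χ * (χ : G → ℂ) y =
      f (triv G) - f α + f β + ∑ θ ∈ Y, f θ * (θ : G → ℂ) y := by
  classical
  have h1 : ∑ χ : IrrCharacter G, f χ * (χ : G → ℂ) y =
      ∑ χ ∈ insert (triv G) (insert α (insert β Y)), f χ * (χ : G → ℂ) y := by
    symm
    apply Finset.sum_subset (Finset.subset_univ _)
    intro χ _ hn
    simp only [Finset.mem_insert, not_or] at hn
    rw [D.van χ hn.1 hn.2.1 hn.2.2.1 hn.2.2.2, mul_zero]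
  rw [h1, Finset.sum_insert, Finset.sum_insert, Finset.sum_insert, D.ya, D.yb]
  · have : ((triv G : IrrCharacter G) : G → ℂ) y = 1 := by simp
    rw [this]; ring
  · exact D.βY
  · simp [D.αβ, D.αY]
  · simp [D.nα.symm, D.nβ.symm, D.tY]

theorem Dat.S_eq (D : Dat G y α β Y) {g : G} (hg : ¬ 13 ∣ orderOf g) {a b : ℤ}
    (ha : (α : G → ℂ) g = a) (hb : (β : G → ℂ) g = b) :
    ∑ χ : IrrCharacter G, ((χ : G → ℂ) g) ^ 2 / (χ : G → ℂ) 1 * (χ : G → ℂ) y =
      ((1 - (a : ℝ) ^ 2 / 12 + (b : ℝ) ^ 2 / 27 - (1 - a + b) ^ 2 / 16 : ℝ) : ℂ) := by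
  rw [D.sum_eq (fun χ => ((χ : G → ℂ) g) ^ 2 / (χ : G → ℂ) 1)]
  have h1 : ∑ θ ∈ Y, ((θ : G → ℂ) g) ^ 2 / (θ : G → ℂ) 1 * (θ : G → ℂ) y =
      ((1 - a + b : ℂ) ^ 2 / 16) * ∑ θ ∈ Y, (θ : G → ℂ) y := by
    rw [Finset.mul_sum]
    refine Finset.sum_congr rfl fun θ hθ => ?_
    rw [D.rel θ hθ g hg, deg1 θ, D.dY θ hθ, ha, hb]; norm_num
  rw [h1, D.sY, deg1 α, deg1 β, D.dα, D.dβ, ha, hb]
  have h2 : ((triv G : IrrCharacter G) : G → ℂ) g = 1 := by simp
  have h3 : ((triv G : IrrCharacter G) : G → ℂ) 1 = 1 := by simp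
  rw [h2]
  try rw [h3]
  push_cast
  ring

theorem Dat.col (D : Dat G y α β Y) {g : G} (hg : ¬ 13 ∣ orderOf g) {a b : ℤ}
    (ha : (α : G → ℂ) g = a) (hb : (β : G → ℂ) g = b) :
    1 + a ^ 2 + b ^ 2 + 4 * (1 - a + b) ^ 2 ≤ (Nat.card (Subgroup.centralizer ({g} : Set G)) : ℤ) := by
  classical
  have h1 := column_orthogonality (G := G) g g
  rw [if_pos (IsConj.refl _)] at h1
  have h2 : ∑ χ : IrrCharacter G, ‖(χ : G → ℂ) g‖ ^ 2 =
      (Nat.card (Subgroup.centralizer ({g} : Set G)) : ℝ) := by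
    have h3 : ((∑ χ : IrrCharacter G, ‖(χ : G → ℂ) g‖ ^ 2 : ℝ) : ℂ) =
        (Nat.card (Subgroup.centralizer ({g} : Set G)) : ℂ) := by
      rw [← h1]
      push_cast
      refine Finset.sum_congr rfl fun χ _ => ?_
      rw [Complex.mul_conj']
    exact_mod_cast h3
  have h3 : ∑ χ ∈ insert (triv G) (insert α (insert β Y)), ‖(χ : G → ℂ) g‖ ^ 2 ≤
      ∑ χ : IrrCharacter G, ‖(χ : G → ℂ) g‖ ^ 2 :=
    Finset.sum_le_sum_of_subset_of_nonneg (Finset.subset_univ _) fun _ _ _ => by positivity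
  rw [Finset.sum_insert, Finset.sum_insert, Finset.sum_insert, h2] at h3
  · have h4 : ∑ θ ∈ Y, ‖(θ : G → ℂ) g‖ ^ 2 = 4 * (1 - (a : ℝ) + b) ^ 2 := by
      have h5 : ∀ θ ∈ Y, ‖(θ : G → ℂ) g‖ ^ 2 = (1 - (a : ℝ) + b) ^ 2 := by
        intro θ hθ
        rw [D.rel θ hθ g hg, ha, hb]
        have h6 : (1 - (a : ℂ) + b) = ((1 - (a : ℝ) + b : ℝ) : ℂ) := by push_cast; ring
        rw [h6, Complex.norm_real, Real.norm_eq_abs, sq_abs]
      rw [Finset.sum_congr rfl h5, Finset.sum_const, D.cY, nsmul_eq_mul]; norm_num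
    have h5 : ‖(α : G → ℂ) g‖ ^ 2 = (a : ℝ) ^ 2 := by
      rw [ha, Complex.norm_intCast, sq_abs]
    have h6 : ‖(β : G → ℂ) g‖ ^ 2 = (b : ℝ) ^ 2 := by
      rw [hb, Complex.norm_intCast, sq_abs]
    have h7 : ‖((triv G : IrrCharacter G) : G → ℂ) g‖ ^ 2 = 1 := by
      have : ((triv G : IrrCharacter G) : G → ℂ) g = 1 := by simp
      rw [this]; norm_num
    rw [h4, h5, h6, h7] at h3
    have h8 : (1 + (a : ℝ) ^ 2 + (b : ℝ) ^ 2 + 4 * (1 - a + b) ^ 2) ≤
        (Nat.card (Subgroup.centralizer ({g} : Set G)) : ℝ) := by linarith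
    exact_mod_cast h8
  · exact D.βY
  · simp [D.αβ, D.αY]
  · simp [D.nα.symm, D.nβ.symm, D.tY]

theorem int_cc {χ : IrrCharacter G} {g : G} {m : ℤ} (hm : (χ : G → ℂ) g = m) :
    (charDegree (χ : G → ℂ) : ℤ) ∣ ((Subgroup.centralizer ({g} : Set G)).index : ℤ) * m := by
  have h1 := isIntegral_centralChar χ g
  rw [centralChar, hm, deg1] at h1
  have h2 : ((Subgroup.centralizer ({g} : Set G)).index : ℂ) * (m : ℂ) / (charDegree (χ : G → ℂ) : ℂ) =
      (((((Subgroup.centralizer ({g} : Set G)).index : ℤ) * m : ℤ) / ((charDegree (χ : G → ℂ) : ℤ)) : ℚ) : ℂ) := by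
    push_cast; rfl
  rw [h2] at h1
  obtain ⟨k, hk⟩ := H4.Integral.exists_int_of_isIntegral_rat h1
  have hd : ((charDegree (χ : G → ℂ) : ℤ) : ℚ) ≠ 0 := by
    exact_mod_cast (H82.Deg.charDegree_pos χ).ne'
  rw [div_eq_iff hd] at hk
  refine ⟨k, ?_⟩
  have h3 : ((((Subgroup.centralizer ({g} : Set G)).index : ℤ) * m : ℤ) : ℚ) =
    (((k * (charDegree (χ : G → ℂ) : ℤ)) : ℤ) : ℚ) := by
    rw [hk]; push_cast; ring
  have h4 : (((Subgroup.centralizer ({g} : Set G)).index : ℤ) * m : ℤ) =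
    k * (charDegree (χ : G → ℂ) : ℤ) := by exact_mod_cast h3
  rw [h4, mul_comm]

end use

end H81.U5616
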