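import Mathlib
import Cfsg.Agent.Lib.H81.U5616a

/-! Simple groups of order 5616: centralizers of involutions and elements of order three
(towards S3668). -/

set_option autoImplicit false
set_option linter.unusedSectionVars false
set_option linter.unusedVariables false
set_option linter.style.haveILetI false

namespace H81.U5616

open Cfsg H18.CharBasic H18.CharOrtho H18.CharInd H21.PLat H21.BK H21.BT H21.NE
open H20.GA (zc cls zc_mul zc_cls_of zc_cls_not omega_cls isIntegral_centralChar omega)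
open scoped ComplexConjugate

universe u

theorem arith2 {a b n : ℤ} (h4a : (4 : ℤ) ∣ 12 - a) (h4b : (4 : ℤ) ∣ 27 - b)
    (heq : 432 - 36 * a ^ 2 + 16 * b ^ 2 - 27 * (1 - a + b) ^ 2 = 0)
    (hcol : 1 + a ^ 2 + b ^ 2 + 4 * (1 - a + b) ^ 2 ≤ n) (hn : n ≤ 432) :
    (a = 4 ∧ b = 3) ∨ (a = 0 ∧ b = -9) := by
  obtain ⟨a', ha'⟩ := h4a
  obtain ⟨b', hb'⟩ := h4b
  obtain rfl : a = 12 - 4 * a' := by linarith
  obtain rfl : b = 27 - 4 * b' := by linarith
  have h1 : 1 + (12 - 4 * a') ^ 2 + (27 - 4 * b') ^ 2 + 4 * (1 - (12 - 4 * a') + (27 - 4 * b')) ^ 2 ≤ 432 :=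
    hcol.trans hn
  have hA : -21 < 12 - 4 * a' ∧ 12 - 4 * a' < 21 := by
    constructor <;> nlinarith [sq_nonneg (27 - 4 * b'), sq_nonneg (1 - (12 - 4 * a') + (27 - 4 * b'))]
  have hB : -21 < 27 - 4 * b' ∧ 27 - 4 * b' < 21 := by
    constructor <;> nlinarith [sq_nonneg (12 - 4 * a'), sq_nonneg (1 - (12 - 4 * a') + (27 - 4 * b'))]
  obtain ⟨hA1, hA2⟩ := hA
  obtain ⟨hB1, hB2⟩ := hB
  have u1 : -3 < a' := by omega
  have u2 : a' < 9 := by omega
  have v1 : 1 < b' := by omega
  have v2 : b' < 12 := by omega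
  clear hcol hn ha' hb' hA1 hA2 hB1 hB2
  interval_cases a' <;> interval_cases b' <;> first | (exfalso; norm_num at heq; done) | (exfalso; norm_num at h1; done) | norm_num

section use
variable {G : Type u} [Group G] [Fintype G] [Fintype (IrrCharacter G)] {y : G}
  {α β : IrrCharacter G} {Y : Finset (IrrCharacter G)}

theorem nonneg_sum (t g : G) :
    ∃ r : ℝ, 0 ≤ r ∧
      ∑ χ : IrrCharacter G, ((χ : G → ℂ) t) ^ 2 / (χ : G → ℂ) 1 * (χ : G → ℂ) g = (r : ℂ) := by
  classical
  have h1 : ∃ s : ℝ, 0 ≤ s ∧ zc (cls t * cls t) g⁻¹ = (s : ℂ) := by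
    rw [zc_mul]
    refine ⟨∑ x : G, (if IsConj t x then 1 else 0) * (if IsConj t (x⁻¹ * g⁻¹) then 1 else 0), ?_, ?_⟩
    · apply Finset.sum_nonneg
      intro x _
      split_ifs <;> norm_num
    · push_cast
      refine Finset.sum_congr rfl fun x _ => ?_
      congr 1
      · by_cases h : IsConj t x
        · rw [if_pos h, zc_cls_of h]; norm_num
        · rw [if_neg h, zc_cls_not h]; norm_num
      · by_cases h : IsConj t (x⁻¹ * g⁻¹)
        · rw [if_pos h, zc_cls_of h]; norm_num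
        · rw [if_neg h, zc_cls_not h]; norm_num
  obtain ⟨s, hs0, hs⟩ := h1
  rw [H20.PCDef.zc_fourier] at hs
  have hG : (Nat.card G : ℂ) ≠ 0 := by exact_mod_cast (Nat.card_pos (α := G)).ne'
  have hidx : ((Subgroup.centralizer ({t} : Set G)).index : ℂ) ≠ 0 := by
    exact_mod_cast Subgroup.index_ne_zero_of_finite
  have h3 : ∑ χ : IrrCharacter G, omega χ (cls t * cls t) * ((χ : G → ℂ) 1 * conj ((χ : G → ℂ) g⁻¹)) =
      ((Subgroup.centralizer ({t} : Set G)).index : ℂ) ^ 2 *
      ∑ χ : IrrCharacter G, ((χ : G → ℂ) t) ^ 2 / (χ : G → ℂ) 1 * (χ : G → ℂ) g := by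
    rw [Finset.mul_sum]
    refine Finset.sum_congr rfl fun χ _ => ?_
    have h4 : conj ((χ : G → ℂ) g⁻¹) = (χ : G → ℂ) g := by
      rw [← H18.CharBasic.char_inv (isCharacter_of_isIrr χ.2), inv_inv]
    have h5 := H18.CharBasic.irr_one_ne_zero χ.2
    rw [map_mul, omega_cls, centralChar, h4]
    field_simp
  rw [h3] at hs
  refine ⟨(((Subgroup.centralizer ({t} : Set G)).index : ℝ) ^ 2)⁻¹ * ((Nat.card G : ℝ) * s), ?_, ?_⟩
  · positivity
  · push_cast
    rw [← hs]
    field_simp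

theorem int_invol {t : G} (ht : t * t = 1) (χ : IrrCharacter G) : ∃ n : ℤ, (χ : G → ℂ) t = n := by
  have hi : t⁻¹ = t := inv_eq_of_mul_eq_one_left ht
  apply H31.ChT.int_real (by rw [hi])
  intro k hk
  rcases Nat.even_or_odd k with h4 | h4
  · obtain ⟨m, rfl⟩ := h4
    have hone : t ^ (m + m) = 1 := by
      rw [← two_mul, pow_mul, pow_two, ht, one_pow]
    have h6 : orderOf t ∣ 1 := by
      have h7 : orderOf t ∣ m + m := orderOf_dvd_of_pow_eq_one hone
      have := Nat.dvd_gcd h7 (dvd_refl (orderOf t))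
      rwa [hk] at this
    have h8 : t = 1 := orderOf_eq_one_iff.1 (Nat.dvd_one.1 h6)
    left; rw [h8, one_pow]
  · obtain ⟨m, rfl⟩ := h4
    left
    rw [pow_succ, pow_mul, pow_two, ht, one_pow, one_mul]

theorem Dat.not13 (D : Dat G y α β Y) {g : G} {q : ℕ} (hq : q.Prime) (hq13 : q ≠ 13) (hg : orderOf g = q) :
    ¬ 13 ∣ Nat.card (Subgroup.centralizer ({g} : Set G)) := by
  intro h
  have : Fact (Nat.Prime 13) := ⟨by norm_num⟩
  obtain ⟨⟨u, hu⟩, hu13⟩ := exists_prime_orderOf_dvd_card' 13 h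
  rw [Subgroup.orderOf_mk] at hu13
  have hc : Commute u g := Subgroup.mem_centralizer_singleton_iff.1 hu
  have h2 : orderOf (u * g) = 13 * q := by
    rw [hc.orderOf_mul_eq_mul_orderOf_of_coprime, hu13, hg]
    rw [hu13, hg]
    exact (Nat.coprime_primes (by norm_num) hq).2 (Ne.symm hq13)
  exact D.pq q hq _ h2

theorem Dat.card_dvd (D : Dat G y α β Y) (hN : Nat.card G = 5616) {g : G} {q : ℕ} (hq : q.Prime)
    (hq13 : q ≠ 13) (hg : orderOf g = q) :
    Nat.card (Subgroup.centralizer ({g} : Set G)) ∣ 432 := by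
  have h1 : Nat.card (Subgroup.centralizer ({g} : Set G)) ∣ 432 * 13 := by
    have := Subgroup.card_subgroup_dvd_card (Subgroup.centralizer ({g} : Set G))
    rw [hN] at this
    exact this
  refine Nat.Coprime.dvd_of_dvd_mul_right ?_ h1
  exact ((Nat.Prime.coprime_iff_not_dvd (by norm_num)).2 (D.not13 hq hq13 hg)).symm

/-- centralizers of involutions have order 48 -/
theorem Dat.card_cent (D : Dat G y α β Y) [IsSimpleGroup G] (hN : Nat.card G = 5616) {t : G}
    (ht : orderOf t = 2) : Nat.card (Subgroup.centralizer ({t} : Set G)) = 48 := by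
  have htt : t * t = 1 := by rw [← pow_two, ← ht]; exact pow_orderOf_eq_one t
  have hG := not_comm_of_card hN (by norm_num)
  have hperf : commutator G = ⊤ := perfect_of_simple hG
  obtain ⟨a, ha⟩ := D.rat t
  obtain ⟨b, hb⟩ := int_invol htt β
  have h13 : ¬ 13 ∣ orderOf t := by rw [ht]; norm_num
  have h4a := H31.ChT.mod_four hperf α htt ha
  have h4b := H31.ChT.mod_four hperf β htt hb
  rw [D.dα] at h4a
  rw [D.dβ] at h4b
  have hcol := D.col h13 ha hb
  have hdvd := D.card_dvd hN Nat.prime_two (by norm_num) ht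
  have hle : Nat.card (Subgroup.centralizer ({t} : Set G)) ≤ 432 := Nat.le_of_dvd (by norm_num) hdvd
  have heq : 432 - 36 * a ^ 2 + 16 * b ^ 2 - 27 * (1 - a + b) ^ 2 = 0 := by
    have h1 := H81.Pu4.sum_of_no_product (G := G) (t := t) (g := y) (by
      intro u v hu hv huv
      have hc2 : ∀ w : G, IsConj t w → w * w = 1 := by
        intro w hw
        obtain ⟨c, rfl⟩ := isConj_iff.1 hw
        calc (c * t * c⁻¹) * (c * t * c⁻¹) = c * (t * t) * c⁻¹ := by group
          _ = 1 := by rw [htt]; group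
      have hu2 := hc2 u hu
      have hv2 := hc2 v hv
      have hui : u⁻¹ = u := inv_eq_of_mul_eq_one_left hu2
      have hvi : v⁻¹ = v := inv_eq_of_mul_eq_one_left hv2
      apply D.ninv u hu2
      have hy : y = v * u := by rw [← inv_inj, ← huv, mul_inv_rev, hui, hvi]
      rw [← huv, hy, hui]
      calc u * (v * u) * u = u * v * (u * u) := by group
        _ = u * v := by rw [hu2, mul_one])
    rw [D.S_eq h13 ha hb] at h1
    have h2 : (1 - (a : ℝ) ^ 2 / 12 + (b : ℝ) ^ 2 / 27 - (1 - a + b) ^ 2 / 16 : ℝ) = 0 := by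
      exact_mod_cast h1
    have h3 : (432 - 36 * (a : ℝ) ^ 2 + 16 * (b : ℝ) ^ 2 - 27 * (1 - a + b) ^ 2 : ℝ) = 0 := by
      linear_combination 432 * h2
    exact_mod_cast h3
  have hidx := (Subgroup.centralizer ({t} : Set G)).card_mul_index
  rw [hN] at hidx
  have hI := int_cc hb
  rw [D.dβ] at hI
  set n := Nat.card (Subgroup.centralizer ({t} : Set G)) with hn
  set k := (Subgroup.centralizer ({t} : Set G)).index with hk
  have hdiv : n ∈ Nat.divisors 432 := Nat.mem_divisors.2 ⟨hdvd, by norm_num⟩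
  have hdl : Nat.divisors 432 = {1, 2, 3, 4, 6, 8, 9, 12, 16, 18, 24, 27, 36, 48, 54, 72, 108, 144, 216, 432} := by
    decide +kernel
  rw [hdl] at hdiv
  simp only [Finset.mem_insert, Finset.mem_singleton] at hdiv
  rcases arith2 (by exact_mod_cast h4a) (by exact_mod_cast h4b) heq hcol (by exact_mod_cast hle) with
    ⟨rfl, rfl⟩ | ⟨rfl, rfl⟩
  · norm_num at hcol
    have h5 : (26 : ℤ) ≤ n := by linarith
    have h6 : 26 ≤ n := by exact_mod_cast h5
    rcases hdiv with h | h | h | h | h | h | h | h | h | h | h | h | h | h | h | h | h | h | h | h <;>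
      first | exact h | (exfalso; rw [h] at hidx h6; omega)
  · exfalso
    norm_num at hcol
    have h5 : (338 : ℤ) ≤ n := by linarith
    have h6 : 338 ≤ n := by exact_mod_cast h5
    have h7 : n = 432 := by omega
    rw [h7] at hidx
    have h8 : k = 13 := by omega
    rw [h8] at hI
    norm_num at hI

/-- centralizers of elements of order three commuting with involutions -/
theorem Dat.three (D : Dat G y α β Y) [IsSimpleGroup G] (hN : Nat.card G = 5616) {x : G}
    (hx : orderOf x = 3) (h2 : 2 ∣ Nat.card (Subgroup.centralizer ({x} : Set G))) :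
    ¬ 4 ∣ Nat.card (Subgroup.centralizer ({x} : Set G)) := by
  obtain ⟨a, ha⟩ := D.rat x
  have h13 : ¬ 13 ∣ orderOf x := by rw [hx]; norm_num
  have hb : (β : G → ℂ) x = (0 : ℤ) := by
    obtain ⟨M, hM⟩ := H78.Cong.exists_isPModular Nat.prime_three
    rw [Int.cast_zero]
    apply H20.DefZero.vanish_of_full_degree hM _ (by rw [hx])
    rw [D.dβ, hN, fac_eq (b := 3) (m := 1) Nat.prime_three (by norm_num) (by norm_num),
      fac_eq (b := 3) (m := 208) Nat.prime_three (by norm_num) (by norm_num)]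
  have h3 : (3 : ℤ) ∣ 12 - a := by
    apply H31.ChT.cong_pow α (g := x) (fun k => D.rat (x ^ k)) Nat.prime_three _ ha
    have : x ^ 3 = 1 := by rw [← hx]; exact pow_orderOf_eq_one x
    rw [this, deg1, D.dα]; norm_num
  obtain ⟨r, hr0, hr⟩ := nonneg_sum x y
  rw [D.S_eq h13 ha hb] at hr
  have h4 : (1 - (a : ℝ) ^ 2 / 12 + ((0 : ℤ) : ℝ) ^ 2 / 27 - (1 - a + ((0 : ℤ) : ℝ)) ^ 2 / 16 : ℝ) = r := by
    exact_mod_cast hr
  have h5 : 0 ≤ 48 - 4 * a ^ 2 - 3 * (1 - a) ^ 2 := by
    have h6 : (0 : ℝ) ≤ 48 - 4 * (a : ℝ) ^ 2 - 3 * (1 - a) ^ 2 := by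
      have h7 : (48 - 4 * (a : ℝ) ^ 2 - 3 * (1 - a) ^ 2 : ℝ) = 48 * r := by
        rw [← h4]; push_cast; ring
      rw [h7]; positivity
    exact_mod_cast h6
  have ha03 : a = 0 ∨ a = 3 := by
    obtain ⟨m, hm⟩ := h3
    have e : a = 12 - 3 * m := by linarith
    have u1 : a < 4 := by nlinarith
    have u2 : -3 < a := by nlinarith
    omega
  obtain ⟨θ, hθ⟩ : Y.Nonempty := by
    rw [← Finset.card_pos, D.cY]; norm_num
  have hθx : (θ : G → ℂ) x = ((1 - a : ℤ) : ℂ) := by
    rw [D.rel θ hθ x h13, ha, hb]; push_cast; ring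
  have hI := int_cc hθx
  rw [D.dY θ hθ] at hI
  have hidx := (Subgroup.centralizer ({x} : Set G)).card_mul_index
  rw [hN] at hidx
  set n := Nat.card (Subgroup.centralizer ({x} : Set G)) with hn
  set k := (Subgroup.centralizer ({x} : Set G)).index with hk
  intro h4n
  obtain ⟨n', hn'⟩ := h4n
  rcases ha03 with rfl | rfl
  · obtain ⟨l, hl⟩ := hI
    have h6 : k = 16 * l.toNat := by omega
    rw [hn', h6] at hidx
    have h7 : 5616 = 64 * (n' * l.toNat) := by rw [← hidx]; ring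
    omega
  · obtain ⟨l, hl⟩ := hI
    have h6 : (k : ℤ) = 8 * (-l) := by push_cast at hl; linarith
    have h6' : k = 8 * (-l).toNat := by omega
    rw [hn', h6'] at hidx
    have h7 : 5616 = 32 * (n' * (-l).toNat) := by rw [← hidx]; ring
    omega

end use

end H81.U5616
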